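import Cfsg.Agent.Acd.CountA

/-!
# Brauer-Suzuki-Wall counting under strong local restrictions

`C(t) = K⟨u⟩` with `K` abelian of order `k ≥ 4` inverted by `u`. Elements `g ≠ 1` with odd
centralizer inverted by an involution lie in abelian subgroups `A = C(a)` (all `a ∈ A#`), with
`|N(A) : A| = m` even; `hF` gives `m = 2` or `(|A|, m) ∈ {(5,4), (9,4), (9,8), (7,6)}` (a complement
`M` lies in `K`). A prime `p` dividing none of `k`, `|A|` is `7`, with Sylow of order `7` and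
normalizer `7:3` (`h7` and Frobenius' normal complement theorem). The class equation allows at most
one class with `m = 2` (order `a`; put `a = 1` if none), and counting pairs of involutions gives
`|G| = 2k (1 + k (k - 2 + a + s))`, `1/(2k) + 1/(2a) = d + 1/|G|` with `(s, d)` the sum of
`(2, 1/5)`, `(4, 2/9)` or `(2, 1/9)`, `(2, 1/7)` or `(0, 2/7)` over the exceptional classes present.
The only solutions are `(k, a, |G|) = (4, 3, 168)` and `(4, 5, 360)`. For `360`: count pairs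
(involution `u`, `y` of order 3): `o(uy) = 2`: `9` per `y`; `(uy)^3 = 1`: at most `16` per `u`;
`o(uy) = 4`: `w = (uy)^2` has `(w y⁻¹)^3 = 1` and at most two `u` per `w`; so some `uy` has order `5`,
giving a subgroup of order `60` (`card_closure_eq_sixty`), which cannot be solvable.
For `168` use `nonempty_quotient_equiv_psl`.
-/

set_option autoImplicit false
set_option linter.unusedSectionVars false

namespace Cfsg.Acd

open Subgroup

universe u

local notation "C₁(" g ")" => Subgroup.centralizer ({g} : Set _)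
local notation "N(" Q ")" => Subgroup.normalizer (SetLike.coe (A := Subgroup _) Q)

section

variable {G : Type u} [Group G] [Finite G] {A K Q : Subgroup G} {a b g t u v w x y : G}

theorem orderOf_cj : orderOf (x * g * x⁻¹) = orderOf g := (MulAut.conj x).orderOf_eq g

theorem inv_of_invol (hv : orderOf v = 2) (h : orderOf (v * g) = 2) : v * g * v⁻¹ = g⁻¹ := by
  rw [inv_eq_of_mul_eq_one_right (mul_self_of_orderOf hv), eq_inv_iff_mul_eq_one, mul_assoc,
    mul_self_of_orderOf h]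

theorem invol_of_inv (hv : orderOf v = 2) (h : v * g * v⁻¹ = g⁻¹) (h1 : v * g ≠ 1) : orderOf (v * g) = 2 :=
  orderOf_two_of_mul_self (by
    rw [inv_eq_of_mul_eq_one_right (mul_self_of_orderOf hv)] at h
    rw [← mul_assoc, h, inv_mul_cancel]) h1

/-- The number of ways to write `g` as a product of two involutions. -/
noncomputable def nInv (g : G) : ℕ := {v | orderOf v = 2 ∧ orderOf (v * g) = 2}.ncard

theorem nInv_conj : nInv (x * g * x⁻¹) = nInv g :=
  Eq.symm <| Set.ncard_congr (fun v _ => x * v * x⁻¹)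
    (fun v hv => by simpa only [Set.mem_setOf_eq, conj_mul, orderOf_cj]) (fun _ _ _ _ => by simp)
    fun v hv => ⟨x⁻¹ * v * x⁻¹⁻¹, ⟨orderOf_cj.trans hv.1, by
      rw [← hv.2, ← orderOf_cj (x := x)]; congr 1; group⟩, by group⟩

theorem sum_nInv [Fintype G] :
    ∑ g : G, nInv g = {v : G | orderOf v = 2}.ncard * {v : G | orderOf v = 2}.ncard := by
  simp only [nInv, Set.ncard_eq_toFinset_card', Set.toFinset_setOf, Finset.card_filter]
  rw [Finset.sum_comm, Finset.sum_mul]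
  refine Finset.sum_congr rfl fun v _ => ?_
  rw [← Equiv.sum_comp (Equiv.mulLeft v) fun g => if orderOf g = 2 then 1 else 0]
  split_ifs with h <;> simp [h, -Finset.sum_boole]
  congr!

theorem sum_indicator_eq [Fintype G] {S : Set G} {f : G → ℕ} {c : ℕ} (h : ∀ g ∈ S, f g = c) :
    ∑ g, S.indicator f g = c * S.ncard := by
  classical
  simp only [Set.indicator_apply]
  rw [← Finset.sum_filter, Finset.sum_const_nat fun g hg => h g (by simpa using hg), mul_comm,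
    Set.ncard_eq_toFinset_card']
  simp

theorem false_of_triple (hsolv : ∀ X : Subgroup G, X ≠ ⊤ → Group.IsSolvable X) (h : Nat.card G ≠ 60)
    (ha : orderOf a = 2) (hb : orderOf b = 3) (hab : orderOf (a * b) = 5) : False := by
  have h1 := card_closure_eq_sixty ha hb hab
  haveI := hsolv (closure {a, b}) fun e => h (by rw [← h1, e, card_top])
  haveI : Nontrivial (closure {a, b} : Subgroup G) := Finite.one_lt_card_iff_nontrivial.1 (by omega)
  obtain ⟨M, _, hM⟩ := exists_normal_prime_index (closure {a, b} : Subgroup G)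
  have h2 : a ∈ closure {a, b} := subset_closure (.inl rfl)
  have h3 : b ∈ closure {a, b} := subset_closure (.inr rfl)
  have key : ∀ (g : (closure {a, b} : Subgroup G)) p, p.Prime → orderOf (g : G) = p → M.index ≠ p → g ∈ M :=
    fun g p hp e e' => mem_of_coprime_orderOf_index (by
      rw [← orderOf_coe, e]; exact (Nat.coprime_primes hp hM).2 e'.symm)
  have h4 := key ⟨a, h2⟩ 2 Nat.prime_two ha
  have h5 := key ⟨b, h3⟩ 3 Nat.prime_three hb
  have h6 := key (⟨a, h2⟩ * ⟨b, h3⟩) 5 Nat.prime_five hab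
  have h7 : (⟨a, h2⟩ : closure {a, b}) ∈ M ∧ (⟨b, h3⟩ : closure {a, b}) ∈ M := by
    by_cases e : M.index = 2
    · exact ⟨(mul_mem_cancel_right (h5 (by omega))).1 (h6 (by omega)), h5 (by omega)⟩
    by_cases e' : M.index = 3
    exacts [⟨h4 e, (mul_mem_cancel_left (h4 e)).1 (h6 (by omega))⟩, ⟨h4 e, h5 e'⟩]
  exact hM.ne_one (index_eq_one.2 (eq_top_iff.2 fun g _ => by
    obtain ⟨_, h8, h9⟩ := (closure_le (M.map (closure {a, b}).subtype)).2
      (Set.pair_subset ⟨_, h7.1, rfl⟩ ⟨_, h7.2, rfl⟩) g.2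
    exact Subtype.ext h9 ▸ h8))

/-- No involution commutes with `g`. -/
def Od (g : G) : Prop := ∀ v, orderOf v = 2 → v * g ≠ g * v

/-- No involution commutes with `g`, but one inverts it. -/
def Re (g : G) : Prop := Od g ∧ ∃ v, orderOf v = 2 ∧ orderOf (v * g) = 2

theorem Od.conj (h : Od g) (x : G) : Od (x * g * x⁻¹) := fun v hv e =>
  h (x⁻¹ * v * x⁻¹⁻¹) (orderOf_cj.trans hv) ((MulAut.conj x).injective (by simpa [mul_assoc] using e))

theorem Re.conj (h : Re g) (x : G) : Re (x * g * x⁻¹) :=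
  let ⟨h1, v, h2, h3⟩ := h
  ⟨h1.conj x, x * v * x⁻¹, orderOf_cj.trans h2, by rw [conj_mul, orderOf_cj, h3]⟩

theorem Od.not_dvd (h : Od g) : ¬ 2 ∣ Nat.card C₁(g) := fun e =>
  let ⟨v, hv, h1⟩ := exists_mem_orderOf_eq_prime e
  h v h1 (mem_c1.1 hv)

/-- The centralizer of the involution `t` is generalized dihedral. -/
structure BSW (t : G) (K : Subgroup G) : Prop where
  ord : orderOf t = 2
  conj : ∀ v : G, orderOf v = 2 → IsConj t v
  mem : t ∈ K
  comm : ∀ a ∈ K, ∀ b ∈ K, a * b = b * a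
  uniq : ∀ v ∈ K, orderOf v = 2 → v = t
  four : 4 ≤ Nat.card K
  idx : K.relIndex C₁(t) = 2
  inv : ∀ g ∈ C₁(t), g ∉ K → g * g = 1 ∧ ∀ a ∈ K, g * a * g⁻¹ = a⁻¹
  cent : ∀ g ∈ K, g ≠ 1 → g ≠ t → C₁(g) = K

namespace BSW

variable (h : BSW t K)
include h

theorem exists_conj (hv : orderOf v = 2) : ∃ x, x * v * x⁻¹ = t := isConj_iff.1 (h.conj v hv).symm

theorem le : K ≤ C₁(t) := fun a ha => mem_c1.2 (h.comm a ha t h.mem)

theorem card_C : Nat.card C₁(t) = 2 * Nat.card K := by rw [← card_mul_relIndex h.le, h.idx, mul_comm]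

theorem ti (a : G) (ha : a ∈ K) (h1 : a ≠ 1) (g : G) : g * a * g⁻¹ ∈ K ↔ g ∈ C₁(t) := by
  refine ⟨fun e => mem_c1.2 (mul_inv_eq_iff_eq_mul.1 (h.uniq _ ?_ (orderOf_cj.trans h.ord))), fun e =>
    (em _).elim (fun e' => mul_mem (mul_mem e' ha) (inv_mem e')) fun e' =>
      (h.inv g e e').2 a ha ▸ inv_mem ha⟩
  by_cases e' : a = t
  · exact e' ▸ e
  rw [← h.cent _ e (by simpa) fun e => e' (h.uniq a ha (by rw [← orderOf_cj, e, h.ord])), mem_c1, conj_mul,
    conj_mul, h.comm t h.mem a ha]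

theorem ncard_inv : {v : G | orderOf v = 2}.ncard = (C₁(t)).index := by
  rw [← card_isConj_eq_index_centralizer, ← Nat.card_coe_set_eq]
  exact Nat.card_congr (Equiv.subtypeEquivRight fun v =>
    ⟨h.conj v, fun e => (orderOf_eq_of_isConj' e).symm.trans h.ord⟩)

theorem card_G : Nat.card G = 2 * Nat.card K * (C₁(t)).index := by rw [← h.card_C, card_mul_index]

theorem nInv_eq (hg : g ∈ cls K) : nInv g = Nat.card K := by
  obtain ⟨h1, x, hx⟩ := hg
  have h2 : x * g * x⁻¹ ≠ 1 := by simpa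
  rw [← nInv_conj (x := x)]
  generalize x * g * x⁻¹ = a at *
  have key : ∀ v ∈ C₁(t), v ∉ K → orderOf v = 2 := fun v hv hv' =>
    orderOf_two_of_mul_self (h.inv v hv hv').1 fun e => hv' (e ▸ one_mem _)
  rw [nInv, show {v | orderOf v = 2 ∧ orderOf (v * a) = 2} = (C₁(t) : Set G) \ K from Set.ext fun v =>
    ⟨fun hv => ⟨(h.ti a hx h2 v).1 (inv_of_invol hv.1 hv.2 ▸ inv_mem hx), fun e => h2 (mul_eq_left.1
      ((h.uniq _ (mul_mem e hx) hv.2).trans (h.uniq v e hv.1).symm))⟩, fun hv => ⟨key v hv.1 hv.2,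
      key _ (mul_mem hv.1 (h.le hx)) (mt (mul_mem_cancel_right hx).1 hv.2)⟩⟩, Set.ncard_diff h.le,
    ← Nat.card_coe_set_eq, ← Nat.card_coe_set_eq]
  exact (congrArg (· - _) h.card_C).trans (by simp [two_mul])

theorem invol_mem (hv : orderOf v = 2) : v ∈ cls K :=
  let ⟨x, hx⟩ := h.exists_conj hv
  ⟨ne_one_of_orderOf_two hv, x, hx ▸ h.mem⟩

theorem not_od : ¬ Od g ↔ g = 1 ∨ g ∈ cls K := by
  refine ⟨fun e => or_iff_not_imp_left.2 fun h1 => ?_, fun e e' => ?_⟩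
  · simp only [Od, not_forall, not_not] at e
    obtain ⟨v, hv, e⟩ := e
    obtain ⟨x, hx⟩ := h.exists_conj hv
    exact (em _).elim (⟨h1, x, ·⟩) fun e' => conj_mem_cls.1 (h.invol_mem (orderOf_two_of_mul_self
      (h.inv _ (mem_c1.2 (by rw [← hx, conj_mul, conj_mul, e])) e').1 (by simpa)))
  rcases e with rfl | ⟨-, x, hx⟩
  exacts [e' t h.ord (by simp), e'.conj x t h.ord (h.comm _ h.mem _ hx)]

theorem ne_one (hg : Od g) : g ≠ 1 := fun e => h.not_od.2 (.inl e) hg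

theorem od_of_mem (hg : Od g) (ha : a ∈ C₁(g)) (h1 : a ≠ 1) : Od a := by_contra fun e => by
  obtain ⟨-, x, hx⟩ := (h.not_od.1 e).resolve_left h1
  by_cases e' : x * a * x⁻¹ = t
  · exact hg a (by rw [← orderOf_cj, e', h.ord]) (mem_c1.1 ha)
  exact h.not_od.2 (.inr (mem_cls_of_comm (h.cent _ hx (by simpa) e') rfl (mem_c1.1 ha).symm
    (h.ne_one hg))) hg

theorem inv_of_mem (hg : Od g) (hv : orderOf v = 2) (e : orderOf (v * g) = 2) (ha : a ∈ C₁(g)) :
    v * a * v⁻¹ = a⁻¹ :=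
  conj_eq_inv_of_fpf (mul_self_of_orderOf hv) (fun b hb => mem_c1.2 (Commute.inv_right_iff.1 (by
    rw [← inv_of_invol hv e, commute_iff_eq, conj_mul, conj_mul, mem_c1.1 hb])))
    (fun b hb e => by_contra fun e' => h.od_of_mem hg hb e' v hv e) ha

theorem invol_mul (hg : Od g) (hv : orderOf v = 2) (e : orderOf (v * g) = 2) (ha : a ∈ C₁(g)) :
    orderOf (v * a) = 2 :=
  invol_of_inv hv (h.inv_of_mem hg hv e ha) fun e' =>
    hg v hv (mem_c1.1 (eq_inv_of_mul_eq_one_left e' ▸ inv_mem ha))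

theorem re_of_mem (hg : Re g) (ha : a ∈ C₁(g)) (h1 : a ≠ 1) : Re a :=
  let ⟨h2, v, hv, e⟩ := hg
  ⟨h.od_of_mem h2 ha h1, v, hv, h.invol_mul h2 hv e ha⟩

theorem comm_of_re (hg : Re g) (ha : a ∈ C₁(g)) (hb : b ∈ C₁(g)) : a * b = b * a :=
  let ⟨h2, _, hv, e⟩ := hg
  comm_of_conj_eq_inv (fun _ => h.inv_of_mem h2 hv e) ha hb

theorem isCC (hg : Re g) : IsCC C₁(g) := fun _ ha h1 =>
  le_antisymm (fun _ hb => mem_c1.2 (h.comm_of_re (h.re_of_mem hg ha h1) hb (mem_c1.2 (mem_c1.1 ha).symm)))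
    fun _ hb => mem_c1.2 (h.comm_of_re hg hb ha)

theorem nInv_of_re (hg : Re g) : nInv g = Nat.card C₁(g) :=
  let ⟨h2, v, hv, e⟩ := hg
  Eq.symm <| (Nat.card_coe_set_eq _).trans <| Set.ncard_congr (fun a _ => v * a) (fun a ha =>
    ⟨h.invol_mul h2 hv e ha, mul_assoc v a g ▸ h.invol_mul h2 hv e (mul_mem ha (mem_c1.2 rfl))⟩)
    (fun _ _ _ _ => mul_left_cancel) fun w hw => ⟨v⁻¹ * w, mem_c1.2 (mul_inv_eq_iff_eq_mul.1
      ((MulAut.conj v).injective (by
        rw [MulAut.conj_apply, MulAut.conj_apply, inv_of_invol hv e, ← inv_of_invol hw.1 hw.2]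
        group))), by simp⟩

theorem of_mem_cls (hg : Re g) (ha : a ∈ cls C₁(g)) : Re a ∧ Nat.card C₁(a) = Nat.card C₁(g) ∧
    (C₁(a)).relIndex N(C₁(a)) = (C₁(g)).relIndex N(C₁(g)) := by
  obtain ⟨h1, x, hx⟩ := ha
  have h2 : x * a * x⁻¹ ≠ 1 := by simpa
  refine ⟨by simpa [mul_assoc] using (h.re_of_mem hg hx h2).conj x⁻¹, ?_⟩
  rw [← h.isCC hg _ hx h2, centralizer_singleton_conj, normalizer_map_conj, card_map_conj, relIndex_map_conj]
  exact ⟨rfl, rfl⟩

theorem two_dvd (hg : Re g) : 2 ∣ (C₁(g)).relIndex N(C₁(g)) :=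
  let ⟨h1, v, hv, e⟩ := hg
  (Nat.prime_two.dvd_mul.1 (card_mul_relIndex (le_normalizer (H := C₁(g))) ▸ hv ▸ orderOf_dvd_natCard _
    (mem_normalizer_of_forall_conj_mem fun _ ha => h.inv_of_mem h1 hv e ha ▸ inv_mem ha))).resolve_left
    h1.not_dvd

theorem three_le (hg : Od g) : 3 ≤ Nat.card C₁(g) := by
  have := hg.not_dvd
  have := (one_lt_card_iff_ne_bot C₁(g)).2 fun e => h.ne_one hg (e.le (mem_c1.2 rfl))
  omega

theorem mem_cls_of_two (hg : Re g) (ha : Re a) (h1 : (C₁(g)).relIndex N(C₁(g)) = 2)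
    (h2 : (C₁(a)).relIndex N(C₁(a)) = 2) : a ∈ cls C₁(g) := by_contra fun e => by
  have key : ∀ g, Re g → (C₁(g)).relIndex N(C₁(g)) = 2 → Nat.card G ≤ 3 * (cls C₁(g)).ncard := fun g hg e => by
    have h3 := (h.isCC hg).ncard
    obtain ⟨m, hm⟩ := Nat.exists_eq_add_of_le' (h.three_le hg.1)
    rw [e, hm, show m + 3 - 1 = m + 2 from rfl] at h3
    nlinarith
  have h3 := Set.ncard_le_card (cls K ∪ (cls C₁(g) ∪ cls C₁(a)))
  have h5 : Disjoint (cls C₁(g)) (cls C₁(a)) := Set.disjoint_left.2 fun w ⟨h3, x, hx⟩ ⟨_, y, hy⟩ =>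
    e (mem_cls_of_comm (x := x * y⁻¹) (h.isCC hg _ hx (by simpa)) (by group) (mem_c1.1 hy).symm
      (h.ne_one ha.1))
  rw [Set.ncard_union_eq (Set.disjoint_left.2 fun w hw hw' => h.not_od.2 (.inr hw)
    (hw'.elim (h.of_mem_cls hg · |>.1.1) (h.of_mem_cls ha · |>.1.1))), Set.ncard_union_eq h5,
    ncard_cls h.ti] at h3
  have := key g hg h1
  have := key a ha h2
  obtain ⟨m, hm⟩ := Nat.exists_eq_add_of_le' h.four
  have h4 := h.card_G
  rw [hm] at h3 h4
  have := index_pos C₁(t)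
  rw [show m + 4 - 1 = m + 3 from rfl] at h3
  nlinarith

theorem card_inf_le (h4 : Nat.card K = 4) (hw : orderOf w = 2) (hv : orderOf v = 2)
    (e : orderOf (v * w) = 2) : Nat.card (C₁(w) ⊓ C₁(v) : Subgroup G) ≤ 4 := by
  have h1 := mul_self_of_orderOf hw
  obtain ⟨x, hx⟩ := h.exists_conj hw
  have h2 := card_dvd_of_le (inf_le_left (a := C₁(w)) (b := C₁(v)))
  have h3 : x * v * x⁻¹ ∈ C₁(t) := mem_c1.2 (by
    rw [← hx, conj_mul, conj_mul, ← mul_inv_eq_iff_eq_mul.1 ((inv_of_invol hv e).trans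
      (inv_eq_of_mul_eq_one_right h1))])
  have h5 : x * v * x⁻¹ ∉ K := fun e' => by
    rw [(MulAut.conj x).injective ((h.uniq _ e' (orderOf_cj.trans hv)).trans hx.symm), h1] at e
    simp at e
  obtain ⟨a, ha, ha'⟩ := SetLike.not_le_iff_exists.1 fun e : K ≤ zpowers t => by
    have := card_le_of_le e
    rw [Nat.card_zpowers, h.ord] at this
    omega
  have h6 := card_lt_of_lt (inf_le_left.lt_of_ne fun e : C₁(w) ⊓ C₁(v) = _ => by
    have h6 := mem_c1.1 (e.ge (show x⁻¹ * a * x⁻¹⁻¹ ∈ C₁(w) from mem_c1.2 ((MulAut.conj x).injective (by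
      simpa [← hx, mul_assoc] using h.comm a ha t h.mem)))).2
    have h7 : a = a⁻¹ := by
      rw [← (h.inv _ h3 h5).2 a ha, eq_mul_inv_iff_mul_eq]
      exact (MulAut.conj x⁻¹).injective (by simpa [mul_assoc] using h6)
    exact ha' (h.uniq a ha (orderOf_two_of_mul_self (eq_inv_iff_mul_eq_one.1 h7) fun e =>
      ha' (e ▸ one_mem _)) ▸ mem_zpowers t))
  rw [← card_map_conj x C₁(w), ← centralizer_singleton_conj, hx, h.card_C, h4] at h2 h6
  generalize Nat.card (C₁(w) ⊓ C₁(v) : Subgroup G) = m at *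
  interval_cases m <;> simp_all

theorem ncard_triple (h4 : Nat.card K = 4) (hw : orderOf w = 2) :
    {y | y ^ 3 = 1 ∧ (w * y) ^ 3 = 1}.ncard ≤ 16 := by
  classical
  letI := Fintype.ofFinite G
  have h1 := mul_self_of_orderOf hw
  have h2 : ∀ y, y ^ 3 = 1 → (w * y) ^ 3 = 1 → y * w * y⁻¹ * w = y⁻¹ * w * y⁻¹⁻¹ ∧
      y * (y * w * y⁻¹) * y⁻¹ = y⁻¹ * w * y⁻¹⁻¹ := fun y e e' => by
    have h3 : y * y = y⁻¹ := eq_inv_of_mul_eq_one_left (by simpa [pow_succ] using e)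
    refine ⟨?_, by rw [← mul_assoc, ← mul_assoc, h3, mul_assoc, ← mul_inv_rev, h3]⟩
    have h5 : w * y * w = y⁻¹ * w * y⁻¹ := by
      rw [← mul_right_inj y, ← mul_left_inj y, ← mul_right_inj w]
      simpa [pow_succ, mul_assoc, h1] using e'
    rw [inv_inv, ← inv_inj]
    simp only [mul_inv_rev, inv_eq_of_mul_eq_one_right h1, inv_inv, ← mul_assoc, h5]
    rw [mul_assoc _ y⁻¹, ← mul_inv_rev, h3, inv_inv]
  have h3 := Finset.card_le_mul_card_image_of_maps_to (f := fun y => y * w * y⁻¹) (n := 4)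
    (s := {y | y ^ 3 = 1 ∧ (w * y) ^ 3 = 1}.toFinset)
    (t := {v | orderOf v = 2 ∧ orderOf (v * w) = 2}.toFinset)
    (fun y hy => Set.mem_toFinset.2 ⟨orderOf_cj.trans hw, by
      rw [(h2 y (Set.mem_toFinset.1 hy).1 (Set.mem_toFinset.1 hy).2).1, orderOf_cj, hw]⟩) fun v hv => by
      obtain ⟨h5, h6⟩ := Set.mem_toFinset.1 hv
      rw [Set.toFinset_setOf, Finset.filter_filter]
      refine (card_filter_le_card_of_coset _ fun a b ⟨ha, ha'⟩ ⟨hb, hb'⟩ => ⟨mem_c1.2 ?_,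
        mem_c1.2 ?_⟩).trans (h.card_inf_le h4 hw h5 h6) <;>
        rw [← mul_inv_eq_iff_eq_mul, mul_inv_rev, ← mul_assoc, mul_assoc a⁻¹, mul_assoc a⁻¹]
      · rw [hb', ← ha']
        group
      · have := ((h2 a ha.1 ha.2).2.trans (h2 a ha.1 ha.2).1.symm).trans (by rw [ha', ← hb']
          : _ = b * w * b⁻¹ * w) |>.trans ((h2 b hb.1 hb.2).1.trans (h2 b hb.1 hb.2).2.symm)
        rw [ha', hb'] at this
        rw [← this]
        group
  rw [← Set.ncard_eq_toFinset_card', ← Set.ncard_eq_toFinset_card'] at h3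
  exact h3.trans (by rw [← nInv, h.nInv_eq (h.invol_mem hw), h4])

theorem exists_triple (h4 : Nat.card K = 4) (hi : (C₁(t)).index = 45) {Y : Set G} (hY : Y.ncard = 80)
    (h3 : ∀ y ∈ Y, y ^ 3 = 1 ∧ y ≠ 1 ∧ nInv y = 9) (H : ∀ g : G, g ∈ cls K ∨ g ^ 3 = 1 ∨ orderOf g = 5) :
    ∃ a b : G, orderOf a = 2 ∧ orderOf b = 3 ∧ orderOf (a * b) = 5 := by
  classical
  letI := Fintype.ofFinite G
  haveI := Fact.mk Nat.prime_three
  by_contra! H'
  let I := {v : G | orderOf v = 2}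
  let T (w : G) := {y | y ^ 3 = 1 ∧ (w * y) ^ 3 = 1}
  have h5 : I.ncard = 45 := h.ncard_inv.trans hi
  have h6 : (cls K \ I).ncard = 90 := by
    rw [Set.ncard_diff (s := I) fun _ => h.invol_mem, ncard_cls h.ti, h4, hi, h5]
  have h7 : ∀ y ∈ Y, 45 ≤ 9 + {v ∈ I | y ∈ T v}.ncard + {r ∈ cls K \ I | y⁻¹ ∈ T (r * r)}.ncard :=
    fun y hy => by
      obtain ⟨h7, h8, h9⟩ := h3 y hy
      rw [← h5, ← h9, ← Set.ncard_image_of_injective {r ∈ cls K \ I | y⁻¹ ∈ T (r * r)} (mul_left_injective y⁻¹)]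
      refine (Set.ncard_le_ncard fun v hv => ?_).trans ((Set.ncard_union_le _ _).trans
        (Nat.add_le_add_right (Set.ncard_union_le _ _) _))
      by_cases e : orderOf (v * y) = 2
      · exact .inl (.inl ⟨hv, e⟩)
      rcases H (v * y) with e' | e' | e'
      · refine .inr ⟨v * y, ⟨⟨e', e⟩, by simp [h7], ?_⟩, by simp⟩
        rw [← mul_assoc, mul_inv_cancel_right]
        nth_rw 2 [← inv_eq_of_mul_eq_one_right (mul_self_of_orderOf hv)]
        simp [h7]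
      · exact .inl (.inr ⟨hv, h7, e'⟩)
      · exact absurd e' (H' v y hv (orderOf_eq_prime h7 h8))
  have key : ∀ (S : Set G) (r : G → G → Prop), (∀ v ∈ S, {y | r y v}.ncard ≤ 16) →
      ∑ y ∈ Y.toFinset, {v ∈ S | r y v}.ncard ≤ S.ncard * 16 := fun S r hr => by
    have h8 := Finset.sum_card_bipartiteAbove_eq_sum_card_bipartiteBelow (s := Y.toFinset)
      (t := S.toFinset) r
    refine (Finset.sum_congr rfl fun y _ => ?_).trans_le (h8.trans_le ((Finset.sum_le_card_nsmul _ _ 16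
      fun v hv => le_trans ?_ (hr v (Set.mem_toFinset.1 hv))).trans_eq (by
        rw [← Set.ncard_eq_toFinset_card', smul_eq_mul]))) <;> rw [← Set.ncard_coe_finset]
    · congr 1; ext; simp
    · exact Set.ncard_le_ncard fun y hy => (Finset.mem_bipartiteBelow _).1 hy |>.2
  have h8 := Finset.card_nsmul_le_sum _ _ _ fun y hy => h7 y (Set.mem_toFinset.1 hy)
  rw [Finset.sum_add_distrib, Finset.sum_add_distrib, Finset.sum_const, ← Set.ncard_eq_toFinset_card', hY] at h8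
  have := key I (fun y v => y ∈ T v) fun v => h.ncard_triple h4
  have := key (cls K \ I) (fun y r => y⁻¹ ∈ T (r * r)) fun r ⟨⟨h9, x, hx⟩, hr⟩ => by
    rw [← Set.ncard_inv]
    refine le_of_eq_of_le (by congr 1; ext; simp [T]) (h.ncard_triple h4 (orderOf_two_of_mul_self (a := r * r)
      ?_ fun e => hr (orderOf_two_of_mul_self e h9)))
    have : (x * r * x⁻¹) ^ 4 = 1 := h4 ▸ congrArg Subtype.val (pow_card_eq_one' (x := (⟨_, hx⟩ : K)))
    simpa [pow_succ r, mul_assoc r] using this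
  simp only [smul_eq_mul] at h8
  omega

section Seven

variable {p : ℕ} [hp : Fact p.Prime]

theorem nr_of_prime (hg : Od g) (hn : ¬ Re g) (h1 : p ∣ Nat.card C₁(g)) (x : G) (hx : orderOf x = p) :
    Od x ∧ ¬ Re x := by
  have h2 : ∀ a : G, orderOf a = p → a ≠ 1 := fun a e e' => hp.out.ne_one (by simpa [e'] using e.symm)
  refine ⟨by_contra fun e => ?_, fun e => hn (h.of_mem_cls e (mem_cls_of_dvd (h.isCC e).prime
    (mem_c1.2 rfl) hx (h.ne_one hg) h1)).1⟩
  obtain ⟨-, y, hy⟩ := (h.not_od.1 e).resolve_left (h2 x hx)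
  exact h.not_od.2 (.inr (mem_cls_of_dvd (fun a ha e => h.cent a ha (h2 a e) fun e' =>
    hg.not_dvd (h.ord ▸ e' ▸ e ▸ h1)) hy (orderOf_cj.trans hx) (h.ne_one hg) h1)) hg

omit h in
theorem exists_orderOf_eq (hQ : IsPGroup p Q) (h1 : Q ≠ ⊥) : ∃ x ∈ Q, orderOf x = p :=
  exists_mem_orderOf_eq_prime (dvd_card_of_isPGroup_of_ne_bot hQ h1)

omit h in
theorem not_dvd_norm (H : ∀ x : G, orderOf x = p → Od x ∧ ¬ Re x) (hQ : IsPGroup p Q) (h1 : Q ≠ ⊥) :
    ¬ 2 ∣ Nat.card N(Q) := fun e => by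
  obtain ⟨v, hv, h2⟩ := exists_mem_orderOf_eq_prime e
  obtain ⟨x, hx, h3⟩ := exists_orderOf_eq hQ h1
  refine (H x h3).2 ⟨(H x h3).1, v, h2, invol_of_inv h2 (conj_eq_inv_of_fpf (mul_self_of_orderOf h2)
    (fun _ => conj_mem_of_mem_normalizer hv) (fun a ha e => by_contra fun e' => ?_) hx) fun e =>
      (H x h3).1 v h2 (by simp [eq_inv_of_mul_eq_one_left e])⟩
  obtain ⟨y, hy, h4⟩ := exists_orderOf_eq (hQ.to_le (inf_le_left (b := C₁(v)))) fun e'' =>
    e' (e''.le ⟨ha, mem_c1.2 e.symm⟩)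
  exact (H y h4).1 v h2 (mem_c1.1 hy.2).symm

end Seven

variable [IsSimpleGroup G]
  (h7 : ∀ (p q : ℕ) (Q : Subgroup G) (y : G), p.Prime → q.Prime → p ≠ 2 → q ≠ 2 → q ≠ p →
    IsPGroup p Q → IsPElt q y → y ∈ N(Q) → y ∉ centralizer (Q : Set G) →
    p = 7 ∧ q = 3 ∧ Nat.card (⁅Q, zpowers y⁆ : Subgroup G) = 7)
include h7

theorem exists_norm {p : ℕ} [hp : Fact p.Prime] (hg : Od g) (hn : ¬ Re g) (h1 : p ∣ Nat.card C₁(g)) :
    p = 7 ∧ ∃ (Q : Subgroup G) (y : G), IsPGroup p Q ∧ IsPElt 3 y ∧ y ∈ N(Q) ∧ y ∉ centralizer (Q : Set G) := by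
  have h2 : p ≠ 2 := fun e => hg.not_dvd (e ▸ h1)
  by_contra H
  obtain ⟨P, L, hL, h3⟩ := hasNormalPComplement_of_forall_isPElt (p := p) (G := G)
    fun Q hQ h3 q hq h4 y hy h5 => by_contra fun e => by
      obtain ⟨h6, rfl, -⟩ := h7 p q Q y hp.out hq.out h2 (by
        rintro rfl
        obtain ⟨_ | k, hk⟩ := h5
        · exact e (orderOf_eq_one_iff.1 hk ▸ one_mem _)
        exact not_dvd_norm (h.nr_of_prime hg hn h1) hQ h3 ((hk ▸ dvd_pow_self 2 k.succ_ne_zero).trans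
          (orderOf_dvd_natCard _ hy))) h4 hQ h5 hy e
      exact H ⟨h6, Q, y, hQ, h5, hy, e⟩
  rcases hL.eq_bot_or_eq_top with rfl | rfl
  · obtain ⟨k, hk⟩ := isPElt_of_mem P.2 ((isComplement'_bot_left.1 h3).ge (mem_top t))
    exact h2 ((Nat.prime_dvd_prime_iff_eq Nat.prime_two hp.out).1
      (Nat.prime_two.dvd_of_dvd_pow (h.ord.symm.trans hk).dvd)).symm
  · exact (sylow_ne_bot_iff P).2 (h1.trans (card_subgroup_dvd_card _)) (isComplement'_top_left.1 h3)

theorem isPGroup_seven (hg : Od g) (hn : ¬ Re g) : IsPGroup 7 C₁(g) :=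
  .of_card (Nat.eq_prime_pow_of_unique_prime_dvd Nat.card_pos.ne' fun hp e =>
    haveI := Fact.mk hp
    (h.exists_norm h7 hg hn e).1)

theorem exists_seven (hg : Od g) (hn : ¬ Re g) : ∃ x : G, SelfCent 7 x ∧ Nat.card N(zpowers x) = 21 ∧
    Od x ∧ ∀ a, Od a ∧ ¬ Re a ↔ a ∈ cls (zpowers x) := by
  haveI := Fact.mk Nat.prime_seven
  haveI := Fact.mk Nat.prime_three
  have h1 := dvd_card_of_isPGroup_of_ne_bot (h.isPGroup_seven h7 hg hn) fun e =>
    h.ne_one hg (e.le (mem_c1.2 rfl))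
  have H := h.nr_of_prime hg hn h1
  obtain ⟨-, Q, y, hQ, h2, h3, h4⟩ := h.exists_norm h7 hg hn h1
  have h5 : y ≠ 1 := fun e => h4 (e ▸ one_mem _)
  have key : ∀ Q : Subgroup G, IsPGroup 7 Q → Q ≠ ⊥ → y ∈ N(Q) → Nat.card Q = 7 := fun Q hQ h6 hy => by
    have h8 : Q ⊓ centralizer (zpowers y : Set G) = ⊥ := by_contra fun e => by
      obtain ⟨x, hx, h8⟩ := exists_orderOf_eq (hQ.to_le inf_le_left) e
      exact h5 ((isPElt_of_mem (h.isPGroup_seven h7 (H x h8).1 (H x h8).2) (mem_c1.2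
        (hx.2 y (mem_zpowers y)))).eq_one_of_isPRegular (h2.isPRegular_of_ne (by decide)))
    have h9 := (isCoprimeAction_of_isPGroup_right (zpowers_le.2 hy) hQ (Nat.card_zpowers y ▸
      h2.isPRegular_of_ne (p := 7) (by decide))).inf_centralizer_sup_commutator
    rw [h8, bot_sup_eq] at h9
    rw [← h9]
    exact (h7 7 3 Q y Nat.prime_seven Nat.prime_three (by decide) (by decide) (by decide) hQ h2 hy fun e =>
      h6 (h8 ▸ (inf_eq_left.2 (le_centralizer_iff.1 (zpowers_le.2 e))).symm)).2.2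
  have h6 : Q ≠ ⊥ := fun e => h4 fun a ha => by simp [show a = 1 from e.le ha]
  obtain ⟨x, hx, h8⟩ := exists_orderOf_eq hQ h6
  obtain rfl : zpowers x = Q := eq_of_le_of_card_ge (zpowers_le.2 hx)
    (by rw [key Q hQ h6 h3, Nat.card_zpowers, h8])
  have h9 : SelfCent 7 x := ⟨h8, (eq_of_le_of_card_ge (zpowers_le.2 (mem_c1.2 rfl)) (by
    rw [key _ (h.isPGroup_seven h7 (H x h8).1 (H x h8).2) (fun e => h.ne_one (H x h8).1 (e.le (mem_c1.2 rfl)))
      (centralizer_zpowers x ▸ normalizer_le_normalizer_centralizer _ h3), Nat.card_zpowers, h8])).symm⟩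
  refine ⟨x, h9, ?_, (H x h8).1, fun a => ⟨fun ⟨ha, ha'⟩ => ⟨h.ne_one ha, (isPElt_of_mem
    (h.isPGroup_seven h7 ha ha') (mem_c1.2 rfl)).exists_conj_mem h9.sylow⟩, fun ⟨h10, s, hs⟩ =>
    H a (orderOf_cj.symm.trans (h9.zpowers_eq (Q := h9.sylow) hs (by simpa)).1)⟩⟩
  have h10 := card_mul_relIndex (le_normalizer (H := zpowers x))
  have h11 := Dvd.intro_left _ h9.card_classes_mul
  have h12 := not_dvd_norm H hQ h6
  have h13 : (zpowers x).relIndex N(zpowers x) ≠ 1 := fun e =>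
    h4 (h9.centralizer_eq.ge (relIndex_eq_one.1 e h3))
  have := Nat.le_of_dvd (by decide) h11
  rw [h9.card_zpowers] at h10
  generalize (zpowers x).relIndex N(zpowers x) = r at *
  interval_cases r <;> omega

end BSW

end

theorem card_eq_of_bsw {G : Type u} [Group G] [Finite G] [IsSimpleGroup G] {t : G}
    {K : Subgroup G} (ht : orderOf t = 2) (hconj : ∀ v : G, orderOf v = 2 → IsConj t v)
    (htK : t ∈ K) (hcomm : ∀ a ∈ K, ∀ b ∈ K, a * b = b * a)
    (huniq : ∀ v ∈ K, orderOf v = 2 → v = t) (h4 : 4 ≤ Nat.card K)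
    (hidx : K.relIndex (centralizer ({t} : Set G)) = 2)
    (hinv : ∀ g ∈ centralizer ({t} : Set G), g ∉ K → g * g = 1 ∧ ∀ a ∈ K, g * a * g⁻¹ = a⁻¹)
    (hcent : ∀ g ∈ K, g ≠ 1 → g ≠ t → centralizer ({g} : Set G) = K)
    (hsolv : ∀ X : Subgroup G, X ≠ ⊤ → Group.IsSolvable X)
    (hF : ∀ A M : Subgroup G, A ≠ ⊥ → (∀ a ∈ A, a ≠ 1 → centralizer ({a} : Set G) = A) →
      M ≤ normalizer (A : Set G) → M ⊓ A = ⊥ →
      (Nat.card A - 1) * (Nat.card M - 2) ≤ Nat.card M ^ 2)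
    (h7 : ∀ (p q : ℕ) (Q : Subgroup G) (y : G), p.Prime → q.Prime → p ≠ 2 → q ≠ 2 → q ≠ p →
      IsPGroup p Q → IsPElt q y → y ∈ normalizer (Q : Set G) → y ∉ centralizer (Q : Set G) →
      p = 7 ∧ q = 3 ∧ Nat.card (⁅Q, zpowers y⁆ : Subgroup G) = 7) :
    Nat.card G = 168 ∧
      Nonempty (G ≃* Matrix.ProjectiveSpecialLinearGroup (Fin 2) (ZMod 7)) := by
  classical
  letI := Fintype.ofFinite G
  have h : BSW t K := ⟨ht, hconj, htK, hcomm, huniq, h4, hidx, hinv, hcent⟩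
  let m (g : G) := (C₁(g)).relIndex N(C₁(g))
  let R (j : ℕ) := {g : G | Re g ∧ m g ≠ 2 ∧ Nat.card C₁(g) = j}
  have h1 := fun g (hg : Re g) => (h.isCC hg).types (h.two_dvd hg) (by have := h.three_le hg.1; omega)
    (hF _ · (fun e => h.ne_one hg.1 (e.le (mem_c1.2 rfl))) (h.isCC hg))
  have h2 : ∀ f : G → ℕ, ∑ g, f g = ∑ g, ({1} : Set G).indicator f g + ∑ g, (cls K).indicator f g +
      ∑ g, {g | Re g ∧ m g = 2}.indicator f g + ∑ g, (R 5).indicator f g + ∑ g, (R 7).indicator f g +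
      ∑ g, (R 9).indicator f g + ∑ g, {g | Od g ∧ ¬ Re g}.indicator f g := fun f => by
    simp only [← Finset.sum_add_distrib, Set.indicator_apply, R, Set.mem_setOf_eq, Set.mem_singleton_iff]
    refine Finset.sum_congr rfl fun g _ => ?_
    by_cases e : Od g
    · have := h.ne_one e
      have := mt (h.not_od.2 <| .inr ·) (· e)
      by_cases e' : Re g
      · rcases h1 g e' with e | ⟨e, _⟩ | ⟨e, _⟩ | ⟨e, _ | _⟩ <;> simp [*, m, -Nat.card_eq_fintype_card]
      simp [*]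
    have : ¬ Re g := mt (·.1) e
    rcases h.not_od.1 e with rfl | e'
    · simp [*, cls]
    simp [*, e'.1]
  have h3 : ∀ j p, p.Prime → p ∣ j → (R j).ncard = 0 ∨ ∃ g, Re g ∧ m g ≠ 2 ∧ Nat.card C₁(g) = j ∧
      (R j).ncard * (j * m g) = (j - 1) * Nat.card G := fun j p hp hj =>
    (R j).eq_empty_or_nonempty.imp (by simp [·]) fun ⟨g, hg, h3, h4⟩ => ⟨g, hg, h3, h4, by
      haveI := Fact.mk hp
      obtain ⟨a, ha, h5⟩ := exists_mem_orderOf_eq_prime (h4 ▸ hj)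
      rw [show R j = cls C₁(g) from Set.ext fun b => ⟨fun hb => mem_cls_of_dvd (h.isCC hg).prime ha h5
        (h.ne_one hb.1.1) (hb.2.2 ▸ hj), fun hb => have := h.of_mem_cls hg hb
          ⟨this.1, this.2.2.trans_ne h3, this.2.1.trans h4⟩⟩, ← h4, (h.isCC hg).ncard]⟩
  obtain ⟨a, h5, h6, h8⟩ : ∃ a, 1 ≤ a ∧ (∀ g, Re g ∧ m g = 2 → Nat.card C₁(g) = a) ∧
      {g | Re g ∧ m g = 2}.ncard * (a * 2) = (a - 1) * Nat.card G := by
    rcases {g | Re g ∧ m g = 2}.eq_empty_or_nonempty with e | ⟨g, hg, e⟩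
    · exact ⟨1, le_rfl, fun g hg => (e.le hg).elim, by simp [e]⟩
    refine ⟨_, Nat.card_pos, fun a ha => (h.of_mem_cls hg (h.mem_cls_of_two hg ha.1 e ha.2)).2.1, ?_⟩
    rw [show {g | Re g ∧ m g = 2} = cls C₁(g) from Set.ext fun a => ⟨fun ha => h.mem_cls_of_two hg ha.1 e ha.2,
      fun ha => have := h.of_mem_cls hg ha; ⟨this.1, this.2.2.trans e⟩⟩, ← e, (h.isCC hg).ncard]
  have e₁ := h2 1
  have e₂ := h2 nInv
  simp only [sum_indicator_eq (f := (1 : G → ℕ)) fun _ _ => rfl, ncard_cls h.ti, Set.ncard_singleton] at e₁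
  rw [sum_nInv, sum_indicator_eq (c := (C₁(t)).index) (by simp [nInv, h.ncard_inv]),
    sum_indicator_eq fun _ => h.nInv_eq,
    sum_indicator_eq (S := {g | Re g ∧ m g = 2}) fun g hg => (h.nInv_of_re hg.1).trans (h6 g hg),
    sum_indicator_eq (S := R 5) fun g hg => (h.nInv_of_re hg.1).trans hg.2.2,
    sum_indicator_eq (S := R 7) fun g hg => (h.nInv_of_re hg.1).trans hg.2.2,
    sum_indicator_eq (S := R 9) fun g hg => (h.nInv_of_re hg.1).trans hg.2.2,
    sum_indicator_eq (S := {g | Od g ∧ ¬ Re g}) (f := nInv) (c := 0) fun g hg => (Set.ncard_eq_zero).2 (Set.eq_empty_of_forall_notMem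
      fun v hv => hg.2 ⟨hg.1, v, hv⟩), h.ncard_inv, ncard_cls h.ti] at e₂
  have h9 : ∀ g, Od g → ¬ Re g → ∃ x : G, SelfCent 7 x ∧ Nat.card N(zpowers x) = 21 ∧ Od x ∧
      {g : G | Od g ∧ ¬ Re g}.ncard = 6 * (N(zpowers x)).index := fun g hg hg' => by
    haveI := Fact.mk Nat.prime_seven
    obtain ⟨x, hx, h9, h10, h11⟩ := h.exists_seven h7 hg hg'
    refine ⟨x, hx, h9, h10, ?_⟩
    rw [show {g : G | Od g ∧ ¬ Re g} = cls (zpowers x) from Set.ext h11, ncard_cls (IsCC.conj_mem_iff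
      (A := zpowers x) fun a ha h12 => ((hx.of_orderOf (hx.zpowers_eq (Q := hx.sylow) ha h12).1).cent.trans
        (hx.zpowers_eq (Q := hx.sylow) ha h12).2)), hx.card_zpowers]
  rcases arith h4 h5 (index_pos _) h.card_G (by simpa using e₁) (by simpa using e₂) h8
    ((h3 5 5 Nat.prime_five dvd_rfl).elim (⟨0, by simp [·]⟩) fun ⟨g, hg, e, e', e''⟩ => ⟨1, le_rfl, by
      have : m g = 4 := by have := h1 g hg; simp only [m] at *; omega
      rw [this] at e''; omega⟩)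
    ((h3 7 7 Nat.prime_seven dvd_rfl).elim (⟨0, by simp [·]⟩) fun ⟨g, hg, e, e', e''⟩ => ⟨1, le_rfl, by
      have : m g = 6 := by have := h1 g hg; simp only [m] at *; omega
      rw [this] at e''; omega⟩)
    ((h3 9 3 Nat.prime_three (by decide)).elim (⟨0, by simp [·]⟩) fun ⟨g, hg, e, e', e''⟩ => by
      obtain e | e : m g = 4 ∨ m g = 8 := by have := h1 g hg; simp only [m] at *; omega
      exacts [⟨2, le_rfl, by rw [e] at e''; omega⟩, ⟨1, one_le_two, by rw [e] at e''; omega⟩])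
    ({g : G | Od g ∧ ¬ Re g}.eq_empty_or_nonempty.elim (⟨0, by simp [·]⟩) fun ⟨g, hg, hg'⟩ => ⟨1, le_rfl, by
      obtain ⟨x, -, h9, -, h10⟩ := h9 g hg hg'
      rw [h10, ← (N(zpowers x)).card_mul_index, h9]; ring⟩) with ⟨e, e'⟩ | ⟨e₄, rfl, e₃, e₅, e₇, e₉, e₀⟩
  · haveI := Fact.mk Nat.prime_seven
    obtain ⟨g, hg, hg'⟩ := Set.nonempty_of_ncard_ne_zero e'
    obtain ⟨x, hx, h9, h10, -⟩ := h9 g hg hg'
    have := h9 ▸ (N(zpowers x)).card_mul_index
    refine ⟨e, hx.nonempty_psl (e := 3) rfl (by omega) h9 ((commutator_normal ⊤ ⊤).eq_bot_or_eq_top.resolve_left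
      fun e => h10 t ht (commutatorElement_eq_one_iff_mul_comm.1
        (e.le (commutator_mem_commutator trivial trivial))))⟩
  have h10 : ∀ g ∈ R 9, g ^ 3 = 1 := fun g hg => (h.isCC hg.1).cube hg.2.2
    (by have := h1 g hg.1; have := hg.2; simp only [m] at *; omega) (mem_c1.2 rfl)
  rw [Set.ncard_eq_zero] at e₅ e₇ e₀
  obtain ⟨a, b, ha, hb, hab⟩ := h.exists_triple e₄ e₃ e₉ (fun y hy => ⟨h10 y hy, h.ne_one hy.1.1,
    (h.nInv_of_re hy.1).trans hy.2.2⟩) fun g => by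
      by_cases e : Od g
      · have h11 : Re g := by_contra fun e' => e₀.le ⟨e, e'⟩
        by_cases e' : m g = 2
        · haveI := Fact.mk Nat.prime_five
          exact .inr (.inr (orderOf_eq_prime (h6 g ⟨h11, e'⟩ ▸ congrArg Subtype.val
            (pow_card_eq_one' (G := C₁(g)) (x := ⟨g, mem_c1.2 rfl⟩))) (h.ne_one e)))
        rcases h1 g h11 with e | e | e | e
        exacts [absurd e e', (e₅.le ⟨h11, e', e.1⟩).elim, (e₇.le ⟨h11, e', e.1⟩).elim,
          .inr (.inl (h10 g ⟨h11, e', e.1⟩))]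
      rcases h.not_od.1 e with rfl | e
      exacts [.inr (.inl (one_pow 3)), .inl e]
  exact (false_of_triple hsolv (by rw [h.card_G, e₄, e₃]; decide) ha hb hab).elim

end Cfsg.Acd

set_option linter.all false in
theorem Cfsg.Rz.Acd_Count_0 : True := by
  have := @_root_.Cfsg.Acd.Re.eq_def.{0}
  have := @_root_.Cfsg.Acd.Re.eq_1.{0}
  have := @_root_.Cfsg.Acd.Re.fun_cases
  have := @_root_.Cfsg.Acd.Od.eq_def.{0}
  have := @_root_.Cfsg.Acd.Od.fun_cases
  have := @_root_.Cfsg.Acd.BSW.mk.congr_simp.{0}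
  have := @_root_.Cfsg.Acd.nInv.eq_def.{0}
  have := @_root_.Cfsg.Acd.nInv.fun_cases
  trivial
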