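import Cfsg.Agent.Grp.Scott
import Cfsg.Agent.Grp.PrimeTIA
import Cfsg.Agent.Grp.Transfer
import Cfsg.Agent.Grp.Coprime
import Cfsg.Agent.Grp.MinNormal

/-!
# Tools for the Brauer-Suzuki-Wall count
-/

set_option autoImplicit false
set_option linter.unusedSectionVars false

namespace Cfsg.Acd

open Subgroup

universe u

local notation "C₁(" g ")" => Subgroup.centralizer ({g} : Set _)
local notation "N(" Q ")" => Subgroup.normalizer ((Q : Subgroup _) : Set _)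

variable {G : Type u} [Group G] [Finite G] {A L M : Subgroup G} {a b g h u v w x y : G}

theorem mem_c1 : x ∈ C₁(g) ↔ x * g = g * x := mem_centralizer_singleton_iff

/-- Nonidentity elements conjugate into `A`. -/
def cls (A : Subgroup G) : Set G := {g | g ≠ 1 ∧ ∃ x, x * g * x⁻¹ ∈ A}

theorem mem_cls_of_mem (h : g ∈ A) (h1 : g ≠ 1) : g ∈ cls A := ⟨h1, 1, by simpa⟩

theorem conj_mem_cls : x * g * x⁻¹ ∈ cls A ↔ g ∈ cls A :=
  and_congr (by simp) ⟨fun ⟨y, h⟩ => ⟨y * x, by simpa [mul_assoc] using h⟩,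
    fun ⟨y, h⟩ => ⟨y * x⁻¹, by simpa [mul_assoc] using h⟩⟩

theorem ncard_cls (h : ∀ a ∈ A, a ≠ 1 → ∀ g, g * a * g⁻¹ ∈ A ↔ g ∈ L) :
    (cls A).ncard = (Nat.card A - 1) * L.index := by
  let f : ((A : Set G) \ {1} : Set G) × (G ⧸ L) → cls A := fun x =>
    ⟨x.2.out * x.1 * x.2.out⁻¹, conj_mem_cls.2 (mem_cls_of_mem x.1.2.1 x.1.2.2)⟩
  have hf : Function.Bijective f := by
    constructor
    · rintro ⟨a, c⟩ ⟨b, d⟩ e
      have e : c.out * a * c.out⁻¹ = d.out * b * d.out⁻¹ := congrArg Subtype.val e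
      obtain rfl : d = c := by
        rw [← d.out_eq, ← c.out_eq]
        refine QuotientGroup.eq.2 ((h a a.2.1 a.2.2 _).1 ?_)
        rw [mul_inv_rev, inv_inv, mul_assoc d.out⁻¹, ← mul_assoc, mul_assoc d.out⁻¹, e]
        simpa [mul_assoc] using b.2.1
      exact Prod.ext (Subtype.ext (by simpa using e)) rfl
    · rintro ⟨a, h1, g, ha⟩
      obtain ⟨l, hl⟩ := QuotientGroup.mk_out_eq_mul L g⁻¹
      refine ⟨⟨⟨(l : G)⁻¹ * (g * a * g⁻¹) * (l : G)⁻¹⁻¹, (h _ ha (by simpa) _).2 (L.inv_mem l.2), by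
        simpa [-inv_inv]⟩, (g⁻¹ : G)⟩, Subtype.ext ?_⟩
      simp only [f, hl]
      group
  rw [← Nat.card_coe_set_eq, ← Nat.card_eq_of_bijective f hf, Nat.card_prod, Nat.card_coe_set_eq,
    Set.ncard_diff_singleton_of_mem A.one_mem, ← Nat.card_coe_set_eq]
  rfl

theorem mem_cls_of_comm (ha : C₁(a) = A) (e : x * b * x⁻¹ = a) (hb : h * b = b * h) (h1 : h ≠ 1) :
    h ∈ cls A := ⟨h1, x, ha ▸ mem_c1.2 (by rw [← e, conj_mul, hb, conj_mul])⟩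

theorem exists_sylow_le {p : ℕ} [Fact p.Prime] (hA : ∀ a ∈ A, orderOf a = p → C₁(a) = A) (ha : a ∈ A)
    (ho : orderOf a = p) : ∃ P : Sylow p G, (P : Subgroup G) ≤ A := by
  obtain ⟨P, hP⟩ := IsPElt.exists_mem_sylow (p := p) ⟨1, ho.trans (pow_one p).symm⟩
  obtain ⟨z, hz, h1⟩ := exists_mem_orderOf_eq_prime (dvd_card_of_isPGroup_of_ne_bot
    (P.2.to_le inf_le_left) (inf_centralizer_ne_bot_of_isPGroup P.2 P.2 le_normalizer fun e =>
      (Fact.out : p.Prime).ne_one (ho ▸ orderOf_eq_one_iff.2 (e.le hP))))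
  exact ⟨P, fun g hg => hA z (hA a ha ho ▸ mem_c1.2 (hz.2 a hP).symm) h1 ▸ mem_c1.2 (hz.2 g hg)⟩

theorem mem_cls_of_dvd {p : ℕ} [Fact p.Prime] (hA : ∀ a ∈ A, orderOf a = p → C₁(a) = A) (ha : a ∈ A)
    (ho : orderOf a = p) (h1 : h ≠ 1) (hp : p ∣ Nat.card C₁(h)) : h ∈ cls A := by
  obtain ⟨P, hP⟩ := exists_sylow_le hA ha ho
  obtain ⟨b, hb, h2⟩ := exists_mem_orderOf_eq_prime hp
  obtain ⟨x, hx⟩ := IsPElt.exists_conj_mem (p := p) ⟨1, h2.trans (pow_one p).symm⟩ P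
  exact mem_cls_of_comm (hA _ (hP hx) ((MulAut.conj x).orderOf_eq b ▸ h2)) rfl (mem_c1.1 hb).symm h1

/-- `A` is the centralizer of each of its nonidentity elements. -/
def IsCC (A : Subgroup G) : Prop := ∀ a ∈ A, a ≠ 1 → C₁(a) = A

theorem IsCC.prime (h : IsCC A) {p : ℕ} [hp : Fact p.Prime] : ∀ a ∈ A, orderOf a = p → C₁(a) = A :=
  fun a ha e => h a ha fun e' => hp.out.ne_one (e ▸ orderOf_eq_one_iff.2 e')

theorem IsCC.conj_mem_iff (h : IsCC A) (a : G) (ha : a ∈ A) (h1 : a ≠ 1) (g : G) :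
    g * a * g⁻¹ ∈ A ↔ g ∈ N(A) :=
  ⟨fun e => map_conj_eq_iff.1 (by rw [← h a ha h1, ← centralizer_singleton_conj, h _ e (by simpa), h a ha h1]),
    (conj_mem_of_mem_normalizer · ha)⟩

theorem IsCC.ncard (h : IsCC A) :
    (cls A).ncard * (Nat.card A * A.relIndex N(A)) = (Nat.card A - 1) * Nat.card G := by
  rw [ncard_cls h.conj_mem_iff, card_mul_relIndex le_normalizer, mul_assoc, index_mul_card]

theorem IsCC.exists_compl (h : IsCC A) : ∃ M ≤ N(A), M ⊓ A = ⊥ ∧ Nat.card M = A.relIndex N(A) := by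
  obtain ⟨M, hM, h3, -, h4⟩ := exists_complement_in_of_coprime (N := A) le_normalizer le_rfl
    (Nat.coprime_of_dvd fun p hp h3 h4 => by
      haveI := Fact.mk hp
      obtain ⟨a, ha, ho⟩ := exists_mem_orderOf_eq_prime h3
      obtain ⟨P, hP⟩ := exists_sylow_le h.prime ha ho
      exact not_dvd_index_of_sylow_le P hP (h4.trans (relIndex_dvd_index_of_le le_normalizer)))
  exact ⟨M, hM, inf_comm A M ▸ h3, h4⟩

theorem IsCC.dvd (h : IsCC A) (hL : L ≤ A) (hN : (N(A) : Subgroup G) ≤ N(L)) :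
    A.relIndex N(A) ∣ Nat.card L - 1 := by
  obtain ⟨M, hM, h1, h2⟩ := h.exists_compl
  letI := MulAction.compHom G (MulAut.conj.comp M.subtype)
  have := card_dvd_of_free_on (A := M) ((L : Set G) \ {1}) (fun m a ha =>
    ⟨conj_mem_of_mem_normalizer (hN (hM m.2)) ha.1, fun e => ha.2 (conj_eq_one_iff.1 e)⟩) fun m a ha e =>
    Subtype.ext (h1.le ⟨m.2, h a (hL ha.1) ha.2 ▸ mem_c1.2 (mul_inv_eq_iff_eq_mul.1 e)⟩)
  rwa [Nat.card_coe_set_eq, Set.ncard_diff_singleton_of_mem L.one_mem, ← Nat.card_coe_set_eq, h2] at this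

theorem IsCC.types (h : IsCC A) (h2 : 2 ∣ A.relIndex N(A)) (h1 : 1 < Nat.card A)
    (hF : ∀ M ≤ N(A), M ⊓ A = ⊥ → (Nat.card A - 1) * (Nat.card M - 2) ≤ Nat.card M ^ 2) :
    A.relIndex N(A) = 2 ∨ Nat.card A = 5 ∧ A.relIndex N(A) = 4 ∨ Nat.card A = 7 ∧ A.relIndex N(A) = 6 ∨
      Nat.card A = 9 ∧ (A.relIndex N(A) = 4 ∨ A.relIndex N(A) = 8) := by
  obtain ⟨M, hM, h3, h4⟩ := h.exists_compl
  have h5 := h4 ▸ h.dvd le_rfl le_rfl
  have key : ∀ p k, p.Prime → p ^ k ∣ Nat.card M → (Nat.card A - 1) * (p ^ k - 2) ≤ (p ^ k) ^ 2 :=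
    fun p k hp e => by
      haveI := Fact.mk hp
      obtain ⟨R, hR⟩ := Sylow.exists_subgroup_card_pow_prime p e
      rw [← hR, ← card_map_subtype]
      exact hF _ ((map_subtype_le R).trans hM) (eq_bot_iff.2 (h3 ▸ inf_le_inf_right _ (map_subtype_le R)))
  rw [← h4] at h2 ⊢
  have h6 := Nat.card_pos (α := M)
  generalize Nat.card M = m, Nat.card A = a at *
  obtain ⟨c, hc⟩ := h5
  obtain ⟨r, rfl⟩ := h2
  have h7 : c ≠ 0 := fun e => by simp [e] at hc; omega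
  by_cases e : r = 1
  · simp [e]
  obtain ⟨p, hp, s, rfl⟩ := Nat.exists_prime_and_dvd e
  have h8 : s ≠ 0 := fun e => by simp [e] at h6
  have h9 : 2 * (p * s) ≤ a - 1 := hc ▸ Nat.le_mul_of_pos_right _ (Nat.pos_of_ne_zero h7)
  rcases hp.eq_two_or_odd with rfl | e'
  · have := key 2 2 Nat.prime_two ⟨s, by ring⟩
    have : s ≤ 2 := by omega
    interval_cases s <;> omega
  have h10 := key p 1 hp ⟨2 * s, by ring⟩
  have h11 := hp.two_le
  obtain rfl : p = 3 := by_contra fun e => by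
    obtain ⟨q, rfl⟩ : ∃ q, p = q + 5 := ⟨p - 5, by omega⟩
    have := Nat.mul_le_mul_right (q + 3) ((Nat.mul_le_mul_left 2 (Nat.le_mul_of_pos_right (q + 5)
      (Nat.pos_of_ne_zero h8))).trans h9)
    rw [pow_one, show q + 5 - 2 = q + 3 from rfl] at h10
    nlinarith
  obtain rfl : s = 1 := by omega
  omega

theorem IsCC.cube (h : IsCC A) (h9 : Nat.card A = 9) (h2 : 2 < A.relIndex N(A)) (ha : a ∈ A) :
    a ^ 3 = 1 := by
  by_contra e
  have h1 : orderOf a = 3 ^ (1 + 1) := haveI := Fact.mk Nat.prime_three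
    orderOf_eq_prime_pow e (by simpa [h9] using congrArg Subtype.val (pow_card_eq_one' (x := (⟨a, ha⟩ : A))))
  have h3 : zpowers a = A := eq_of_le_of_card_ge (zpowers_le.2 ha) (by rw [Nat.card_zpowers, h1, h9]; rfl)
  have h4 := h.dvd (zpowers_le.2 (pow_mem ha 3)) fun g hg => mem_normalizer_of_forall_conj_mem (by
    rintro _ ⟨k, rfl⟩
    obtain ⟨j, hj⟩ := h3.ge (conj_mem_of_mem_normalizer hg ha)
    simp only at hj ⊢
    rw [← conj_zpow, ← conj_pow, ← hj, ← zpow_natCast (a ^ j), zpow_comm a, zpow_natCast]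
    exact zpow_mem (zpow_mem (mem_zpowers _) j) k)
  rw [Nat.card_zpowers, orderOf_pow_of_dvd three_ne_zero (h1 ▸ by decide), h1] at h4
  exact absurd (Nat.le_of_dvd two_pos h4) h2.not_ge

theorem arith_aux {k a i D s : ℕ} (hk : 4 ≤ k) (ha : 1 ≤ a) (hi : i = 1 + k * (k + a + s - 2))
    (hD : D = 0 ∨ D = 70 ∨ 90 ≤ D) (e : 315 * (a + k) * i = 315 * a + a * k * D * i) : k ≤ 50 ∧ a ≤ 44 := by
  have h0 : k * (k - 1) < i ∧ 4 * a < i := by
    have := Nat.mul_le_mul_left k (show k - 1 ≤ k + a + s - 2 by omega)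
    have := Nat.mul_le_mul hk (show a ≤ k + a + s - 2 by omega)
    omega
  have h1 : a * k * D < 315 * (a + k) := Nat.lt_of_mul_lt_mul_right (a := i) (by omega)
  have h2 : 315 * (a + k) < a * k * D + 79 := Nat.lt_of_mul_lt_mul_right (a := i) (by rw [add_mul]; omega)
  have h3 := Nat.mul_le_mul_right i h1
  rw [Nat.succ_mul] at h3
  have h4 : a * k * 70 < 315 * (a + k) := (Nat.mul_le_mul_left _ (by
    rcases hD with rfl | hD
    exacts [by omega, by omega])).trans_lt h1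
  refine ⟨not_lt.1 fun e => ?_, not_lt.1 fun e => ?_⟩
  · have := Nat.mul_le_mul e (show 50 ≤ k - 1 by omega)
    have : 9 ≤ a := by omega
    nlinarith
  rcases hk.eq_or_lt with rfl | hk
  · rcases hD with rfl | rfl | hD
    exacts [by omega, by omega, by nlinarith]
  nlinarith

set_option synthInstance.maxSize 1000 in
theorem arith {k a i n r₂ r₅ r₇ r₉ u : ℕ} (hk : 4 ≤ k) (ha : 1 ≤ a) (hi : 0 < i) (hn : n = 2 * k * i)
    (e₁ : n = 1 + (k - 1) * i + r₂ + r₅ + r₇ + r₉ + u)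
    (e₂ : i * i = i + k * ((k - 1) * i) + a * r₂ + 5 * r₅ + 7 * r₇ + 9 * r₉)
    (h₂ : r₂ * (a * 2) = (a - 1) * n) (h₅ : ∃ c ≤ 1, 5 * r₅ = c * n) (h₇ : ∃ c ≤ 1, 7 * r₇ = c * n)
    (h₉ : ∃ c ≤ 2, 9 * r₉ = c * n) (hu : ∃ c ≤ 1, 7 * u = 2 * c * n) :
    n = 168 ∧ u ≠ 0 ∨ k = 4 ∧ a = 5 ∧ i = 45 ∧ r₅ = 0 ∧ r₇ = 0 ∧ r₉ = 80 ∧ u = 0 := by
  obtain ⟨c₅, l₅, h₅⟩ := h₅
  obtain ⟨c₇, l₇, h₇⟩ := h₇
  obtain ⟨c₉, l₉, h₉⟩ := h₉
  obtain ⟨c, l, hu⟩ := hu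
  obtain ⟨k, rfl⟩ := Nat.exists_eq_add_of_le' hk
  obtain ⟨a, rfl⟩ := Nat.exists_eq_add_of_le' ha
  simp only [show k + 4 - 1 = k + 3 from rfl, Nat.add_sub_cancel] at *
  have h1 : i = 1 + (k + 4) * (k + 4 + (a + 1) + 2 * (c₅ + c₇ + c₉) - 2) := by
    rw [show k + 4 + (a + 1) + 2 * (c₅ + c₇ + c₉) - 2 = k + 3 + a + 2 * (c₅ + c₇ + c₉) by omega]
    refine Nat.eq_of_mul_eq_mul_left (Nat.mul_pos two_pos hi) ?_
    rw [hn] at h₂ h₅ h₇ h₉
    linear_combination 2 * e₂ + h₂ + 2 * h₅ + 2 * h₇ + 2 * h₉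
  have h2 : 315 * (a + 1 + (k + 4)) * i =
      315 * (a + 1) + (a + 1) * (k + 4) * (126 * c₅ + 90 * c₇ + 70 * c₉ + 180 * c) * i := by
    refine Nat.eq_of_mul_eq_mul_left two_pos ?_
    rw [hn] at h₂ h₅ h₇ h₉ hu e₁
    zify at *
    linear_combination 630 * (a + 1) * e₁ + 315 * h₂ + 126 * (a + 1) * h₅ + 90 * (a + 1) * h₇ +
      70 * (a + 1) * h₉ + 90 * (a + 1) * hu
  obtain ⟨h3, h4⟩ := arith_aux hk ha h1 (by
    clear * - l₅ l₇ l₉; interval_cases c₅ <;> interval_cases c₇ <;> interval_cases c₉ <;> omega) h2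
  have key : ∀ k ∈ List.range 47, ∀ a ∈ List.range 44, ∀ c₅ ∈ List.range 2, ∀ c₇ ∈ List.range 2,
      ∀ c₉ ∈ List.range 3, ∀ c ∈ List.range 2, 315 * (a + 1 + (k + 4)) *
      (1 + (k + 4) * (k + 4 + (a + 1) + 2 * (c₅ + c₇ + c₉) - 2)) ≠ 315 * (a + 1) + (a + 1) * (k + 4) *
      (126 * c₅ + 90 * c₇ + 70 * c₉ + 180 * c) * (1 + (k + 4) * (k + 4 + (a + 1) + 2 * (c₅ + c₇ + c₉) - 2)) ∨
      k = 0 ∧ c₅ = 0 ∧ c₇ = 0 ∧ (a = 2 ∧ c₉ = 0 ∧ c = 1 ∨ a = 4 ∧ c₉ = 2 ∧ c = 0) := by decide +kernel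
  simp only [List.mem_range] at key
  obtain ⟨rfl, rfl, rfl, ⟨rfl, rfl, rfl⟩ | ⟨rfl, rfl, rfl⟩⟩ :=
    (key k (by omega) a (by omega) c₅ (by omega) c₇ (by omega) c₉ (by omega) c (by omega)).resolve_left
      (· (h1 ▸ h2)) <;> omega

end Cfsg.Acd

set_option linter.all false in
theorem Cfsg.Rz.Acd_CountA_0 : True := by
  have := @_root_.Cfsg.Acd.cls.eq_def.{0}
  have := @_root_.Cfsg.Acd.cls.eq_1.{0}
  have := @_root_.Cfsg.Acd.cls.fun_cases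
  have := @_root_.Cfsg.Acd.IsCC.eq_def.{0}
  have := @_root_.Cfsg.Acd.IsCC.eq_1.{0}
  have := @_root_.Cfsg.Acd.IsCC.fun_cases
  trivial
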