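import Cfsg.Agent.Acd.Tools
import Cfsg.Agent.Grp.DihSylow

/-!
# Dihedral Sylow `2`-subgroups : pairs of commuting involutions
-/

set_option autoImplicit false
set_option linter.unusedSectionVars false

namespace Cfsg.Acd

open Subgroup

universe u

variable {G : Type u} [Group G] [Finite G]

local notation "C₁(" g ")" => Subgroup.centralizer ({g} : Set _)
local notation "N(" Q ")" => Subgroup.normalizer (SetLike.coe (A := Subgroup _) Q)

/-- The largest normal subgroup of odd order. -/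
def oc (X : Subgroup G) : Subgroup G := (pPrimeCore 2 X).map X.subtype

theorem oc_le (X : Subgroup G) : oc X ≤ X := map_subtype_le _

theorem oc_odd (X : Subgroup G) : ¬ 2 ∣ Nat.card (oc X) := by
  rw [oc, card_map_subtype]; exact not_dvd_card_pPrimeCore 2 X

theorem norm_le_oc (X : Subgroup G) : N(X) ≤ N(oc X) :=
  normalizer_le_normalizer_map_of_characteristic X _

theorem le_norm_oc (X : Subgroup G) : X ≤ N(oc X) := le_normalizer.trans (norm_le_oc X)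

theorem mem_oc {X : Subgroup G} (h : HasNormalPComplement 2 X) {g : G} :
    g ∈ oc X ↔ g ∈ X ∧ ¬ 2 ∣ orderOf g :=
  ⟨fun hg => ⟨oc_le X hg, not_two_dvd_orderOf (oc_odd X) hg⟩, fun hg =>
    ⟨⟨g, hg.1⟩, hasNormalPComplement_iff_forall_mem.1 h _ (by
      rw [IsPRegular, ← orderOf_coe]; exact hg.2), rfl⟩⟩

theorem mem_c {a b : G} : a ∈ C₁(b) ↔ b * a * b⁻¹ = a := by
  rw [mem_centralizer_singleton_iff, mul_inv_eq_iff_eq_mul, eq_comm]

theorem mem_c' {a b : G} : a ∈ C₁(b) ↔ a * b * a⁻¹ = b := by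
  rw [mem_centralizer_singleton_iff, mul_inv_eq_iff_eq_mul]

theorem conj_mul_conj (a b x : G) : a * b * x * (a * b)⁻¹ = a * (b * x * b⁻¹) * a⁻¹ := by group

theorem ne_inv_of_odd {c : G} (h1 : c ≠ 1) (h2 : ¬ 2 ∣ orderOf c) : c ≠ c⁻¹ := fun e =>
  h2 (orderOf_two_of_mul_self (eq_inv_iff_mul_eq_one.1 e) h1).symm.dvd

theorem mem_norm_zpowers {s x : G} (h : s * x * s⁻¹ ∈ zpowers x) : s ∈ N(zpowers x) :=
  mem_normalizer_of_forall_conj_mem fun y hy => by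
    obtain ⟨n, rfl⟩ := hy
    rw [← conj_zpow]; exact zpow_mem h n

theorem c_le_norm (x : G) : C₁(x) ≤ N(zpowers x) := fun s hs =>
  mem_norm_zpowers (by rw [mem_c'.1 hs]; exact mem_zpowers x)

theorem norm_zpowers_le (x : G) : N(zpowers x) ≤ N(C₁(x)) := by
  rw [← centralizer_zpowers]; exact normalizer_le_normalizer_centralizer _

/-- Two distinct commuting involutions. -/
structure Pr (v s : G) : Prop where
  hv : orderOf v = 2
  hs : orderOf s = 2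
  comm : v * s = s * v
  ne : v ≠ s

namespace Pr

variable {v s : G}

theorem symm (h : Pr v s) : Pr s v := ⟨h.hs, h.hv, h.comm.symm, h.ne.symm⟩

theorem vv (h : Pr v s) : v * v = 1 := mul_self_of_orderOf h.hv

theorem ss (h : Pr v s) : s * s = 1 := mul_self_of_orderOf h.hs

theorem v_ne (h : Pr v s) : v ≠ 1 := fun e => by have := h.hv; rw [e, orderOf_one] at this; omega

theorem s_ne (h : Pr v s) : s ≠ 1 := h.symm.v_ne

theorem mul (h : Pr v s) : Pr v (v * s) :=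
  ⟨h.hv, orderOf_two_of_mul_self (by
      rw [mul_assoc, ← mul_assoc s, ← h.comm, mul_assoc, h.ss, mul_one, h.vv])
      fun e => h.ne (by rw [← one_mul s, ← h.vv, mul_assoc, e, mul_one]),
    by rw [mul_assoc, ← h.comm], fun e => h.s_ne (mul_eq_left.1 e.symm)⟩

theorem conj (h : Pr v s) (g : G) : Pr (g * v * g⁻¹) (g * s * g⁻¹) :=
  ⟨(orderOf_conj_eq g v).trans h.hv, (orderOf_conj_eq g s).trans h.hs,
    by rw [conj_mul, conj_mul, h.comm], fun e => h.ne (by simpa using e)⟩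

theorem mem (h : Pr v s) {c : G} :
    c ∈ zpowers v ⊔ zpowers s ↔ c = 1 ∨ c = v ∨ c = s ∨ c = v * s :=
  mem_closure_pair h.vv h.ss h.comm

theorem mul_self (h : Pr v s) : ∀ c ∈ zpowers v ⊔ zpowers s, c * c = 1 := fun c hc => by
  rcases h.mem.1 hc with rfl | rfl | rfl | rfl
  exacts [one_mul 1, h.vv, h.ss, h.mul.ss]

theorem card (h : Pr v s) : Nat.card (zpowers v ⊔ zpowers s : Subgroup G) = 4 :=
  card_closure_pair h.hv h.hs h.comm h.ne

theorem isPGroup (h : Pr v s) : IsPGroup 2 (zpowers v ⊔ zpowers s : Subgroup G) :=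
  IsPGroup.of_card (n := 2) h.card

theorem mem_norm (h : Pr v s) {g : G} (h1 : g * v * g⁻¹ ∈ zpowers v ⊔ zpowers s)
    (h2 : g * s * g⁻¹ ∈ zpowers v ⊔ zpowers s) : g ∈ N(zpowers v ⊔ zpowers s) :=
  mem_normalizer_of_forall_conj_mem fun c hc => by
    rcases h.mem.1 hc with rfl | rfl | rfl | rfl
    · simp
    · exact h1
    · exact h2
    · rw [← conj_mul]; exact mul_mem h1 h2

theorem v_mem (v s : G) : v ∈ zpowers v ⊔ zpowers s := mem_sup_left (mem_zpowers v)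

theorem s_mem (v s : G) : s ∈ zpowers v ⊔ zpowers s := mem_sup_right (mem_zpowers s)

/-- Elements of a group of odd order inverted by `v` are products of eigenvectors. -/
theorem pow_eq_one (h : Pr v s) {X Y : Subgroup G} (hX : GoodIn X) (hY : Y ≤ X) (hv : v ∈ X)
    (nv : v ∈ N(Y)) (ns : s ∈ N(Y)) (ho : ¬ 2 ∣ Nat.card Y) {n : ℕ}
    (H : ∀ u, u = s ∨ u = v * s → ∀ a ∈ Y, u * a * u⁻¹ = a → v * a * v⁻¹ = a⁻¹ → a ^ n = 1)
    {z : G} (hz : z ∈ Y) (hi : v * z * v⁻¹ = z⁻¹) : z ^ n = 1 := by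
  have hz' : s * z * s⁻¹ ∈ Y := conj_mem_of_mem_normalizer ns hz
  have hi' : v * (s * z * s⁻¹) * v⁻¹ = (s * z * s⁻¹)⁻¹ := by
    rw [← conj_mul_conj, h.comm, conj_mul_conj, hi]; group
  have hc : Commute z (s * z * s⁻¹) := hX.commute_of_inv h.hv hY hv nv ho hz hz' hi hi'
  have e0 : s * (s * z * s⁻¹) * s⁻¹ = z := by rw [← conj_mul_conj, h.ss]; simp
  obtain ⟨z', hz'e⟩ : ∃ z', s * z * s⁻¹ = z' := ⟨_, rfl⟩
  rw [hz'e] at hz' hi' hc e0
  have e1 := H s (Or.inl rfl) (z * z') (mul_mem hz hz')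
    (by rw [← conj_mul, hz'e, e0, hc.eq]) (by rw [← conj_mul, hi, hi', hc.eq, mul_inv_rev])
  have e2 := H (v * s) (Or.inr rfl) (z * z'⁻¹) (mul_mem hz (inv_mem hz'))
    (by rw [conj_mul_conj, ← conj_mul (b := s), ← conj_inv (a := z'), hz'e, e0, ← conj_mul,
      ← conj_inv, hi, hi', inv_inv, hc.inv_right.eq])
    (by rw [← conj_mul, ← conj_inv, hi, hi', hc.inv_right.eq, mul_inv_rev])
  rw [hc.mul_pow] at e1
  rw [hc.inv_right.mul_pow, inv_pow, mul_inv_eq_one] at e2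
  rw [← e2] at e1
  by_contra h1
  exact ne_inv_of_odd h1 (not_two_dvd_orderOf ho (pow_mem hz n)) (eq_inv_of_mul_eq_one_left e1)

theorem mem_pResidual (h : Pr v s) {X : Subgroup G} (hv : v ∈ X) (hs : s ∈ X) {y : G} (hy : y ∈ X)
    (h1 : y * v * y⁻¹ = s) (h2 : y * s * y⁻¹ = v * s) :
    v ∈ (pResidual 2 X).map X.subtype ∧ s ∈ (pResidual 2 X).map X.subtype := by
  have key : ∀ y : G, y * v * y⁻¹ = s → y * s * y⁻¹ = v * s →
      y ^ 4 * v * (y ^ 4)⁻¹ = s ∧ y ^ 4 * s * (y ^ 4)⁻¹ = v * s := by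
    intro y h1 h2
    have h3 : y * (v * s) * y⁻¹ = v := by
      rw [← conj_mul, h1, h2, h.comm, ← mul_assoc, h.ss, one_mul]
    rw [show y ^ 4 = y * (y * (y * y)) by simp only [pow_succ, pow_zero, one_mul, mul_assoc]]
    simp only [conj_mul_conj, h1, h2, h3, and_self]
  have key2 : ∀ k : ℕ, y ^ 4 ^ k * v * (y ^ 4 ^ k)⁻¹ = s ∧ y ^ 4 ^ k * s * (y ^ 4 ^ k)⁻¹ = v * s := by
    intro k
    induction k with
    | zero => simpa using ⟨h1, h2⟩
    | succ k ih => rw [pow_succ, pow_mul]; exact key _ ih.1 ih.2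
  obtain ⟨k, m, hm, e⟩ := Nat.exists_eq_two_pow_mul_odd (orderOf_pos y).ne'
  have ho : ¬ 2 ∣ orderOf (y ^ 4 ^ k) := fun hd => by
    have : (y ^ 4 ^ k) ^ m = 1 := by
      rw [← pow_mul, show 4 ^ k * m = 2 ^ k * m * 2 ^ k by
        rw [show 4 = 2 * 2 from rfl, mul_pow]; ring, ← e, pow_mul, pow_orderOf_eq_one, one_pow]
    exact (Nat.not_even_iff_odd.2 hm) (even_iff_two_dvd.2 (hd.trans (orderOf_dvd_of_pow_eq_one this)))
  obtain ⟨k1, k2⟩ := key2 k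
  obtain ⟨y', hy'⟩ : ∃ y', y ^ 4 ^ k = y' := ⟨_, rfl⟩
  have hyX : y' ∈ X := hy' ▸ pow_mem hy _
  rw [hy'] at ho k1 k2
  have hR : y' ∈ (pResidual 2 X).map X.subtype :=
    ⟨⟨y', hyX⟩, Cfsg.mem_pResidual (by rw [IsPRegular, ← orderOf_coe]; exact ho), rfl⟩
  have hn : X ≤ N((pResidual 2 X).map X.subtype) :=
    le_normalizer.trans (normalizer_le_normalizer_map_of_characteristic X _)
  have a1 := mul_mem hR (conj_mem_of_mem_normalizer (hn hs) (inv_mem hR))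
  have a2 := mul_mem hR (conj_mem_of_mem_normalizer (hn hv) (inv_mem hR))
  rw [show y' * (s * y'⁻¹ * s⁻¹) = y' * s * y'⁻¹ * s⁻¹ by group, k2, mul_inv_cancel_right] at a1
  rw [show y' * (v * y'⁻¹ * v⁻¹) = y' * v * y'⁻¹ * v⁻¹ by group, k1] at a2
  exact ⟨a1, by simpa using mul_mem a2 a1⟩

end Pr

/-- The standing hypotheses. -/
structure DC (S : Sylow 2 G) (σ τ t : G) : Prop where
  good : ∀ X : Subgroup G, X ≠ ⊤ → GoodIn X
  na : ¬ IsMulCommutative G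
  dih : IsDihPair (S : Subgroup G) σ τ
  tm : t ∈ zpowers σ
  t2 : orderOf t = 2
  conj : ∀ u v : G, orderOf u = 2 → orderOf v = 2 → IsConj u v

namespace DC

variable [IsSimpleGroup G] {S : Sylow 2 G} {σ τ t v s : G}

theorem good_c (h : DC S σ τ t) {a : G} (ha : a ≠ 1) : GoodIn C₁(a) := h.good _ fun e => ha (by
  rw [← mem_bot, ← center_eq_bot_of_isSimpleGroup h.na, mem_center_iff]
  exact fun g => mem_centralizer_singleton_iff.1 (e.ge (mem_top g)))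

theorem good_n (h : DC S σ τ t) {Q : Subgroup G} (h1 : Q ≠ ⊥) (h2 : Q ≠ ⊤) : GoodIn N(Q) :=
  h.good _ fun e => ((normalizer_eq_top_iff.1 e).eq_bot_or_eq_top).elim h1 h2

theorem ne_top (h : DC S σ τ t) {p : ℕ} [Fact p.Prime] {Q : Subgroup G} (hQ : IsPGroup p Q) :
    Q ≠ ⊤ := fun e => by
  rw [e, isPGroup_top_iff] at hQ
  have := inf_center_ne_bot_of_isPGroup hQ (N := ⊤) top_ne_bot
  rw [center_eq_bot_of_isSimpleGroup h.na] at this
  exact this (inf_bot_eq _)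

theorem good_z (h : DC S σ τ t) {a : G} (ha : a ≠ 1) : GoodIn N(zpowers a) :=
  h.good_n (by simpa using ha) fun e => h.na ⟨⟨fun x y => by
    obtain ⟨i, rfl⟩ := e.ge (mem_top x)
    obtain ⟨j, rfl⟩ := e.ge (mem_top y)
    exact (Commute.refl a).zpow_zpow i j⟩⟩

theorem le_c (h : DC S σ τ t) : (S : Subgroup G) ≤ C₁(t) := h.dih.le_centralizer h.tm h.t2

theorem tS (h : DC S σ τ t) : t ∈ (S : Subgroup G) := h.dih.zpowers_le h.tm

theorem exists_conj (h : DC S σ τ t) (hv : orderOf v = 2) : ∃ g, g * v * g⁻¹ = t :=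
  isConj_iff.1 (h.conj v t hv h.t2)

theorem nilp (h : DC S σ τ t) (hv : orderOf v = 2) : HasNormalPComplement 2 C₁(v) := by
  obtain ⟨g, hg⟩ := isConj_iff.1 (h.conj t v h.t2 hv)
  rw [← hg, centralizer_singleton_conj]
  exact (h.dih.hasNormalPComplement S.isPGroup' S.not_dvd_index h.tm h.t2).of_equiv
    (C₁(t).equivMapOfInjective _ (MulAut.conj g).injective)

theorem mem_o (h : DC S σ τ t) (hv : orderOf v = 2) {a : G} :
    a ∈ oc C₁(v) ↔ v * a * v⁻¹ = a ∧ ¬ 2 ∣ orderOf a := by rw [mem_oc (h.nilp hv), mem_c]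

theorem exists_conj_le (h : DC S σ τ t) (hv : orderOf v = 2) {T : Subgroup G} (hT : IsPGroup 2 T)
    (hle : T ≤ C₁(v)) : ∃ g, g * v * g⁻¹ = t ∧ ∀ x ∈ T, g * x * g⁻¹ ∈ (S : Subgroup G) := by
  obtain ⟨g, hg⟩ := h.exists_conj hv
  obtain ⟨k, hk, hk'⟩ := exists_map_conj_le_of_not_dvd_relIndex (H := C₁(t)) S.isPGroup'
    (fun e => S.not_dvd_index (e.trans (relIndex_dvd_index_of_le h.le_c)))
    (isPGroup_map_conj_iff.2 hT : IsPGroup 2 (T.map (MulAut.conj g).toMonoidHom))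
    (by rw [← hg, centralizer_singleton_conj]; exact map_mono hle)
  rw [map_conj_map_conj, map_conj_le_iff] at hk'
  exact ⟨k * g, by rw [conj_mul_conj, hg, mem_c'.1 hk], hk'⟩

theorem notMem (h : DC S σ τ t) (hp : Pr t s) : s ∉ zpowers σ := fun e =>
  hp.ne (eq_of_orderOf_eq_two_of_mem_zpowers h.tm e h.t2 hp.hs)

theorem pr (h : DC S σ τ t) {u : G} (hu : u ∈ (S : Subgroup G)) (hn : u ∉ zpowers σ) : Pr t u :=
  ⟨h.t2, orderOf_two_of_mul_self (h.dih.mul_self_of_notMem hu hn) fun e => hn (e ▸ one_mem _),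
    (mem_centralizer_singleton_iff.1 (h.le_c hu)).symm, fun e => hn (e ▸ h.tm)⟩

theorem pair_conj (h : DC S σ τ t) (hp : Pr v s) :
    ∃ g, g * v * g⁻¹ = t ∧ g * s * g⁻¹ ∈ (S : Subgroup G) ∧ g * s * g⁻¹ ∉ zpowers σ := by
  obtain ⟨g, h1, h2⟩ := h.exists_conj_le hp.hv
    (isPElt_iff_isPGroup_zpowers.1 (isPElt_two_of_orderOf hp.hs))
    (zpowers_le.2 (mem_centralizer_singleton_iff.2 hp.comm.symm))
  exact ⟨g, h1, h2 s (mem_zpowers s), h.notMem (h1 ▸ hp.conj g)⟩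

theorem mem_four (h : DC S σ τ t) (hp : Pr v s) {c : G} (hc : IsPElt 2 c) (h1 : c ∈ C₁(v))
    (h2 : c ∈ C₁(s)) : c ∈ zpowers v ⊔ zpowers s := by
  obtain ⟨g, e1, e2⟩ := h.exists_conj_le hp.hv (T := zpowers c ⊔ zpowers s)
    ((isPElt_iff_isPGroup_zpowers.1 hc).to_sup_of_normal_right'
      (isPElt_iff_isPGroup_zpowers.1 (isPElt_two_of_orderOf hp.hs))
      (zpowers_le.2 (c_le_norm s h2)))
    (sup_le (zpowers_le.2 h1) (zpowers_le.2 (mem_centralizer_singleton_iff.2 hp.comm.symm)))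
  have hp' := e1 ▸ hp.conj g
  have a1 := e2 c (Pr.v_mem c s)
  have a2 := e2 s (Pr.s_mem c s)
  have a3 : g * c * g⁻¹ ∈ C₁(g * s * g⁻¹) := by
    rw [centralizer_singleton_conj, conj_mem_map_conj]; exact h2
  rw [← conj_mem_map_conj (g := g), Subgroup.map_sup, ← zpowers_conj, ← zpowers_conj, e1]
  generalize g * c * g⁻¹ = c at *
  generalize g * s * g⁻¹ = s at *
  have key : ∀ a ∈ zpowers σ, a ∈ C₁(s) → a = 1 ∨ a = t := fun a ha hs => by
    have := h.dih.conj_of_notMem a2 (h.notMem hp') ha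
    rw [mem_c.1 hs] at this
    by_cases a1 : a = 1
    · exact Or.inl a1
    · exact Or.inr (eq_of_orderOf_eq_two_of_mem_zpowers ha h.tm
        (orderOf_two_of_mul_self (eq_inv_iff_mul_eq_one.1 this) a1) h.t2)
  rw [hp'.mem]
  by_cases hm : c ∈ zpowers σ
  · rcases key c hm a3 with e | e <;> simp [e]
  · rcases key _ (h.dih.mul_mem_of_notMem a1 hm a2 (h.notMem hp'))
      (mul_mem a3 (mem_centralizer_singleton_iff.2 rfl)) with e | e
    · refine Or.inr (Or.inr (Or.inl ?_))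
      rw [← mul_one c, ← hp'.ss, ← mul_assoc, e, one_mul]
    · refine Or.inr (Or.inr (Or.inr ?_))
      rw [← mul_one c, ← hp'.ss, ← mul_assoc, e]

theorem two_dvd (h : DC S σ τ t) : 2 ∣ orderOf σ := h.t2 ▸ orderOf_dvd_of_mem_zpowers h.tm

theorem kappa (h : DC S σ τ t) (h4 : Nat.card (S : Subgroup G) ≠ 4) (hp : Pr v s) :
    ∃ κ, κ * κ = v ∧ κ * s * κ⁻¹ = v * s := by
  obtain ⟨g, e1, e2, e3⟩ := h.pair_conj hp
  obtain ⟨k, hk⟩ := isPElt_of_mem S.isPGroup' h.dih.mem_σ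
  have h5 : 4 ∣ orderOf σ := by
    have a1 := h.two_dvd
    have a2 := h.dih.card_eq
    rw [hk] at a1 a2 ⊢
    rcases k with _ | _ | k
    · simp at a1
    · omega
    · exact ⟨2 ^ k, by ring⟩
  have h6 := orderOf_pow_orderOf_div (orderOf_pos σ).ne' h5
  obtain ⟨κ, hκ⟩ : ∃ κ, σ ^ (orderOf σ / 4) = κ := ⟨_, rfl⟩
  have hm : κ ∈ zpowers σ := hκ ▸ pow_mem (mem_zpowers σ) _
  rw [hκ] at h6
  have h7 : κ * κ = t := eq_of_orderOf_eq_two_of_mem_zpowers (mul_mem hm hm) h.tm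
    (by rw [← pow_two, orderOf_pow, h6]; rfl) h.t2
  have h8 := h.dih.conj_of_notMem e2 e3 (inv_mem hm)
  refine ⟨g⁻¹ * κ * g, ?_, ?_⟩
  · rw [show g⁻¹ * κ * g * (g⁻¹ * κ * g) = g⁻¹ * (κ * κ) * g by group, h7, ← e1]; group
  · have : v = g⁻¹ * (κ * κ) * g := by rw [h7, ← e1]; group
    rw [this]
    calc _ = g⁻¹ * κ * (g * s * g⁻¹ * κ⁻¹ * (g * s * g⁻¹)⁻¹) * g * s := by group
      _ = _ := by rw [h8]; group

theorem eq_four (h : DC S σ τ t) (h4 : Nat.card (S : Subgroup G) = 4) (hp : Pr t s)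
    (hs : s ∈ (S : Subgroup G)) : zpowers t ⊔ zpowers s = S :=
  eq_of_le_of_card_ge (sup_le (zpowers_le.2 h.tS) (zpowers_le.2 hs)) (by rw [h4, hp.card])

theorem cyc (h : DC S σ τ t) (hp : Pr v s) : ∃ y, y * v * y⁻¹ = s ∧ y * s * y⁻¹ = v * s := by
  by_cases h4 : Nat.card (S : Subgroup G) = 4
  swap
  · obtain ⟨κ, a1, a2⟩ := h.kappa h4 hp
    obtain ⟨κ', b1, b2⟩ := h.kappa h4 hp.symm
    have a3 : κ * v * κ⁻¹ = v := by rw [← a1]; group
    have b3 : κ' * s * κ'⁻¹ = s := by rw [← b1]; group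
    refine ⟨κ * κ', ?_, by rw [conj_mul_conj, b3, a2]⟩
    rw [conj_mul_conj, b2, ← conj_mul, a2, a3, hp.comm, mul_assoc, hp.vv, mul_one]
  obtain ⟨g, e1, e2, e3⟩ := h.pair_conj hp
  suffices H : ∀ u, Pr t u → u ∈ (S : Subgroup G) → ∃ y, y * t * y⁻¹ = u ∧ y * u * y⁻¹ = t * u by
    obtain ⟨y, y1, y2⟩ := H _ (e1 ▸ hp.conj g) e2
    rw [← e1] at y1 y2
    refine ⟨g⁻¹ * y * g, ?_, ?_⟩
    · calc _ = g⁻¹ * (y * (g * v * g⁻¹) * y⁻¹) * g := by group
        _ = _ := by rw [y1]; group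
    · calc _ = g⁻¹ * (y * (g * s * g⁻¹) * y⁻¹) * g := by group
        _ = _ := by rw [y2]; group
  intro u hu huS
  have hS := h.eq_four h4 hu huS
  have hc : (S : Subgroup G) ≤ centralizer ((S : Subgroup G) : Set G) := fun a ha b hb =>
    comm_of_forall_mul_self (hS ▸ hu.mul_self) hb ha
  have key : ∀ x ∈ (S : Subgroup G), orderOf x = 2 → x ≠ t → ∃ n, n * t * n⁻¹ = x ∧
      n * u * n⁻¹ ≠ x ∧ (n * u * n⁻¹ = t ∨ n * u * n⁻¹ = u ∨ n * u * n⁻¹ = t * u) := by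
    intro x hx h2 _
    obtain ⟨g, hg⟩ := isConj_iff.1 (h.conj t x h.t2 h2)
    obtain ⟨n, hn, e⟩ := exists_mem_normalizer_conj_eq S (hc h.tS) (hg ▸ hc hx)
    rw [hg] at e
    have a1 := conj_mem_of_mem_normalizer hn huS
    rw [← hS, hu.mem] at a1
    exact ⟨n, e, e ▸ (hu.conj n).ne.symm, a1.resolve_left (hu.conj n).s_ne⟩
  obtain ⟨n, n1, n2, n3⟩ := key u huS hu.hs hu.ne.symm
  obtain ⟨m, m1, m2, m3⟩ := key (t * u) (mul_mem h.tS huS) hu.mul.hs hu.mul.ne.symm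
  have fin : ∀ m : G, m * t * m⁻¹ = t * u → m * u * m⁻¹ = t →
      ∃ y, y * t * y⁻¹ = u ∧ y * u * y⁻¹ = t * u := fun m m1 m2 =>
    ⟨m * m, by rw [conj_mul_conj, m1, ← conj_mul, m1, m2, hu.comm, mul_assoc, hu.vv, mul_one],
      by rw [conj_mul_conj, m2, m1]⟩
  rcases n3 with n3 | n3 | n3
  · rcases m3 with m3 | m3 | m3
    · exact fin m m1 m3
    · exact fin (n * m) (by rw [conj_mul_conj, m1, ← conj_mul, n1, n3, hu.comm])
        (by rw [conj_mul_conj, m3, n3])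
    · exact absurd m3 m2
  · exact absurd n3 n2
  · exact ⟨n, n1, n3⟩

end DC

end Cfsg.Acd

set_option linter.all false in
theorem Cfsg.Rz.Acd_DihA_0 : True := by
  have := @_root_.Cfsg.Acd.Pr.mk.congr_simp.{0}
  have := @_root_.Cfsg.Acd.oc.eq_def.{0}
  have := @_root_.Cfsg.Acd.oc.fun_cases
  have := @_root_.Cfsg.Acd.DC.mk.congr_simp.{0}
  trivial
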