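import Cfsg.Agent.Acd.DihA

/-!
# Dihedral Sylow `2`-subgroups : four-groups have no centralizer of odd order
-/

set_option autoImplicit false
set_option linter.unusedSectionVars false

namespace Cfsg.Acd

open Subgroup

universe u

variable {G : Type u} [Group G] [Finite G]

local notation "C₁(" g ")" => Subgroup.centralizer ({g} : Set _)
local notation "N(" Q ")" => Subgroup.normalizer (SetLike.coe (A := Subgroup _) Q)

theorem isPElt_two_of_mul_self {a : G} (h : a * a = 1) : IsPElt 2 a :=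
  isPElt_iff_pow_eq_one.2 ⟨1, by simpa [pow_two] using h⟩

theorem Shape.mem_of_sup_eq_top {R C : Subgroup G} {y : G} (h : Shape R C y)
    (e : R ⊔ C ⊔ zpowers y = ⊤) {u : G} (h2 : IsPElt 2 u) : u ∈ R ⊔ C := by
  have := h.nR
  have := h.nC
  obtain ⟨a, ha, s, hs, rfl⟩ := (mem_sup_of_le_normalizer'
    (le_normalizer_of_normal (H := R ⊔ C) (K := zpowers y))).1 (e.ge (mem_top u))
  have h1 := h2.map (QuotientGroup.mk' (R ⊔ C))
  rw [map_mul, QuotientGroup.mk'_apply _ a, (QuotientGroup.eq_one_iff a).2 ha, one_mul] at h1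
  refine mul_mem ha ((QuotientGroup.eq_one_iff s).1 (h1.eq_one_of_isPRegular (IsPRegular.map
    (fun e => h.ry.odd ?_) _)))
  exact ((Nat.prime_dvd_prime_iff_eq Nat.prime_two h.ry.prime).1
    (e.trans (orderOf_dvd_of_mem_zpowers hs))).symm

/-- A group `X` with a normal self-centralizing (in a Sylow subgroup) four-group on which it acts
as `S₃` centralizes `O(X)`. -/
theorem core_le_center (hG : GoodIn (⊤ : Subgroup G)) {v s κ : G} (hp : Pr v s)
    [(zpowers v ⊔ zpowers s).Normal] (hv : v ∈ pResidual 2 G) (hs : s ∈ pResidual 2 G)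
    (hκ : IsPElt 2 κ) (hκ' : κ * s * κ⁻¹ = v * s)
    (hc : ∀ c, IsPElt 2 c → c ∈ C₁(v) → c ∈ C₁(s) → c ∈ zpowers v ⊔ zpowers s) :
    pPrimeCore 2 G ≤ center G := by
  have v2 := isPElt_two_of_mul_self hp.vv
  have s2 := isPElt_two_of_mul_self hp.ss
  obtain ⟨R, C, y, hS⟩ := exists_shape_quotient hG fun hn => hp.v_ne
    (v2.eq_one_of_isPRegular (isPRegular_of_mem_pPrimeCore
      (hasNormalPComplement_iff_pResidual_eq.1 hn ▸ hv)))
  have hsurj := QuotientGroup.mk'_surjective (pPrimeCore 2 G)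
  have hone := fun (u : G) => @eq_one_of_mk_pPrimeCore G _ _ u
  have hker := QuotientGroup.ker_mk' (pPrimeCore 2 G)
  set π := QuotientGroup.mk' (pPrimeCore 2 G)
  have h1 := hS.mem_of_mem_pResidual (map_pResidual_le π (mem_map_of_mem π hv)) (v2.map π)
  have h2 := hS.mem_of_mem_pResidual (map_pResidual_le π (mem_map_of_mem π hs)) (s2.map π)
  have hCR : C ≤ centralizer (R : Set (G ⧸ pPrimeCore 2 G)) :=
    hS.cent.le.trans (centralizer_le (SetLike.coe_subset_coe.2 le_sup_left))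
  rcases hS.cases with e | ⟨e1, -, e2, e3, e4, -, e5⟩
  · exfalso
    rcases hS.ry.cases (hG.of_surjective π hsurj _ le_top) with e' | ⟨-, -, z, hz, -, e'⟩
    · have h3 : R ⊔ C ≤ centralizer (R : Set (G ⧸ pPrimeCore 2 G)) :=
        sup_le (fun a ha b hb => comm_of_forall_mul_self e'.1 hb ha) hCR
      have h4 := h3 (hS.mem_of_sup_eq_top e (hκ.map π)) _ h2
      have h5 := congrArg π hκ'
      rw [map_mul, map_mul, map_inv, ← h4, mul_inv_cancel_right, map_mul, right_eq_mul] at h5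
      exact hp.v_ne (hone v v2 h5)
    · rcases e' _ h1 (by rw [← map_mul, hp.vv, map_one]) with a | a
      · exact hp.v_ne (hone v v2 a)
      rcases e' _ h2 (by rw [← map_mul, hp.ss, map_one]) with b | b
      · exact hp.s_ne (hone s s2 b)
      exact hp.mul.s_ne (hone _ (isPElt_two_of_mul_self hp.mul.ss)
        (by rw [map_mul, a, b, mul_self_of_orderOf hz]))
  have hi : π.ker ⊓ (zpowers v ⊔ zpowers s) = ⊥ := by
    rw [hker, inf_comm]
    exact inf_eq_bot_of_isPGroup_of_not_dvd hp.isPGroup (not_dvd_card_pPrimeCore 2 G)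
  have hR : (zpowers v ⊔ zpowers s).map π = R := eq_of_le_of_card_ge (by
    rw [Subgroup.map_sup, MonoidHom.map_zpowers, MonoidHom.map_zpowers]
    exact sup_le (zpowers_le.2 h1) (zpowers_le.2 h2)) (by rw [card_map_of_inf_ker hi, hp.card, e3])
  have hC : C ≤ R := fun c hcC => by
    obtain ⟨c, c2, rfl⟩ := (isPElt_of_mem hS.two hcC).exists_lift hsurj
    have key : ∀ x ∈ zpowers v ⊔ zpowers s, c ∈ C₁(x) := fun x hx => by
      have a1 : c * x * c⁻¹ * x⁻¹ ∈ π.ker ⊓ (zpowers v ⊔ zpowers s) := by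
        refine mem_inf.2 ⟨?_, mul_mem (Normal.conj_mem inferInstance x hx c) (inv_mem hx)⟩
        have := mem_center_iff.1 (e4 hcC) (π x)
        rw [MonoidHom.mem_ker, map_mul, map_mul, map_mul, ← this, map_inv, map_inv]
        group
      rw [hi, mem_bot, mul_inv_eq_one] at a1
      exact mem_c'.2 a1
    rw [← hR]
    exact mem_map_of_mem π (hc c c2 (key v (Pr.v_mem v s)) (key s (Pr.s_mem v s)))
  rw [sup_eq_left.2 hC] at e1
  rw [← hker]
  exact (tight hG.acd2_top π hsurj hp.mul_self hi (hR ▸ hS.ry) e1 e5).2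

namespace DC

variable [IsSimpleGroup G] {S : Sylow 2 G} {σ τ t v s : G}

theorem good_four (h : DC S σ τ t) (hp : Pr v s) : GoodIn N(zpowers v ⊔ zpowers s) :=
  h.good_n (fun e => hp.v_ne (mem_bot.1 (e.le (Pr.v_mem v s)))) (h.ne_top hp.isPGroup)

theorem mem_res (h : DC S σ τ t) (hp : Pr v s) {X : Subgroup G}
    (hX : N(zpowers v ⊔ zpowers s) ≤ X) :
    v ∈ (pResidual 2 X).map X.subtype ∧ s ∈ (pResidual 2 X).map X.subtype := by
  obtain ⟨y, y1, y2⟩ := h.cyc hp
  exact hp.mem_pResidual (hX (le_normalizer (Pr.v_mem v s))) (hX (le_normalizer (Pr.s_mem v s)))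
    (hX (hp.mem_norm (y1 ▸ Pr.s_mem v s) (y2 ▸ mul_mem (Pr.v_mem v s) (Pr.s_mem v s)))) y1 y2

theorem norm_le_c (h : DC S σ τ t) (h4 : Nat.card (S : Subgroup G) ≠ 4) (hp : Pr v s) {w : G}
    (ho : ¬ 2 ∣ orderOf w) (h1 : w ∈ C₁(v)) (h2 : w ∈ C₁(s)) :
    N(zpowers v ⊔ zpowers s) ≤ C₁(w) := by
  obtain ⟨κ, k1, k2⟩ := h.kappa h4 hp
  have k3 : κ * v * κ⁻¹ = v := by rw [← k1]; group
  obtain ⟨⟨v', hv', ev⟩, s', hs', es⟩ := h.mem_res hp le_rfl
  have hκ := hp.mem_norm (by rw [k3]; exact Pr.v_mem v s) (k2 ▸ mul_mem (Pr.v_mem v s) (Pr.s_mem v s))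
  have hc : centralizer ((zpowers v ⊔ zpowers s : Subgroup G) : Set G) = C₁(v) ⊓ C₁(s) := by
    rw [centralizer_sup, centralizer_zpowers, centralizer_zpowers]
  have hW : N(zpowers v ⊔ zpowers s) ≤ N(C₁(v) ⊓ C₁(s) ⊓ oc C₁(v)) := fun x hx =>
    mem_normalizer_of_forall_conj_mem fun a ha => by
      have a1 := conj_mem_of_mem_normalizer (normalizer_le_normalizer_centralizer _ hx)
        (hc.ge ha.1)
      rw [hc] at a1
      exact ⟨a1, (h.mem_o hp.hv).2 ⟨mem_c.1 a1.1, by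
        rw [orderOf_conj_eq]; exact not_two_dvd_orderOf (oc_odd _) ha.2⟩⟩
  obtain ⟨w', hw', ew⟩ := le_map_pPrimeCore (p := 2)
    (inf_le_left.trans (hc.ge.trans (centralizer_le_normalizer _))) hW
    (fun e => oc_odd _ (e.trans (card_dvd_of_le inf_le_right)))
    ⟨⟨h1, h2⟩, (h.mem_o hp.hv).2 ⟨mem_c.1 h1, ho⟩⟩
  have good := (h.good_four hp).top
  have hfour := fun c => @mem_four G _ _ _ S σ τ t v s h hp c
  have hV : (zpowers v ⊔ zpowers s).subgroupOf N(zpowers v ⊔ zpowers s) = zpowers v' ⊔ zpowers s' := by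
    refine map_injective (subtype_injective _) ?_
    rw [subgroupOf_map_subtype, inf_eq_left.2 le_normalizer, Subgroup.map_sup, MonoidHom.map_zpowers,
      MonoidHom.map_zpowers, ev, es]
  replace ev : (v' : G) = v := ev
  replace es : (s' : G) = s := es
  replace ew : (w' : G) = w := ew
  have hp' : Pr v' s' := ⟨by rw [← orderOf_coe, ev]; exact hp.hv,
    by rw [← orderOf_coe, es]; exact hp.hs,
    Subtype.ext (by rw [coe_mul, coe_mul, ev, es]; exact hp.comm),
    fun e => hp.ne (ev.symm.trans ((congrArg Subtype.val e).trans es))⟩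
  have : (zpowers v' ⊔ zpowers s').Normal := hV ▸ normal_in_normalizer
  have hz := core_le_center good hp' (κ := ⟨κ, hκ⟩) hv' hs'
    (isPElt_coe_iff.1 (isPElt_iff_pow_eq_one.2 ⟨2, by
      change κ ^ 4 = 1
      rw [show κ ^ 4 = κ * κ * (κ * κ) by simp only [pow_succ, pow_zero, one_mul, mul_assoc], k1,
        hp.vv]⟩))
    (Subtype.ext (by simp only [coe_mul, coe_inv, ev, es]; exact k2)) fun c c2 c3 c4 => by
      rw [← hV, mem_subgroupOf]
      refine hfour c (isPElt_coe_iff.2 c2) ?_ ?_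
      · simpa only [mem_c, coe_mul, coe_inv, ev] using congrArg Subtype.val (mem_c.1 c3)
      · simpa only [mem_c, coe_mul, coe_inv, es] using congrArg Subtype.val (mem_c.1 c4)
  intro x hx
  simpa only [mem_centralizer_singleton_iff, coe_mul, ew] using
    congrArg Subtype.val (mem_center_iff.1 (hz hw') ⟨x, hx⟩)

theorem eq_one_of_ne_four (h : DC S σ τ t) (h4 : Nat.card (S : Subgroup G) ≠ 4) (hp : Pr v s)
    {w : G} (ho : ¬ 2 ∣ orderOf w) (h1 : w ∈ C₁(v)) (h2 : w ∈ C₁(s)) : w = 1 := by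
  by_contra hw
  obtain ⟨κ, k1, k2⟩ := h.kappa h4 hp
  have k3 : κ * v * κ⁻¹ = v := by rw [← k1]; group
  have a1 := h.norm_le_c h4 hp ho h1 h2
  have a2 := a1 (hp.mem_norm (by rw [k3]; exact Pr.v_mem v s)
    (k2 ▸ mul_mem (Pr.v_mem v s) (Pr.s_mem v s)))
  have k4 : κ * s * (κ * s) = 1 := by
    calc _ = κ * s * κ⁻¹ * (κ * κ) * s := by group
      _ = 1 := by rw [k2, k1, hp.comm, mul_assoc s, hp.vv, mul_one, hp.ss]
  have k5 : κ * s ≠ s * κ := fun e => hp.v_ne (by
    rwa [e, mul_inv_cancel_right, right_eq_mul] at k2)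
  have hp' : Pr v (κ * s) := ⟨hp.hv, orderOf_two_of_mul_self k4 fun e => k5 (by
      rw [e, mul_eq_one_comm.1 e]),
    by rw [← mul_assoc, ← mul_inv_eq_iff_eq_mul.1 k3, mul_assoc, hp.comm, mul_assoc], fun e => k5 (by
      have : κ = v * s := by rw [e, mul_assoc, hp.ss, mul_one]
      rw [this, mul_assoc, hp.ss, ← mul_assoc, ← hp.comm, mul_assoc, hp.ss])⟩
  have a3 := h.norm_le_c h4 hp' ho h1 (mem_c.2 (by
    rw [conj_mul_conj, mem_c.1 h2, mem_c'.1 a2]))
  have a4 := (h.good_c hw).commute_of_mem_pResidual (h.mem_res hp' a3).2 (h.mem_res hp a1).2 k4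
    hp.ss (by
      rw [mul_assoc, hp.ss, mul_one]
      exact isPElt_iff_pow_eq_one.2 ⟨2, by
        change κ ^ 4 = 1
        rw [show κ ^ 4 = κ * κ * (κ * κ) by simp only [pow_succ, pow_zero, one_mul, mul_assoc], k1,
          hp.vv]⟩)
  exact k5 (mul_right_cancel (b := s) (by rw [a4.eq, mul_assoc]))

end DC

end Cfsg.Acd
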