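import Cfsg.Agent.Acd.DihB

/-!
# Four-groups as Sylow `2`-subgroups
-/

set_option autoImplicit false
set_option linter.unusedSectionVars false

namespace Cfsg.Acd

open Subgroup

universe u

variable {G : Type u} [Group G] [Finite G]

local notation "C₁(" g ")" => Subgroup.centralizer ({g} : Set _)
local notation "N(" Q ")" => Subgroup.normalizer (SetLike.coe (A := Subgroup _) Q)

theorem exists_inverted {Y : Subgroup G} {x : G} (hx : x * x = 1) (hn : x ∈ N(Y))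
    (hc : ¬ Y ≤ C₁(x)) : ∃ z ∈ Y, z ≠ 1 ∧ x * z * x⁻¹ = z⁻¹ := by
  obtain ⟨a, ha, hc⟩ := SetLike.not_le_iff_exists.1 hc
  refine ⟨a⁻¹ * (x * a * x⁻¹), mul_mem (inv_mem ha) (conj_mem_of_mem_normalizer hn ha),
    fun e => hc (mem_c.2 (inv_mul_eq_one.1 e).symm), ?_⟩
  calc _ = x * a⁻¹ * x⁻¹ * (x * x) * a * (x * x)⁻¹ := by group
    _ = _ := by rw [hx]; group

theorem oc_sup {Y T : Subgroup G} (h : HasNormalPComplement 2 Y) (hT : IsPGroup 2 T) (hle : T ≤ Y)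
    (hi : ¬ 2 ∣ T.relIndex Y) : oc Y ⊔ T = Y := by
  obtain ⟨R, rfl⟩ := exists_sylow_of_not_dvd_relIndex hT hle hi
  rw [oc, ← Subgroup.map_sup, (hasNormalPComplement_iff_sup_eq_top R).1 h,
    ← MonoidHom.range_eq_map, range_subtype]

theorem fix_conj {x a : G} (g : G) (h : x * a * x⁻¹ = a) :
    g * x * g⁻¹ * (g * a * g⁻¹) * (g * x * g⁻¹)⁻¹ = g * a * g⁻¹ := by
  calc _ = g * (x * a * x⁻¹) * g⁻¹ := by group
    _ = _ := by rw [h]

theorem inv_conj {x a : G} (g : G) (h : x * a * x⁻¹ = a⁻¹) :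
    g * x * g⁻¹ * (g * a * g⁻¹) * (g * x * g⁻¹)⁻¹ = (g * a * g⁻¹)⁻¹ := by
  calc _ = g * (x * a * x⁻¹) * g⁻¹ := by group
    _ = _ := by rw [h]; group

theorem conj_of_mul {v s a b : G} (hv : v * v = 1) (h : v * s * a * (v * s)⁻¹ = b) :
    s * a * s⁻¹ = v * b * v⁻¹ := by
  calc _ = v * v * (s * a * s⁻¹) * (v * v)⁻¹ := by rw [hv]; simp
    _ = _ := by rw [← h]; group

namespace DC

variable [IsSimpleGroup G] {S : Sylow 2 G} {σ τ t v s v' s' : G}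

theorem nilp_of_no_pair (h : DC S σ τ t) {Y : Subgroup G} {x : G} (hx : orderOf x = 2)
    (hxY : x ∈ Y) (hY : ∀ s ∈ Y, ¬ Pr x s) :
    HasNormalPComplement 2 Y ∧ (oc Y ≤ C₁(x) → Y ≤ C₁(x)) := by
  obtain ⟨T, hT, h1, h2, h3⟩ := exists_sylow_le_of_le
    (isPElt_iff_isPGroup_zpowers.1 (isPElt_two_of_orderOf hx)) (zpowers_le.2 hxY)
  have xT := zpowers_le.1 h1
  have h0 : T ≠ ⊥ := fun e => by
    rw [mem_bot.1 (e.le xT), orderOf_one] at hx; omega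
  obtain ⟨z, hz, z2⟩ := exists_mem_orderOf_eq_prime (p := 2) (dvd_card_of_isPGroup_of_ne_bot
    (hT.to_le inf_le_left) (inf_centralizer_ne_bot_of_isPGroup hT hT le_normalizer h0))
  have e : x = z := by
    by_contra e
    exact hY z (h2 hz.1) ⟨hx, z2, hz.2 x xT, e⟩
  have hc : T ≤ C₁(x) := fun a ha => mem_centralizer_singleton_iff.2 (e ▸ hz.2 a ha)
  obtain ⟨g, g1, g2⟩ := h.exists_conj_le hx hT hc
  have hle : T ≤ zpowers (g⁻¹ * σ * g⁻¹⁻¹) := fun a ha => by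
    rw [zpowers_conj, mem_map_conj]
    by_contra hn
    refine hY a (h2 ha) ?_
    have := (h.pr (g2 a ha) (by simpa using hn)).conj g⁻¹
    rw [← g1] at this
    simpa [mul_assoc] using this
  have hp : HasNormalPComplement 2 Y := by
    obtain ⟨R, rfl⟩ := exists_sylow_of_not_dvd_relIndex hT h2 h3
    have := isCyclic_of_le hle
    have : IsCyclic (R : Subgroup Y) :=
      isCyclic_of_surjective _ ((R : Subgroup Y).equivMapOfInjective _ Y.subtype_injective).symm.surjective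
    exact hasNormalPComplement_two_of_isCyclic R
  exact ⟨hp, fun e => (oc_sup hp hT h2 h3).ge.trans (sup_le e hc)⟩

theorem pr0 (h : DC S σ τ t) : Pr t τ := h.pr h.dih.mem_τ h.dih.notMem

theorem exists_pr (h : DC S σ τ t) (hv : orderOf v = 2) : ∃ s, Pr v s := by
  obtain ⟨g, hg⟩ := isConj_iff.1 (h.conj t v h.t2 hv)
  exact ⟨_, hg ▸ h.pr0.conj g⟩

theorem c_eq (h : DC S σ τ t) : oc C₁(t) ⊔ S = C₁(t) :=
  oc_sup (h.nilp h.t2) S.isPGroup' h.le_c fun e =>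
    S.not_dvd_index (e.trans (relIndex_dvd_index_of_le h.le_c))

theorem sq_four (h : DC S σ τ t) (h4 : Nat.card (S : Subgroup G) = 4) {x : G} (hx : IsPElt 2 x) :
    x * x = 1 := by
  obtain ⟨g, hg⟩ := hx.exists_conj_mem S
  have := h.pr0.mul_self _ ((h.eq_four h4 h.pr0 h.dih.mem_τ).ge hg)
  rwa [conj_mul, conj_eq_one_iff] at this

theorem not_dvd_four (h4 : Nat.card (S : Subgroup G) = 4) (hp : Pr v s) {Y : Subgroup G}
    (hv : v ∈ Y) (hs : s ∈ Y) : ¬ 2 ∣ (zpowers v ⊔ zpowers s).relIndex Y := fun e => by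
  have h1 := (zpowers v ⊔ zpowers s).card_mul_index
  rw [hp.card, ← (S : Subgroup G).card_mul_index, h4, mul_right_inj' (by norm_num)] at h1
  exact S.not_dvd_index (h1 ▸ e.trans
    (relIndex_dvd_index_of_le (sup_le (zpowers_le.2 hv) (zpowers_le.2 hs))))

theorem pair_conj4 (h : DC S σ τ t) (h4 : Nat.card (S : Subgroup G) = 4) (hp : Pr v s)
    (hp' : Pr v' s') :
    ∃ g, g * v * g⁻¹ = v' ∧ (g * s * g⁻¹ = s' ∨ g * s * g⁻¹ = v' * s') := by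
  obtain ⟨g, a1, a2, a3⟩ := h.pair_conj hp
  obtain ⟨k, b1, b2, b3⟩ := h.pair_conj hp'
  have c := h.pr b2 b3
  rw [← h.eq_four h4 c b2, c.mem] at a2
  refine ⟨k⁻¹ * g, by rw [conj_mul_conj, a1, ← b1]; group, ?_⟩
  rcases a2 with e | e | e | e
  · exact absurd (e ▸ one_mem _) a3
  · exact absurd (e ▸ h.tm) a3
  · exact Or.inl (by rw [conj_mul_conj, e]; group)
  · exact Or.inr (by rw [conj_mul_conj, e, ← b1]; group)

theorem eig_conj (h : DC S σ τ t) (h4 : Nat.card (S : Subgroup G) = 4) (hp : Pr v s)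
    (hp' : Pr v' s') : ∃ g : G, ∀ a, v * a * v⁻¹ = a → s * a * s⁻¹ = a⁻¹ →
      v' * (g * a * g⁻¹) * v'⁻¹ = g * a * g⁻¹ ∧ s' * (g * a * g⁻¹) * s'⁻¹ = (g * a * g⁻¹)⁻¹ := by
  obtain ⟨g, e1, e2⟩ := h.pair_conj4 h4 hp hp'
  refine ⟨g, fun a a1 a2 => ?_⟩
  have b1 := e1 ▸ fix_conj g a1
  have b2 := inv_conj g a2
  refine ⟨b1, e2.elim (fun e => e ▸ b2) fun e => (conj_of_mul hp'.vv (e ▸ b2)).trans ?_⟩
  rw [← conj_inv, b1]

theorem mem_oc_of_inv (h4 : Nat.card (S : Subgroup G) = 4) {Y : Subgroup G} (hY : GoodIn Y)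
    (hp : Pr v s) (hv : v ∈ Y) (hs : s ∈ Y) {a : G} (ha : a ∈ Y) (ho : ¬ 2 ∣ orderOf a)
    (hi : v * a * v⁻¹ = a⁻¹) : a ∈ oc Y := by
  obtain ⟨R, hR⟩ := exists_sylow_of_not_dvd_relIndex hp.isPGroup
    (sup_le (zpowers_le.2 hv) (zpowers_le.2 hs)) (not_dvd_four h4 hp hv hs)
  have := hY.isSolvable
  have h1 : (⟨v, hv⟩ : Y) ∈ pPrimePCore 2 Y :=
    (isPSolvable_of_isSolvable 2 Y).centralizer_sylow_le R fun b hb => Subtype.ext
      (comm_of_forall_mul_self hp.mul_self (hR.le (mem_map_of_mem _ hb)) (Pr.v_mem v s))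
  have ho' : ¬ 2 ∣ orderOf (⟨a, ha⟩ : Y) := by rwa [← orderOf_coe]
  have h2 : (⟨a, ha⟩ : Y) ∈ pPrimePCore 2 Y := mem_of_sq_mem ho' (by
    have := mul_mem (Normal.conj_mem inferInstance _ h1 ⟨a, ha⟩) (inv_mem h1)
    convert this using 1
    refine Subtype.ext ?_
    change a * a = a * v * a⁻¹ * v⁻¹
    rw [show a * v * a⁻¹ * v⁻¹ = a * (v * a * v⁻¹)⁻¹ by group, hi, inv_inv])
  exact ⟨⟨a, ha⟩, (QuotientGroup.eq_one_iff _).1 ((isPElt_of_mem (isPGroup_pCore 2 _)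
    h2).eq_one_of_isPRegular (IsPRegular.map ho' _)), rfl⟩

theorem exists_fpf (h : DC S σ τ t) (h4 : Nat.card (S : Subgroup G) = 4) (hp : Pr v s) {w : G}
    (w1 : w ≠ 1) (wv : w ∈ C₁(v)) (ws : w ∈ C₁(s)) : ∃ v' s', Pr v' s' ∧ w ∈ C₁(v') ∧ w ∈ C₁(s') ∧
      ∀ a ∈ C₁(w), ¬ 2 ∣ orderOf a → v' * a * v'⁻¹ = a → s' * a * s'⁻¹ = a⁻¹ → a = 1 := by
  by_contra H
  push Not at H
  have vw : v ∈ C₁(w) := mem_c.2 (mem_c'.1 wv)
  have sw : s ∈ C₁(w) := mem_c.2 (mem_c'.1 ws)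
  have wvs : w ∈ C₁(v * s) := mem_c'.2 (mem_c.1 (mul_mem vw sw))
  obtain ⟨a, a1, a2, a3, a4, a5⟩ := H v s hp wv ws
  obtain ⟨b, b1, b2, b3, b4, b5⟩ := H s v hp.symm ws wv
  obtain ⟨c, c1, c2, c3, c4, c5⟩ := H (v * s) v hp.mul.symm wvs wv
  have hX := h.good_c w1
  have c6 : s * c * s⁻¹ = c⁻¹ := (conj_of_mul hp.vv c3).trans c4
  have a6 : v * s * a * (v * s)⁻¹ = a⁻¹ := by rw [conj_mul_conj, a4, ← conj_inv, a3]
  have b6 : v * s * b * (v * s)⁻¹ = b⁻¹ := by rw [conj_mul_conj, b3, b4]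
  have a7 := mem_oc_of_inv h4 hX hp.symm sw vw a1 a2 a4
  have b7 := mem_oc_of_inv h4 hX hp vw sw b1 b2 b4
  have c7 := mem_oc_of_inv h4 hX hp vw sw c1 c2 c4
  have k := fun {x : G} (hx : orderOf x = 2) (hx' : x ∈ C₁(w)) {a b : G} =>
    hX.commute_of_inv hx (oc_le _) hx' (le_norm_oc _ hx') (oc_odd _) (a := a) (b := b)
  exact hX.four_three hp.hv hp.hs hp.comm vw sw a1 b1 c1 a2 b2 c2 a5 b5 c5
    (k hp.mul.hs (mul_mem vw sw) a7 b7 a6 b6) (k hp.hs sw a7 c7 a4 c6) (k hp.hv vw b7 c7 b4 c4)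
    a3 b4 c4 a4 b3 c6

theorem exists_three (h : DC S σ τ t) (h4 : Nat.card (S : Subgroup G) = 4) (hp : Pr v s) {w : G}
    (hw : (orderOf w).Prime) (w2 : orderOf w ≠ 2) (wv : w ∈ C₁(v)) (ws : w ∈ C₁(s)) {a : G}
    (a1 : a ≠ 1) (a2 : ¬ 2 ∣ orderOf a) (a3 : v * a * v⁻¹ = a) (a4 : s * a * s⁻¹ = a⁻¹) :
    orderOf w = 3 ∧ ∃ n, ¬ 3 ∣ n ∧ ∀ v s : G, Pr v s → ∀ a, ¬ 2 ∣ orderOf a → v * a * v⁻¹ = a →
      s * a * s⁻¹ = a⁻¹ → a ^ n = 1 := by
  obtain ⟨v', s', hp', wv', ws', hf⟩ := h.exists_fpf h4 hp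
    (fun e => by rw [e, orderOf_one] at hw; exact Nat.not_prime_one hw) wv ws
  have hX := h.good_c hp'.v_ne
  have sv : s' ∈ C₁(v') := mem_centralizer_singleton_iff.2 hp'.comm.symm
  obtain ⟨hc, hm⟩ := hX.mem_commutator_invol hp'.hs (oc_le _) sv (le_norm_oc _ sv) (oc_odd _)
  have hle := commutator_zpowers_le (le_norm_oc _ sv)
  simp only [h.mem_o hp'.hv] at hm
  generalize ⁅oc C₁(v'), zpowers s'⁆ = K at hc hm hle
  have wK : w ∈ N(K) := mem_normalizer_of_forall_conj_mem fun b hb => by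
    obtain ⟨⟨b1, b2⟩, b3⟩ := (hm b).1 hb
    have c1 := fix_conj w b1
    have c3 := inv_conj w b3
    rw [mem_c'.1 wv'] at c1
    rw [mem_c'.1 ws'] at c3
    exact (hm _).2 ⟨⟨c1, by rwa [orderOf_conj_eq]⟩, c3⟩
  have tr : ∀ v s : G, Pr v s → ∀ a, ¬ 2 ∣ orderOf a → v * a * v⁻¹ = a → s * a * s⁻¹ = a⁻¹ →
      ∃ g, g * a * g⁻¹ ∈ K := fun v s hp a a2 a3 a4 => by
    obtain ⟨g, hg⟩ := h.eig_conj h4 hp hp'
    exact ⟨g, (hm _).2 ⟨⟨(hg a a3 a4).1, by rwa [orderOf_conj_eq]⟩, (hg a a3 a4).2⟩⟩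
  have key : ∀ p, p.Prime → p ∣ Nat.card K → p = 7 ∧ orderOf w = 3 := fun p pp hd => by
    have := Fact.mk pp
    obtain ⟨x, hx, ox⟩ := exists_mem_orderOf_eq_prime hd
    have h1 : zpowers x ≤ (pCore p K).map K.subtype := le_map_pCore (zpowers_le.2 hx)
      (fun b hb => c_le_norm x (mem_centralizer_singleton_iff.2 (hc b hb x hx)))
      (isPElt_iff_isPGroup_zpowers.1 ⟨1, by rw [ox, pow_one]⟩)
    have h2 : IsPGroup p ((pCore p K).map K.subtype) := (isPGroup_pCore p K).map _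
    have h3 := normalizer_le_normalizer_map_of_characteristic K (pCore p K) wK
    have h5 : (pCore p K).map K.subtype ≤ K := map_subtype_le _
    generalize (pCore p K).map K.subtype = P at h1 h2 h3 h5
    have h6 : ∀ b ∈ P, b ∈ C₁(w) → b = 1 := fun b hb hb' =>
      hf b hb' ((hm b).1 (h5 hb)).1.2 ((hm b).1 (h5 hb)).1.1 ((hm b).1 (h5 hb)).2
    have x1 : x ≠ 1 := fun e => by rw [e, orderOf_one] at ox; exact pp.one_lt.ne ox
    by_cases e : orderOf w = p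
    · refine (inf_centralizer_ne_bot_of_isPGroup h2
        (isPElt_iff_isPGroup_zpowers.1 ⟨1, by rw [e, pow_one]⟩) (zpowers_le.2 h3)
        (fun e => x1 (mem_bot.1 (e.le (h1 (mem_zpowers x)))))
        ((eq_bot_iff_forall _).2 fun b hb => h6 b hb.1 ?_)).elim
      exact centralizer_zpowers w ▸ hb.2
    · have := hX.seven_of_prime pp (fun e => oc_odd _ ((e ▸ hd).trans (card_dvd_of_le hle))) hw w2 e
        h2 (h5.trans (hle.trans (oc_le _))) wv' h3 fun hc => x1 (h6 x (h1 (mem_zpowers x))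
          (mem_centralizer_singleton_iff.2 (hc x (h1 (mem_zpowers x)))))
      exact ⟨this.1, this.2.1⟩
  obtain ⟨g, hg⟩ := tr v s hp a a2 a3 a4
  obtain ⟨p, pp, hd⟩ := Nat.exists_prime_and_dvd (n := Nat.card K) fun e =>
    a1 (by simpa [card_eq_one.1 e] using hg)
  refine ⟨(key p pp hd).2, Nat.card K, fun e => absurd (key 3 Nat.prime_three e).1 (by norm_num),
    fun v s hp a a2 a3 a4 => ?_⟩
  obtain ⟨g, hg⟩ := tr v s hp a a2 a3 a4
  have := orderOf_dvd_iff_pow_eq_one.1 (K.orderOf_dvd_natCard hg)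
  rwa [conj_pow, conj_eq_one_iff] at this

theorem exists_three_inv (h : DC S σ τ t) (h4 : Nat.card (S : Subgroup G) = 4) {w : G}
    (w3 : orderOf w = 3) :
    ∃ x, orderOf x = 2 ∧ ∃ Q : Subgroup G, IsPGroup 3 Q ∧ x ∈ N(Q) ∧ ¬ Q ≤ C₁(x) := by
  by_contra H
  push Not at H
  have hp := hasNormalPComplement_iff_forall_mem.1 <|
    hasNormalPComplement_of_forall_isPElt (p := 3) (G := G) fun Q hQ h0 q hq hq3 x hx hxq => by
      by_contra hc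
      by_cases q2 : q = 2
      · subst q2
        exact hc fun b hb => mem_centralizer_singleton_iff.1 (H x (orderOf_two_of_mul_self
          (h.sq_four h4 hxq) fun e => hc (e ▸ one_mem _)) Q hQ hx hb)
      · exact absurd ((h.good_n h0 (h.ne_top hQ)).seven Nat.prime_three hq.out (by norm_num) q2 hq3
          hQ hxq le_normalizer hx hx hc).1 (by norm_num)
  rcases IsSimpleGroup.eq_bot_or_eq_top_of_normal (pPrimeCore 3 G) inferInstance with e | e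
  · exact h.pr0.v_ne (mem_bot.1 (e.le (hp t (by rw [IsPRegular, h.t2]; norm_num))))
  · exact isPRegular_of_mem_pPrimeCore (e.ge (mem_top w)) w3.symm.dvd

theorem false_of_three (h : DC S σ τ t) (h4 : Nat.card (S : Subgroup G) = 4) (hp : Pr v s) {w : G}
    (w3 : orderOf w = 3) (wv : w ∈ C₁(v)) (ws : w ∈ C₁(s)) {n : ℕ} (hn : ¬ 3 ∣ n)
    (H : ∀ v s : G, Pr v s → ∀ a, ¬ 2 ∣ orderOf a → v * a * v⁻¹ = a → s * a * s⁻¹ = a⁻¹ →
      a ^ n = 1) : False := by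
  have h3 : ∀ a : G, IsPElt 3 a → a ^ n = 1 → a = 1 := fun a ha e =>
    ha.eq_one_of_isPRegular fun d => hn (d.trans (orderOf_dvd_of_pow_eq_one e))
  have A : ∀ {X Y : Subgroup G} {x s : G}, GoodIn X → Y ≤ X → x ∈ X → Pr x s → x ∈ N(Y) →
      s ∈ N(Y) → ¬ 2 ∣ Nat.card Y → ∀ z ∈ Y, IsPElt 3 z → x * z * x⁻¹ = z⁻¹ → z = 1 :=
    fun hX hY hx hp nx ns ho z hz z3 hi => h3 z z3 (hp.pow_eq_one hX hY hx nx ns ho
      (fun u hu a ha a1 a2 => H u _ (hu.elim (· ▸ hp.symm) (· ▸ hp.mul.symm)) a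
        (not_two_dvd_orderOf ho ha) a1 a2) hz hi)
  have o3 : ∀ {a : G}, IsPElt 3 a → ¬ 2 ∣ orderOf a := fun ⟨k, hk⟩ e => by
    have := Nat.prime_two.dvd_of_dvd_pow (hk ▸ e); omega
  obtain ⟨x, x2, hQ⟩ := h.exists_three_inv h4 w3
  obtain ⟨Q, ⟨hQ, xn, xc⟩, hmax⟩ := Set.Finite.exists_maximal
    (Set.toFinite {Q : Subgroup G | IsPGroup 3 Q ∧ x ∈ N(Q) ∧ ¬ Q ≤ C₁(x)}) hQ
  have xx := mul_self_of_orderOf x2
  have hx2 := isPElt_iff_isPGroup_zpowers.1 (isPElt_two_of_orderOf x2)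
  have hN := h.good_n (fun e => xc (e.le.trans bot_le)) (h.ne_top hQ)
  have oQ : ¬ 2 ∣ Nat.card Q := fun e => by
    obtain ⟨a, ha, a2⟩ := exists_mem_orderOf_eq_prime e
    exact o3 (isPElt_of_mem hQ ha) a2.symm.dvd
  obtain ⟨z, hz, z1, zi⟩ := exists_inverted xx xn xc
  have hm := (hN.mem_commutator_invol x2 le_normalizer xn xn oQ).2
  by_cases hC : ∃ c ∈ Q, c ≠ 1 ∧ x * c * x⁻¹ = c
  · obtain ⟨c, hc, c1, cx⟩ := hC
    obtain ⟨⟨ζ, ζ1, ζ2⟩, ζ3⟩ := ne_bot_iff_exists_ne_one.1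
      (inf_centralizer_ne_bot_of_isPGroup (hQ.to_le (commutator_zpowers_le xn)) hQ
        (normalizer_commutator_ge_left _ _) fun e => z1 (mem_bot.1 (e.le ((hm z).2 ⟨hz, zi⟩))))
    replace ζ3 : ζ ≠ 1 := fun e => ζ3 (Subtype.ext e)
    obtain ⟨ζ4, ζ5⟩ := (hm ζ).1 ζ1
    obtain ⟨s₀, hp₀⟩ := h.exists_pr x2
    have s1 : s₀ ∈ C₁(x) := mem_centralizer_singleton_iff.2 hp₀.comm.symm
    obtain ⟨P, P1, P2, P3, P4⟩ := (isCoprimeAction_of_isPGroup_left (zpowers_le.2 (le_norm_oc _ s1))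
      (isPElt_iff_isPGroup_zpowers.1 (isPElt_two_of_orderOf hp₀.hs)) (oc_odd _)).exists_invariant_sylow 3
    have P5 : P ≤ C₁(s₀) := by
      by_contra hc
      obtain ⟨b, hb, b1, bi⟩ := exists_inverted hp₀.ss (zpowers_le.1 P4) hc
      have := (h.mem_o x2).1 (P1 hb)
      exact b1 (h3 b (isPElt_of_mem P2 hb) (H x s₀ hp₀ b this.2 this.1 bi))
    have c3 := isPElt_of_mem hQ hc
    obtain ⟨g, hg, e⟩ := exists_map_conj_le_of_not_dvd_relIndex P2 P3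
      (isPElt_iff_isPGroup_zpowers.1 c3) (zpowers_le.2 ((h.mem_o x2).2 ⟨cx, o3 c3⟩))
    have e1 := fix_conj g⁻¹ (mem_c.1 (P5 (map_conj_le_iff.1 e c (mem_zpowers c))))
    have hp₁ := hp₀.conj g⁻¹
    rw [mem_c'.1 (inv_mem (oc_le _ hg))] at hp₁
    rw [show g⁻¹ * (g * c * g⁻¹) * g⁻¹⁻¹ = c by group] at e1
    have hX := h.good_c c1
    have b1 := mem_c'.2 cx
    have b2 := mem_c'.2 e1
    have ζ6 := isPElt_of_mem hQ ζ4
    exact ζ3 (A hX (oc_le _) b1 hp₁ (le_norm_oc _ b1) (le_norm_oc _ b2) (oc_odd _) ζ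
      (mem_oc_of_inv h4 hX hp₁ b1 b2 (mem_centralizer_singleton_iff.2 (ζ2 c hc).symm) (o3 ζ6) ζ5)
      ζ6 ζ5)
  push Not at hC
  have hnil := (h.nilp_of_no_pair x2 xn fun s hs hp => z1 (A hN le_normalizer xn hp xn hs oQ z hz
    (isPElt_of_mem hQ hz) zi)).1
  obtain ⟨P, P1, P2, P3, P4, P5⟩ := (isCoprimeAction_of_isPGroup_left
    (zpowers_le.2 (le_norm_oc _ xn)) hx2 (oc_odd _)).exists_invariant_sylow_ge
    (fun a ha => (mem_oc hnil).2 ⟨le_normalizer ha, o3 (isPElt_of_mem hQ ha)⟩) hQ (zpowers_le.2 xn)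
  obtain rfl : Q = P := le_antisymm P1 (hmax ⟨P3, zpowers_le.1 P5, fun e => xc (P1.trans e)⟩ P1)
  obtain ⟨R, hR⟩ := hQ.exists_le_sylow
  have eR : Q = R := by
    by_contra e
    obtain ⟨y, ⟨y1, y2⟩, y3⟩ := SetLike.exists_of_lt
      (lt_inf_normalizer_of_isPGroup R.isPGroup' (lt_of_le_of_ne hR e))
    have y4 := isPElt_of_mem R.isPGroup' y1
    obtain ⟨g, hg, e⟩ := exists_map_conj_le_of_not_dvd_relIndex hQ P4
      (isPElt_iff_isPGroup_zpowers.1 y4) (zpowers_le.2 ((mem_oc hnil).2 ⟨y2, o3 y4⟩))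
    exact y3 ((mem_normalizer_iff.1 (oc_le _ hg) y).2 (map_conj_le_iff.1 e y (mem_zpowers y)))
  obtain ⟨g, hg⟩ := IsPElt.exists_conj_mem (p := 3) ⟨1, w3⟩ R
  rw [← eR] at hg
  have b1 := mem_c'.2 (fix_conj g (mem_c.1 wv))
  have b2 := mem_c'.2 (fix_conj g (mem_c.1 ws))
  have c1 : g * w * g⁻¹ ≠ 1 := fun e => by
    rw [conj_eq_one_iff.1 e, orderOf_one] at w3; omega
  have hp' := hp.conj g
  generalize g * w * g⁻¹ = c at *
  have ci := ((hm c).1 ((commutator_eq_of_fpf xn fun a ha e => by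
    by_contra a1; exact hC a ha a1 e).ge hg)).2
  have xN : x ∈ N(zpowers c) := mem_norm_zpowers (ci ▸ inv_mem (mem_zpowers c))
  obtain ⟨k, hk, e⟩ := exists_map_conj_le_of_not_dvd_relIndex hp'.isPGroup
    (not_dvd_four h4 hp' (c_le_norm c b1) (c_le_norm c b2)) hx2 (zpowers_le.2 xN)
  exact hC c hg c1 (mem_c'.1 ((mem_normalizer_iff.1 (norm_zpowers_le c hk) x).2
    (sup_le (zpowers_le.2 b1) (zpowers_le.2 b2) (map_conj_le_iff.1 e x (mem_zpowers x)))))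

end DC

end Cfsg.Acd
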