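import Cfsg.Agent.Acd.DihC

/-!
# Dihedral Sylow `2`-subgroups : centralizers
-/

set_option autoImplicit false
set_option linter.unusedSectionVars false

namespace Cfsg.Acd

open Subgroup

universe u

variable {G : Type u} [Group G] [Finite G]

local notation "C₁(" g ")" => Subgroup.centralizer ({g} : Set _)
local notation "N(" Q ")" => Subgroup.normalizer (SetLike.coe (A := Subgroup _) Q)

namespace DC

variable [IsSimpleGroup G] {S : Sylow 2 G} {σ τ t v s : G}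

theorem card_c (h : DC S σ τ t) (hv : orderOf v = 2) : Nat.card C₁(v) = Nat.card C₁(t) := by
  obtain ⟨g, hg⟩ := h.exists_conj hv
  rw [← hg, centralizer_singleton_conj, card_map_conj]

theorem second (h : DC S σ τ t) (h4 : Nat.card (S : Subgroup G) = 4) (hc : oc C₁(t) ≤ C₁(τ)) :
    ∀ u ∈ (S : Subgroup G), u ≠ 1 → C₁(u) = centralizer ((S : Subgroup G) : Set G) := by
  intro u hu u1
  have hS := h.eq_four h4 h.pr0 h.dih.mem_τ
  have h1 : C₁(t) ≤ centralizer ((S : Subgroup G) : Set G) := h.c_eq.ge.trans (sup_le (by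
    rw [← hS, centralizer_sup, centralizer_zpowers, centralizer_zpowers]
    exact le_inf (oc_le _) hc) fun a ha b hb => comm_of_forall_mul_self (hS ▸ h.pr0.mul_self) hb ha)
  refine (eq_of_le_of_card_ge (centralizer_le (Set.singleton_subset_iff.2 hu)) ?_).symm
  rw [h.card_c (orderOf_two_of_mul_self (h.pr0.mul_self u (hS.ge hu)) u1)]
  exact card_le_of_le h1

theorem eq_one_or (h : DC S σ τ t) :
    (∀ v s : G, Pr v s → ∀ w, ¬ 2 ∣ orderOf w → w ∈ C₁(v) → w ∈ C₁(s) → w = 1) ∨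
      Nat.card (S : Subgroup G) = 4 ∧ oc C₁(t) ≤ C₁(τ) := by
  by_contra H
  rw [not_or, not_and] at H
  refine H.1 fun v s hp w ho wv ws => ?_
  by_contra w1
  have h4 : Nat.card (S : Subgroup G) = 4 := by
    by_contra h4
    exact w1 (h.eq_one_of_ne_four h4 hp ho wv ws)
  obtain ⟨a, ha, a1, a2⟩ := exists_inverted h.pr0.ss (le_norm_oc _ (h.le_c h.dih.mem_τ)) (H.2 h4)
  rw [h.mem_o h.t2] at ha
  obtain ⟨g, hg⟩ := h.eig_conj h4 h.pr0 hp
  obtain ⟨p, pp, hd⟩ := Nat.exists_prime_and_dvd (mt orderOf_eq_one_iff.1 w1)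
  have := Fact.mk pp
  obtain ⟨x, hx, ox⟩ := exists_mem_orderOf_eq_prime (H := zpowers w) (p := p)
    (by rwa [Nat.card_zpowers])
  have xv := zpowers_le.2 wv hx
  have xs := zpowers_le.2 ws hx
  obtain ⟨x3, n, hn, H⟩ := h.exists_three h4 hp (ox ▸ pp) (fun e => ho (e ▸ ox ▸ hd)) xv xs
    (mt conj_eq_one_iff.1 a1) (by rw [orderOf_conj_eq]; exact ha.2) (hg a ha.1 a2).1 (hg a ha.1 a2).2
  exact h.false_of_three h4 hp x3 xv xs hn H

variable (h : DC S σ τ t)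
  (hW : ∀ v s : G, Pr v s → ∀ w, ¬ 2 ∣ orderOf w → w ∈ C₁(v) → w ∈ C₁(s) → w = 1)
include h hW

theorem inv_o (hp : Pr v s) :
    (∀ a ∈ oc C₁(v), ∀ b ∈ oc C₁(v), a * b = b * a) ∧ ∀ a ∈ oc C₁(v), s * a * s⁻¹ = a⁻¹ := by
  have sv : s ∈ C₁(v) := mem_centralizer_singleton_iff.2 hp.comm.symm
  have := (h.good_c hp.v_ne).mem_commutator_invol hp.hs (oc_le _) sv (le_norm_oc _ sv) (oc_odd _)
  rw [commutator_eq_of_fpf (le_norm_oc _ sv) fun a ha e =>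
    hW v s hp a (not_two_dvd_orderOf (oc_odd _) ha) (oc_le _ ha) (mem_c.2 e)] at this
  exact ⟨this.1, fun a ha => ((this.2 a).1 ha).2⟩

theorem nilp_odd {b x : G} (b1 : b ≠ 1) (b2 : ¬ 2 ∣ orderOf b) (hx : orderOf x = 2)
    (hb : x * b * x⁻¹ = b) : HasNormalPComplement 2 C₁(b) ∧ (oc C₁(b) ≤ C₁(x) → C₁(b) ≤ C₁(x)) :=
  h.nilp_of_no_pair hx (mem_c'.2 hb) fun s hs hp =>
    b1 (hW x s hp b b2 (mem_c.2 hb) (mem_c.2 (mem_c'.1 hs)))

theorem commute_of_inv {b x y a a' : G} (b1 : b ≠ 1) (b2 : ¬ 2 ∣ orderOf b) (hx : orderOf x = 2)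
    (hb : x * b * x⁻¹ = b) (hy : orderOf y = 2) (hb' : y * b * y⁻¹ = b⁻¹) (ha : a ∈ C₁(b))
    (ha' : a' ∈ C₁(b)) (o : ¬ 2 ∣ orderOf a) (o' : ¬ 2 ∣ orderOf a') (i : y * a * y⁻¹ = a⁻¹)
    (i' : y * a' * y⁻¹ = a'⁻¹) : Commute a a' :=
  have hn : y ∈ N(zpowers b) := mem_norm_zpowers (hb' ▸ inv_mem (mem_zpowers b))
  have k := (h.nilp_odd hW b1 b2 hx hb).1
  (h.good_z b1).commute_of_inv hy ((oc_le _).trans (c_le_norm b)) hn
    (norm_le_oc _ (norm_zpowers_le b hn)) (oc_odd _) ((mem_oc k).2 ⟨ha, o⟩) ((mem_oc k).2 ⟨ha', o'⟩)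
    i i'

theorem c_le {g : G} (hg : g ∈ oc C₁(t)) (g1 : g ≠ 1) : C₁(g) ≤ C₁(t) := by
  obtain ⟨g2, g3⟩ := (h.mem_o h.t2).1 hg
  refine (h.nilp_odd hW g1 g3 h.t2 g2).2 ?_
  by_contra hc
  have n1 : ∀ u, Pr t u → u ∈ N(zpowers g) := fun u hu =>
    mem_norm_zpowers ((h.inv_o hW hu).2 g hg ▸ inv_mem (mem_zpowers g))
  have n2 : t ∈ N(zpowers g) := c_le_norm g (mem_c'.2 g2)
  have n3 := (norm_zpowers_le g).trans (norm_le_oc _)
  obtain ⟨z, hz, z1, zi⟩ := exists_inverted h.pr0.vv (n3 n2) hc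
  refine z1 ((pow_one z).symm.trans (h.pr0.pow_eq_one (h.good_z g1) ((oc_le _).trans (c_le_norm g))
    n2 (n3 n2) (n3 (n1 τ h.pr0)) (oc_odd _) (fun u hu b hb b2 b3 => ?_) hz zi))
  rw [pow_one]
  by_contra b1
  have hp : Pr t u := hu.elim (· ▸ h.pr0) (· ▸ h.pr0.mul)
  have b4 := not_two_dvd_orderOf (oc_odd _) hb
  have b5 := (h.mem_o hp.hs).2 ⟨b2, b4⟩
  have i1 := (h.inv_o hW hp.mul).2
  have i2 := (h.inv_o hW hp.symm.mul).2
  rw [← hp.comm] at i2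
  have od := fun {X : Subgroup G} {a : G} => not_two_dvd_orderOf (oc_odd X) (x := a)
  have key : ∀ a ∈ oc C₁(t), ∀ a' ∈ oc C₁(u), Commute a a' := fun a ha a' ha' =>
    h.commute_of_inv hW b1 b4 hp.hs b2 hp.mul.hs (i2 b b5)
      (mem_centralizer_singleton_iff.2 (h.commute_of_inv hW g1 g3 h.t2 g2 hp.mul.hs (i1 g hg)
        (mem_centralizer_singleton_iff.2 ((h.inv_o hW hp).1 a ha g hg)) (oc_le _ hb) (od ha) b4
        (i1 a ha) (i2 b b5)))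
      (mem_centralizer_singleton_iff.2 ((h.inv_o hW hp.symm).1 a' ha' b b5)) (od ha) (od ha')
      (i1 a ha) (i2 a' ha')
  obtain ⟨y, y1, y2⟩ := h.cyc hp
  have y3 : y * (t * u) * y⁻¹ = t := by
    rw [← conj_mul, y1, y2, hp.comm, ← mul_assoc, hp.ss, one_mul]
  have tr : ∀ {v v' a : G}, orderOf v = 2 → y * v * y⁻¹ = v' → a ∈ oc C₁(v) →
      y * a * y⁻¹ ∈ oc C₁(v') := fun {v v' a} hv e ha =>
    (h.mem_o (by rw [← e, orderOf_conj_eq, hv])).2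
      ⟨e ▸ fix_conj y (mem_c.1 (oc_le _ ha)), by rw [orderOf_conj_eq]; exact od ha⟩
  have m1 := tr h.t2 y1 hg
  have m2 := tr hp.hs y2 m1
  have m4 := tr h.t2 y1 (tr hp.mul.hs y3 m2)
  have c1 := key g hg _ m1
  have c2 := c1.conj y
  have c3 : Commute (y * g * y⁻¹) (y * (y * (y * g * y⁻¹) * y⁻¹) * y⁻¹) :=
    (key _ (tr hp.mul.hs y3 m2) _ m1).symm
  rw [Commute.conj_iff] at c3
  have p3 : Pr (t * u) u := by have := hp.symm.mul.symm; rwa [← hp.comm] at this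
  exact (h.good_z g1).four_three h.t2 hp.hs hp.comm n2 (n1 u hp) (le_normalizer (mem_zpowers g))
    (c_le_norm g (mem_centralizer_singleton_iff.2 c1.symm))
    (c_le_norm g (mem_centralizer_singleton_iff.2 c3.symm)) g3 (od m1) (od m2) g1
    (mt conj_eq_one_iff.1 g1) (mt conj_eq_one_iff.1 (mt conj_eq_one_iff.1 g1)) c1 c3 c2 g2
    ((h.inv_o hW hp.symm).2 _ m1) ((h.inv_o hW hp.mul.symm).2 _ m2) ((h.inv_o hW hp).2 g hg)
    (mem_c.1 (oc_le _ m1)) ((h.inv_o hW p3).2 _ m2)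

end DC

end Cfsg.Acd
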