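import Cfsg.Agent.Acd.Tools
import Cfsg.Agent.Acd.Count
import Cfsg.Agent.Grp.DihSylow
import Cfsg.Agent.Acd.DihD

/-!
# Dihedral Sylow `2`-subgroups (including four-groups)

`t` is the involution of `⟨σ⟩`, `H = C(t) = O S` with `O = O(H)` (`IsDihPair.hasNormalPComplement`);
all `C(v)` (`v` an involution) are conjugate to `H`.
(a) For a four-group `V = ⟨t, u⟩`, `N(V)` is transitive on `V#`. `|S| = 4`:
  `exists_mem_normalizer_conj_eq`. `|S| ≥ 8`: WLOG `V ≤ S`; `κ ∈ ⟨σ⟩` of order `4` fixes `t` and swaps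
  `u`, `t u`; conjugate `u` to `t` and `V` into `S` (inside `H`) and do the same.
(b) `W = C_O(u) = 1` for `u ∈ S \ ⟨σ⟩`, or `|S| = 4` and `[O, u] = 1` (second alternative).
  * `|S| ≥ 8`: `C(V) = V W`, `W = O(N(V))`. `exists_shape_quotient` for `X = N(V)`: `V̄ ≤ R`
    (`V = [V, y]` for an odd `y`, `Shape.mem_of_mem_pResidual`), first case impossible (the Sylow
    subgroup `⟨V, κ⟩` would centralize or equal `R = V̄`), so `tight` gives `W ≤ Z(N(V))`. For
    `1 ≠ w ∈ W`, `s = u κ`: `w ∈ C_O(s)`, so `C(w) ≥ N(V), N(⟨t, s⟩)` and `u, s ∈ O²(C(w))` do not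
    commute, against `GoodIn.commute_of_mem_pResidual`.
  * `|S| = 4`, `K_v = [O(C(v)), S] ≠ 1` (abelian, the elements inverted by `S \ ⟨v⟩`; conjugate under
    `N(S)`; normalized by `W`). If `Y` is proper, `S' ≤ Y` is a four-group and `v ∈ S'` inverts `a ∈ Y`
    of odd order, then `a ∈ O(Y)` (`IsPSolvable.centralizer_sylow_le`). So `1 ≠ w ∈ W` of prime order
    has a trivial centralizer in some `K_v` (`not_three_eigen` in `C(w)`), and `GoodIn.seven` gives
    `o(w) = 3`, `|K_v| = 7`. `G` has no normal `3`-complement, so (Frobenius, `seven`) `t` acts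
    nontrivially on a `3`-subgroup; take `Q` maximal. A four-group `S' ∋ t` normalizing an odd group
    `Y` has `[Y, t] ≤ K_u K_{tu}` a `7`-group. So `|N(Q)|₂ = 2`, `N(Q)` has a normal `2`-complement,
    `Q` is Sylow. `C_Q(t) ≠ 1` (else `Q` is inverted by `t` and contains a conjugate `c` of `w`); take
    `1 ≠ c ∈ C_Q(t)` and `1 ≠ ζ ∈ [Q, t] ⊓ Z(Q)`. In both cases `C(c)` contains a four-group through an
    involution inverting a `3`-element of `O(C(c))` (in the first case `N(⟨c⟩)`), a contradiction.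
(c) `W = 1`: all `u ∈ S \ ⟨σ⟩` invert `O`; `K = O ⟨σ⟩` is abelian and `H \ K` consists of involutions
  inverting `K`. If `|K| < 4` we are in the second alternative. `C(g) = K` for `g ∈ K \ {1, t}`: if a
  power of `g` is `t`, `C(g) ≤ H`. Else `g ∈ O`, `⟨σ⟩` is Sylow in `Y = C(g)`, `Y = O₁ ⟨σ⟩`. If `Y ≰ H`,
  `B = [O₁, t] ≠ 1` is `V`-invariant, so some `1 ≠ b ∈ B` is fixed by `u` (or `t u`). `t u` inverts
  `O_t = O ≤ O₁` and `b`, so they commute (`commute_of_inv` in `N(⟨g⟩)`); in `N(⟨b⟩)` likewise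
  `O_t` and `O_u = O(C(u))` commute. By (a) `O_t, O_u, O_{tu}` commute pairwise: `four_three`.
(d) `card_eq_of_bsw` (`hF`: `Acd2.frob`, `commutator_eq_of_fpf`, `index_commutator_of_comm`; `h7`:
  `GoodIn.seven` in `N(Q)`). If `|G| = 168 = 2 k i`, `k = |K|`, then `4 ∣ k` and the number `i` of
  involutions is at least `k + 1`, so `k = 4` and `|C(t)| = 8`.
-/

set_option autoImplicit false
set_option linter.unusedSectionVars false

namespace Cfsg.Acd

open Subgroup

universe u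

local notation "C₁(" g ")" => Subgroup.centralizer ({g} : Set _)
local notation "N(" Q ")" => Subgroup.normalizer (SetLike.coe (A := Subgroup _) Q)

theorem DC.bsw {G : Type u} [Group G] [Finite G] [IsSimpleGroup G] {S : Sylow 2 G} {σ τ t : G}
    (h : DC S σ τ t)
    (hW : ∀ v s : G, Pr v s → ∀ w, ¬ 2 ∣ orderOf w → w ∈ C₁(v) → w ∈ C₁(s) → w = 1)
    (h4 : 4 ≤ Nat.card (oc C₁(t) ⊔ zpowers σ : Subgroup G)) : BSW t (oc C₁(t) ⊔ zpowers σ) := by
  have hi : ∀ u ∈ (S : Subgroup G), u ∉ zpowers σ → ∀ a ∈ oc C₁(t), u * a * u⁻¹ = a⁻¹ :=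
    fun u hu hn => (h.inv_o hW (h.pr hu hn)).2
  have hf : ∀ c ∈ zpowers σ, ∀ a ∈ oc C₁(t), Commute a c := fun c hc a ha => by
    refine mem_centralizer_singleton_iff.1 (mem_c.2 ?_)
    rw [show c = c * τ * τ by rw [mul_assoc, h.dih.mul_self, mul_one], conj_mul_conj,
      hi τ h.dih.mem_τ h.dih.notMem a ha, hi _ (mul_mem (h.dih.zpowers_le hc) h.dih.mem_τ)
        (h.dih.mul_τ_notMem hc) _ (inv_mem ha), inv_inv]
  have mK := fun x => mem_sup_of_le_normalizer' (x := x)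
    (h.dih.zpowers_le.trans (h.le_c.trans (le_norm_oc _)))
  have mH := fun x => mem_sup_of_le_normalizer' (x := x) (h.le_c.trans (le_norm_oc _))
  have hO : oc C₁(t) ≤ oc C₁(t) ⊔ zpowers σ := le_sup_left
  have hZ : zpowers σ ≤ oc C₁(t) ⊔ zpowers σ := le_sup_right
  have hle : oc C₁(t) ⊔ zpowers σ ≤ C₁(t) := sup_le (oc_le _) (h.dih.zpowers_le.trans h.le_c)
  rw [h.c_eq] at mH
  generalize oc C₁(t) ⊔ zpowers σ = K at *
  have hOS : ∀ a ∈ oc C₁(t), a ∈ (S : Subgroup G) → a = 1 := fun a ha hs =>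
    (isPElt_of_mem S.isPGroup' hs).eq_one_of_isPRegular (not_two_dvd_orderOf (oc_odd _) ha)
  have comm : ∀ a ∈ K, ∀ b ∈ K, a * b = b * a := fun a ha b hb => by
    obtain ⟨o, ho, c, hc, rfl⟩ := (mK a).1 ha
    obtain ⟨o', ho', c', hc', rfl⟩ := (mK b).1 hb
    exact ((show Commute o o' from (h.inv_o hW h.pr0).1 o ho o' ho').mul_right
      (hf c' hc' o ho)).mul_left ((hf c hc o' ho').symm.mul_right (h.dih.comm hc hc'))
  have hτ : τ ∉ K := fun e => by
    obtain ⟨o, ho, c, hc, e⟩ := (mK τ).1 e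
    rw [hOS o ho (eq_mul_inv_of_mul_eq e ▸ mul_mem h.dih.mem_τ (inv_mem (h.dih.zpowers_le hc))),
      one_mul] at e
    exact h.dih.notMem (e ▸ hc)
  have uniq : ∀ v ∈ K, orderOf v = 2 → v = t := fun v hv v2 => by
    obtain ⟨o, ho, c, hc, rfl⟩ := (mK v).1 hv
    have e := mul_self_of_orderOf v2
    rw [(hf c hc o ho).symm.mul_mul_mul_comm] at e
    have e1 := hOS _ (mul_mem ho ho) (eq_inv_of_mul_eq_one_left e ▸
      inv_mem (h.dih.zpowers_le (mul_mem hc hc)))
    rw [mem_bot.1 (mem_of_sq_mem (K := ⊥) (not_two_dvd_orderOf (oc_odd _) ho) e1), one_mul] at v2 ⊢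
    exact eq_of_orderOf_eq_two_of_mem_zpowers hc h.tm v2 h.t2
  have inv : ∀ g ∈ C₁(t), g ∉ K → g * g = 1 ∧ ∀ a ∈ K, g * a * g⁻¹ = a⁻¹ := fun g hg hn => by
    obtain ⟨o, ho, u, hu, rfl⟩ := (mH g).1 hg
    have hn' : u ∉ zpowers σ := fun e => hn (mul_mem (hO ho) (hZ e))
    refine ⟨?_, fun a ha => ?_⟩
    · calc _ = o * (u * o * u⁻¹) * (u * u) := by group
        _ = 1 := by rw [hi u hu hn' o ho, h.dih.mul_self_of_notMem hu hn']; simp
    · have : u * a * u⁻¹ = a⁻¹ := by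
        obtain ⟨o', ho', c, hc, rfl⟩ := (mK a).1 ha
        rw [← conj_mul, hi u hu hn' o' ho', h.dih.conj_of_notMem hu hn' hc, (hf c hc o' ho').eq,
          mul_inv_rev]
      rw [conj_mul_conj, this, comm o (hO ho) _ (inv_mem ha), mul_inv_cancel_right]
  refine ⟨h.t2, fun v => h.conj t v h.t2, hZ h.tm, comm, uniq, h4,
    relIndex_eq_two_iff.2 ⟨τ, h.le_c h.dih.mem_τ, fun b hb => ?_⟩, inv, fun g hg g1 gt => ?_⟩
  · by_cases hK : b ∈ K
    · exact Or.inr ⟨hK, fun e => hτ ((mul_mem_cancel_left hK).1 e)⟩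
    · obtain ⟨o, ho, u, hu, rfl⟩ := (mH b).1 hb
      refine Or.inl ⟨?_, hK⟩
      rw [mul_assoc]
      exact mul_mem (hO ho) (hZ (h.dih.mul_mem_of_notMem hu (fun e => hK (mul_mem (hO ho) (hZ e)))
        h.dih.mem_τ h.dih.notMem))
  have key : C₁(g) ≤ C₁(t) := by
    obtain ⟨o, ho, c, hc, rfl⟩ := (mK g).1 hg
    by_cases c1 : c = 1
    · rw [c1, mul_one] at g1 ⊢
      exact h.c_le hW ho g1
    refine le_trans (fun x hx => ?_) (h.dih.centralizer_le S.isPGroup' h.tm h.t2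
      (pow_mem hc (orderOf o)) fun e => c1 ((isPElt_of_mem S.isPGroup' (h.dih.zpowers_le
        hc)).eq_one_of_isPRegular fun d => not_two_dvd_orderOf (oc_odd _) ho
          (d.trans (orderOf_dvd_of_pow_eq_one e))))
    have := (show Commute x (o * c) from mem_centralizer_singleton_iff.1 hx).pow_right (orderOf o)
    rw [(hf c hc o ho).mul_pow, pow_orderOf_eq_one, one_mul] at this
    exact mem_centralizer_singleton_iff.2 this
  refine le_antisymm (fun x hx => ?_) fun x hx => mem_centralizer_singleton_iff.2 (comm x hx g hg)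
  by_contra hn
  have := (inv x (key hx) hn).2 g hg
  rw [mem_c'.1 hx] at this
  exact gt (uniq g hg (orderOf_two_of_mul_self (eq_inv_iff_mul_eq_one.1 this) g1))

theorem dih_case {G : Type u} [Group G] [Finite G] [IsSimpleGroup G]
    (hG : ∀ X : Subgroup G, X ≠ ⊤ → GoodIn X) (hna : ¬ IsMulCommutative G) (S : Sylow 2 G)
    {σ τ : G} (h : IsDihPair (S : Subgroup G) σ τ) (hσ : σ ≠ 1)
    (hconj : ∀ u v : G, orderOf u = 2 → orderOf v = 2 → IsConj u v) :
    (Nat.card G = 168 ∧ Nonempty (G ≃* Matrix.ProjectiveSpecialLinearGroup (Fin 2) (ZMod 7)) ∧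
        ∀ t : G, orderOf t = 2 → IsPGroup 2 (centralizer ({t} : Set G))) ∨
      (Nat.card (S : Subgroup G) = 4 ∧ ∀ t ∈ (S : Subgroup G), t ≠ 1 →
        centralizer ({t} : Set G) = centralizer ((S : Subgroup G) : Set G)) := by
  obtain ⟨t, tm, t2⟩ := exists_mem_orderOf_eq_prime (p := 2) (dvd_card_of_isPGroup_of_ne_bot
    (S.isPGroup'.to_le h.zpowers_le) (by simpa using hσ))
  have hD : DC S σ τ t := ⟨hG, hna, h, tm, t2, hconj⟩
  rcases hD.eq_one_or with hW | ⟨h4, hc⟩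
  swap
  · exact Or.inr ⟨h4, hD.second h4 hc⟩
  have d1 : orderOf σ ∣ Nat.card (oc C₁(t) ⊔ zpowers σ : Subgroup G) :=
    Subgroup.orderOf_dvd_natCard _ (mem_sup_right (mem_zpowers σ))
  by_cases h4 : 4 ≤ Nat.card (oc C₁(t) ⊔ zpowers σ : Subgroup G)
  swap
  · have d2 := card_dvd_of_le (le_sup_left : oc C₁(t) ≤ oc C₁(t) ⊔ zpowers σ)
    have d3 := hD.two_dvd
    have d4 : Nat.card (oc C₁(t) ⊔ zpowers σ : Subgroup G) = 2 := by
      have := d3.trans d1
      have := Nat.card_pos (α := (oc C₁(t) ⊔ zpowers σ : Subgroup G))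
      omega
    rw [d4] at d1 d2
    have h4 : Nat.card (S : Subgroup G) = 4 := by rw [h.card_eq, Nat.dvd_antisymm d1 d3]
    refine Or.inr ⟨h4, hD.second h4 (le_trans (card_eq_one.1 ?_).le bot_le)⟩
    exact ((Nat.dvd_prime Nat.prime_two).1 d2).resolve_right fun e => oc_odd _ e.symm.dvd
  have hB := hD.bsw hW h4
  generalize oc C₁(t) ⊔ zpowers σ = K at *
  obtain ⟨h168, e⟩ := card_eq_of_bsw hB.ord hB.conj hB.mem hB.comm hB.uniq hB.four hB.idx hB.inv
    hB.cent (fun X hX => (hG X hX).isSolvable) (fun A M h0 hA hM hi => by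
      have hc : ∀ a ∈ A, ∀ b ∈ A, a * b = b * a := fun a ha b hb => by
        by_cases b1 : b = 1
        · simp [b1]
        · exact mem_centralizer_singleton_iff.1 ((hA b hb b1).ge ha)
      rw [← index_commutator_of_comm hc]
      refine Acd2.frob (hD.good_n h0 (fun e => hna ⟨⟨fun a b => hc a (e.ge (mem_top a)) b
        (e.ge (mem_top b))⟩⟩) _ (sup_le le_normalizer hM)) hM fun s hs s1 =>
          commutator_eq_of_fpf (hM hs) fun a ha e => ?_
      by_contra a1
      exact s1 (mem_bot.1 (hi.le ⟨hs, (hA a ha a1).le (mem_c'.2 e)⟩)))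
    fun p q Q y hp hq p2 q2 hne hQ hy hn hc => by
      have := Fact.mk hp
      exact (hD.good_n (fun e => hc fun b hb => by rw [mem_bot.1 (e.le hb), one_mul, mul_one]) (hD.ne_top hQ)).seven hp hq p2 q2 hne hQ hy
        le_normalizer hn hn hc
  refine Or.inl ⟨h168, e, fun v hv => IsPGroup.of_card (n := 3) ?_⟩
  have a1 : 4 ∣ Nat.card K := by
    refine Dvd.dvd.trans ?_ d1
    have b1 := (S : Subgroup G).card_mul_index
    have b2 := S.not_dvd_index
    rw [h168, h.card_eq] at b1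
    refine (Nat.Coprime.pow_left 2 ((Nat.Prime.coprime_iff_not_dvd Nat.prime_two).2
      b2)).dvd_of_dvd_mul_right ⟨21, ?_⟩
    rw [mul_assoc] at b1
    omega
  have a2 : Nat.card K + 1 ≤ (C₁(t)).index := by
    have b1 : ((C₁(t) : Set G) \ K).ncard = Nat.card K := by
      rw [Set.ncard_diff (SetLike.coe_subset_coe.2 hB.le)]
      change Nat.card C₁(t) - Nat.card K = _
      rw [hB.card_C]; omega
    rw [← hB.ncard_inv, ← b1, ← Set.ncard_insert_of_notMem (a := t) fun e => e.2 hB.mem]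
    refine Set.ncard_le_ncard (Set.insert_subset t2 fun g hg => ?_)
    exact orderOf_two_of_mul_self (hB.inv g hg.1 hg.2).1 fun e => hg.2 (e ▸ one_mem K)
  have a3 := hB.card_G
  rw [hD.card_c hv, hB.card_C]
  rw [h168] at a3
  obtain ⟨k, hk⟩ := a1
  rw [hk] at a2 a3 h4 ⊢
  have a4 : k ≤ 2 := by nlinarith
  interval_cases k <;> omega

end Cfsg.Acd
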