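import Cfsg.Agent.Grp.PrimeTIB
import Cfsg.Agent.Grp.Transfer
import Cfsg.Agent.Grp.Coprime
import Cfsg.Agent.Grp.PSolvable
import Cfsg.Agent.Grp.Residual
import Cfsg.Agent.GA.Trace
import Cfsg.Agent.FT.BG01

/-!
# Elementary abelian Sylow `2`-subgroup with `C(t) = C(S)` for all `t ∈ S#`

A solvable subgroup contains at most one Sylow `2`-subgroup of `G`. Two involutions in distinct
Sylow `2`-subgroups `S`, `T` are swapped by an involution `u`, so `D = N(S) ∩ N(T)` is transitive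
on `S#` by elements inverted by `u`. For such `k ≠ 1`, `C(k)` has odd order and `u` inverts it, so
`C_W(k) = 1` for `W = O(C(S))`, and `hW` gives `W = 1`. Then every `d ∈ D#` normalizes exactly two
Sylow `2`-subgroups, and `S` is regular on the Sylow `2`-subgroups other than `S`.
-/

set_option autoImplicit false
set_option linter.unusedSectionVars false

namespace Cfsg.Acd

open Subgroup
open scoped Pointwise

universe u

variable {G : Type u} [Group G] [Finite G]

local notation "C₁(" g ")" => Subgroup.centralizer ({g} : Set G)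
local notation "C(" T ")" => Subgroup.centralizer (((T : Sylow 2 G) : Subgroup G) : Set G)

theorem mem_smul_sylow {p : ℕ} {T : Sylow p G} {g a : G} :
    a ∈ ((g • T : Sylow p G) : Subgroup G) ↔ g⁻¹ * a * g ∈ (T : Subgroup G) := by
  rw [Sylow.coe_subgroup_smul, mem_pointwise_smul_iff_inv_smul_mem]
  simp only [← map_inv, MulAut.smul_def, MulAut.conj_apply, inv_inv]

theorem smul_sylow_of_mem {p : ℕ} {T : Sylow p G} {a : G} (ha : a ∈ (T : Subgroup G)) :
    a • T = T :=
  Sylow.smul_eq_iff_mem_normalizer.2 (le_normalizer ha)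

theorem mem_sylow_of_smul {T : Sylow 2 G} {x : G} (hx : x * x = 1) (e : x • T = T) :
    x ∈ (T : Subgroup G) := by
  have hp : IsPGroup 2 (zpowers x) := by
    rintro ⟨_, n, rfl⟩
    refine ⟨1, Subtype.ext ?_⟩
    change (x ^ n) ^ (2 ^ 1) = 1
    rw [← zpow_natCast, ← zpow_mul, mul_comm, zpow_mul, zpow_natCast, pow_one, pow_two, hx,
      one_zpow]
  have := hp.inf_normalizer_sylow T
  exact (this.le ⟨mem_zpowers x, Sylow.smul_eq_iff_mem_normalizer.1 e⟩).2

theorem exists_sylow_of_mul_self {x : G} (hx : x * x = 1) :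
    ∃ T : Sylow 2 G, x ∈ (T : Subgroup G) := by
  have hp : IsPGroup 2 (zpowers x) := by
    rintro ⟨_, n, rfl⟩
    refine ⟨1, Subtype.ext ?_⟩
    change (x ^ n) ^ (2 ^ 1) = 1
    rw [← zpow_natCast, ← zpow_mul, mul_comm, zpow_mul, zpow_natCast, pow_one, pow_two, hx,
      one_zpow]
  obtain ⟨T, hT⟩ := hp.exists_le_sylow
  exact ⟨T, hT (mem_zpowers x)⟩

theorem smul_sylow_of_mem_centralizer {T : Sylow 2 G} {x : G} (hx : x ∈ C(T)) : x • T = T :=
  Sylow.smul_eq_iff_mem_normalizer.2 (centralizer_le_normalizer _ hx)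

/-- The hypotheses, for all Sylow `2`-subgroups. -/
structure ECent (G : Type u) [Group G] : Prop where
  sq : ∀ T : Sylow 2 G, ∀ a ∈ (T : Subgroup G), a * a = 1
  four : ∀ T : Sylow 2 G, 4 ≤ Nat.card (T : Subgroup G)
  cent : ∀ T : Sylow 2 G, ∀ t ∈ (T : Subgroup G), t ≠ 1 →
    centralizer ({t} : Set G) = centralizer ((T : Subgroup G) : Set G)
  solv : ∀ x : G, x ≠ 1 → Group.IsSolvable (centralizer ({x} : Set G))

namespace ECent

variable (h : ECent G)
include h

theorem comm {T : Sylow 2 G} {a b : G} (ha : a ∈ (T : Subgroup G)) (hb : b ∈ (T : Subgroup G)) :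
    a * b = b * a :=
  comm_of_forall_mul_self (h.sq T) ha hb

theorem le_cent (T : Sylow 2 G) : (T : Subgroup G) ≤ C(T) := fun _ ha _ hb => h.comm hb ha

theorem exists_ne_ne (T : Sylow 2 G) (a : G) : ∃ t ∈ (T : Subgroup G), t ≠ 1 ∧ t ≠ a := by
  by_contra hn
  push Not at hn
  have h1 : ((T : Subgroup G) : Set G) ⊆ {1, a} := fun t ht => by
    by_cases e : t = 1
    · exact Or.inl e
    · exact Or.inr (hn t ht e)
  have h2 := Set.ncard_le_ncard h1
  have h3 := Set.ncard_insert_le (1 : G) {a}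
  rw [Set.ncard_singleton] at h3
  have h4 := h.four T
  rw [← Nat.card_coe_set_eq] at h2
  exact absurd (h4.trans (h2.trans h3)) (by omega)

theorem eq_of_mem {S T : Sylow 2 G} {s : G} (hs : s ∈ (S : Subgroup G)) (h1 : s ≠ 1)
    (ht : s ∈ (T : Subgroup G)) : T = S := by
  have h2 : (T : Subgroup G) ≤ S := fun a ha =>
    mem_sylow_of_smul (h.sq T a ha) (smul_sylow_of_mem_centralizer
      ((h.cent S s hs h1).le ((h.cent T s ht h1).ge (h.le_cent T ha))))
  exact Sylow.ext (T.is_maximal' S.isPGroup' h2).symm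

theorem eq_of_smul {S T : Sylow 2 G} {s : G} (hs : s ∈ (S : Subgroup G)) (h1 : s ≠ 1)
    (e : s • T = T) : T = S :=
  h.eq_of_mem hs h1 (mem_sylow_of_smul (h.sq S s hs) e)

theorem not_isCyclic (T : Sylow 2 G) : ¬ IsCyclic (T : Subgroup G) := fun hc => by
  have h1 := hc.exponent_eq_card
  have h2 : Monoid.exponent (T : Subgroup G) ∣ 2 :=
    Monoid.exponent_dvd_of_forall_pow_eq_one fun a => Subtype.ext (by
      simpa [pow_two] using h.sq T a a.2)
  have h3 := Nat.le_of_dvd two_pos h2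
  have h4 := h.four T
  omega

/-- A solvable subgroup contains at most one Sylow `2`-subgroup of `G`. -/
theorem eq_of_le {Y : Subgroup G} (hY : Group.IsSolvable Y) {S T : Sylow 2 G}
    (hS : (S : Subgroup G) ≤ Y) (hT : (T : Subgroup G) ≤ Y) : S = T := by
  by_contra hne
  have h0 : pCore 2 Y = ⊥ := by
    rw [eq_bot_iff]
    intro a ha
    by_contra h1
    exact hne (h.eq_of_mem (pCore_le_sylow (T.subtype hT) ha) (fun e => h1 (Subtype.ext e))
      (pCore_le_sylow (S.subtype hS) ha))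
  have hodd : ¬ 2 ∣ Nat.card ((pPrimeCore 2 Y).map Y.subtype) := by
    rw [card_map_of_injective Y.subtype_injective]
    exact not_dvd_card_pPrimeCore 2 Y
  have hO : (pPrimeCore 2 Y).map Y.subtype ≤ C(S) := by
    refine Agent.FT.coprime_abelian_gen_cent1 (A := S) ⟨⟨fun a b => Subtype.ext (h.comm a.2 b.2)⟩⟩
      (h.not_isCyclic S) ?_ (IsPGroup.coprime_card_of_not_dvd S.isPGroup' hodd).symm
      fun a ha h1 => inf_le_right.trans (h.cent S a ha h1).le
    refine hS.trans ?_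
    rw [pPrimeCore_eq_piCore]
    exact le_normalizer.trans (normalizer_le_normalizer_piCoreOf Y)
  obtain ⟨s, hs, h1, -⟩ := h.exists_ne_ne S 1
  have h2 : (⟨s, hS hs⟩ : Y) ∈ pPrimeCore 2 Y :=
    (isPSolvable_of_isSolvable 2 Y).centralizer_pPrimeCore_le h0 fun y hy =>
      Subtype.ext (hO ⟨y, hy, rfl⟩ s hs).symm
  have h3 : s ∈ (S : Subgroup G) ⊓ (pPrimeCore 2 Y).map Y.subtype := ⟨hs, _, h2, rfl⟩
  rw [inf_eq_bot_of_isPGroup_of_not_dvd S.isPGroup' hodd] at h3
  exact h1 h3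

/-- An element normalizing `C(a)`, where `a ≠ 1` centralizes `R`, normalizes `R`. -/
theorem smul_eq_of_conj {R : Sylow 2 G} {a g : G} (ha : a ∈ C(R)) (h1 : a ≠ 1)
    (hg : g * a * g⁻¹ = a ∨ g * a * g⁻¹ = a⁻¹) : g • R = R := by
  refine h.eq_of_le (h.solv a h1) (fun x hx => ?_) fun x hx => ?_
  · have h2 := ha _ (mem_smul_sylow.1 hx)
    have h3 : x * (g * a * g⁻¹) = (g * a * g⁻¹) * x := by
      calc x * (g * a * g⁻¹) = g * (g⁻¹ * x * g * a) * g⁻¹ := by group
        _ = _ := by rw [h2]; group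
    rw [mem_centralizer_singleton_iff]
    rcases hg with e | e <;> rw [e] at h3
    · exact h3
    · exact (Commute.inv_right_iff.1 h3).eq
  · exact mem_centralizer_singleton_iff.2 (ha x hx)

theorem eq_one_of_inv {R : Sylow 2 G} {u k : G} (hu : u ∈ (R : Subgroup G))
    (hk : Odd (orderOf k)) (hi : u * k * u⁻¹ = k⁻¹) (e : k • R = R) : k = 1 := by
  have h1 : k⁻¹ * u * k ∈ (R : Subgroup G) := mem_smul_sylow.1 (e.symm ▸ hu)
  have h2 : k⁻¹ * u * k * u⁻¹ = (k * k)⁻¹ := by
    calc k⁻¹ * u * k * u⁻¹ = k⁻¹ * (u * k * u⁻¹) := by group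
      _ = _ := by rw [hi]; group
  have h3 : k * k ∈ (R : Subgroup G) := by
    rw [← inv_mem_iff, ← h2]
    exact mul_mem h1 (inv_mem hu)
  obtain ⟨n, hn⟩ := exists_sq_pow_eq_of_odd hk
  exact eq_one_of_mul_self_of_odd hk (h.sq R k (hn ▸ pow_mem h3 n))

/-- An element of odd order inverted by an involution centralizes no involution. -/
theorem not_mem_cent {u k : G} (hu : u * u = 1) (hk : Odd (orderOf k)) (h1 : k ≠ 1)
    (hi : u * k * u⁻¹ = k⁻¹) (R : Sylow 2 G) : k ∉ C(R) := fun hR =>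
  h1 (h.eq_one_of_inv (mem_sylow_of_smul hu (h.smul_eq_of_conj hR h1 (Or.inr hi))) hk hi
    (smul_sylow_of_mem_centralizer hR))

theorem odd_cent {u k : G} (hu : u * u = 1) (hk : Odd (orderOf k)) (h1 : k ≠ 1)
    (hi : u * k * u⁻¹ = k⁻¹) : Odd (Nat.card C₁(k)) := by
  by_contra hn
  obtain ⟨x, hx, hx2, hx1⟩ := exists_invol_of_not_odd hn
  obtain ⟨R, hR⟩ := exists_sylow_of_mul_self hx2
  exact h.not_mem_cent hu hk h1 hi R ((h.cent R x hR hx1).le
    (mem_centralizer_singleton_iff.2 (mem_centralizer_singleton_iff.1 hx).symm))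

theorem conj_eq_inv {u k : G} (hu : u * u = 1) (hk : Odd (orderOf k)) (h1 : k ≠ 1)
    (hi : u * k * u⁻¹ = k⁻¹) {a : G} (ha : a ∈ C₁(k)) : u * a * u⁻¹ = a⁻¹ := by
  have hu' : u⁻¹ = u := inv_eq_of_mul_eq_one_right hu
  refine conj_eq_inv_of_fpf hu (fun b hb => ?_) (fun b hb hc => ?_) ha
  · rw [mem_centralizer_singleton_iff] at hb ⊢
    have h2 : k = u * k⁻¹ * u⁻¹ := by
      rw [← hi, hu']
      calc k = (u * u) * k * (u * u) := by rw [hu]; group
        _ = _ := by group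
    have h3 : b * k⁻¹ = k⁻¹ * b := (Commute.inv_right hb).eq
    calc u * b * u⁻¹ * k = u * (b * k⁻¹) * u⁻¹ := by
          conv_lhs => rw [h2]
          group
      _ = _ := by
          rw [h3]
          conv_rhs => rw [h2]
          group
  · by_contra hb1
    have hu1 : u ≠ 1 := fun e => by
      rw [e, one_mul, inv_one, mul_one] at hi
      exact h1 (eq_one_of_mul_self_of_odd hk (mul_eq_one_iff_eq_inv.2 hi))
    obtain ⟨R, hR⟩ := exists_sylow_of_mul_self hu
    have h2 : b ∈ C(R) := (h.cent R u hR hu1).le (mem_centralizer_singleton_iff.2 hc.symm)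
    refine h1 (h.eq_one_of_inv hR hk hi (h.smul_eq_of_conj h2 hb1 (Or.inl ?_)))
    rw [← mem_centralizer_singleton_iff.1 hb, mul_inv_cancel_right]

/-- Involutions in distinct Sylow `2`-subgroups are swapped by an involution. -/
theorem exists_swap {S T : Sylow 2 G} (hne : S ≠ T) {t t' : G} (ht : t ∈ (S : Subgroup G))
    (h1 : t ≠ 1) (ht' : t' ∈ (T : Subgroup G)) (h1' : t' ≠ 1) :
    ∃ u : G, u * u = 1 ∧ u * t' * u⁻¹ = t ∧ u • T = S ∧ u • S = T := by
  have e1 := h.sq S t ht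
  have e2 := h.sq T t' ht'
  have i1 : t⁻¹ = t := inv_eq_of_mul_eq_one_right e1
  have i2 : t'⁻¹ = t' := inv_eq_of_mul_eq_one_right e2
  have c1 : ∀ n : ℕ, t * (t * t') ^ n * t⁻¹ = ((t * t') ^ n)⁻¹ := fun n => by
    rw [← conj_pow, ← inv_pow, ← mul_assoc, e1, one_mul, mul_inv_rev, i2]
  have c2 : ∀ n : ℕ, t' * (t * t') ^ n * t'⁻¹ = ((t * t') ^ n)⁻¹ := fun n => by
    rw [← conj_pow, ← inv_pow, ← mul_assoc, mul_inv_cancel_right, mul_inv_rev, i1, i2]
  have hodd : Odd (orderOf (t * t')) := by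
    rcases Nat.even_or_odd (orderOf (t * t')) with ⟨m, hm⟩ | ho
    · exfalso
      have hpos := orderOf_pos (t * t')
      have z2 : (t * t') ^ m * (t * t') ^ m = 1 := by rw [← pow_add, ← hm, pow_orderOf_eq_one]
      have z1 : (t * t') ^ m ≠ 1 := pow_ne_one_of_lt_orderOf (by omega) (by omega)
      have zi : ((t * t') ^ m)⁻¹ = (t * t') ^ m := inv_eq_of_mul_eq_one_right z2
      refine hne (h.eq_of_mem (s := (t * t') ^ m) ?_ z1 ?_)
      · refine mem_sylow_of_smul z2 (smul_sylow_of_mem_centralizer ((h.cent T t' ht' h1').le ?_))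
        rw [mem_centralizer_singleton_iff, ← mul_inv_eq_iff_eq_mul.1 ((c2 m).trans zi)]
      · refine mem_sylow_of_smul z2 (smul_sylow_of_mem_centralizer ((h.cent S t ht h1).le ?_))
        rw [mem_centralizer_singleton_iff, ← mul_inv_eq_iff_eq_mul.1 ((c1 m).trans zi)]
    · exact ho
  obtain ⟨m, hm⟩ := hodd
  have hu : (t * t') ^ m * t * ((t * t') ^ m * t) = 1 := by
    calc (t * t') ^ m * t * ((t * t') ^ m * t) = (t * t') ^ m * (t * (t * t') ^ m * t⁻¹) := by
          rw [i1]; group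
      _ = 1 := by rw [c1, mul_inv_cancel]
  have hc : (t * t') ^ m * t * t' * ((t * t') ^ m * t)⁻¹ = t := by
    rw [inv_eq_of_mul_eq_one_right hu]
    calc (t * t') ^ m * t * t' * ((t * t') ^ m * t) = (t * t') ^ (2 * m + 1) * t := by
          rw [two_mul, add_right_comm, pow_add, pow_succ]; group
      _ = t := by rw [← hm, pow_orderOf_eq_one, one_mul]
  generalize (t * t') ^ m * t = u at hu hc
  have hT : u • T = S := by
    refine h.eq_of_mem ht h1 (mem_smul_sylow.2 ?_)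
    rw [← hc, show u⁻¹ * (u * t' * u⁻¹) * u = t' by group]
    exact ht'
  refine ⟨_, hu, hc, hT, ?_⟩
  rw [← hT, ← mul_smul, hu, one_smul]

theorem odd_of_smul {S T : Sylow 2 G} (hne : S ≠ T) {d : G} (hS : d • S = S) (hT : d • T = T) :
    Odd (orderOf d) := by
  rcases Nat.even_or_odd (orderOf d) with ⟨m, hm⟩ | ho
  · exfalso
    have hpos := orderOf_pos d
    have z2 : d ^ m * d ^ m = 1 := by rw [← pow_add, ← hm, pow_orderOf_eq_one]
    have z1 : d ^ m ≠ 1 := pow_ne_one_of_lt_orderOf (by omega) (by omega)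
    exact hne (h.eq_of_mem
      (mem_sylow_of_smul z2 (pow_mem (show d ∈ MulAction.stabilizer G T from hT) m)) z1
      (mem_sylow_of_smul z2 (pow_mem (show d ∈ MulAction.stabilizer G S from hS) m)))
  · exact ho

/-- `N(S) ∩ N(T)` is transitive on `S#`. -/
theorem exists_conj {S T : Sylow 2 G} (hne : S ≠ T) {a b : G} (ha : a ∈ (S : Subgroup G))
    (ha1 : a ≠ 1) (hb : b ∈ (S : Subgroup G)) (hb1 : b ≠ 1) :
    ∃ d u : G, d • S = S ∧ d • T = T ∧ d * a * d⁻¹ = b ∧ u * u = 1 ∧ u * d * u⁻¹ = d⁻¹ := by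
  obtain ⟨t, ht, ht1, -⟩ := h.exists_ne_ne T 1
  obtain ⟨u, hu, c, e1, e2⟩ := h.exists_swap hne ha ha1 ht ht1
  obtain ⟨v, hv, c', f1, f2⟩ := h.exists_swap hne hb hb1 ht ht1
  have i1 : u⁻¹ = u := inv_eq_of_mul_eq_one_right hu
  have i2 : v⁻¹ = v := inv_eq_of_mul_eq_one_right hv
  refine ⟨v * u, u, by rw [mul_smul, e2, f1], by rw [mul_smul, e1, f2], ?_, hu, ?_⟩
  · rw [← c, ← c']
    calc v * u * (u * t * u⁻¹) * (v * u)⁻¹ = v * (u * u) * t * (u * u)⁻¹ * v⁻¹ := by group
      _ = _ := by rw [hu]; group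
  · rw [← mul_assoc, mul_inv_cancel_right, mul_inv_rev, i1, i2]

/-- The centralizer of a Sylow `2`-subgroup is the Sylow subgroup itself. -/
theorem cent_eq {S T : Sylow 2 G} (hne : S ≠ T)
    (hW : ∀ (k : G) (W : Subgroup G), (orderOf k).Prime → orderOf k ≠ 2 →
      k ∈ normalizer ((S : Subgroup G) : Set G) → k ∉ centralizer ((S : Subgroup G) : Set G) →
      W ≤ centralizer ((S : Subgroup G) : Set G) → ¬ 2 ∣ Nat.card W →
      k ∈ normalizer (W : Set G) → W ⊓ centralizer {k} = ⊥ → W = ⊥) : C(S) = S := by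
  obtain ⟨a, ha, ha1, -⟩ := h.exists_ne_ne S 1
  obtain ⟨b, hb, hb1, hab⟩ := h.exists_ne_ne S a
  obtain ⟨d, u, hS, hT, c, hu, hi⟩ := h.exists_conj hne ha ha1 hb hb1
  have hd1 : d ≠ 1 := fun e => hab (by rw [← c, e]; group)
  have hd := h.odd_of_smul hne hS hT
  have hp : (orderOf d).minFac.Prime := Nat.minFac_prime fun e => hd1 (orderOf_eq_one_iff.1 e)
  have ho : orderOf (d ^ (orderOf d / (orderOf d).minFac)) = (orderOf d).minFac :=
    orderOf_pow_orderOf_div (orderOf_pos d).ne' (Nat.minFac_dvd _)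
  have hko : Odd (orderOf (d ^ (orderOf d / (orderOf d).minFac))) :=
    hd.of_dvd_nat (orderOf_pow_dvd _)
  have hki : u * d ^ (orderOf d / (orderOf d).minFac) * u⁻¹ =
      (d ^ (orderOf d / (orderOf d).minFac))⁻¹ := by rw [← conj_pow, hi, inv_pow]
  have hkS : d ^ (orderOf d / (orderOf d).minFac) ∈ normalizer ((S : Subgroup G) : Set G) :=
    pow_mem (Sylow.smul_eq_iff_mem_normalizer.1 hS) _
  rw [← ho] at hp
  generalize d ^ (orderOf d / (orderOf d).minFac) = k at hp hko hki hkS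
  have hk1 : k ≠ 1 := fun e => by rw [e, orderOf_one] at hp; exact Nat.not_prime_one hp
  have hodd : ¬ 2 ∣ Nat.card (piCoreOf {2}ᶜ C(S)) :=
    isPiGroup_compl_singleton_iff.1 (isPiGroup_piCoreOf _ _)
  have h0 := hW k (piCoreOf {2}ᶜ C(S)) hp (fun e => by rw [e] at hko; exact absurd hko (by decide))
    hkS (h.not_mem_cent hu hko hk1 hki S) (piCoreOf_le _) hodd
    (normalizer_le_normalizer_piCoreOf _ (normalizer_le_normalizer_centralizer _ hkS)) (by
      rw [eq_bot_iff]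
      intro w hw
      by_contra h1
      exact h.not_mem_cent hu (odd_orderOf_of_mem (Nat.odd_iff.2 (by omega)) hw.1) h1
        (h.conj_eq_inv hu hko hk1 hki hw.2) S (piCoreOf_le _ hw.1))
  have h1 : pPrimeCore 2 C(S) = ⊥ := by
    rw [pPrimeCore_eq_piCore]
    exact (map_eq_bot_iff_of_injective _ (subtype_injective _)).1 h0
  have h2 : HasNormalPComplement 2 C(S) :=
    hasNormalPComplement_of_sylow_le_center (S.subtype (h.le_cent S)) fun x hx =>
      mem_center_iff.2 fun y => Subtype.ext (y.2 x hx).symm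
  rw [hasNormalPComplement_iff_isPGroup_quotient] at h2
  exact S.is_maximal' (h2.of_equiv ((QuotientGroup.quotientMulEquivOfEq h1).trans
    QuotientGroup.quotientBot)) (h.le_cent S)

section Self

variable (hc : ∀ T : Sylow 2 G, centralizer ((T : Subgroup G) : Set G) = (T : Subgroup G))
include hc

theorem mem_of_comm {T : Sylow 2 G} {t x : G} (ht : t ∈ (T : Subgroup G)) (h1 : t ≠ 1)
    (e : x * t = t * x) : x ∈ (T : Subgroup G) :=
  ((h.cent T t ht h1).trans (hc T)).le (mem_centralizer_singleton_iff.2 e)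

theorem inv_of_swap {S T : Sylow 2 G} (hne : S ≠ T) {u d : G} (hu : u * u = 1)
    (e1 : u • T = S) (e2 : u • S = T) (hS : d • S = S) (hT : d • T = T) :
    u * d * u⁻¹ = d⁻¹ := by
  refine conj_eq_inv_of_fpf (A := MulAction.stabilizer G S ⊓ MulAction.stabilizer G T) hu
    (fun a ha => ⟨?_, ?_⟩) (fun a ha e => ?_) ⟨hS, hT⟩
  · change (u * a * u⁻¹) • S = S
    rw [mul_smul, mul_smul, inv_smul_eq_iff.2 e1.symm, show a • T = T from ha.2, e1]
  · change (u * a * u⁻¹) • T = T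
    rw [mul_smul, mul_smul, inv_smul_eq_iff.2 e2.symm, show a • S = S from ha.1, e2]
  · obtain ⟨R, hR⟩ := exists_sylow_of_mul_self hu
    have hu1 : u ≠ 1 := fun e => hne (by rw [← e1, e, one_smul])
    exact eq_one_of_mul_self_of_odd (h.odd_of_smul hne ha.1 ha.2)
      (h.sq R a (h.mem_of_comm hc hR hu1 e.symm))

/-- A nontrivial element normalizes at most two Sylow `2`-subgroups. -/
theorem eq_one_of_three {S T R : Sylow 2 G} (h1 : S ≠ T) (h2 : S ≠ R) (h3 : T ≠ R) {d : G}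
    (hS : d • S = S) (hT : d • T = T) (hR : d • R = R) : d = 1 := by
  by_contra hd1
  have hd := h.odd_of_smul h1 hS hT
  obtain ⟨s, hs, hs1, -⟩ := h.exists_ne_ne S 1
  obtain ⟨t, ht, ht1, -⟩ := h.exists_ne_ne T 1
  obtain ⟨r, hr, hr1, -⟩ := h.exists_ne_ne R 1
  obtain ⟨u, hu, -, e1, e2⟩ := h.exists_swap h1 hs hs1 ht ht1
  obtain ⟨v, hv, -, f1, f2⟩ := h.exists_swap h2 hs hs1 hr hr1
  obtain ⟨w, hw, -, g1, g2⟩ := h.exists_swap h3 ht ht1 hr hr1
  have i1 := h.inv_of_swap hc h1 hu e1 e2 hS hT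
  have i2 := h.inv_of_swap hc h2 hv f1 f2 hS hR
  have i3 := h.inv_of_swap hc h3 hw g1 g2 hT hR
  have c : v * u * d * (v * u)⁻¹ = d := by
    calc v * u * d * (v * u)⁻¹ = v * (u * d * u⁻¹) * v⁻¹ := by group
      _ = (v * d * v⁻¹)⁻¹ := by rw [i1]; group
      _ = d := by rw [i2, inv_inv]
  have c2 := h.conj_eq_inv hw hd hd1 i3
    (mem_centralizer_singleton_iff.2 (mul_inv_eq_iff_eq_mul.1 c))
  have c3 : w * (v * u) * (w * (v * u)) = 1 := by
    calc w * (v * u) * (w * (v * u)) = w * (v * u) * w⁻¹ * (v * u) := by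
          rw [inv_eq_of_mul_eq_one_right hw]; group
      _ = 1 := by rw [c2, inv_mul_cancel]
  refine hd1 (h.eq_one_of_inv (mem_sylow_of_smul c3 ?_) hd ?_ hT)
  · rw [mul_smul, mul_smul, e1, f2, g1]
  · calc w * (v * u) * d * (w * (v * u))⁻¹ = w * (v * u * d * (v * u)⁻¹) * w⁻¹ := by group
      _ = d⁻¹ := by rw [c, i3]

theorem exists_smul_eq {S T R : Sylow 2 G} (h1 : S ≠ T) (h2 : S ≠ R) :
    ∃ s ∈ (S : Subgroup G), s • T = R := by
  obtain ⟨a, ha, ha1, -⟩ := h.exists_ne_ne S 1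
  obtain ⟨b, hb, hb1, hab⟩ := h.exists_ne_ne S a
  obtain ⟨d, -, hS, hT, c, -⟩ := h.exists_conj h1 ha ha1 hb hb1
  obtain ⟨d', -, hS', hR, c', -⟩ := h.exists_conj h2 ha ha1 hb hb1
  have hd1 : d ≠ 1 := fun e => hab (by rw [← c, e]; group)
  have hd1' : d' ≠ 1 := fun e => hab (by rw [← c', e]; group)
  have h0 : d⁻¹ * d' ∈ (S : Subgroup G) := h.mem_of_comm hc ha ha1 (by
    calc d⁻¹ * d' * a = d⁻¹ * (d' * a * d'⁻¹) * d' := by group
      _ = _ := by rw [c', ← c]; group)
  let f : ↥(S : Subgroup G) → ↥(S : Subgroup G) := fun s =>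
    ⟨d⁻¹ * s * d * (s : G)⁻¹, mul_mem (mem_smul_sylow.1 (by rw [hS]; exact s.2)) (inv_mem s.2)⟩
  have hf : Function.Injective f := fun s s' e => by
    have e' : d⁻¹ * s * d * (s : G)⁻¹ = d⁻¹ * s' * d * (s' : G)⁻¹ := congrArg Subtype.val e
    by_contra hn
    have h3 : (s' : G)⁻¹ * s ≠ 1 := fun e => hn (Subtype.ext (inv_mul_eq_one.1 e).symm)
    have h4 : d ∈ (S : Subgroup G) := h.mem_of_comm hc (mul_mem (inv_mem s'.2) s.2) h3 (by
      calc d * ((s' : G)⁻¹ * s) = (s' : G)⁻¹ * d * (d⁻¹ * s' * d * (s' : G)⁻¹) * s := by group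
        _ = _ := by rw [← e']; group)
    exact h1 (h.eq_of_smul h4 hd1 hT).symm
  obtain ⟨s, hs⟩ := Finite.injective_iff_surjective.1 hf ⟨_, h0⟩
  have e : d' = s * d * (s : G)⁻¹ := by
    have e' : d⁻¹ * s * d * (s : G)⁻¹ = d⁻¹ * d' := congrArg Subtype.val hs
    calc d' = d * (d⁻¹ * d') := by group
      _ = _ := by rw [← e']; group
  refine ⟨s, s.2, ?_⟩
  by_contra hn
  refine hd1' (h.eq_one_of_three hc (fun e => h1 ?_) h2 hn hS' ?_ hR)
  · rw [← inv_smul_eq_iff, smul_sylow_of_mem (inv_mem s.2)] at e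
    exact e
  · rw [e, mul_smul, mul_smul, inv_smul_smul, hT]

theorem card_sylow {S T : Sylow 2 G} (hne : S ≠ T) :
    Nat.card (Sylow 2 G) = Nat.card (S : Subgroup G) + 1 := by
  let f : Option (S : Subgroup G) → Sylow 2 G := fun o => o.elim S fun s => (s : G) • T
  have key : ∀ s : (S : Subgroup G), S ≠ (s : G) • T := fun s e => by
    rw [← inv_smul_eq_iff, smul_sylow_of_mem (inv_mem s.2)] at e
    exact hne e
  have hf : Function.Bijective f := by
    refine ⟨?_, fun R => ?_⟩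
    · rintro (_ | s) (_ | s') e
      · rfl
      · exact absurd e (key s')
      · exact absurd e.symm (key s)
      · have e' : ((s' : G)⁻¹ * s) • T = T := by
          rw [mul_smul, inv_smul_eq_iff]; exact e
        by_contra hn
        exact hne (h.eq_of_smul (mul_mem (inv_mem s'.2) s.2)
          (fun e => hn (congrArg some (Subtype.ext (inv_mul_eq_one.1 e).symm))) e').symm
    · by_cases e : S = R
      · exact ⟨none, e⟩
      · obtain ⟨s, hs, e'⟩ := h.exists_smul_eq hc hne e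
        exact ⟨some ⟨s, hs⟩, e'⟩
  rw [← Nat.card_eq_of_bijective f hf, Finite.card_option]

theorem card_normalizer {S T : Sylow 2 G} (hne : S ≠ T) :
    Nat.card (normalizer ((S : Subgroup G) : Set G)) =
      Nat.card (S : Subgroup G) * (Nat.card (S : Subgroup G) - 1) := by
  obtain ⟨a, ha, ha1, -⟩ := h.exists_ne_ne S 1
  have h1 : GA.cjOrbit (normalizer ((S : Subgroup G) : Set G)) a =
      ((S : Subgroup G) : Set G) \ {1} := by
    ext b
    constructor
    · rintro ⟨g, hg, rfl⟩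
      exact ⟨(mem_normalizer_iff.1 hg a).1 ha, fun e => ha1 (conj_eq_one_iff.1 e)⟩
    · rintro ⟨hb, hb1⟩
      obtain ⟨d, -, hS, -, c, -⟩ := h.exists_conj hne ha ha1 hb hb1
      exact ⟨d, Sylow.smul_eq_iff_mem_normalizer.1 hS, c⟩
  have h2 := GA.ncard_cjOrbit (normalizer ((S : Subgroup G) : Set G)) a
  rw [h1, h.cent S a ha ha1, hc, Set.ncard_sdiff_singleton_of_mem (one_mem _),
    ← Nat.card_coe_set_eq] at h2
  rw [← card_mul_relIndex (H := (S : Subgroup G)) le_normalizer, ← h2]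
  rfl

end Self

end ECent

theorem elemInvol_of_cent [IsSimpleGroup G] (S : Sylow 2 G)
    (hS : ∀ a ∈ (S : Subgroup G), a * a = 1) (h4 : 4 ≤ Nat.card (S : Subgroup G))
    (hne : ¬ IsMulCommutative G)
    (hconj : ∀ a ∈ (S : Subgroup G), ∀ b ∈ (S : Subgroup G), a ≠ 1 → b ≠ 1 → IsConj a b)
    (hcent : ∀ t ∈ (S : Subgroup G), t ≠ 1 →
      centralizer ({t} : Set G) = centralizer ((S : Subgroup G) : Set G))
    (hsolv : ∀ X : Subgroup G, X ≠ ⊤ → Group.IsSolvable X)
    (hW : ∀ (k : G) (W : Subgroup G), (orderOf k).Prime → orderOf k ≠ 2 →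
      k ∈ normalizer ((S : Subgroup G) : Set G) → k ∉ centralizer ((S : Subgroup G) : Set G) →
      W ≤ centralizer ((S : Subgroup G) : Set G) → ¬ 2 ∣ Nat.card W →
      k ∈ normalizer (W : Set G) → W ⊓ centralizer {k} = ⊥ → W = ⊥) :
    ElemInvol G (Nat.card (S : Subgroup G)) ∧
      Nat.card G = (Nat.card (S : Subgroup G) + 1) * Nat.card (S : Subgroup G) *
        (Nat.card (S : Subgroup G) - 1) := by
  have hZ : center G = ⊥ := by
    refine (IsSimpleGroup.eq_bot_or_eq_top_of_normal (center G) inferInstance).resolve_right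
      fun e => hne ⟨⟨fun a b => ?_⟩⟩
    exact mem_center_iff.1 (e.ge (mem_top b)) a
  have hcard : ∀ T : Sylow 2 G, Nat.card (T : Subgroup G) = Nat.card (S : Subgroup G) :=
    fun T => by rw [T.card_eq_multiplicity, S.card_eq_multiplicity]
  have hmem : ∀ g x : G, x ∈ C(g • S) ↔ g⁻¹ * x * g ∈ C(S) := fun g x => by
    constructor
    · intro hx y hy
      have := hx (g * y * g⁻¹) (mem_smul_sylow.2 (by
        rw [show g⁻¹ * (g * y * g⁻¹) * g = y by group]; exact hy))
      calc y * (g⁻¹ * x * g) = g⁻¹ * (g * y * g⁻¹ * x) * g := by group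
        _ = _ := by rw [this]; group
    · intro hx y hy
      have := hx _ (mem_smul_sylow.1 hy)
      calc y * x = g * (g⁻¹ * y * g * (g⁻¹ * x * g)) * g⁻¹ := by group
        _ = _ := by rw [this]; group
  have h : ECent G := by
    refine ⟨fun T a ha => ?_, fun T => hcard T ▸ h4, fun T t ht h1 => ?_, fun x h1 => ?_⟩
    · obtain ⟨g, rfl⟩ := MulAction.exists_smul_eq G S T
      have := hS _ (mem_smul_sylow.1 ha)
      calc a * a = g * (g⁻¹ * a * g * (g⁻¹ * a * g)) * g⁻¹ := by group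
        _ = 1 := by rw [this]; group
    · obtain ⟨g, rfl⟩ := MulAction.exists_smul_eq G S T
      ext x
      rw [hmem, ← hcent _ (mem_smul_sylow.1 ht) (fun e => h1 (by
        calc t = g * (g⁻¹ * t * g) * g⁻¹ := by group
          _ = 1 := by rw [e]; group)), mem_centralizer_singleton_iff,
        mem_centralizer_singleton_iff]
      constructor
      · intro e
        calc g⁻¹ * x * g * (g⁻¹ * t * g) = g⁻¹ * (x * t) * g := by group
          _ = _ := by rw [e]; group
      · intro e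
        calc x * t = g * (g⁻¹ * x * g * (g⁻¹ * t * g)) * g⁻¹ := by group
          _ = _ := by rw [e]; group
    · refine hsolv _ fun e => h1 ?_
      rw [← mem_bot, ← hZ, mem_center_iff]
      exact fun g => mem_centralizer_singleton_iff.1 (e.ge (mem_top g))
  obtain ⟨T, hT⟩ : ∃ T : Sylow 2 G, S ≠ T := by
    by_contra hn
    push Not at hn
    have : Subsingleton (Sylow 2 G) := ⟨fun a b => (hn a).symm.trans (hn b)⟩
    obtain ⟨s, hs, h1, -⟩ := h.exists_ne_ne S 1
    rcases IsSimpleGroup.eq_bot_or_eq_top_of_normal _ S.normal_of_subsingleton with e | e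
    · exact h1 (mem_bot.1 (e ▸ hs))
    · exact hne ⟨⟨fun a b => h.comm (e.ge (mem_top a)) (e.ge (mem_top b))⟩⟩
  have hc : ∀ R : Sylow 2 G, C(R) = R := fun R => by
    obtain ⟨g, rfl⟩ := MulAction.exists_smul_eq G S R
    ext x
    rw [hmem, h.cent_eq hT hW, mem_smul_sylow]
  refine ⟨fun z hz => ?_, ?_⟩
  · obtain ⟨R, hR⟩ := exists_sylow_of_mul_self (mul_self_of_orderOf hz)
    rw [h.cent R z hR (ne_one_of_orderOf_two hz), hc]
    exact ⟨hcard R, h.sq R⟩
  · rw [← (normalizer ((S : Subgroup G) : Set G)).index_mul_card, h.card_normalizer hc hT,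
      mul_assoc, ← h.card_sylow hc hT, S.card_eq_index_normalizer]
    rfl

end Cfsg.Acd

set_option linter.all false in
theorem Cfsg.Rz.Acd_Elem_0 : True := by
  have := @_root_.Cfsg.Acd.ECent.mk.congr_simp.{0}
  trivial
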