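import Cfsg.Agent.Acd.Tools
import Cfsg.Agent.Acd.Elem

/-!
# Elementary abelian Sylow `2`-subgroups

Apply `elemInvol_of_cent` (`hsolv` from `GoodIn.isSolvable`).
* `hcent` if `8 ≤ |S|`: by `hgen`, `N(S) ⊓ C(t) = C(S)`, so Burnside
  (`hasNormalPComplement_of_normalizer_le_centralizer`) gives `C(t) = O S` with `O = O(C(t))`
  containing all elements of odd order. If `S` does not centralize `O`, `GoodIn.exists_isEigen` gives
  `a`, and `S₀ = S ⊓ C(a) ∋ t` has index two, so contains three distinct involutions `t₁ t₂ t₃`. Choose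
  `nᵢ ∈ N(S)` with `nᵢ tᵢ nᵢ⁻¹ = t` (some `n ∈ N(S) \ C(S)` exists by Burnside). Then `a ^ nᵢ ∈ O`, and the
  `S₀ ^ nᵢ` are distinct (else `nⱼ⁻¹ nᵢ ∉ C(S)` normalizes `S₀`, against `hgen`). This contradicts
  `GoodIn.not_three_eigen`.
* `hW`: if `W ≠ 1` take an abelian `k`-invariant `1 ≠ Z ≤ W`; `k` is fixed point free on the abelian
  group `A = S × Z` of order `≥ 3 |S| ≥ 3 (o(k) + 1)`, so `[A, k] = A` (`commutator_eq_of_fpf`), against
  `Acd2.frob_prime` (`index_commutator_of_comm`) in the proper subgroup `N(S)`.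
-/

set_option autoImplicit false
set_option linter.unusedSectionVars false

namespace Cfsg.Acd

open Subgroup

universe u

theorem elem_case {G : Type u} [Group G] [Finite G] [IsSimpleGroup G]
    (hG : ∀ X : Subgroup G, X ≠ ⊤ → GoodIn X) (hna : ¬ IsMulCommutative G) (S : Sylow 2 G)
    (hS : ∀ a ∈ (S : Subgroup G), a * a = 1) (h4 : 4 ≤ Nat.card (S : Subgroup G))
    (hgen : ∀ n ∈ normalizer ((S : Subgroup G) : Set G),
      n ∉ centralizer ((S : Subgroup G) : Set G) → ∀ a ∈ (S : Subgroup G), ∀ b ∈ (S : Subgroup G),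
        a ≠ 1 → b ≠ 1 → ∃ s ∈ zpowers n, s * a * s⁻¹ = b)
    (hc : 8 ≤ Nat.card (S : Subgroup G) ∨ ∀ t ∈ (S : Subgroup G), t ≠ 1 →
      centralizer ({t} : Set G) = centralizer ((S : Subgroup G) : Set G)) :
    ElemInvol G (Nat.card (S : Subgroup G)) ∧
      Nat.card G = (Nat.card (S : Subgroup G) + 1) * Nat.card (S : Subgroup G) *
        (Nat.card (S : Subgroup G) - 1) := by
  classical
  set T := (S : Subgroup G) with hT
  have comm : ∀ a ∈ T, ∀ b ∈ T, a * b = b * a := fun a ha b hb => by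
    rw [← inv_eq_of_mul_eq_one_right (hS _ (mul_mem ha hb)), mul_inv_rev,
      inv_eq_of_mul_eq_one_right (hS a ha), inv_eq_of_mul_eq_one_right (hS b hb)]
  have ex : ∀ (H : Subgroup G) (s : Finset G), s.card < Nat.card H → ∃ a ∈ H, a ∉ s := by
    intro H s hs
    by_contra h
    push Not at h
    have := Set.ncard_le_ncard (s := (H : Set G)) (t := s) h
    rw [Set.ncard_coe_finset, ← Nat.card_coe_set_eq] at this
    exact absurd (hs.trans_le this) (lt_irrefl _)
  have nm : ∀ (X : Subgroup G) (M : Subgroup X) [M.Normal],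
      X ≤ normalizer ((M.map X.subtype : Subgroup G) : Set G) := fun X M hM x hx =>
    mem_normalizer_of_forall_conj_mem (by
      rintro _ ⟨m, hm, rfl⟩
      exact ⟨_, hM.conj_mem m hm ⟨x, hx⟩, rfl⟩)
  have T1 : T ≠ ⊤ := fun e => hna ⟨⟨fun a b => comm a (e ▸ mem_top a) b (e ▸ mem_top b)⟩⟩
  have T0 : T ≠ ⊥ := fun e => by simp [e] at h4
  have nofix : ∀ n ∈ normalizer (T : Set G), n ∉ centralizer (T : Set G) →
      ∀ a ∈ T, n * a * n⁻¹ = a → a = 1 := fun n hn hc a ha e => by
    by_contra a1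
    obtain ⟨b, hb, nb⟩ := ex T {1, a} (Finset.card_le_two.trans_lt (by omega))
    simp only [Finset.mem_insert, Finset.mem_singleton, not_or] at nb
    obtain ⟨s, hs, e'⟩ := hgen n hn hc a ha b hb a1 nb.1
    have : s ∈ centralizer {a} := (zpowers_le.2 (mem_centralizer_singleton_iff.2
      (mul_inv_eq_iff_eq_mul.1 e))) hs
    exact nb.2 (by rw [← e', mem_centralizer_singleton_iff.1 this, mul_inv_cancel_right])
  obtain ⟨n, hn, hnc⟩ : ∃ n ∈ normalizer (T : Set G), n ∉ centralizer (T : Set G) := by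
    by_contra H
    push Not at H
    have h1 := (hasNormalPComplement_iff_sup_eq_top S).1
      (hasNormalPComplement_of_normalizer_le_centralizer S H)
    rcases IsSimpleGroup.eq_bot_or_eq_top_of_normal (pPrimeCore 2 G) inferInstance with e | e
    · exact T1 (by simpa [e] using h1)
    · have h2 := not_dvd_card_pPrimeCore 2 G
      rw [e, card_top] at h2
      obtain ⟨k, hk⟩ := S.isPGroup'.exists_card_eq
      refine h2 (Dvd.dvd.trans ?_ (card_subgroup_dvd_card T))
      rw [hk] at h4 ⊢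
      exact dvd_pow_self 2 (by rintro rfl; simp at h4)
  refine elemInvol_of_cent S hS h4 hna (fun a ha b hb a1 b1 => ?_)
    (hc.elim (fun h8 t ht t1 => ?_) id) (fun X hX => (hG X hX).isSolvable)
    fun k W hk k2 kn kc hW oW kW hf => ?_
  · obtain ⟨s, -, e⟩ := hgen n hn hnc a ha b hb a1 b1
    exact isConj_iff.2 ⟨s, e⟩
  · set X := centralizer ({t} : Set G) with hX
    have X1 : X ≠ ⊤ := fun e => by
      rcases IsSimpleGroup.eq_bot_or_eq_top_of_normal (center G) inferInstance with h | h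
      · exact t1 (mem_bot.1 (h ▸ mem_center_iff.2 fun g =>
          mem_centralizer_singleton_iff.1 (e.ge (mem_top g))))
      · exact hna ⟨⟨fun a b => mem_center_iff.1 (h.ge (mem_top b)) a⟩⟩
    have TX : T ≤ X := fun a ha => mem_centralizer_singleton_iff.2 (comm a ha t ht)
    refine le_antisymm ?_ (centralizer_le (Set.singleton_subset_iff.2 ht))
    obtain ⟨R, hR⟩ := exists_sylow_of_not_dvd_relIndex S.isPGroup' TX fun e =>
      S.not_dvd_index (e.trans (relIndex_dvd_index_of_le TX))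
    have mR : ∀ x : X, x ∈ (R : Subgroup X) ↔ (x : G) ∈ T := fun x => by
      rw [hT, ← hR]; exact (mem_map_iff_mem X.subtype_injective).symm
    have hp := hasNormalPComplement_of_normalizer_le_centralizer R fun x hx => by
      have h1 : (x : G) ∈ normalizer (T : Set G) := mem_normalizer_of_forall_conj_mem fun y hy =>
        (mR _).1 ((mem_normalizer_iff.1 hx ⟨y, TX hy⟩).1 ((mR _).2 hy))
      have h2 : (x : G) ∈ centralizer (T : Set G) := by
        by_contra h2
        exact t1 (nofix x h1 h2 t ht (mul_inv_eq_iff_eq_mul.2 (mem_centralizer_singleton_iff.1 x.2)))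
      exact fun y hy => Subtype.ext (h2 y ((mR y).1 hy))
    set O := (pPrimeCore 2 X).map X.subtype with hO
    have OX : O ≤ X := map_subtype_le _
    have oO : ¬ 2 ∣ Nat.card O := by
      rw [hO, card_map_of_injective X.subtype_injective]; exact not_dvd_card_pPrimeCore 2 X
    have nO : T ≤ normalizer (O : Set G) := TX.trans (nm _ _)
    have mO : ∀ x ∈ X, ¬ 2 ∣ orderOf x → x ∈ O := fun x hx h =>
      mem_map_of_mem _ (hasNormalPComplement_iff_forall_mem.1 hp ⟨x, hx⟩ (isPRegular_coe_iff.1 h))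
    have e1 : O ⊔ T = X := by
      rw [hT, ← hR, hO, ← Subgroup.map_sup, (hasNormalPComplement_iff_sup_eq_top R).1 hp,
        ← MonoidHom.range_eq_map, range_subtype]
    by_cases hc : T ≤ centralizer (O : Set G)
    · rw [← e1]
      exact sup_le (le_centralizer_iff.1 hc) fun a ha b hb => comm b hb a ha
    exfalso
    obtain ⟨a, ha, ea⟩ := (hG X X1).exists_isEigen OX TX oO hS nO hc
    have oa := not_two_dvd_orderOf oO ha
    obtain ⟨s, hs, es⟩ := ea.2.2
    have ns : s ∉ centralizer {a} := fun e => by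
      rw [mem_centralizer_singleton_iff.1 e, mul_inv_cancel_right] at es
      exact ea.1 (mem_bot.1 (mem_of_sq_mem (K := ⊥) oa (by nth_rewrite 1 [es]; simp)))
    have c4 : 4 ≤ Nat.card (T ⊓ centralizer {a} : Subgroup G) := by
      have := (Set.ncard_le_ncard (s := (T : Set G)) (t := (T ⊓ centralizer {a} : Subgroup G) ∪
        (s * ·) '' (T ⊓ centralizer {a} : Subgroup G)) fun x hx => ?_).trans
          ((Set.ncard_union_le _ _).trans (add_le_add le_rfl (Set.ncard_image_le (Set.toFinite _))))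
      · rw [← Nat.card_coe_set_eq, ← Nat.card_coe_set_eq] at this
        change Nat.card T ≤ Nat.card (T ⊓ centralizer {a} : Subgroup G) +
          Nat.card (T ⊓ centralizer {a} : Subgroup G) at this
        omega
      rcases ea.2.1 x hx with e | e
      · exact Or.inl ⟨hx, mem_centralizer_singleton_iff.2 (mul_inv_eq_iff_eq_mul.1 e)⟩
      · refine Or.inr ⟨s⁻¹ * x, ⟨T.mul_mem (T.inv_mem hs) hx, mem_centralizer_singleton_iff.2 ?_⟩,
          by simp⟩
        calc s⁻¹ * x * a = s⁻¹ * (x * a * x⁻¹) * x := by group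
          _ = _ := by rw [e, ← es]; group
    have key : ∀ u ∈ T ⊓ centralizer {a}, u ≠ 1 → ∃ m ∈ normalizer (T : Set G),
        m * u * m⁻¹ = t ∧ m * a * m⁻¹ ∈ O := fun u hu u1 => by
      obtain ⟨m, hm, e⟩ := hgen n hn hnc u hu.1 t ht u1 t1
      refine ⟨m, zpowers_le.2 hn hm, e, mO _ (mem_centralizer_singleton_iff.2 ?_) (by
        rwa [← MulAut.conj_apply, MulEquiv.orderOf_eq])⟩
      have := mem_centralizer_singleton_iff.1 hu.2
      rw [← e]
      calc m * a * m⁻¹ * (m * u * m⁻¹) = m * (a * u) * m⁻¹ := by group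
        _ = _ := by rw [← this]; group
    have dist : ∀ u ∈ T ⊓ centralizer {a}, ∀ v : G, u ≠ 1 → v ≠ u → ∀ m ∈ normalizer (T : Set G),
        ∀ m' ∈ normalizer (T : Set G), m * u * m⁻¹ = t → m' * v * m'⁻¹ = t →
        T ⊓ centralizer {m * a * m⁻¹} ≠ T ⊓ centralizer {m' * a * m'⁻¹} := by
      intro u hu v u1 uv m hm m' hm' e e' h
      have hw := mul_mem (inv_mem hm') hm
      obtain ⟨w, hw', ew⟩ := hgen _ hw (fun c => uv (by
        have := c u hu.1
        calc v = m'⁻¹ * (m' * v * m'⁻¹) * m' := by group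
          _ = m'⁻¹ * m * u * (m'⁻¹ * m)⁻¹ := by rw [e', ← e]; group
          _ = u := by rw [← this]; group)) u hu.1 s hs u1 (by rintro rfl; exact ns (one_mem _))
      have : m'⁻¹ * m ∈ normalizer ((T ⊓ centralizer {a} : Subgroup G) : Set G) :=
        mem_normalizer_of_forall_conj_mem fun y hy => by
          refine ⟨conj_mem_of_mem_normalizer hw hy.1, mem_centralizer_singleton_iff.2 ?_⟩
          have h1 : m * y * m⁻¹ ∈ T ⊓ centralizer {m * a * m⁻¹} :=
            ⟨conj_mem_of_mem_normalizer hm hy.1, mem_centralizer_singleton_iff.2 (by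
              calc m * y * m⁻¹ * (m * a * m⁻¹) = m * (y * a) * m⁻¹ := by group
                _ = _ := by rw [mem_centralizer_singleton_iff.1 hy.2]; group)⟩
          have h2 := mem_centralizer_singleton_iff.1 (h ▸ h1).2
          calc m'⁻¹ * m * y * (m'⁻¹ * m)⁻¹ * a =
              m'⁻¹ * (m * y * m⁻¹ * (m' * a * m'⁻¹)) * m' := by group
            _ = _ := by rw [h2]; group
      exact ns (ew ▸ (conj_mem_of_mem_normalizer (zpowers_le.2 this hw') hu).2)
    obtain ⟨t₁, m₁, n₁⟩ := ex (T ⊓ centralizer {a}) {1} (by rw [Finset.card_singleton]; omega)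
    obtain ⟨t₂, m₂, n₂⟩ := ex (T ⊓ centralizer {a}) {1, t₁} (Finset.card_le_two.trans_lt (by omega))
    obtain ⟨t₃, m₃, n₃⟩ := ex (T ⊓ centralizer {a}) {1, t₁, t₂}
      (Finset.card_le_three.trans_lt (by omega))
    simp only [Finset.mem_insert, Finset.mem_singleton, not_or] at n₁ n₂ n₃
    obtain ⟨x₁, y₁, z₁, w₁⟩ := key t₁ m₁ n₁
    obtain ⟨x₂, y₂, z₂, w₂⟩ := key t₂ m₂ n₂.1
    obtain ⟨x₃, y₃, z₃, w₃⟩ := key t₃ m₃ n₃.1
    exact (hG X X1).not_three_eigen OX TX oO hS nO w₁ w₂ w₃ (ea.conj y₁) (ea.conj y₂) (ea.conj y₃)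
      (dist _ m₁ _ n₁ n₂.2 _ y₁ _ y₂ z₁ z₂) (dist _ m₁ _ n₁ n₃.2.1 _ y₁ _ y₃ z₁ z₃)
      (dist _ m₂ _ n₂.1 n₃.2.2 _ y₂ _ y₃ z₂ z₃)
  · by_contra W0
    have N1 : normalizer (T : Set G) ≠ ⊤ := fun e =>
      (IsSimpleGroup.eq_bot_or_eq_top_of_normal T (normalizer_eq_top_iff.1 e)).elim T0 T1
    have hN := hG _ N1
    have WN := hW.trans (centralizer_le_normalizer _)
    set Y := W ⊔ zpowers k with hY
    have YN : Y ≤ normalizer (T : Set G) := sup_le WN (zpowers_le.2 kn)
    haveI := (hN.mono YN).isSolvable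
    haveI : (W.subgroupOf Y).Normal :=
      (normal_subgroupOf_iff_le_normalizer le_sup_left).2 (sup_le le_normalizer (zpowers_le.2 kW))
    obtain ⟨M, hM, MW⟩ := exists_isMinNormal_le (W.subgroupOf Y) fun e => W0 (by
      rwa [subgroupOf_eq_bot, disjoint_iff, inf_eq_left.2 le_sup_left] at e)
    haveI := hM.normal
    haveI := hM.isMulCommutative_of_isSolvable
    set Z := M.map Y.subtype with hZ
    have ZW : Z ≤ W := map_le_iff_le_comap.2 MW
    have kZ : k ∈ normalizer (Z : Set G) :=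
      nm _ _ (mem_sup_right (mem_zpowers k))
    have Z0 : Z ≠ ⊥ := fun e => hM.ne_bot ((map_eq_bot_iff_of_injective _ Y.subtype_injective).1 e)
    have oZ : ¬ 2 ∣ Nat.card Z := fun e => oW (e.trans (card_dvd_of_le ZW))
    have TZ : T ≤ centralizer (Z : Set G) := le_centralizer_iff.1 (ZW.trans hW)
    have mA : ∀ x ∈ T ⊔ Z, ∃ s ∈ T, ∃ z ∈ Z, s * z = x := fun x hx => by
      rw [← SetLike.mem_coe, coe_mul_of_left_le_normalizer_right _ _
        (TZ.trans (centralizer_le_normalizer _))] at hx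
      exact hx
    have iTW : T ⊓ W = ⊥ := inf_eq_bot_of_isPGroup_of_not_dvd S.isPGroup' oW
    have cA : ∀ a ∈ T ⊔ Z, ∀ b ∈ T ⊔ Z, a * b = b * a := fun a ha b hb => by
      obtain ⟨s, hs, z, hz, rfl⟩ := mA a ha
      obtain ⟨s', hs', z', hz', rfl⟩ := mA b hb
      exact ((show Commute s s' from comm s hs s' hs').mul_right (TZ hs z' hz').symm).mul_left
        ((show Commute z s' from TZ hs' z hz).mul_right (setLike_mul_comm hz hz'))
    have kA : k ∈ normalizer ((T ⊔ Z : Subgroup G) : Set G) :=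
      mem_normalizer_of_forall_conj_mem fun x hx => by
        obtain ⟨s, hs, z, hz, rfl⟩ := mA x hx
        rw [show k * (s * z) * k⁻¹ = k * s * k⁻¹ * (k * z * k⁻¹) by group]
        exact mul_mem (mem_sup_left (conj_mem_of_mem_normalizer kn hs))
          (mem_sup_right (conj_mem_of_mem_normalizer kZ hz))
    have h1 := Acd2.frob_prime (hN (T ⊔ Z ⊔ zpowers k) (sup_le (sup_le le_normalizer (ZW.trans WN))
      (zpowers_le.2 kn))) hk kA (commutator_eq_of_fpf kA fun x hx e => by
        obtain ⟨s, hs, z, hz, rfl⟩ := mA x hx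
        have e1 : s⁻¹ * (k * s * k⁻¹) = z * (k * z * k⁻¹)⁻¹ := by
          calc s⁻¹ * (k * s * k⁻¹) = s⁻¹ * (k * (s * z) * k⁻¹) * (k * z * k⁻¹)⁻¹ := by group
            _ = _ := by rw [e]; group
        have e2 : s⁻¹ * (k * s * k⁻¹) ∈ T ⊓ W :=
          ⟨T.mul_mem (T.inv_mem hs) (conj_mem_of_mem_normalizer kn hs),
            e1 ▸ ZW (mul_mem hz (inv_mem (conj_mem_of_mem_normalizer kZ hz)))⟩
        rw [iTW, mem_bot] at e2
        have e3 : z ∈ W ⊓ centralizer {k} := ⟨ZW hz, mem_centralizer_singleton_iff.2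
          (mul_inv_eq_iff_eq_mul.1 (mul_inv_eq_one.1 (e1.symm.trans e2)).symm).symm⟩
        rw [hf, mem_bot] at e3
        rw [e3, nofix k kn kc s hs (inv_mul_eq_one.1 e2).symm, one_mul])
    rw [index_commutator_of_comm cA] at h1
    have h2 : Nat.card T * Nat.card Z ≤ Nat.card (T ⊔ Z : Subgroup G) := by
      rw [← Nat.card_prod]
      refine Nat.card_le_card_of_injective
        (fun x => ⟨x.1 * x.2, mul_mem (mem_sup_left x.1.2) (mem_sup_right x.2.2)⟩) fun x y e => ?_
      have e1 : (x.1 : G) * x.2 = y.1 * y.2 := congrArg Subtype.val e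
      have e2 : (y.1 : G)⁻¹ * x.1 = y.2 * (x.2 : G)⁻¹ := by
        rw [inv_mul_eq_iff_eq_mul, ← mul_assoc, ← e1, mul_inv_cancel_right]
      have e3 : (y.1 : G)⁻¹ * x.1 ∈ T ⊓ W :=
        ⟨T.mul_mem (T.inv_mem y.1.2) x.1.2, e2 ▸ ZW (mul_mem y.2.2 (inv_mem x.2.2))⟩
      rw [iTW, mem_bot] at e3
      exact Prod.ext (Subtype.ext (inv_mul_eq_one.1 e3).symm)
        (Subtype.ext (mul_inv_eq_one.1 (e2.symm.trans e3)).symm)
    have h3 := three_le_card oZ Z0
    obtain ⟨a, ha, a1⟩ := ex T {1} (by simp; omega)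
    rw [Finset.mem_singleton] at a1
    have h5 : orderOf k < Nat.card T := by
      rw [← Nat.card_zpowers]
      change (zpowers k : Set G).ncard < (T : Set G).ncard
      refine (Set.ncard_le_ncard_of_injOn (s := (zpowers k : Set G)) (t := (T : Set G) \ {1})
        (fun u => u * a * u⁻¹) (fun u hu => ⟨conj_mem_of_mem_normalizer (zpowers_le.2 kn hu) ha,
          by simpa using a1⟩) fun u hu v hv e => ?_).trans_lt
        (Set.ncard_sdiff_singleton_lt_of_mem (one_mem T))
      by_contra uv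
      have e1 := zpowers_eq_of_prime hk (mul_mem (inv_mem hv) hu) fun e => uv (inv_mul_eq_one.1 e).symm
      have e2 : v⁻¹ * u ∈ centralizer {a} := mem_centralizer_singleton_iff.2 (by
        calc v⁻¹ * u * a = v⁻¹ * (u * a * u⁻¹) * u := by group
          _ = _ := by rw [show u * a * u⁻¹ = v * a * v⁻¹ from e]; group)
      exact a1 (nofix k kn kc a ha (mul_inv_eq_iff_eq_mul.2 (mem_centralizer_singleton_iff.1
        (zpowers_le.2 e2 (e1 ▸ mem_zpowers k)))))
    have h6 := hk.two_le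
    obtain ⟨r, hr⟩ : ∃ r, orderOf k = r + 3 := ⟨orderOf k - 3, by omega⟩
    obtain ⟨c, hc⟩ : ∃ c, Nat.card (T ⊔ Z : Subgroup G) = c + 1 := ⟨_, (Nat.succ_pred Nat.card_pos.ne').symm⟩
    rw [hr] at h1 h5
    rw [hc] at h1 h2
    have h7 : (r + 4) * 3 ≤ c + 1 := (Nat.mul_le_mul h5 h3).trans h2
    simp only [Nat.add_sub_cancel, show r + 3 - 2 = r + 1 from rfl] at h1
    nlinarith

end Cfsg.Acd
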