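import Cfsg.Agent.Grp.Scott
import Cfsg.Agent.Grp.InvolSL2
import Cfsg.Agent.Char.SimpleLin

/-!
# A group of order 120 with a unique involution and simple central quotient is `SL₂(5)`

`G / ⟨z⟩ ≃ A₅`; lift a `(2,3,5)` pair to `a, b` with `a ^ 2 = z`, `b ^ 3 = (a b) ^ 5 = 1`; same
for explicit matrices in `SL₂(5)`. The diagonal subgroup of `G × SL₂(5)` they generate has order
`120` (`card_closure_eq_sixty` in the quotient by `(z, -1)`) and projects onto both factors.
-/

set_option autoImplicit false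
set_option linter.unusedSectionVars false

namespace Cfsg.Acd

open Subgroup

universe u v

theorem eq_or_eq_of_mem_zpowers {G : Type u} [Group G] [Finite G] {z g : G} (hz : orderOf z = 2)
    (hg : g ∈ zpowers z) : g = 1 ∨ g = z := by
  classical
  obtain ⟨n, hn, rfl⟩ := Finset.mem_image.1 (mem_zpowers_iff_mem_range_orderOf.1 hg)
  rw [hz, Finset.mem_range] at hn
  interval_cases n <;> simp

theorem exists_SL25 : ∃ A B Z : Matrix.SpecialLinearGroup (Fin 2) (ZMod 5),
    Z ^ 2 = 1 ∧ Z ≠ 1 ∧ Z ∈ center _ ∧ A ^ 2 = Z ∧ B ^ 3 = 1 ∧ (A * B) ^ 5 = 1 := by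
  refine ⟨⟨!![0, 1; -1, 0], by decide⟩, ⟨!![0, -1; 1, -1], by decide⟩,
    ⟨!![-1, 0; 0, -1], by decide⟩, Subtype.ext (by decide),
    fun e => absurd (congrArg Subtype.val e) (by decide),
    mem_center_iff.2 fun g => Subtype.ext ?_, Subtype.ext (by decide), Subtype.ext (by decide),
    Subtype.ext (by decide)⟩
  change g.1 * !![-1, 0; 0, -1] = !![-1, 0; 0, -1] * g.1
  ext i j
  fin_cases i <;> fin_cases j <;> simp [Matrix.mul_apply, Fin.sum_univ_two]

theorem exists_alt5 : ∃ x y : alternatingGroup (Fin 5),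
    x ≠ 1 ∧ x ^ 2 = 1 ∧ y ^ 3 = 1 ∧ (x * y) ^ 5 = 1 :=
  ⟨⟨Equiv.swap 0 1 * Equiv.swap 2 3, Equiv.Perm.mem_alternatingGroup.2 (by decide)⟩,
    ⟨Equiv.swap 0 2 * Equiv.swap 2 4, Equiv.Perm.mem_alternatingGroup.2 (by decide)⟩,
    by decide, by decide, by decide, by decide⟩

theorem card_closure_eq_of_central {G : Type u} [Group G] [Finite G] {z a b : G}
    (hz : orderOf z = 2) (hc : z ∈ center G) (ha : a ^ 2 = z) (hb : b ^ 3 = 1)
    (hab : (a * b) ^ 5 = 1) : Nat.card (closure {a, b} : Subgroup G) = 120 := by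
  have hz2 : z ^ 2 = 1 := hz ▸ pow_orderOf_eq_one z
  have hz1 : z ≠ 1 := ne_one_of_orderOf_two hz
  have ha4 : a ^ 4 = 1 := by rw [← hz2, ← ha, ← pow_mul]
  have hN : ∀ g ∈ zpowers z, g ^ 2 = 1 := by
    rintro _ ⟨n, rfl⟩
    change (z ^ n) ^ 2 = 1
    rw [← zpow_natCast, ← zpow_mul, mul_comm, zpow_mul, zpow_natCast, hz2, one_zpow]
  have : (zpowers z).Normal := ⟨fun n hn g => by
    rw [mem_center_iff.1 ((zpowers_le_of_mem hc) hn) g, mul_inv_cancel_right]; exact hn⟩
  have : Fact (Nat.Prime 3) := ⟨Nat.prime_three⟩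
  have : Fact (Nat.Prime 5) := ⟨Nat.prime_five⟩
  have h1 : orderOf (QuotientGroup.mk' (zpowers z) a) = 2 := by
    refine orderOf_eq_prime ?_ fun e => hz1 ?_
    · rw [← map_pow, ha]
      exact (QuotientGroup.eq_one_iff z).2 (mem_zpowers z)
    · rw [← ha, hN a ((QuotientGroup.eq_one_iff a).1 e)]
  have h2 : orderOf (QuotientGroup.mk' (zpowers z) b) = 3 := by
    refine orderOf_eq_prime (by rw [← map_pow, hb, map_one]) fun e => hz1 ?_
    have e1 := hN b ((QuotientGroup.eq_one_iff b).1 e)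
    rw [pow_succ, e1, one_mul] at hb
    rw [hb, mul_one, pow_succ, ha4, one_mul] at hab
    rw [← ha, hab, one_pow]
  have h3 : orderOf (QuotientGroup.mk' (zpowers z) a * QuotientGroup.mk' (zpowers z) b) = 5 := by
    refine orderOf_eq_prime (by rw [← map_mul, ← map_pow, hab, map_one]) fun e => hz1 ?_
    have e1 := hN (a * b) ((QuotientGroup.eq_one_iff (a * b)).1 e)
    rw [show 5 = 2 * 2 + 1 from rfl, pow_succ, pow_mul, e1, one_pow, one_mul] at hab
    rw [eq_inv_of_mul_eq_one_right hab, inv_pow, inv_eq_one] at hb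
    rw [pow_succ, hb, one_mul] at ha4
    rw [← ha, ha4, one_pow]
  have h4 := card_closure_eq_sixty h1 h2 h3
  have h5 : zpowers z ≤ closure {a, b} :=
    zpowers_le_of_mem (ha ▸ pow_mem (subset_closure (Set.mem_insert _ _)) 2)
  rw [← Set.image_pair, ← MonoidHom.map_closure, ← relIndex_ker, QuotientGroup.ker_mk'] at h4
  rw [← card_mul_relIndex h5, h4, Nat.card_zpowers, hz]

theorem nonempty_equiv_SL25 {G : Type u} [Group G] [Finite G] {L : Type v} [Group L]
    [IsSimpleGroup L] (hL : Nat.card L = 60) (π : G →* L) (hπ : Function.Surjective π) {z : G}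
    (hz : orderOf z = 2) (hker : π.ker = zpowers z) (hu : ∀ v : G, orderOf v = 2 → v = z) :
    Nonempty (G ≃* Matrix.SpecialLinearGroup (Fin 2) (ZMod 5)) := by
  have : Finite L := Nat.finite_of_card_ne_zero (by omega)
  have : Fact (Nat.Prime 3) := ⟨Nat.prime_three⟩
  have : Fact (Nat.Prime 5) := ⟨Nat.prime_five⟩
  have hna : ¬ IsMulCommutative L := fun h => by
    let _ : CommGroup L := { mul_comm := h.1.1 }
    have := IsSimpleGroup.prime_card (α := L)
    rw [hL] at this
    exact absurd this (by decide)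
  obtain ⟨e⟩ := nonempty_equiv_alternatingGroup_of_card_eq_sixty hna hL
  obtain ⟨x, y, hx1, hx, hy, hxy⟩ := exists_alt5
  have hz2 : z ^ 2 = 1 := hz ▸ pow_orderOf_eq_one z
  have hc : z ∈ center G := mem_center_iff.2 fun g =>
    mul_inv_eq_iff_eq_mul.1 (hu _ (((MulAut.conj g).orderOf_eq z).trans hz))
  have hG : Nat.card G = 120 := by
    rw [← π.ker.card_mul_index, index_ker, MonoidHom.range_eq_top.2 hπ, card_top, hL, hker,
      Nat.card_zpowers, hz]
  have hk : ∀ g, e (π g) = 1 → g = 1 ∨ g = z := fun g h =>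
    eq_or_eq_of_mem_zpowers hz (hker ▸ (map_eq_one_iff e e.injective).1 h)
  have hπz : π z = 1 := hker.ge (mem_zpowers z)
  have hpow : ∀ (g : G) (n : ℕ), (g * z) ^ n = g ^ n * z ^ n := fun g n =>
    (show Commute g z from mem_center_iff.1 hc g).mul_pow n
  obtain ⟨b, hb, hb3⟩ : ∃ b : G, e (π b) = y ∧ b ^ 3 = 1 := by
    obtain ⟨b, hb⟩ := (e.surjective.comp hπ) y
    replace hb : e (π b) = y := hb
    rcases hk (b ^ 3) (by rw [map_pow, map_pow, hb, hy]) with h | h
    · exact ⟨b, hb, h⟩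
    · refine ⟨b * z, by rw [map_mul, hπz, mul_one]; exact hb, ?_⟩
      rw [hpow, h, ← pow_succ', show 3 + 1 = 2 * 2 from rfl, pow_mul, hz2, one_pow]
  obtain ⟨a, ha, hab⟩ : ∃ a : G, e (π a) = x ∧ (a * b) ^ 5 = 1 := by
    obtain ⟨a, ha⟩ := (e.surjective.comp hπ) x
    replace ha : e (π a) = x := ha
    rcases hk ((a * b) ^ 5) (by rw [map_pow, map_pow, map_mul, map_mul, ha, hb, hxy]) with h | h
    · exact ⟨a, ha, h⟩
    · refine ⟨a * z, by rw [map_mul, hπz, mul_one]; exact ha, ?_⟩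
      rw [mul_assoc, ← mem_center_iff.1 hc b, ← mul_assoc, hpow, h, ← pow_succ',
        show 5 + 1 = 2 * 3 from rfl, pow_mul, hz2, one_pow]
  have ha2 : a ^ 2 = z := by
    refine (hk (a ^ 2) (by rw [map_pow, map_pow, ha, hx])).resolve_left fun h => hx1 ?_
    rw [← ha, hu a (orderOf_eq_prime h fun h1 => hx1 (by rw [← ha, h1, map_one, map_one])), hπz,
      map_one]
  obtain ⟨A, B, Z, hZ2, hZ1, hZc, hA, hB, hAB⟩ := exists_SL25
  have hZ : orderOf Z = 2 := orderOf_eq_prime hZ2 hZ1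
  have hS : Nat.card (Matrix.SpecialLinearGroup (Fin 2) (ZMod 5)) = 120 := by
    rw [card_SL2, ZMod.card]
  have t1 : closure {a, b} = ⊤ :=
    eq_top_of_card_eq _ ((card_closure_eq_of_central hz hc ha2 hb3 hab).trans hG.symm)
  have t2 : Subgroup.closure {A, B} = ⊤ :=
    eq_top_of_card_eq _ ((card_closure_eq_of_central hZ hZc hA hB hAB).trans hS.symm)
  have hD := card_closure_eq_of_central (z := (z, Z)) (a := (a, A)) (b := (b, B))
    (by rw [Prod.orderOf_mk, hz, hZ]; rfl)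
    (mem_center_iff.2 fun g => Prod.ext (mem_center_iff.1 hc g.1) (mem_center_iff.1 hZc g.2))
    (Prod.ext ha2 hA) (Prod.ext hb3 hB) (Prod.ext hab hAB)
  have s1 : Function.Bijective ((MonoidHom.fst _ _).comp (closure {(a, A), (b, B)}).subtype) := by
    rw [Nat.bijective_iff_surjective_and_card, ← MonoidHom.range_eq_top, MonoidHom.range_comp,
      range_subtype, MonoidHom.map_closure, Set.image_pair]
    exact ⟨t1, hD.trans hG.symm⟩
  have s2 : Function.Bijective ((MonoidHom.snd _ _).comp (closure {(a, A), (b, B)}).subtype) := by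
    rw [Nat.bijective_iff_surjective_and_card, ← MonoidHom.range_eq_top, MonoidHom.range_comp,
      range_subtype, MonoidHom.map_closure, Set.image_pair]
    exact ⟨t2, hD.trans hS.symm⟩
  exact ⟨(MulEquiv.ofBijective _ s1).symm.trans (MulEquiv.ofBijective _ s2)⟩

end Cfsg.Acd
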