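import Cfsg.Agent.Acd.ExtA
import Cfsg.Agent.Acd.SL25

/-!
# Frattini extensions of the simple groups

`L = G / N`. `N ≤ Φ(G)` is nilpotent; preimages of proper subgroups of `L` are proper, so `GoodIn`.
In `L` (no normal `2`-complement, `hasNormalPComplement_of_forall_isPElt`, `hC`) there are `V`, `y`
with `IsRy V y` (`isRy_commutator`; an odd element centralizing a `2`-subgroup `≠ 1` is trivial by
`hC`), `V` is elementary of order `≥ 4` (`IsRy.cases`; `Q₈` has a centre fixed by `y`), and `N_L(V)`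
has odd index (Sylow `2` of `L` is abelian or of order `8`).
1. `N` is a `2`-group. Else let `M ≥ O₂(N)` be normal in `G` with `U = N / M` a chief factor of odd
   order (`exists_chief_below`), an elementary abelian `p`-group, and pass to `G / M` (the hypotheses
   are inherited). `C(U)` is normal, so `U` or `G`.
   * `C(U) = U`: lift `V`, `y` (`V` a `2`-group, `y ∈ N(V)` by `IsCoprimeAction.normalizer_map_mk'`).
     `GoodIn.exists_isEigen` in `X = V ⊔ U` gives `a`; `a, a ^ y, a ^ (y ^ 2)` have distinct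
     `V ⊓ C(·)` (`IsRy.le_or_eq`: `y` normalizes no subgroup of index two), against
     `GoodIn.not_three_eigen`.
   * `U` central: a Sylow `p`-subgroup `P` is abelian, against `commutator_inf_sylow_inf_center`.
     Order `168`: `P / U` has order `1`, `3`, `7`. Otherwise each `g ≠ 1` of odd order in `L` is
     inverted by an involution `j` (sharply `3`-transitive action on `Sylow 2 L`, `ElemInvol.isSharp3`:
     elements swapping two points are involutions, `ECent.exists_swap`, `inv_of_swap`; take `j` fixing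
     `α` and swapping `g α`, `g⁻¹ α`; or use matrices); for `g ∈ Z(P / U)`, `j` is fixed point free on
     the odd group `C_L(g)` and inverts it; lifting, `P = U [P, j]` with `[P, j]` abelian
     (`GoodIn.mem_commutator_invol`).
2. `X` = preimage of `N_L(V)` has `O(X) = 1`, `exists_shape` gives `R C y` in `X`. `R ≰ N` (else `⟨ȳ⟩` is
   normal of odd order in `N_L(V)`), so `N ⊓ R ≤ R'` (`le_or_eq`), `[N, y, y] = 1`, `y` centralizes `N`,
   `C_G(N) N = G`, `N ≤ Z(G)`, `N ≤ C` and `N ≤ S'` for a Sylow `S ≤ X` (`inf_commutator_inf_center_le`).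
   Second case of `Shape.cases`: `N ≤ C ⊓ X' = 1`. First case: `S = R C`, the image of `C` in `L` is
   trivial (`hC`), so `C = N`, `S' = R'`, `R = S` is quaternion of order `8`, `N = ⟨z⟩`, `|S / N| = 4`,
   `|L| = 60`, `z` is the only involution; `nonempty_equiv_SL25`.
-/

set_option autoImplicit false
set_option linter.unusedSectionVars false

namespace Cfsg.Acd

open Subgroup
open scoped commutatorElement

universe u v

/-- the structure of the preimage of a `2`-local subgroup -/
theorem shape_step {X : Type u} [Group X] [Finite X] {L : Type v} [Group L] [Finite L]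
    (hX : GoodIn (⊤ : Subgroup X)) (f : X →* L) (hker : IsPGroup 2 f.ker)
    (hC : ∀ t : L, orderOf t = 2 → IsPGroup 2 (centralizer ({t} : Set L))) {V : Subgroup L} {y : L}
    (h : IsRy V y) (hr : f.range = normalizer (V : Set L)) :
    (∃ x ∈ centralizer (f.ker : Set X), f x ≠ 1) ∧ (f.ker ≤ center X → f.ker ≠ ⊥ →
      ∀ S : Subgroup X, IsPGroup 2 S → f.ker ≤ ⁅S, S⁆ → Nat.card S ∣ 8 ∧
        ∃ z, orderOf z = 2 ∧ f.ker = zpowers z ∧ ∀ a ∈ S, a * a = 1 → a = 1 ∨ a = z) := by
  haveI := isSolvable_of_goodIn_top X hX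
  have hodd : ∀ O : Subgroup X, O.Normal → ¬ 2 ∣ Nat.card (O.map f) → O ≤ f.ker := fun O hO ho =>
    (Subgroup.map_eq_bot_iff _).1 (eq_bot_of_normalized_two hC h.two h.ne ho
      (hr ▸ map_le_range f O) fun v hv => by
        obtain ⟨x, rfl⟩ : v ∈ f.range := hr ▸ le_normalizer hv
        exact le_normalizer_map f (mem_map_of_mem f (le_normalizer_of_normal (mem_top x))))
  have hO : pPrimeCore 2 X = ⊥ := eq_bot_iff.2 fun g hg =>
    (isPElt_of_mem hker (hodd _ inferInstance (fun e => not_dvd_card_pPrimeCore 2 X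
      (e.trans (card_map_dvd _ f))) hg)).eq_one_of_isPRegular (isPRegular_of_mem_pPrimeCore hg)
  have hreg : ∀ {Y : Type v} [Group Y] [Finite Y] {W : Subgroup Y} {w : Y}, IsRy W w →
      ¬ 2 ∣ orderOf w := fun h e =>
    h.odd ((Nat.prime_dvd_prime_iff_eq Nat.prime_two h.prime).1 e).symm
  have h2 : ¬ IsPGroup 2 X := fun e => by
    obtain ⟨x, rfl⟩ : y ∈ f.range := hr ▸ h.norm
    exact h.ne_one (((isPElt_of_mem (e.to_subgroup ⊤) (mem_top x)).map f).eq_one_of_isPRegular
      (hreg h))
  obtain ⟨R, C, x, hs⟩ := exists_shape hX hO h2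
  have hx2 : ¬ 2 ∣ orderOf x := fun e =>
    hs.ry.odd ((Nat.prime_dvd_prime_iff_eq Nat.prime_two hs.ry.prime).1 e).symm
  have hx1 : f x ≠ 1 := fun e => hs.ry.ne_one ((isPElt_of_mem hker e).eq_one_of_isPRegular hx2)
  have hK : Acd2 (R ⊔ zpowers x : Subgroup X) := hX _ le_top
  have hKn : (R ⊔ zpowers x).Normal := hs.res ▸ inferInstance
  have hRN : ¬ R ≤ f.ker := fun e => hx1 (hodd _ hKn (by
    rw [Subgroup.map_sup, (Subgroup.map_eq_bot_iff _).2 e, bot_sup_eq, MonoidHom.map_zpowers,
      Nat.card_zpowers]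
    exact fun e' => hx2 (e'.trans (orderOf_map_dvd f x))) (mem_sup_right (mem_zpowers x)))
  have hNR : f.ker ⊓ R ≤ ⁅R, R⁆ := (hs.ry.le_or_eq hK inf_le_right (le_normalizer_inf
    (A := zpowers x) le_normalizer_of_normal (zpowers_le.2 hs.ry.norm) (mem_zpowers x))).resolve_right
      fun e => hRN (e.ge.trans inf_le_left)
  have hcop : IsCoprimeAction (zpowers x) f.ker :=
    isCoprimeAction_of_isPGroup_right le_normalizer_of_normal hker (by rwa [Nat.card_zpowers])
  have hxc : x ∈ centralizer (f.ker : Set X) := by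
    have h3 : ⁅f.ker, zpowers x⁆ ≤ centralizer (zpowers x : Set X) := by
      rw [centralizer_zpowers]
      refine le_trans (fun u hu => hNR ⟨commutator_le_left _ _ hu, ?_⟩)
        (hs.ry.commutator_le_centralizer hK hs.ry.norm)
      refine hs.mem_of_mem_pResidual ?_ (isPElt_of_mem hker (commutator_le_left _ _ hu))
      rw [hs.res]
      exact ((commutator_mono le_rfl le_sup_right).trans (commutator_le_right _ _)) hu
    rw [← commutator_eq_bot_iff_le_centralizer, hcop.commutator_commutator,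
      commutator_eq_bot_iff_le_centralizer, le_centralizer_iff] at h3
    exact h3 (mem_zpowers x)
  refine ⟨⟨x, hxc, hx1⟩, fun hz h0 S hS hN => ?_⟩
  have hNC : f.ker ≤ C := hs.cent ▸ hz.trans (center_le_centralizer _)
  rcases hs.cases with h3 | ⟨-, -, -, -, -, h3, -⟩
  swap
  · exact absurd (eq_bot_iff.2 (h3 ▸ le_inf hNC (hN.trans (commutator_mono le_top le_top)))) h0
  have hCN : C ≤ f.ker := fun c hc => by
    by_contra h4
    refine hx1 (eq_one_of_commute_two hC (fun e => hx2 (e.trans (orderOf_map_dvd f x)))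
      ((isPElt_of_mem hs.two hc).map f) h4 (Commute.map ?_ f))
    rw [hs.cent] at hc
    exact hc x (mem_sup_right (mem_zpowers x))
  have hSE : S ≤ R ⊔ C := by
    rw [← hs.core]
    intro s hs'
    have h4 : QuotientGroup.mk' (pCore 2 X) s ∈ (zpowers x).map (QuotientGroup.mk' (pCore 2 X)) := by
      rw [map_mk'_eq_top_iff.2 (by rw [sup_comm, hs.core, h3])]; trivial
    exact (QuotientGroup.eq_one_iff _).1 (((isPElt_of_mem hS hs').map _).eq_one_of_isPRegular
      (not_two_dvd_orderOf (fun e => hx2 (Nat.card_zpowers x ▸ e.trans (card_map_dvd _ _))) h4))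
  have hRR : f.ker ≤ ⁅R, R⁆ := hN.trans (commutator_le.2 fun a ha b hb => by
    haveI := hs.nR
    obtain ⟨r, hr, c, hc, rfl⟩ := (mem_sup_of_le_normalizer' le_normalizer_of_normal).1 (hSE ha)
    obtain ⟨r', hr', c', hc', rfl⟩ :=
      (mem_sup_of_le_normalizer' le_normalizer_of_normal).1 (hSE hb)
    have h4 : ∀ g, Commute g c := mem_center_iff.1 (hz (hCN hc))
    have h5 : ∀ g, Commute g c' := mem_center_iff.1 (hz (hCN hc'))
    have h6 : ⁅r * c, r' * c'⁆ = ⁅r, r'⁆ := by
      rw [commutatorElement_def, commutatorElement_def, mul_inv_rev, mul_inv_rev,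
        ← mul_assoc (r * c), mul_assoc r c, ← (h4 r').eq, mul_assoc _ c', ← mul_assoc c',
        ← (h5 c⁻¹).eq, mul_assoc c⁻¹, ← (h5 r⁻¹).eq]
      group
    exact h6 ▸ commutator_mem_commutator hr hr')
  rcases hs.ry.cases hK with ⟨h4, -⟩ | ⟨-, h4, z, hz2, hz', h5⟩
  · rw [commutator_eq_bot_iff_le_centralizer.2 fun a ha b hb =>
      comm_of_forall_mul_self h4 hb ha] at hRR
    exact absurd (eq_bot_iff.2 hRR) h0
  have hSR : S ≤ R := hSE.trans (sup_le le_rfl ((hCN.trans hRR).trans (commutator_le_self R)))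
  rw [hz'] at hRR
  exact ⟨h4 ▸ card_dvd_of_le hSR, z, hz2, (eq_bot_or_eq_of_prime_card
    (by rw [Nat.card_zpowers, hz2]; exact Nat.prime_two) hRR).resolve_left h0,
    fun a ha => h5 a (hSR ha)⟩

theorem nonempty_equiv_of_ext {G : Type u} [Group G] [Finite G]
    (hG : ∀ X : Subgroup G, X ≠ ⊤ → GoodIn X) (hperf : commutator G = ⊤) (N : Subgroup G)
    [N.Normal] (hN : N ≠ ⊥) (hΦ : N ≤ frattini G) [IsSimpleGroup (G ⧸ N)]
    (hna : ¬ IsMulCommutative (G ⧸ N))
    (hC : ∀ t : G ⧸ N, orderOf t = 2 → IsPGroup 2 (centralizer ({t} : Set (G ⧸ N))))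
    (h : Nat.card (G ⧸ N) = 168 ∨ ∃ q, Even q ∧ 4 ≤ q ∧ ElemInvol (G ⧸ N) q ∧
      Nat.card (G ⧸ N) = (q + 1) * q * (q - 1)) :
    Nonempty (G ≃* Matrix.SpecialLinearGroup (Fin 2) (ZMod 5)) := by
  set π := QuotientGroup.mk' N with hπd
  have hπ : Function.Surjective π := QuotientGroup.mk'_surjective N
  have hker : π.ker = N := QuotientGroup.ker_mk' N
  -- `N` is a `2`-group
  have hN2 : IsPGroup 2 N := by
    by_contra hn
    obtain ⟨P⟩ : Nonempty (Sylow 2 G) := inferInstance
    have hQ : IsPGroup 2 ((P : Subgroup G) ⊓ N : Subgroup G) := P.isPGroup'.to_le inf_le_left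
    have hi : ¬ 2 ∣ ((P : Subgroup G) ⊓ N).relIndex N := by
      rw [inf_relIndex_right]
      exact fun e => P.not_dvd_index (e.trans (relIndex_normal_dvd_index _ _))
    have hs : (P : Subgroup G) ⊓ N ⊔ N = N := sup_eq_right.2 inf_le_right
    haveI : ((P : Subgroup G) ⊓ N ⊔ N).Normal := by rw [hs]; infer_instance
    haveI := normal_of_sup_normal_of_le_frattini hΦ hQ (by rwa [hs])
    obtain ⟨M, _, h1, h2, h3⟩ := exists_chief_below (L := (P : Subgroup G) ⊓ N) (K := N)
      (lt_of_le_of_ne inf_le_right fun e => hn (e ▸ hQ))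
    have hM := QuotientGroup.mk'_surjective M
    have hk : (QuotientGroup.lift M π (h2.le.trans hker.ge)).ker = N.map (QuotientGroup.mk' M) := by
      rw [QuotientGroup.ker_lift, hker]
    refine false_of_isMinNormal (π := QuotientGroup.lift M π (h2.le.trans hker.ge))
      (goodIn_of_surjective hG hM) ?_ (QuotientGroup.lift_surjective_of_surjective _ _ hπ _)
      (hk ▸ h3) ?_ hna hC h
    · rw [_root_.commutator, ← map_top_of_surjective _ hM, ← map_commutator]
      exact congrArg _ hperf
    · rw [hk, ← relIndex_ker, QuotientGroup.ker_mk']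
      exact fun e => hi (e.trans (relIndex_dvd_of_le_left _ h1))
  have h2 : 2 ∣ Nat.card (G ⧸ N) := by
    rcases h with h | ⟨q, hq, -, -, h⟩
    · rw [h]; norm_num
    · exact h ▸ (hq.two_dvd.mul_left _).mul_right _
  obtain ⟨V, y, hV, hVe, hV4, hVn⟩ :=
    exists_isRy_of_simple hC hna (goodIn_of_surjective hG hπ) h2
  -- a Sylow subgroup normalizing the preimage of `V`
  obtain ⟨T, hT⟩ := hV.two.exists_le_sylow
  have hTn : (T : Subgroup (G ⧸ N)) ≤ normalizer (V : Set (G ⧸ N)) := by
    rcases h with h | ⟨q, hq, -, he, h⟩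
    · have h3 : Nat.card T = 8 := by
        rw [T.card_eq_multiplicity, h, show 168 = 2 ^ 3 * 21 by norm_num,
          Nat.factorization_mul (by norm_num) (by norm_num), Nat.Prime.factorization_pow Nat.prime_two,
          Finsupp.add_apply, Finsupp.single_eq_same,
          Nat.factorization_eq_zero_of_not_dvd (by norm_num)]
        rfl
      have h4 := card_mul_relIndex hT
      rw [h3] at h4
      by_cases h5 : V.relIndex T = 2
      · exact le_normalizer_of_relIndex_eq T.isPGroup' hT h5
      · have h6 : V.relIndex T = 1 := by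
          have h7 : V.relIndex T ≤ 2 := by nlinarith
          have h8 := relIndex_pos V T
          omega
        exact (relIndex_eq_one.1 h6).trans le_normalizer
    · refine le_trans (fun s hs => mem_centralizer_iff.2 fun v hv => ?_)
        (centralizer_le_normalizer (V : Set (G ⧸ N)))
      by_cases h1 : v = 1
      · rw [h1, one_mul, mul_one]
      · exact (mem_centralizer_singleton_iff.1 ((he.centralizer_eq h hq T (hT hv) h1).ge hs)).symm
  obtain ⟨S, rfl⟩ := Sylow.mapSurjective_surjective hπ 2 T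
  set X := (normalizer (V : Set (G ⧸ N))).comap π with hXd
  have hSX : (S : Subgroup G) ≤ X := map_le_iff_le_comap.1 hTn
  have hNX : N ≤ X := hker ▸ ker_le_comap π _
  have hk : (π.comp X.subtype).ker = N.subgroupOf X := by
    rw [← MonoidHom.comap_ker, hker]; rfl
  obtain ⟨⟨x, hx, hx1⟩, h3⟩ := shape_step (hG X (comap_ne_top hπ hVn)).top (π.comp X.subtype)
    (hk ▸ hN2.comap_subtype) hC hV (by
      rw [MonoidHom.range_comp, range_subtype, map_comap_eq_self_of_surjective hπ])
  rw [hk] at hx h3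
  have hz : N ≤ center G := by
    refine centralizer_eq_top_iff_subset.1 (le_frattini_iff_forall_sup.1 hΦ _ ?_)
    rw [← comap_map_mk'_eq_sup, (IsSimpleGroup.eq_bot_or_eq_top_of_normal _
      ((inferInstance : (centralizer (N : Set G)).Normal).map π hπ)).resolve_left fun e =>
        hx1 (e.le (mem_map_of_mem π (show (x : G) ∈ centralizer (N : Set G) from fun n hn =>
          congrArg Subtype.val (hx ⟨n, hNX hn⟩ hn)))), comap_top]
  have hNS : N ≤ ⁅(S : Subgroup G), (S : Subgroup G)⁆ := fun n hn =>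
    inf_commutator_inf_center_le S.card_coprime_index
      ⟨⟨hN2.le_sylow_of_normal S hn, hperf.ge trivial⟩, hz hn⟩
  obtain ⟨h4, z, hz2, hzN, h5⟩ := h3
    (fun n hn => mem_center_iff.2 fun g => Subtype.ext (mem_center_iff.1 (hz hn) g))
    (fun e => hN (by rw [← map_subgroupOf_eq_of_le hNX, e, Subgroup.map_bot]))
    ((S : Subgroup G).subgroupOf X) S.isPGroup'.comap_subtype fun n hn => by
      rw [← mem_map_iff_mem X.subtype_injective, map_commutator, map_subgroupOf_eq_of_le hSX]
      exact hNS hn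
  rw [Nat.card_congr (subgroupOfEquivOfLe hSX).toEquiv] at h4
  have hNz : N = zpowers (z : G) := by
    rw [← map_subgroupOf_eq_of_le hNX, hzN, MonoidHom.map_zpowers]; rfl
  have hz2' : orderOf (z : G) = 2 := by rw [Subgroup.orderOf_coe, hz2]
  have hcard : Nat.card G = Nat.card (G ⧸ N) * 2 := by
    rw [card_eq_card_quotient_mul_card_subgroup N]
    congr 1
    rw [hNz, Nat.card_zpowers, hz2']
  have h6 : ∀ k, 2 ^ k ∣ Nat.card (G ⧸ N) → 2 ^ k ≤ 4 := fun k hk => by
    have h7 : 2 ^ (k + 1) ∣ Nat.card G := by rw [hcard, pow_succ]; exact Nat.mul_dvd_mul_right hk 2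
    have h8 := Nat.le_of_dvd (by norm_num) ((S.pow_dvd_card_of_pow_dvd_card h7).trans h4)
    omega
  refine nonempty_equiv_SL25 ?_ π hπ hz2' (hker.trans hNz) fun v hv => ?_
  · rcases h with h | ⟨q, hq, h7, he, h⟩
    · exact absurd (h6 3 (by rw [h]; norm_num)) (by norm_num)
    · obtain ⟨a, -, -, -, h8, -⟩ := he.exists_mulEquiv h hq
      have h9 := h6 a (by rw [h, ← h8]; exact (dvd_mul_left _ _).mul_right _)
      rw [h, show q = 4 by omega]
  · obtain ⟨g, hg⟩ := (isPElt_two_of_orderOf hv).exists_conj_mem S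
    have h7 : g * v * g⁻¹ ≠ 1 := by simpa using ne_one_of_orderOf_two hv
    have h8 := congrArg Subtype.val ((h5 ⟨_, hSX hg⟩ hg (Subtype.ext (show
      g * v * g⁻¹ * (g * v * g⁻¹) = 1 by
        rw [conj_mul, mul_self_of_orderOf hv, mul_one, mul_inv_cancel]))).resolve_left
      fun e => h7 (congrArg Subtype.val e))
    have h9 := mem_center_iff.1 (hz (hNz ▸ mem_zpowers (z : G))) g
    rw [mul_inv_eq_iff_eq_mul, ← h9] at h8
    exact mul_left_cancel h8

end Cfsg.Acd
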