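import Cfsg.Agent.Acd.Tools
import Cfsg.Agent.Acd.Elem

/-! # Extensions of the simple groups by a chief factor of odd order -/

set_option autoImplicit false
set_option linter.unusedSectionVars false

namespace Cfsg.Acd

open Subgroup
open scoped commutatorElement

universe u v

variable {G : Type u} [Group G] [Finite G] {L : Type v} [Group L] [Finite L]

section

variable (hC : ∀ t : L, orderOf t = 2 → IsPGroup 2 (centralizer ({t} : Set L)))
include hC

theorem eq_one_of_commute_two {g u : L} (hg : ¬ 2 ∣ orderOf g) (hu : IsPElt 2 u) (h1 : u ≠ 1)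
    (hc : Commute g u) : g = 1 := by
  obtain ⟨k, hk⟩ := hu
  have hd : 2 ∣ orderOf u := by
    rw [hk]
    refine dvd_pow_self _ fun e => h1 ?_
    rwa [e, pow_zero, orderOf_eq_one_iff] at hk
  have ht : orderOf (u ^ (orderOf u / 2)) = 2 := orderOf_pow_orderOf_div (orderOf_pos u).ne' hd
  exact (isPElt_of_mem (hC _ ht)
    (mem_centralizer_singleton_iff.2 (hc.pow_right _))).eq_one_of_isPRegular hg

theorem eq_bot_of_normalized_two {V O : Subgroup L} (hV : IsPGroup 2 V) (h0 : V ≠ ⊥)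
    (hO : ¬ 2 ∣ Nat.card O) (h1 : O ≤ normalizer (V : Set L)) (h2 : V ≤ normalizer (O : Set L)) :
    O = ⊥ := by
  have h3 := le_centralizer_of_normalizes_of_inf_eq_bot h1 h2
    (isCoprimeAction_of_isPGroup_left h2 hV hO).inf_eq_bot
  obtain ⟨⟨v, hv⟩, hv1⟩ := ne_bot_iff_exists_ne_one.1 h0
  exact eq_bot_iff.2 fun g hg => eq_one_of_commute_two hC (not_two_dvd_orderOf hO hg)
    (isPElt_of_mem hV hv) (fun e => hv1 (Subtype.ext e)) (h3 hg v hv).symm

theorem exists_isRy_of_simple [IsSimpleGroup L] (hna : ¬ IsMulCommutative L)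
    (hL : ∀ X : Subgroup L, X ≠ ⊤ → GoodIn X) (h2 : 2 ∣ Nat.card L) :
    ∃ (V : Subgroup L) (y : L), IsRy V y ∧ (∀ a ∈ V, a * a = 1) ∧ 4 ≤ Nat.card V ∧
      normalizer (V : Set L) ≠ ⊤ := by
  have h1 := mt (hasNormalPComplement_of_forall_isPElt (p := 2) (G := L))
    (not_hasNormalPComplement_of_isSimpleGroup hna h2)
  push Not at h1
  obtain ⟨Q, hQ, hQ0, r, hr, hr2, x, hx, hxr, hxc⟩ := h1
  obtain ⟨k, hk⟩ := hxr
  have hd : r ∣ orderOf x := by
    rw [hk]
    refine dvd_pow_self _ fun e => hxc ?_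
    rw [e, pow_zero, orderOf_eq_one_iff] at hk
    exact hk ▸ one_mem _
  have hy : orderOf (x ^ (orderOf x / r)) = r := orderOf_pow_orderOf_div (orderOf_pos x).ne' hd
  have hyn := pow_mem hx (orderOf x / r)
  generalize x ^ (orderOf x / r) = y at hy hyn
  have hy2 : ¬ 2 ∣ orderOf y := fun e =>
    hr2 ((Nat.prime_dvd_prime_iff_eq Nat.prime_two hr.out).1 (hy ▸ e)).symm
  have hy1 : y ≠ 1 := fun e => by rw [e, orderOf_one] at hy; exact hr.out.one_lt.ne hy
  have hyc : y ∉ centralizer (Q : Set L) := fun e => by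
    obtain ⟨⟨v, hv⟩, hv1⟩ := ne_bot_iff_exists_ne_one.1 hQ0
    exact hy1 (eq_one_of_commute_two hC hy2 (isPElt_of_mem hQ hv) (fun e => hv1 (Subtype.ext e))
      (e v hv).symm)
  have h := isRy_commutator hQ (hy ▸ hr.out) (hy ▸ hr2) hyn hyc
  generalize ⁅Q, zpowers y⁆ = V at h
  have hn : normalizer (V : Set L) ≠ ⊤ := fun e => by
    rcases IsSimpleGroup.eq_bot_or_eq_top_of_normal V (normalizer_eq_top_iff.1 e) with e' | e'
    · exact h.ne e'
    · exact hy1 ((isPElt_of_mem h.two (e' ▸ mem_top y)).eq_one_of_isPRegular hy2)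
  have hX : Acd2 (V ⊔ zpowers y : Subgroup L) :=
    hL _ hn _ (sup_le le_normalizer (zpowers_le.2 h.norm))
  rcases h.cases hX with ⟨h3, h4⟩ | ⟨-, -, z, hz, hz', -⟩
  · exact ⟨V, y, h, h3, by have := h.three_le; omega, hn⟩
  · exact absurd (eq_one_of_commute_two hC hy2 (isPElt_two_of_orderOf hz)
      (ne_one_of_orderOf_two hz) (mul_inv_eq_iff_eq_mul.1
        (h.conj_eq_of_mem_commutator hX h.norm (hz' ▸ mem_zpowers z)))) hy1

end

theorem exists_invol_inv {q : ℕ} (h : ElemInvol L q)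
    (hL : Nat.card L = (q + 1) * q * (q - 1)) (hq : Even q) {g : L} (hg : ¬ 2 ∣ orderOf g)
    (h1 : g ≠ 1) : ∃ j : L, orderOf j = 2 ∧ j * g * j⁻¹ = g⁻¹ := by
  have hs := h.isSharp3 hL hq
  have hc := h.card_eq hL hq
  have hodd : Odd (Nat.card (Sylow 2 L)) := hc ▸ hq.add_one
  obtain ⟨α, hα⟩ : ∃ α : Sylow 2 L, g • α ≠ α := by
    by_contra hn
    push Not at hn
    haveI := Fintype.ofFinite (Sylow 2 L)
    have h2 := h.two_le hL hq
    obtain ⟨a, b, c, hab, hac, hbc⟩ := Fintype.two_lt_card_iff.1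
      (show 2 < Fintype.card (Sylow 2 L) by rw [← Nat.card_eq_fintype_card, hc]; omega)
    exact h1 (hs.fix hab hac hbc (hn a) (hn b) (hn c))
  have hβ : g⁻¹ • α ≠ α := fun e => hα (by rw [inv_smul_eq_iff] at e; exact e.symm)
  have hγ : g • α ≠ g⁻¹ • α := fun e => hα (mem_of_sq_mem (K := MulAction.stabilizer L α) hg (by
    rw [MulAction.mem_stabilizer_iff, mul_smul, e, smul_inv_smul]))
  obtain ⟨j, j1, j2, j3⟩ := hs.exists_invol hα hβ
  have j4 := hs.mul_self_of_swap hodd hβ.symm hα.symm hγ.symm (n := j * g) (by rw [mul_smul, j3])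
    (by rw [mul_smul, smul_inv_smul, j2])
  refine ⟨j, orderOf_two_of_mul_self j1 fun e => hγ (by rw [← j3, e, one_smul]), ?_⟩
  rw [← eq_inv_of_mul_eq_one_left j1, eq_inv_iff_mul_eq_one, ← j4]
  group

theorem comap_ne_top {π : G →* L} (hπ : Function.Surjective π) {Y : Subgroup L} (h : Y ≠ ⊤) :
    Y.comap π ≠ ⊤ := fun e => h (by rw [← map_comap_eq_self_of_surjective hπ Y, e, map_top_of_surjective _ hπ])

theorem goodIn_of_surjective (hG : ∀ X : Subgroup G, X ≠ ⊤ → GoodIn X) {π : G →* L}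
    (hπ : Function.Surjective π) (Y : Subgroup L) (h : Y ≠ ⊤) : GoodIn Y :=
  map_comap_eq_self_of_surjective hπ Y ▸ (hG _ (comap_ne_top hπ h)).map π

/-- a self-centralizing kernel of odd order is impossible -/
theorem false_of_centralizer_le (hG : ∀ X : Subgroup G, X ≠ ⊤ → GoodIn X) {π : G →* L}
    (hπ : Function.Surjective π) (ho : ¬ 2 ∣ Nat.card π.ker)
    (hc : centralizer (π.ker : Set G) ≤ π.ker) {V : Subgroup L} {y : L} (h : IsRy V y)
    (hV : ∀ a ∈ V, a * a = 1) (h4 : 4 ≤ Nat.card V) (hn : normalizer (V : Set L) ≠ ⊤) : False := by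
  have hX : Acd2 (V ⊔ zpowers y : Subgroup L) :=
    goodIn_of_surjective hG hπ _ hn _ (sup_le le_normalizer (zpowers_le.2 h.norm))
  obtain ⟨T, hT⟩ := h.two.exists_le_sylow
  obtain ⟨P, rfl⟩ := Sylow.mapSurjective_surjective hπ 2 T
  set S := (P : Subgroup G) ⊓ V.comap π with hS
  have hS2 : IsPGroup 2 S := P.isPGroup'.to_le inf_le_left
  have hinj : ∀ a ∈ S, π a = 1 → a = 1 := fun a ha e =>
    (isPElt_of_mem hS2 ha).eq_one_of_isPRegular (not_two_dvd_orderOf ho e)
  have hlift : ∀ v ∈ V, ∃ s ∈ S, π s = v := fun v hv => by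
    obtain ⟨s, hs, rfl⟩ := hT hv
    exact ⟨s, ⟨hs, hv⟩, rfl⟩
  have hSe : ∀ a ∈ S, a * a = 1 := fun a ha => hinj _ (mul_mem ha ha) (by
    rw [map_mul]; exact hV _ ha.2)
  have hgX := hG _ (comap_ne_top hπ (mt (fun e => eq_top_iff.2 (e.ge.trans le_normalizer)) hn))
  have hO : π.ker ≤ V.comap π := ker_le_comap π V
  have hSn : S ≤ normalizer (π.ker : Set G) := le_normalizer_of_normal
  obtain ⟨a, ha, he⟩ := hgX.exists_isEigen hO inf_le_right ho hSe hSn fun e => h.ne
    (eq_bot_iff.2 fun v hv => by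
      obtain ⟨s, hs, rfl⟩ := hlift v hv
      exact hc (e hs))
  obtain ⟨n, hnS, hny⟩ : ∃ n ∈ normalizer (S : Set G), π n = y := by
    obtain ⟨x, rfl⟩ := hπ y
    obtain ⟨m, hm, hm'⟩ := (isCoprimeAction_of_isPGroup_left hSn hS2 ho).exists_mul_mem_normalizer
      (x := x) fun b hb => by
        obtain ⟨s, hs, hs'⟩ := hlift _ (conj_mem_of_mem_normalizer (inv_mem h.norm) hb.2)
        rw [← mul_inv_cancel_left s (x⁻¹ * b * x)]
        refine mul_mem (mem_sup_left hs) (mem_sup_right ?_)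
        rw [MonoidHom.mem_ker, map_mul, map_inv, hs', map_mul, map_mul, map_inv, inv_inv,
          inv_mul_cancel]
    exact ⟨x * m, hm', by rw [map_mul, MonoidHom.mem_ker.1 hm, mul_one]⟩
  have key : ∀ b ∈ π.ker, IsEigen S b → ∀ g ∈ normalizer (S : Set G), π g ∈ zpowers y → π g ≠ 1 →
      S ⊓ centralizer {b} ≠ S ⊓ centralizer {g * b * g⁻¹} := by
    intro b hb hbe g hg hgy hg1 e
    have hbb : b ≠ b⁻¹ := fun e => not_two_dvd_orderOf ho hb
      (orderOf_two_of_mul_self (eq_inv_iff_mul_eq_one.1 e) hbe.1).symm.dvd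
    set D := S ⊓ centralizer {b} with hD
    have hgD : g ∈ normalizer (D : Set G) := mem_normalizer_of_map_conj_le (by
      rintro _ ⟨d, hd, rfl⟩
      rw [e]
      refine ⟨conj_mem_of_mem_normalizer hg hd.1, mem_centralizer_singleton_iff.2 ?_⟩
      have := mem_centralizer_singleton_iff.1 hd.2
      calc g * d * g⁻¹ * (g * b * g⁻¹) = g * (d * b) * g⁻¹ := by group
        _ = _ := by rw [this]; simp only [MulEquiv.coe_toMonoidHom, MulAut.conj_apply]; group)
    have hyD : y ∈ normalizer ((D.map π : Subgroup L) : Set L) := by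
      rw [← zpowers_le, ← zpowers_eq_of_prime h.prime hgy hg1, zpowers_le]
      exact le_normalizer_map π (mem_map_of_mem π hgD)
    rcases h.le_or_eq hX (D := D.map π) (map_le_iff_le_comap.2 fun d hd => hd.1.2) hyD with h5 | h5
    · rw [commutator_eq_bot_iff_le_centralizer.2 fun a ha b hb =>
        comm_of_forall_mul_self hV hb ha] at h5
      have h6 : ∀ s ∈ S, s ≠ 1 → s * b * s⁻¹ = b⁻¹ := fun s hs h1 =>
        (hbe.2.1 s hs).resolve_left fun e' => h1 (hinj s hs (h5 (mem_map_of_mem π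
          ⟨hs, mem_centralizer_singleton_iff.2 (mul_inv_eq_iff_eq_mul.1 e')⟩)))
      haveI := Fintype.ofFinite V
      obtain ⟨v₁, v₂, v₃, h12, h13, h23⟩ := Fintype.two_lt_card_iff.1
        (show 2 < Fintype.card V by rw [← Nat.card_eq_fintype_card]; omega)
      obtain ⟨s, hs, hs'⟩ := hlift _ (mul_mem (inv_mem v₁.2) v₂.2)
      obtain ⟨t, ht, ht'⟩ := hlift _ (mul_mem (inv_mem v₂.2) v₃.2)
      have hs1 : s ≠ 1 := fun e => h12 (Subtype.ext (inv_mul_eq_one.1 (by rw [← hs', e, map_one])))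
      have ht1 : t ≠ 1 := fun e => h23 (Subtype.ext (inv_mul_eq_one.1 (by rw [← ht', e, map_one])))
      have hst : s * t ≠ 1 := fun e => h13 (Subtype.ext (inv_mul_eq_one.1 (by
        rw [← map_one π, ← e, map_mul, hs', ht']; group)))
      refine hbb ?_
      rw [← h6 _ (mul_mem hs ht) hst,
        show s * t * b * (s * t)⁻¹ = s * (t * b * t⁻¹) * s⁻¹ by group, h6 t ht ht1, ← conj_inv,
        h6 s hs hs1, inv_inv]
    · obtain ⟨s, hs, hs'⟩ := hbe.2.2
      obtain ⟨d, hd, hd'⟩ : π s ∈ D.map π := h5 ▸ hs.2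
      have h6 : d = s := inv_mul_eq_one.1 (hinj _ (mul_mem (inv_mem hd.1) hs) (by
        rw [map_mul, map_inv, hd', inv_mul_cancel]))
      rw [h6] at hd
      exact hbb ((mul_inv_eq_iff_eq_mul.2 (mem_centralizer_singleton_iff.1 hd.2)).symm.trans hs')
  have hk : π.ker.Normal := inferInstance
  have hy1 : π n ≠ 1 := hny ▸ h.ne_one
  have hy2 : π (n * n) ≠ 1 := fun e => by
    rw [map_mul, hny] at e
    exact h.odd (orderOf_two_of_mul_self e h.ne_one)
  refine hgX.not_three_eigen hO inf_le_right ho hSe hSn ha (hk.conj_mem a ha n)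
    (hk.conj_mem _ (hk.conj_mem a ha n) n) he (he.conj hnS) ((he.conj hnS).conj hnS)
    (key a ha he n hnS (hny ▸ mem_zpowers _) hy1) ?_
    (key _ (hk.conj_mem a ha n) (he.conj hnS) n hnS (hny ▸ mem_zpowers _) hy1)
  rw [show n * (n * a * n⁻¹) * n⁻¹ = n * n * a * (n * n)⁻¹ by group]
  exact key a ha he _ (mul_mem hnS hnS)
    (by rw [map_mul, hny]; exact mul_mem (mem_zpowers y) (mem_zpowers y)) hy2

/-- a central kernel of odd prime exponent is impossible -/
theorem false_of_le_center (hG : ∀ X : Subgroup G, X ≠ ⊤ → GoodIn X) (hperf : commutator G = ⊤)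
    {π : G →* L} (hπ : Function.Surjective π) {p : ℕ} [hp : Fact p.Prime] (hp2 : p ≠ 2)
    (hU : IsPGroup p π.ker) (h0 : π.ker ≠ ⊥) (hz : π.ker ≤ center G) [IsSimpleGroup L]
    (hna : ¬ IsMulCommutative L)
    (hC : ∀ t : L, orderOf t = 2 → IsPGroup 2 (centralizer ({t} : Set L)))
    (h : Nat.card L = 168 ∨ ∃ q, Even q ∧ 4 ≤ q ∧ ElemInvol L q ∧
      Nat.card L = (q + 1) * q * (q - 1)) : False := by
  obtain ⟨P, hP⟩ := hU.exists_le_sylow
  suffices hc : IsMulCommutative (P : Subgroup G) from h0 (eq_bot_iff.2 fun u hu =>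
    (commutator_inf_sylow_inf_center P).le ⟨⟨hperf.ge trivial, hP hu⟩, hz hu⟩)
  have hPb : IsPGroup p ((P : Subgroup G).map π) := P.isPGroup'.map π
  by_cases hcyc : IsCyclic ((P : Subgroup G).map π)
  · exact MonoidHom.isMulCommutative_of_isCyclic_of_ker_le_center (π.subgroupMap P) fun x hx =>
      mem_center_iff.2 fun y => Subtype.ext (mem_center_iff.1 (hz (congrArg Subtype.val hx)) _)
  have ho : ∀ {K : Subgroup L}, IsPGroup p K → ¬ 2 ∣ Nat.card K := fun hK e =>
    hp2 (IsPGroup.eq_of_prime_dvd_card' hK Nat.prime_two e).symm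
  rcases h with h | ⟨q, hq, -, he, h⟩
  · exfalso
    obtain ⟨k, hk⟩ := hPb.exists_card_eq
    have h1 := ((P : Subgroup G).map π).card_subgroup_dvd_card
    rcases k with _ | _ | k
    · exact hcyc (by rw [card_eq_one.1 (hk.trans (pow_zero p))]; infer_instance)
    · exact hcyc (isCyclic_of_prime_card (p := p) (by rw [hk, zero_add, pow_one]))
    · rw [hk, h] at h1
      have h2 : p * p ∣ 168 := (Dvd.intro_left (p ^ k) (by ring)).trans h1
      have h3 := Nat.le_of_dvd (by norm_num) h2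
      have h4 : p ≤ 12 := by nlinarith
      have h5 := hp.out
      interval_cases p <;> first | omega | exact absurd h5 (by decide)
  have hne : (P : Subgroup G).map π ≠ ⊥ := fun e => hcyc (by rw [e]; infer_instance)
  haveI := (nontrivial_iff_ne_bot _).2 hne
  haveI := hPb.center_nontrivial
  obtain ⟨⟨⟨g, hg⟩, hgz⟩, hg1⟩ := exists_ne (1 : center ((P : Subgroup G).map π))
  replace hg1 : g ≠ 1 := fun e => hg1 (Subtype.ext (Subtype.ext e))
  have hgo := not_two_dvd_orderOf (ho hPb) hg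
  obtain ⟨j, hj, hjg⟩ := exists_invol_inv he h hq hgo hg1
  set C := centralizer ({g} : Set L) with hCd
  have hCo : ¬ 2 ∣ Nat.card C := fun e => by
    obtain ⟨t, ht, ht'⟩ := exists_mem_orderOf_eq_prime e
    exact hg1 (eq_one_of_commute_two hC hgo (isPElt_two_of_orderOf ht') (ne_one_of_orderOf_two ht')
      (mem_centralizer_singleton_iff.1 ht).symm)
  have hjn : j ∈ normalizer (C : Set L) := by
    rw [hCd, ← centralizer_zpowers]
    refine normalizer_le_normalizer_centralizer _ (mem_normalizer_of_map_conj_le ?_)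
    rw [← zpowers_conj, hjg, zpowers_inv]
  have hCj : ⁅C, zpowers j⁆ = C := commutator_eq_of_fpf hjn fun a ha e =>
    eq_one_of_commute_two hC (not_two_dvd_orderOf hCo ha) (isPElt_two_of_orderOf hj)
      (ne_one_of_orderOf_two hj) (mul_inv_eq_iff_eq_mul.1 e).symm
  have hNC : normalizer (C : Set L) ≠ ⊤ := fun e => by
    rcases IsSimpleGroup.eq_bot_or_eq_top_of_normal C (normalizer_eq_top_iff.1 e) with e' | e'
    · exact hg1 (e'.le (mem_centralizer_singleton_iff.2 rfl))
    · exact hCo (e' ▸ (card_top (G := L)).symm ▸ hj ▸ orderOf_dvd_natCard j)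
  have hUo : ¬ 2 ∣ Nat.card π.ker := fun e =>
    hp2 (IsPGroup.eq_of_prime_dvd_card' hU Nat.prime_two e).symm
  obtain ⟨t, ht, rfl⟩ := (isPElt_two_of_orderOf hj).exists_lift hπ
  have ht2 : orderOf t = 2 := orderOf_two_of_mul_self
    ((ht.mul_of_commute ht (Commute.refl t)).eq_one_of_isPRegular (not_two_dvd_orderOf hUo (by
      rw [MonoidHom.mem_ker, map_mul, mul_self_of_orderOf hj])))
    fun e => ne_one_of_orderOf_two hj (by rw [e, map_one])
  set Y := C.comap π with hY
  have hYo : ¬ 2 ∣ Nat.card Y := fun e => by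
    obtain ⟨s, hs, hs'⟩ := exists_mem_orderOf_eq_prime e
    have h1 := ((isPElt_two_of_orderOf hs').map π).eq_one_of_isPRegular (not_two_dvd_orderOf hCo hs)
    exact not_two_dvd_orderOf hUo h1 hs'.symm.dvd
  have htn : t ∈ normalizer (Y : Set G) := le_normalizer_comap π hjn
  obtain ⟨h1, -⟩ := (hG _ (comap_ne_top hπ hNC)).mem_commutator_invol (Y := Y) ht2
    (comap_mono le_normalizer) hjn htn hYo
  have h2 : ∀ a ∈ (P : Subgroup G), ∃ a' ∈ ⁅Y, zpowers t⁆, ∃ u ∈ center G, a = a' * u := by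
    intro a ha
    have h3 : π a ∈ (⁅Y, zpowers t⁆).map π := by
      rw [map_commutator, hY, map_comap_eq_self_of_surjective hπ, MonoidHom.map_zpowers, hCj]
      exact mem_centralizer_singleton_iff.2
        (congrArg Subtype.val (mem_center_iff.1 hgz ⟨π a, mem_map_of_mem π ha⟩))
    obtain ⟨a', ha', e⟩ := h3
    exact ⟨a', ha', a'⁻¹ * a, hz (by rw [MonoidHom.mem_ker, map_mul, map_inv, e, inv_mul_cancel]),
      by group⟩
  refine isMulCommutative_iff_forall.2 fun a ha b hb => ?_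
  obtain ⟨a', ha', u, hu, rfl⟩ := h2 a ha
  obtain ⟨b', hb', w, hw, rfl⟩ := h2 b hb
  have h3 : Commute a' b' := h1 a' ha' b' hb'
  have h4 : ∀ x, Commute x u := mem_center_iff.1 hu
  have h5 : ∀ x, Commute x w := mem_center_iff.1 hw
  exact (h3.mul_right (h5 a')).mul_left (h4 _).symm

/-- the kernel is not a minimal normal subgroup of odd order -/
theorem false_of_isMinNormal (hG : ∀ X : Subgroup G, X ≠ ⊤ → GoodIn X) (hperf : commutator G = ⊤)
    {π : G →* L} (hπ : Function.Surjective π) (hm : IsMinNormal π.ker)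
    (ho : ¬ 2 ∣ Nat.card π.ker) [IsSimpleGroup L] (hna : ¬ IsMulCommutative L)
    (hC : ∀ t : L, orderOf t = 2 → IsPGroup 2 (centralizer ({t} : Set L)))
    (h : Nat.card L = 168 ∨ ∃ q, Even q ∧ 4 ≤ q ∧ ElemInvol L q ∧
      Nat.card L = (q + 1) * q * (q - 1)) : False := by
  have h2 : 2 ∣ Nat.card L := by
    rcases h with h | ⟨q, hq, -, -, h⟩
    · rw [h]; norm_num
    · exact h ▸ (hq.two_dvd.mul_left _).mul_right _
  haveI := (hG _ (comap_ne_top hπ bot_ne_top)).isSolvable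
  haveI : Group.IsSolvable π.ker := this
  obtain ⟨p, hp, he⟩ := hm.exists_isElementaryAbelian
  haveI := Fact.mk hp
  have hle : π.ker ≤ centralizer (π.ker : Set G) := le_centralizer_iff_isMulCommutative.2 he.1
  rcases IsSimpleGroup.eq_bot_or_eq_top_of_normal ((centralizer (π.ker : Set G)).map π)
    ((inferInstance : (centralizer (π.ker : Set G)).Normal).map π hπ) with e | e
  · obtain ⟨V, y, h3, h4, h5, h6⟩ :=
      exists_isRy_of_simple hC hna (goodIn_of_surjective hG hπ) h2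
    exact false_of_centralizer_le hG hπ ho ((Subgroup.map_eq_bot_iff _).1 e) h3 h4 h5 h6
  · have h3 := congrArg (comap π) e
    rw [comap_map_eq, sup_eq_left.2 hle, comap_top] at h3
    refine false_of_le_center hG hperf hπ (p := p) ?_ he.isPGroup hm.ne_bot
      (centralizer_eq_top_iff_subset.1 h3) hna hC h
    rintro rfl
    exact ho (dvd_card_of_isPGroup_of_ne_bot he.isPGroup hm.ne_bot)

end Cfsg.Acd
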