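import Cfsg.Agent.Acd.FusionD
import Cfsg.Agent.Acd.Quat

/-!
# The Sylow `2`-subgroup of a simple group all of whose proper subgroups have average degree `≤ 2`
-/

set_option autoImplicit false
set_option linter.unusedSectionVars false

namespace Cfsg.Acd

open Subgroup
open scoped commutatorElement

universe u v

variable {G : Type u} [Group G] [Finite G] [IsSimpleGroup G]
  (hG : ∀ X : Subgroup G, X ≠ ⊤ → GoodIn X) (hna : ¬ IsMulCommutative G)
include hG hna

local notation "N(" Q ")" => normalizer ((Q : Subgroup G) : Set G)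

theorem goodIn_centralizer {c : G} (hc : c ≠ 1) : GoodIn (centralizer {c}) :=
  hG _ fun e => hc (mem_bot.1 (center_eq_bot_of_isSimpleGroup hna ▸
    (centralizer_eq_top_iff_subset.1 e rfl : c ∈ center G)))

theorem goodIn_normalizer {p : ℕ} [Fact p.Prime] {Q : Subgroup G} (hQ : IsPGroup p Q)
    (h : Q ≠ ⊥) : GoodIn N(Q) :=
  hG _ fun e => not_isSolvable_of_isSimpleGroup hna (isSolvable_of_isPGroup (isPGroup_top_iff.1
    (((normalizer_eq_top_iff.1 e).eq_bot_or_eq_top.resolve_left h) ▸ hQ)))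

theorem two_dvd_card : 2 ∣ Nat.card G := by
  obtain ⟨p, hp, hp', h7⟩ : ∃ p, p.Prime ∧ p ∣ Nat.card G ∧ p ≠ 7 := by
    by_contra e
    push Not at e
    have := Fact.mk Nat.prime_seven
    exact not_isSolvable_of_isSimpleGroup hna (isSolvable_of_isPGroup
      (isPiGroup_singleton_iff.1 fun q hq hd => e q hq hd : IsPGroup 7 G))
  have := Fact.mk hp
  by_contra h2
  refine not_hasNormalPComplement_of_isSimpleGroup hna hp' (hasNormalPComplement_of_forall_isPElt
    fun Q hQ h0 q hq hne x hx hx' => ?_)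
  by_contra hc
  refine h7 ((goodIn_normalizer hG hna hQ h0).seven hp hq.out (fun e => h2 (e ▸ hp')) ?_ hne hQ hx'
    le_normalizer hx hx hc).1
  rintro rfl
  exact hc (hx'.eq_one_of_isPRegular (fun e => h2 (e.trans (orderOf_dvd_natCard x))) ▸ one_mem _)

theorem false_of_quat {S : Subgroup G} (hS : IsPGroup 2 S) (hi : ¬ 2 ∣ S.index) {z : G}
    (oz : orderOf z = 2) (hz : S ≤ oTwo (centralizer {z})) (h8 : Nat.card S = 8)
    (hc : ∃ a ∈ S, ∃ b ∈ S, a * b ≠ b * a) : False := by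
  have hY := goodIn_centralizer hG hna (ne_one_of_orderOf_two oz)
  set Y := centralizer ({z} : Set G)
  have hSY := hz.trans (oTwo_le _)
  obtain ⟨T, hT⟩ := exists_sylow_eq_subgroupOf (X := Y) hS fun e =>
    hi (e.trans (relIndex_dvd_index_of_le hSY))
  have h1 : (T : Subgroup Y) ⊓ pResidual 2 Y = T :=
    inf_eq_left.2 fun x hx => coe_mem_oTwo.1 (hz (hT.le hx))
  have h2 : Nat.card (T : Subgroup Y) = 8 := by rw [hT, card_subgroupOf_of_le hSY, h8]
  obtain ⟨R, C, y, h⟩ := exists_shape_quotient hY.top (not_hasNormalPComplement T.isPGroup' (by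
    rw [h1, ← one_lt_card_iff_ne_bot]; omega))
  have hs := QuotientGroup.mk'_surjective (pPrimeCore 2 Y)
  set π := QuotientGroup.mk' (pPrimeCore 2 Y)
  have h3 : R ⊔ C ≤ (T : Subgroup Y).map π := h.core ▸ pCore_le_sylow (T.mapSurjective hs)
  have h4 : (T : Subgroup Y).map π ≤ R := map_le_iff_le_comap.2 fun x hx =>
    h.mk_mem T.isPGroup' (h1.ge hx)
  have h5 : Nat.card R = 8 := by
    rw [← le_antisymm h4 (le_sup_left.trans h3), card_map_mk T.isPGroup', h2]
  have h6 : ¬ IsMulCommutative R := fun e => by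
    obtain ⟨a, ha, b, hb, hab⟩ := hc
    have ha' : (⟨a, hSY ha⟩ : Y) ∈ (T : Subgroup Y) := hT.ge ha
    have hb' : (⟨b, hSY hb⟩ : Y) ∈ (T : Subgroup Y) := hT.ge hb
    exact hab (congrArg Subtype.val (mk_inj T.isPGroup' (mul_mem ha' hb') (mul_mem hb' ha') (by
      rw [map_mul, map_mul]
      exact isMulCommutative_iff_forall.1 e _ (h4 (mem_map_of_mem _ ha')) _
        (h4 (mem_map_of_mem _ hb')))))
  obtain ⟨h7, -, w, -, -, hw⟩ := (h.ry.cases (hY.top.of_surjective _ hs _ le_top)).resolve_left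
    fun e => h6 (isMulCommutative_iff_forall.2 fun a ha b hb => comm_of_forall_mul_self e.1 ha hb)
  have h9 := h.cases.resolve_right fun e => by omega
  have h10 : R ⊔ C = R := sup_eq_left.2 (le_sup_right.trans (h3.trans h4))
  have := h.nR
  refine not_quat oz (fun v ov hv => ?_) π hs (by
    rw [QuotientGroup.ker_mk']; exact not_dvd_card_pPrimeCore 2 Y) ?_ R h5 h6 h7
    fun e => h.ry.not_le_centralizer fun a ha => mem_centralizer_singleton_iff.2 (e a ha)
  · have k : ∀ u : Y, orderOf (u : G) = 2 → π u = w := fun u hu => by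
      rw [orderOf_coe] at hu
      exact (hw _ (h10 ▸ h.mem_of_top h9 (IsPElt.map ⟨1, hu⟩ π)) (by
        rw [← map_mul, mul_self_of_orderOf hu, map_one])).resolve_left
        fun e => ne_one_of_orderOf_two hu (eq_one_of_mk_pPrimeCore ⟨1, hu⟩ e)
    have hv' : v ∈ Y := mem_centralizer_singleton_iff.2 hv.symm
    have hz' : z ∈ Y := mem_centralizer_singleton_iff.2 rfl
    have := eq_one_of_mk_pPrimeCore (u := (⟨v, hv'⟩ * (⟨z, hz'⟩)⁻¹ : Y)) (isPElt_coe_iff.1
      (IsPElt.mul_of_commute ⟨1, ov⟩ (IsPElt.inv ⟨1, oz⟩) hv.symm.inv_right)) (by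
        rw [map_mul, map_inv, k _ ov, k _ oz, mul_inv_cancel])
    exact mul_inv_eq_one.1 (congrArg Subtype.val this)
  · rw [← card_top, ← h9, h10, sup_comm, card_sup_of_le_normalizer_of_disjoint h.ry.cop.norm
      (inf_comm R _ ▸ h.ry.inf_eq_bot), Nat.card_zpowers, h7, h5]

theorem sylow_cases (S : Sylow 2 G) :
    ((∀ a ∈ (S : Subgroup G), a * a = 1) ∧ 4 ≤ Nat.card (S : Subgroup G) ∧
      (Nat.card (S : Subgroup G) - 1).Prime ∧ ∀ n ∈ N(S),
        n ∉ centralizer ((S : Subgroup G) : Set G) → ∀ a ∈ (S : Subgroup G), ∀ b ∈ (S : Subgroup G),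
          a ≠ 1 → b ≠ 1 → ∃ s ∈ zpowers n, s * a * s⁻¹ = b) ∨
    ∃ σ τ, IsDihPair (S : Subgroup G) σ τ ∧ 8 ≤ Nat.card (S : Subgroup G) ∧
      ∀ u v : G, orderOf u = 2 → orderOf v = 2 → IsConj u v := by
  have hS := S.isPGroup'
  have h0 : (S : Subgroup G) ≠ ⊥ := (sylow_ne_bot_iff S).2 (two_dvd_card hG hna)
  have hgen : ∀ F ≤ (S : Subgroup G), (∀ Q C z a, Ess2 S Q C z a → z ∈ F ∧ a ∈ F) →
      (S : Subgroup G) ⊓ oTwo N(S) ≤ F → F = S := fun F hF h1 h2 =>
    eq_of_forall_ess S (pResidual_eq_top_iff_not_dvd_index_commutator.2 (by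
      rw [commutator_eq_top_of_isSimpleGroup hna, index_top]; omega)) hF fun Q hQ => by
      by_cases e : Q = S
      · exact e ▸ h2
      by_cases e' : Q ⊓ oTwo N(Q) = ⊥
      · exact e' ▸ bot_le
      obtain ⟨C, z, a, h⟩ := hQ.exists_ess2 hS
        (goodIn_normalizer hG hna (hS.to_le hQ.le) hQ.ne) e e'
      rw [h.res]
      exact sup_le (zpowers_le.2 (h1 _ _ _ _ h).1) (zpowers_le.2 (h1 _ _ _ _ h).2)
  have hX := goodIn_normalizer hG hna hS h0
  by_cases he : ∃ Q C z a, Ess2 (S : Subgroup G) Q C z a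
  · obtain ⟨Q, C, z, a, h⟩ := he
    obtain ⟨σ, τ, h1, h2, h3⟩ := h.exists_dih (fun F hF h1 => hgen F hF h1
      (h.inf_oTwo_eq_bot hX S.not_dvd_index ▸ bot_le)) fun c => goodIn_centralizer hG hna
    have k : ∀ v : G, orderOf v = 2 → IsConj z v := fun v hv => by
      obtain ⟨x, hx⟩ := IsPElt.exists_conj_mem ⟨1, hv⟩ S
      exact (h3 _ hx (by rw [orderOf_conj_eq, hv])).trans (isConj_iff.2 ⟨x, rfl⟩).symm
    exact Or.inr ⟨σ, τ, h1, h2, fun u v hu hv => (k u hu).symm.trans (k v hv)⟩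
  have h1 := hgen _ inf_le_left (fun Q C z a h => absurd ⟨Q, C, z, a, h⟩ he) le_rfl
  obtain ⟨T, hT⟩ := exists_sylow_eq_subgroupOf (X := N(S)) hS fun e =>
    S.not_dvd_index (e.trans (relIndex_dvd_index_of_le le_normalizer))
  have : (T : Subgroup N(S)).Normal := hT ▸ normal_in_normalizer
  have h2 : (T : Subgroup N(S)) ⊓ pResidual 2 N(S) = T :=
    inf_eq_left.2 fun x hx => coe_mem_oTwo.1 (h1.ge (hT.le hx)).2
  have h3 : Nat.card (T : Subgroup N(S)) = Nat.card (S : Subgroup G) := by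
    rw [hT, card_subgroupOf_of_le le_normalizer]
  have mT : ∀ {x} (hx : x ∈ (S : Subgroup G)),
    (⟨x, le_normalizer hx⟩ : N(S)) ∈ (T : Subgroup N(S)) := fun hx => hT.ge hx
  rcases exists_top hX.top T h2 (by
    rwa [← one_lt_card_iff_ne_bot, h3, one_lt_card_iff_ne_bot]) with
    ⟨k1, k2, k3, -, k4⟩ | ⟨k1, z, hz, oz, -, k2, ⟨a, ha, b, hb, hab⟩, -⟩
  · refine Or.inl ⟨fun a ha => congrArg Subtype.val (k1 _ (mT ha)), h3 ▸ k2, h3 ▸ k3,
      fun n hn hn' a ha b hb a1 b1 => ?_⟩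
    obtain ⟨s, hs, e⟩ := k4 rfl ⟨n, hn⟩ (fun e => hn' fun x hx => congrArg Subtype.val (e _ (mT hx)))
      _ (mT ha) _ (mT hb) (fun e => a1 (congrArg Subtype.val e)) fun e => b1 (congrArg Subtype.val e)
    obtain ⟨k, rfl⟩ := hs
    exact ⟨n ^ k, zpow_mem_zpowers n k, congrArg Subtype.val e⟩
  refine (false_of_quat hG hna hS S.not_dvd_index (z := z) (by rwa [orderOf_coe])
    ((h1.ge.trans inf_le_right).trans (oTwo_mono fun n hn => ?_)) (h3 ▸ k1)
    ⟨a, hT.le ha, b, hT.le hb, fun e => hab (Subtype.ext e)⟩).elim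
  have := (k2 _ (this.conj_mem z hz ⟨n, hn⟩) (by
    rw [conj_mul, mul_self_of_orderOf oz, mul_one, mul_inv_cancel])).resolve_left
    (by simpa using ne_one_of_orderOf_two oz)
  exact mem_centralizer_singleton_iff.2 (congrArg Subtype.val (mul_inv_eq_iff_eq_mul.1 this))

end Cfsg.Acd
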