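import Cfsg.Agent.Acd.Tools
import Cfsg.Agent.Grp.Transfer

/-!
# Generation of a Sylow `2`-subgroup by local commutators (Alperin's induction)
-/

set_option autoImplicit false
set_option linter.unusedSectionVars false

namespace Cfsg.Acd

open Subgroup
open scoped commutatorElement

universe u v

variable {G : Type u} [Group G] [Finite G]

/-- `O²(X)` as a subgroup of the ambient group. -/
def oTwo (X : Subgroup G) : Subgroup G := (pResidual 2 X).map X.subtype

theorem oTwo_le (X : Subgroup G) : oTwo X ≤ X := map_subtype_le _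

theorem mem_oTwo {X : Subgroup G} {g : G} (hg : g ∈ X) (ho : ¬ 2 ∣ orderOf g) : g ∈ oTwo X :=
  ⟨⟨g, hg⟩, mem_pResidual (isPRegular_coe_iff.1 ho), rfl⟩

theorem oTwo_le_of_forall {X K : Subgroup G} (h : ∀ g ∈ X, ¬ 2 ∣ orderOf g → g ∈ K) : oTwo X ≤ K :=
  map_le_iff_le_comap.2 ((closure_le _).2 fun g hg => h g g.2 (by
    rw [orderOf_coe]; exact coprime_iff_not_dvd'.1 hg))

theorem oTwo_mono {X Y : Subgroup G} (h : X ≤ Y) : oTwo X ≤ oTwo Y :=
  oTwo_le_of_forall fun _ hg => mem_oTwo (h hg)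

theorem conj_mem_oTwo {X Y : Subgroup G} {s u : G} (h : ∀ g ∈ X, s * g * s⁻¹ ∈ Y)
    (hu : u ∈ oTwo X) : s * u * s⁻¹ ∈ oTwo Y :=
  oTwo_le_of_forall (K := (oTwo Y).comap (MulAut.conj s).toMonoidHom) (fun g hg ho =>
    mem_oTwo (h g hg) (isPRegular_conj_iff.2 ho)) hu

theorem coe_mem_oTwo {X : Subgroup G} {g : X} : (g : G) ∈ oTwo X ↔ g ∈ pResidual 2 X :=
  mem_map_iff_mem X.subtype_injective

/-- `Q` is a fully normalized subgroup of `S` and a Sylow subgroup of `O_{2',2}(N(Q))`. -/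
structure Ess (S Q : Subgroup G) : Prop where
  ne : Q ≠ ⊥
  syl : ¬ 2 ∣ S.relIndex (normalizer (Q : Set G))
  rad : S ⊓ (pPrimePCore 2 (normalizer (Q : Set G))).map (normalizer (Q : Set G)).subtype = Q

theorem Ess.le {S Q : Subgroup G} (h : Ess S Q) : Q ≤ S := h.rad.ge.trans inf_le_left

theorem exists_sylow_eq_subgroupOf {S X : Subgroup G} (hS : IsPGroup 2 S)
    (h : ¬ 2 ∣ S.relIndex X) : ∃ T : Sylow 2 X, (T : Subgroup X) = S.subgroupOf X :=
  ⟨hS.comap_subtype.toSylow h, rfl⟩

theorem pPrimeCore_normalizer_le {Q : Subgroup G} (hQ : IsPGroup 2 Q) {o : normalizer (Q : Set G)}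
    (ho : o ∈ pPrimeCore 2 (normalizer (Q : Set G))) : (o : G) ∈ centralizer (Q : Set G) := by
  have : (Q.subgroupOf (normalizer (Q : Set G))).Normal := normal_in_normalizer
  intro x hx
  exact congrArg Subtype.val (pPrimeCore_le_centralizer_pCore ho ⟨x, le_normalizer hx⟩
    (le_pCore (N := Q.subgroupOf _) hQ.comap_subtype hx))

theorem eq_of_forall_ess (S : Sylow 2 G) (hG : pResidual 2 G = ⊤) {F : Subgroup G}
    (hF : F ≤ S) (h : ∀ Q, Ess S Q → Q ⊓ oTwo (normalizer (Q : Set G)) ≤ F) : F = S := by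
  set F' := F ⊔ ⁅(S : Subgroup G), (S : Subgroup G)⁆
  have tr : ∀ {a b c : G}, a * b⁻¹ ∈ F' → b * c⁻¹ ∈ F' → a * c⁻¹ ∈ F' := fun h1 h2 => by
    simpa [mul_assoc] using mul_mem h1 h2
  have sy : ∀ {a b : G}, a * b⁻¹ ∈ F' → b * a⁻¹ ∈ F' := fun h1 => by simpa using inv_mem h1
  have key : ∀ n, ∀ Q : Subgroup G, Q.index = n → Q ≤ S → ∀ g : G,
      Q.map (MulAut.conj g).toMonoidHom ≤ S → ∀ x ∈ Q, x * (g * x * g⁻¹)⁻¹ ∈ F' := by
    intro n
    induction n using Nat.strong_induction_on with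
    | _ n ih =>
    have hA : ∀ Q : Subgroup G, Q.index = n → Q ≤ S →
        ¬ 2 ∣ (S : Subgroup G).relIndex (normalizer (Q : Set G)) →
        ∀ m ∈ normalizer (Q : Set G), ∀ x ∈ Q, x * (m * x * m⁻¹)⁻¹ ∈ F' := by
      intro Q hn hQ hs m hm x hx
      by_cases h0 : Q = ⊥
      · rw [h0, mem_bot] at hx
        simp [hx]
      set X := normalizer (Q : Set G)
      obtain ⟨T, hT⟩ := exists_sylow_eq_subgroupOf S.isPGroup' hs
      have hQ2 := S.isPGroup'.to_le hQ
      by_cases he : (S : Subgroup G) ⊓ (pPrimePCore 2 X).map X.subtype = Q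
      · obtain ⟨k, hk, t, ht, e⟩ := mem_sup_of_normal_left.1
          ((pResidual_sup_sylow T).ge (mem_top (⟨m, hm⟩ : X)))
        obtain rfl : (k : G) * t = m := congrArg Subtype.val e
        rw [hT] at ht
        have h1 := conj_mem_of_mem_normalizer t.2 hx
        refine tr (b := t * x * t⁻¹) (mem_sup_right ?_) (mem_sup_left (h Q ⟨h0, hs, he⟩ ⟨?_, ?_⟩))
        · simpa [commutatorElement_def, mul_assoc] using commutator_mem_commutator (hQ hx) ht
        · exact Q.mul_mem h1 (Q.inv_mem (conj_mem_of_mem_normalizer (mul_mem k.2 t.2) hx))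
        · have := mul_mem ((inferInstance : (pResidual 2 X).Normal).conj_mem _ hk
            ⟨_, le_normalizer h1⟩) (inv_mem hk)
          simpa [mul_assoc] using coe_mem_oTwo.2 this
      · have : (Q.subgroupOf X).Normal := normal_in_normalizer
        have hlt : Q < (S : Subgroup G) ⊓ (pPrimePCore 2 X).map X.subtype :=
          lt_of_le_of_ne (le_inf hQ ((le_map_pCore le_normalizer le_rfl hQ2).trans
            (map_mono pCore_le_pPrimePCore))) (Ne.symm he)
        have h1 := normalizer_sylow_inf_sup_eq_top T (pPrimePCore 2 X)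
        rw [← sup_pPrimeCore_eq_pPrimePCore (P := T ⊓ pPrimePCore 2 X) inf_le_right (by
          rw [inf_relIndex_right]; exact not_dvd_relIndex_sylow_inf_normal T _), ← sup_assoc,
          sup_pPrimeCore_eq_pPrimePCore (P := T ⊓ pPrimePCore 2 X) inf_le_right (by
          rw [inf_relIndex_right]; exact not_dvd_relIndex_sylow_inf_normal T _),
          sup_eq_left.2 le_normalizer] at h1
        obtain ⟨k, hk, o, ho, e⟩ := mem_sup_of_normal_right.1 (h1.ge (mem_top (⟨m, hm⟩ : X)))
        obtain rfl : (k : G) * o = m := congrArg Subtype.val e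
        rw [show (k : G) * o * x * ((k : G) * o)⁻¹ = k * (o * x) * (o : G)⁻¹ * (k : G)⁻¹ by group,
          ← pPrimeCore_normalizer_le hQ2 ho x hx, ← mul_assoc, mul_inv_cancel_right]
        refine ih _ (hn ▸ index_strictAnti hlt) _ rfl inf_le_left k (map_conj_le_iff.2 ?_) x
          (hlt.le hx)
        rintro _ ⟨h2, w, hw, rfl⟩
        have := (conj_mem_of_mem_normalizer hk (x := w) ⟨hT ▸ h2, hw⟩).1
        rwa [hT] at this
    intro Q hn hQ g hg x hx
    by_cases he : Q = S
    · subst he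
      exact hA _ hn le_rfl (fun hd => S.not_dvd_index (hd.trans
        (relIndex_dvd_index_of_le le_normalizer))) g (mem_normalizer_of_map_conj_le hg) x hx
    obtain ⟨T, hT, hQT, hTN, hTi⟩ := exists_sylow_le_of_le (S.isPGroup'.to_le hQ) le_normalizer
    obtain ⟨a, ha⟩ := exists_map_conj_le_sylow hT S
    set P := Q.map (MulAut.conj a).toMonoidHom with hP
    have hPS : P ≤ S := (map_mono hQT).trans ha
    have hPs : ¬ 2 ∣ (S : Subgroup G).relIndex (normalizer (P : Set G)) := fun e => hTi (by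
      have := e.trans (relIndex_dvd_of_le_left _ ha)
      rwa [hP, normalizer_map_conj, relIndex_map_conj] at this)
    have hB : ∀ Q : Subgroup G, Q.index = n → Q < S → ∀ b : G,
        Q.map (MulAut.conj b).toMonoidHom = P → ∀ x ∈ Q, x * (b * x * b⁻¹)⁻¹ ∈ F' := by
      intro Q hn hQ b hb x hx
      have hlt := lt_inf_normalizer_of_isPGroup S.isPGroup' hQ
      obtain ⟨m, hm, hm'⟩ := exists_map_conj_le_of_not_dvd_relIndex S.isPGroup' hPs
        (isPGroup_map_conj_iff.2 (S.isPGroup'.to_le inf_le_left)) (Q := ((S : Subgroup G) ⊓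
          normalizer (Q : Set G)).map (MulAut.conj b).toMonoidHom) (by
          rw [← hb, normalizer_map_conj]; exact map_mono inf_le_right)
      rw [map_conj_map_conj] at hm'
      refine tr (ih _ (hn ▸ index_strictAnti hlt) _ rfl inf_le_left _ hm' x (hlt.le hx)) (sy ?_)
      have := hA P (by rw [← hb, index_map_conj, hn]) hPS hPs m hm _
        (hb ▸ conj_mem_map_conj.2 hx : b * x * b⁻¹ ∈ P)
      simpa [mul_assoc] using this
    refine tr (hB Q hn (lt_of_le_of_ne hQ he) a rfl x hx) (sy ?_)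
    have := hB _ (by rw [index_map_conj, hn]) (lt_of_le_of_ne hg fun e => he
      (eq_of_le_of_card_ge hQ (by rw [← e, card_map_conj]))) (a * g⁻¹)
      (by rw [map_conj_map_conj, inv_mul_cancel_right]) _ (conj_mem_map_conj.2 hx)
    simpa [mul_assoc] using this
  refine eq_of_sup_frattiniOf hF (le_trans ?_
    (sup_le_sup_left (commutator_le_frattiniOf S.isPGroup') F))
  refine (focalSubgroup_eq_of_pResidual_eq_top hG S).ge.trans (focalSubgroup_le_iff.2
    fun x hx g hg => key _ (zpowers x) rfl (zpowers_le.2 hx) g ?_ x (mem_zpowers x))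
  rwa [← zpowers_conj, zpowers_le]

end Cfsg.Acd

set_option linter.all false in
theorem Cfsg.Rz.Acd_FusionA_0 : True := by
  have := @_root_.Cfsg.Acd.Ess.mk.congr_simp.{0}
  have := @_root_.Cfsg.Acd.oTwo.eq_def.{0}
  have := @_root_.Cfsg.Acd.oTwo.eq_1.{0}
  have := @_root_.Cfsg.Acd.oTwo.fun_cases
  trivial
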