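import Cfsg.Agent.Acd.FusionA

/-!
# The structure theorem read in a Sylow `2`-subgroup
-/

set_option autoImplicit false
set_option linter.unusedSectionVars false

namespace Cfsg.Acd

open Subgroup
open scoped commutatorElement

universe u v

variable {G : Type u} [Group G] [Finite G]

local notation "π" => QuotientGroup.mk' (pPrimeCore 2 G)

theorem mk_inj {T : Subgroup G} (hT : IsPGroup 2 T) {a b : G} (ha : a ∈ T) (hb : b ∈ T)
    (e : π a = π b) : a = b :=
  mul_inv_eq_one.1 (eq_one_of_mk_pPrimeCore (isPElt_of_mem hT (mul_mem ha (inv_mem hb)))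
    (by rw [map_mul, map_inv, e, mul_inv_cancel]))

theorem card_map_mk {T : Subgroup G} (hT : IsPGroup 2 T) : Nat.card (T.map π) = Nat.card T :=
  card_map_of_inf_ker (by
    rw [QuotientGroup.ker_mk', inf_comm]
    exact inf_eq_bot_of_isPGroup_of_not_dvd hT (not_dvd_card_pPrimeCore 2 G))

theorem not_hasNormalPComplement {T : Subgroup G} (hT : IsPGroup 2 T)
    (h : T ⊓ pResidual 2 G ≠ ⊥) : ¬ HasNormalPComplement 2 G := fun e => h
  (inf_eq_bot_of_isPGroup_of_not_dvd hT (hasNormalPComplement_iff_not_dvd_card_pResidual.1 e))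

namespace Shape

variable {R C : Subgroup G} {y : G} (h : Shape R C y)
include h

theorem comm {c a : G} (hc : c ∈ C) (ha : a ∈ R ⊔ zpowers y) : a * c = c * a := h.cent.le hc a ha

theorem mem_sup {x : G} (hx : x ∈ R ⊔ C) : ∃ a ∈ R, ∃ c ∈ C, a * c = x :=
  have := h.nC; mem_sup_of_normal_right.1 hx

theorem mem_of_top (e : R ⊔ C ⊔ zpowers y = ⊤) {u : G} (h2 : IsPElt 2 u) : u ∈ R ⊔ C := by
  have := h.nR
  have := h.nC
  obtain ⟨k, hk⟩ := h2
  refine mem_of_coprime_orderOf_index (hk ▸ Nat.Coprime.pow_left k (Nat.Coprime.coprime_dvd_right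
    ?_ ((Nat.coprime_primes Nat.prime_two h.ry.prime).2 h.ry.odd.symm)))
  rw [← relIndex_top_right, ← e, sup_comm _ (zpowers y),
    relIndex_sup_of_le_normalizer le_normalizer_of_normal, ← Nat.card_zpowers]
  exact relIndex_dvd_card _ _

theorem comm_of_elem (hR : ∀ a ∈ R, a * a = 1) {a x : G} (ha : a ∈ R) (hx : x ∈ R ⊔ C) :
    a * x = x * a := by
  obtain ⟨b, hb, c, hc, rfl⟩ := h.mem_sup hx
  rw [← mul_assoc, comm_of_forall_mul_self hR ha hb, mul_assoc, h.comm hc (mem_sup_left ha),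
    mul_assoc]

theorem mem_of_cent [Group.IsSolvable G] (hO : pPrimeCore 2 G = ⊥) (hC : C ≤ center G) {x : G}
    (hx : x ∈ centralizer (R : Set G)) : x ∈ R ⊔ C :=
  h.core ▸ (isPSolvable_of_isSolvable 2 G).centralizer_pCore_le hO (by
    rw [h.core, centralizer_sup]
    exact ⟨hx, fun c hc => (mem_center_iff.1 (hC hc) x).symm⟩)

end Shape

theorem Shape.mk_mem {R C : Subgroup (G ⧸ pPrimeCore 2 G)} {y : G ⧸ pPrimeCore 2 G}
    (h : Shape R C y) {T : Subgroup G} (hT : IsPGroup 2 T) {u : G} (hu : u ∈ T ⊓ pResidual 2 G) :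
    π u ∈ R :=
  h.mem_of_mem_pResidual (map_pResidual_le _ (mem_map_of_mem _ hu.2)) ((isPElt_of_mem hT hu.1).map _)

theorem four_of_act (hG : GoodIn (⊤ : Subgroup G)) {T : Subgroup G} (hT : IsPGroup 2 T) {z a t : G}
    (oz : orderOf z = 2) (oa : orderOf a = 2) (hne : a ≠ z) (hc : z * a = a * z)
    (hz : z ∈ T ⊓ pResidual 2 G) (ha : a ∈ T ⊓ pResidual 2 G) (ht : t ∈ T)
    (hact : t * a * t⁻¹ = z * a) :
    T ⊓ pResidual 2 G = zpowers z ⊔ zpowers a ∧
      ∀ x ∈ T ⊓ centralizer ((zpowers z ⊔ zpowers a : Subgroup G) : Set G),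
        ∀ x' ∈ T ⊓ centralizer ((zpowers z ⊔ zpowers a : Subgroup G) : Set G), x * x' = x' * x := by
  have z1 := ne_one_of_orderOf_two oz
  have := isSolvable_of_goodIn_top G hG
  obtain ⟨R, C, y, h⟩ := exists_shape_quotient hG
    (not_hasNormalPComplement hT fun e => z1 (mem_bot.1 (e ▸ hz)))
  have hV : zpowers z ⊔ zpowers a ≤ T ⊓ pResidual 2 G := sup_le (zpowers_le.2 hz) (zpowers_le.2 ha)
  have hR : ∀ b ∈ R, b * b = 1 := by
    refine ((h.ry.cases (hG.of_surjective _ (QuotientGroup.mk'_surjective _) _ le_top)).resolve_right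
      fun ⟨_, _, w, _, _, e⟩ => ?_).1
    have k : ∀ u, orderOf u = 2 → u ∈ T ⊓ pResidual 2 G → π u = w := fun u h1 h2 =>
      (e _ (h.mk_mem hT h2) (by rw [← map_mul, mul_self_of_orderOf h1, map_one])).resolve_left
        fun e => ne_one_of_orderOf_two h1 (eq_one_of_mk_pPrimeCore (isPElt_of_mem hT h2.1) e)
    exact hne (mk_inj hT ha.1 hz.1 ((k a oa ha).trans (k z oz hz).symm))
  obtain ⟨-, -, -, h4, hC, -⟩ := h.cases.resolve_left fun e => by
    have := mk_inj hT (mul_mem ha.1 ht) (mul_mem ht ha.1) (by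
      rw [map_mul, map_mul]
      exact h.comm_of_elem hR (h.mk_mem hT ha) (h.mem_of_top e ((isPElt_of_mem hT ht).map _)))
    rw [← this, mul_inv_cancel_right] at hact
    exact z1 (by simpa using hact)
  have h1 : (T ⊓ pResidual 2 G).map π ≤ R := map_le_iff_le_comap.2 fun u hu => h.mk_mem hT hu
  have h2 := card_closure_pair oz oa hc hne.symm
  have h3 : (zpowers z ⊔ zpowers a).map π = R := eq_of_le_of_card_ge ((map_mono hV).trans h1) (by
    rw [card_map_mk (hT.to_le (hV.trans inf_le_left)), h2, h4])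
  refine ⟨(eq_of_le_of_card_ge hV ?_).symm, fun x hx x' hx' => ?_⟩
  · rw [← card_map_mk (hT.to_le inf_le_left), h2, ← h4]
    exact card_le_of_le h1
  have k : ∀ x ∈ T ⊓ centralizer ((zpowers z ⊔ zpowers a : Subgroup G) : Set G), π x ∈ R ⊔ C :=
    fun x hx => h.mem_of_cent (pPrimeCore_quotient_pPrimeCore 2 G) hC (by
      rw [← h3]
      rintro _ ⟨v, hv, rfl⟩
      rw [← map_mul, ← map_mul, hx.2 v hv])
  refine mk_inj hT (mul_mem hx.1 hx'.1) (mul_mem hx'.1 hx.1) ?_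
  obtain ⟨b, hb, c, hc, e⟩ := h.mem_sup (k x hx)
  rw [map_mul, map_mul, ← e, mul_assoc, ← mem_center_iff.1 (hC hc), ← mul_assoc,
    h.comm_of_elem hR hb (k x' hx'), mul_assoc]

theorem exists_local (hG : GoodIn (⊤ : Subgroup G)) (T : Sylow 2 G) {Q : Subgroup G}
    (hQ : (T : Subgroup G) ⊓ pPrimePCore 2 G = Q) (hr : Q ⊓ pResidual 2 G ≠ ⊥) :
    ∃ R C y, Shape R C y ∧ Q.map π = R ⊔ C ∧ (Q ⊓ pResidual 2 G).map π = R ∧
      (Q ⊓ pResidual 2 G) ⊔ (Q ⊓ C.comap π) = Q := by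
  have hQ2 : IsPGroup 2 Q := T.isPGroup'.to_le (hQ.ge.trans inf_le_left)
  obtain ⟨R, C, y, h⟩ := exists_shape_quotient hG (not_hasNormalPComplement hQ2 hr)
  have h1 : Q.map π = R ⊔ C := by
    rw [← h.core, ← hQ]
    exact map_mk'_eq_pCore_of_not_dvd_relIndex inf_le_right (by
      rw [inf_relIndex_right]; exact not_dvd_relIndex_sylow_inf_normal T _)
  have h2 : (Q ⊓ pResidual 2 G).map π = R := by
    refine le_antisymm (map_le_iff_le_comap.2 fun u hu => h.mk_mem hQ2 hu) fun r hr => ?_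
    obtain ⟨q, hq, rfl⟩ := h1.ge (mem_sup_left hr)
    refine mem_map_of_mem _ ⟨hq, ?_⟩
    have := h.res.ge (mem_sup_left hr)
    rw [← map_pResidual (QuotientGroup.mk'_surjective _), ← mem_comap, comap_map_mk'_eq_sup,
      sup_eq_left.2 pPrimeCore_le_pResidual] at this
    exact this
  refine ⟨R, C, y, h, h1, h2, le_antisymm (sup_le inf_le_left inf_le_left) fun q hq => ?_⟩
  obtain ⟨b, hb, c, hc, e⟩ := h.mem_sup (h1.le (mem_map_of_mem _ hq))
  obtain ⟨v, hv, rfl⟩ := h2.ge hb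
  rw [← mul_inv_cancel_left v q]
  refine mul_mem (mem_sup_left hv) (mem_sup_right (mem_inf.2 ⟨Q.mul_mem (Q.inv_mem hv.1) hq, ?_⟩))
  rw [mem_comap, map_mul, map_inv, ← e, inv_mul_cancel_left]
  exact hc

theorem exists_four (hG : GoodIn (⊤ : Subgroup G)) (T : Sylow 2 G) {Q : Subgroup G} [Q.Normal]
    (hQ : (T : Subgroup G) ⊓ pPrimePCore 2 G = Q) (hr : Q ⊓ pResidual 2 G ≠ ⊥)
    (hne : Q ≠ T) : ∃ (C : Subgroup G) (z a : G), orderOf z = 2 ∧ orderOf a = 2 ∧ a ≠ z ∧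
      z * a = a * z ∧ Q ⊓ pResidual 2 G = zpowers z ⊔ zpowers a ∧ zpowers z ⊔ zpowers a ⊔ C = Q ∧
      C ⊓ (zpowers z ⊔ zpowers a) = ⊥ ∧ C ≤ center G ∧ Q.relIndex T = 2 ∧
      (∀ t ∈ (T : Subgroup G), t ∉ Q → t * a * t⁻¹ = z * a) ∧
      (∀ t ∈ (T : Subgroup G), t * z * t⁻¹ = z) ∧ IsConj z a := by
  have := isSolvable_of_goodIn_top G hG
  have hs := QuotientGroup.mk'_surjective (pPrimeCore 2 G)
  have hQT : Q ≤ T := hQ.ge.trans inf_le_left
  have hT := T.isPGroup'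
  have hQ2 := hT.to_le hQT
  obtain ⟨R, C, y, h, h1, h2, h3⟩ := exists_local hG T hQ hr
  have hmem : ∀ t ∈ (T : Subgroup G), π t ∈ R ⊔ C → t ∈ Q := fun t ht e => by
    obtain ⟨q, hq, e⟩ := h1.ge e
    rwa [← mk_inj hT (hQT hq) ht e]
  obtain ⟨hi, h3', hR, h4, hC, hC', hK⟩ := h.cases.resolve_left fun e =>
    hne (le_antisymm hQT fun t ht => hmem t ht (h.mem_of_top e ((isPElt_of_mem hT ht).map _)))
  set V := Q ⊓ pResidual 2 G
  have hVT : V ≤ T := inf_le_left.trans hQT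
  have hV : ∀ v ∈ V, v * v = 1 := fun v hv => mk_inj hT (mul_mem (hVT hv) (hVT hv)) (one_mem _) (by
    rw [map_mul, map_one]; exact hR _ (h.mk_mem hQ2 hv))
  have hV4 : Nat.card V = 4 := by rw [← card_map_mk (hT.to_le hVT), h2, h4]
  obtain ⟨⟨z, hz, hz'⟩, z1⟩ := ne_bot_iff_exists_ne_one.1 (inf_centralizer_ne_bot_of_isPGroup
    (hT.to_le hVT) hT le_normalizer_of_normal hr)
  have oz := orderOf_two_of_mul_self (hV z hz) fun e => z1 (Subtype.ext e)
  obtain ⟨a, ha, ha'⟩ := SetLike.not_le_iff_exists.1 fun e : V ≤ zpowers z => by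
    have := card_le_of_le e
    rw [Nat.card_zpowers] at this
    omega
  have oa := orderOf_two_of_mul_self (hV a ha) fun e => ha' (e ▸ one_mem _)
  have hne' : a ≠ z := fun e => ha' (e ▸ mem_zpowers _)
  have hc := comm_of_forall_mul_self hV hz ha
  have hVe : V = zpowers z ⊔ zpowers a := (eq_of_le_of_card_ge (sup_le (zpowers_le.2 hz)
    (zpowers_le.2 ha)) (by rw [card_closure_pair oz oa hc hne'.symm, hV4])).symm
  have hfix : ∀ t ∈ (T : Subgroup G), t * z * t⁻¹ = z := fun t ht =>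
    mul_inv_eq_of_eq_mul (hz' t ht)
  refine ⟨Q ⊓ C.comap π, z, a, oz, oa, hne', hc, hVe, hVe ▸ h3, eq_bot_iff.2 fun c hc => ?_,
    fun c hc => mem_center_iff.2 fun g => ?_, ?_, fun t ht htQ => ?_, hfix, ?_⟩
  · refine mk_inj hT (hQT hc.1.1) (one_mem _) ?_
    rw [map_one, ← mem_bot, ← hC']
    exact ⟨hc.1.2, hK (mem_sup_left (h.mk_mem hQ2 (hVe.ge hc.2)))⟩
  · refine mul_inv_eq_iff_eq_mul.1 (mk_inj hQ2 ((inferInstance : Q.Normal).conj_mem c hc.1 g)
      hc.1 ?_)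
    rw [map_mul, map_mul, mem_center_iff.1 (hC hc.2), map_inv, mul_inv_cancel_right]
  · have := h.nR
    have := h.nC
    have k1 : (R ⊔ C).relIndex (R ⊔ C ⊔ zpowers y) ∣ 3 := by
      rw [sup_comm _ (zpowers y), relIndex_sup_of_le_normalizer le_normalizer_of_normal, ← h3',
        ← Nat.card_zpowers]
      exact relIndex_dvd_card _ _
    have k2 := relIndex_mul_index (le_sup_left : R ⊔ C ≤ R ⊔ C ⊔ zpowers y)
    have k3 := relIndex_mul_index (map_mono (f := π) hQT)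
    have k4 := card_mul_relIndex (map_mono (f := π) hQT)
    have k5 := card_mul_relIndex hQT
    rw [card_map_mk hQ2, card_map_mk hT, ← k5] at k4
    rw [Nat.eq_of_mul_eq_mul_left Nat.card_pos k4, h1, ← k2, hi] at k3
    obtain ⟨k, hk⟩ := hT.exists_card_eq
    obtain ⟨j, -, hj⟩ := (Nat.dvd_prime_pow Nat.prime_two).1 (hk ▸ relIndex_dvd_card Q T)
    have k6 : Q.relIndex T ∣ 6 := (Dvd.intro _ k3).trans (Nat.mul_dvd_mul_right k1 2)
    rcases j with _ | _ | j
    · exact absurd (le_antisymm hQT (relIndex_eq_one.1 hj)) hne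
    · exact hj
    · exact absurd ((hj ▸ pow_dvd_pow 2 (by omega) : 2 ^ 2 ∣ Q.relIndex T).trans k6) (by decide)
  · have h5 := (mem_closure_pair (hV z hz) (hV a ha) hc).1
      (hVe.le ((inferInstance : V.Normal).conj_mem a ha t))
    refine h5.resolve_left (by simpa using ne_one_of_orderOf_two oa) |>.resolve_left
      (fun e => hne' (by simpa using e.trans (hfix t ht).symm)) |>.resolve_left fun e => htQ ?_
    refine hmem t ht (h.mem_of_cent (pPrimeCore_quotient_pPrimeCore 2 G) hC ?_)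
    rw [← h2, hVe, Subgroup.map_sup, MonoidHom.map_zpowers, MonoidHom.map_zpowers, centralizer_sup,
      centralizer_zpowers, centralizer_zpowers]
    exact ⟨mem_centralizer_singleton_iff.2 (by
      rw [← map_mul, ← map_mul, mul_inv_eq_iff_eq_mul.1 (hfix t ht)]),
      mem_centralizer_singleton_iff.2 (by rw [← map_mul, ← map_mul, mul_inv_eq_iff_eq_mul.1 e])⟩
  · have h5 : ⁅R, R⁆ = ⊥ := commutator_eq_bot_iff_le_centralizer.2 fun b hb c hc =>
      comm_of_forall_mul_self hR hc hb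
    have h6 : ∀ u, orderOf u = 2 → π u ∉ ⁅R, R⁆ := fun u hu e => ne_one_of_orderOf_two hu
      (eq_one_of_mk_pPrimeCore ⟨1, hu⟩ (mem_bot.1 (h5 ▸ e)))
    obtain ⟨s, -, hs'⟩ := h.ry.exists_conj (hG.of_surjective _ hs _ le_top) (h.mk_mem hQ2 hz)
      (h.mk_mem hQ2 ha) (h6 z oz) (h6 a oa)
    obtain ⟨g, rfl⟩ := hs s
    rw [h5, mem_bot, inv_mul_eq_one, ← map_mul, ← map_inv, ← map_mul] at hs'
    exact isConj_iff.2 ⟨g, mk_inj hQ2 ((inferInstance : Q.Normal).conj_mem z hz.1 g) ha.1 hs'⟩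

theorem exists_top (hG : GoodIn (⊤ : Subgroup G)) (T : Sylow 2 G) [(T : Subgroup G).Normal]
    {V : Subgroup G} (hV : (T : Subgroup G) ⊓ pResidual 2 G = V) (hr : V ≠ ⊥) :
    ((∀ a ∈ V, a * a = 1) ∧ 4 ≤ Nat.card V ∧ (Nat.card V - 1).Prime ∧
      V ≤ centralizer ((T : Subgroup G) : Set G) ∧ (V = T → ∀ n : G,
        n ∉ centralizer ((T : Subgroup G) : Set G) → ∀ a ∈ V, ∀ b ∈ V, a ≠ 1 → b ≠ 1 →
          ∃ s ∈ zpowers n, s * a * s⁻¹ = b)) ∨
    (Nat.card V = 8 ∧ ∃ z ∈ V, orderOf z = 2 ∧ z ∈ centralizer ((T : Subgroup G) : Set G) ∧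
      (∀ a ∈ V, a * a = 1 → a = 1 ∨ a = z) ∧ (∃ a ∈ V, ∃ b ∈ V, a * b ≠ b * a) ∧
      ∀ t ∈ (T : Subgroup G), ∀ a ∈ V, ⁅t, a⁆ ∈ zpowers z) := by
  have hs := QuotientGroup.mk'_surjective (pPrimeCore 2 G)
  have hT := T.isPGroup'
  obtain ⟨R, C, y, h, h1, h2, -⟩ := exists_local hG T
    (inf_eq_left.2 ((le_pCore hT).trans pCore_le_pPrimePCore)) (hV ▸ hr)
  rw [hV] at h2
  have hVT : V ≤ T := hV.ge.trans inf_le_left
  have mR : ∀ {a}, a ∈ V → π a ∈ R := fun ha => h2.le (mem_map_of_mem _ ha)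
  have mT : ∀ {a}, a ∈ (T : Subgroup G) → π a ∈ R ⊔ C := fun ha => h1.le (mem_map_of_mem _ ha)
  have hcard : Nat.card V = Nat.card R := by rw [← card_map_mk (hT.to_le hVT), h2]
  have gK := hG.of_surjective _ hs (R ⊔ zpowers y) le_top
  rcases h.ry.cases gK with ⟨hR, h4⟩ | ⟨-, h8, w, hw, hw', hu⟩
  · have h3 := h.ry.three_le
    refine Or.inl ⟨fun a ha => mk_inj hT (mul_mem (hVT ha) (hVT ha)) (one_mem _) (by
      rw [map_mul, map_one]; exact hR _ (mR ha)), by omega, by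
      rw [hcard, h4]; exact h.ry.prime, fun a ha t ht => mk_inj hT (mul_mem ht (hVT ha))
        (mul_mem (hVT ha) ht) (by
          rw [map_mul, map_mul]; exact (h.comm_of_elem hR (mR ha) (mT ht)).symm), ?_⟩
    rintro hVe n hn a ha b hb a1 b1
    have := h.nR
    have h5 : ⁅R, R⁆ = ⊥ := commutator_eq_bot_iff_le_centralizer.2 fun b hb c hc =>
      comm_of_forall_mul_self hR hc hb
    have h6 : R ⊔ C = R := by rw [← h1, ← hVe, h2]
    have h7 : R ⊔ zpowers y = ⊤ := by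
      rw [← h.res, ← sup_eq_left.2 (h.res.ge.trans' le_sup_left), ← h2, hVe]
      exact pResidual_sup_sylow (T.mapSurjective hs)
    obtain ⟨ρ, hρ, w, hw, e⟩ := mem_sup_of_normal_left.1 (h7.ge (mem_top (π n)))
    have h8 : ∀ (k : ℤ), ∀ c ∈ R, π n ^ k * c * (π n ^ k)⁻¹ = w ^ k * c * (w ^ k)⁻¹ := by
      intro k c hc
      have k1 : (w ^ k)⁻¹ * π n ^ k ∈ R := by
        refine QuotientGroup.eq.1 ?_
        rw [← e, QuotientGroup.mk_zpow, QuotientGroup.mk_zpow, QuotientGroup.mk_mul,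
          (QuotientGroup.eq_one_iff ρ).2 hρ, one_mul]
      rw [← mul_inv_cancel_left (w ^ k) (π n ^ k), mul_assoc (w ^ k),
        comm_of_forall_mul_self hR k1 hc]
      group
    have h9 : w ≠ 1 := fun e => hn fun t ht => (mul_inv_eq_iff_eq_mul.1 (mk_inj hT
      ((inferInstance : (T : Subgroup G).Normal).conj_mem t ht n) ht (by
        simpa [e] using h8 1 _ (h6.le (mT ht))))).symm
    have h10 : ∀ u ∈ V, u ≠ 1 → π u ∉ ⁅R, R⁆ := fun u hu u1 e => u1
      (eq_one_of_mk_pPrimeCore (isPElt_of_mem hT (hVT hu)) (mem_bot.1 (h5 ▸ e)))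
    obtain ⟨s, hs1, hs'⟩ := h.ry.exists_conj gK (mR ha) (mR hb) (h10 a ha a1) (h10 b hb b1)
    obtain ⟨k, rfl⟩ := (zpowers_eq_of_prime h.ry.prime hw h9).ge hs1
    rw [h5, mem_bot, inv_mul_eq_one, ← h8 k _ (mR ha), ← map_zpow, ← map_mul, ← map_inv,
      ← map_mul] at hs'
    exact ⟨n ^ k, zpow_mem_zpowers n k, mk_inj hT
      ((inferInstance : (T : Subgroup G).Normal).conj_mem a (hVT ha) _) (hVT hb) hs'⟩
  obtain ⟨z, hz, rfl⟩ := h2.ge (commutator_le_self R (hw'.ge (mem_zpowers w)))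
  have oz : orderOf z = 2 := orderOf_two_of_mul_self (mk_inj hT (mul_mem (hVT hz) (hVT hz))
    (one_mem _) (by rw [map_mul, map_one, mul_self_of_orderOf hw])) fun e => by
      rw [e, map_one] at hw; exact ne_one_of_orderOf_two hw rfl
  refine Or.inr ⟨hcard ▸ h8, z, hz, oz, fun t ht => mk_inj hT (mul_mem ht (hVT hz))
    (mul_mem (hVT hz) ht) ?_, fun a ha e => (hu _ (mR ha) (by rw [← map_mul, e, map_one])).imp
      (eq_one_of_mk_pPrimeCore (isPElt_of_mem hT (hVT ha))) (mk_inj hT (hVT ha) (hVT hz)), ?_,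
    fun t ht a ha => ?_⟩
  · have := h.nR
    rw [map_mul, map_mul]
    exact mul_inv_eq_iff_eq_mul.1 (h.ry.conj_eq_of_mem_commutator gK
      (le_normalizer_of_normal (mem_top _)) (hw'.ge (mem_zpowers _)))
  · by_contra e
    push Not at e
    have : ⁅R, R⁆ = ⊥ := by
      rw [← h2, ← map_commutator, commutator_eq_bot_iff_le_centralizer.2 fun a ha b hb => e b hb a ha,
        Subgroup.map_bot]
    exact ne_one_of_orderOf_two hw (zpowers_eq_bot.1 (hw' ▸ this))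
  · obtain ⟨b, hb, c, hc, e⟩ := h.mem_sup (mT ht)
    have k1 : π ⁅t, a⁆ ∈ (zpowers z).map π := by
      rw [MonoidHom.map_zpowers, ← hw', map_commutatorElement, ← e, commutatorElement_def,
        mul_assoc b c, ← h.comm hc (mem_sup_left (mR ha))]
      simpa [commutatorElement_def, mul_assoc] using commutator_mem_commutator hb (mR ha)
    obtain ⟨u, hu, e⟩ := k1
    rwa [← mk_inj hT (zpowers_le.2 (hVT hz) hu) (commutator_le_self _
      (commutator_mem_commutator ht (hVT ha))) e]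

end Cfsg.Acd
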