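import Cfsg.Agent.Acd.FusionB

/-!
# Proper essential subgroups
-/

set_option autoImplicit false
set_option linter.unusedSectionVars false

namespace Cfsg.Acd

open Subgroup
open scoped commutatorElement

universe u v

variable {G : Type u} [Group G] [Finite G]

local notation "N(" Q ")" => normalizer ((Q : Subgroup G) : Set G)

/-- `Q = ⟨z, a⟩ × C` has index two in `N_S(Q)`. -/
structure Ess2 (S Q C : Subgroup G) (z a : G) : Prop where
  two : IsPGroup 2 S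
  le : Q ≤ S
  syl : ¬ 2 ∣ S.relIndex N(Q)
  oz : orderOf z = 2
  oa : orderOf a = 2
  ne : a ≠ z
  comm : z * a = a * z
  res : Q ⊓ oTwo N(Q) = zpowers z ⊔ zpowers a
  sup : zpowers z ⊔ zpowers a ⊔ C = Q
  inf : C ⊓ (zpowers z ⊔ zpowers a) = ⊥
  cent : ∀ c ∈ C, ∀ n ∈ N(Q), n * c = c * n
  idx : Q.relIndex (S ⊓ N(Q)) = 2
  act : ∀ t ∈ S ⊓ N(Q), t ∉ Q → t * a * t⁻¹ = z * a
  fix : ∀ t ∈ S ⊓ N(Q), t * z * t⁻¹ = z
  conj : IsConj z a

theorem map_inf_pResidual (Q X : Subgroup G) :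
    (Q.subgroupOf X ⊓ pResidual 2 X).map X.subtype = Q ⊓ oTwo X := by
  rw [map_inf _ _ _ X.subtype_injective, subgroupOf_map_subtype, inf_assoc]
  exact congrArg _ (inf_eq_right.2 (oTwo_le X))

theorem Ess.exists_ess2 {S Q : Subgroup G} (hS : IsPGroup 2 S) (h : Ess S Q) (hX : GoodIn N(Q))
    (hne : Q ≠ S) (hr : Q ⊓ oTwo N(Q) ≠ ⊥) : ∃ C z a, Ess2 S Q C z a := by
  obtain ⟨T, hT⟩ := exists_sylow_eq_subgroupOf hS h.syl
  have : (Q.subgroupOf N(Q)).Normal := normal_in_normalizer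
  have hi := N(Q).subtype_injective
  have hlt := lt_inf_normalizer_of_isPGroup hS (lt_of_le_of_ne h.le hne)
  obtain ⟨C, z, a, h1, h2, h3, h4, h5, h6, h7, h8, h9, h10, h11, h12⟩ := exists_four hX.top T
    (Q := Q.subgroupOf N(Q)) (Subgroup.ext fun x => by
      rw [hT, mem_inf, mem_subgroupOf, mem_subgroupOf, ← mem_map_iff_mem hi]
      exact mem_inf.symm.trans (SetLike.ext_iff.1 h.rad (x : G))) (fun e => hr (by rw [← map_inf_pResidual, e, Subgroup.map_bot]))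
    (fun e => hlt.not_ge fun x hx => (e.trans hT).ge (show (⟨x, hx.2⟩ : N(Q)) ∈ _ from hx.1))
  have e : (zpowers z ⊔ zpowers a).map N(Q).subtype = zpowers (z : G) ⊔ zpowers (a : G) := by
    rw [Subgroup.map_sup, MonoidHom.map_zpowers, MonoidHom.map_zpowers]; rfl
  rw [hT] at h9 h10 h11
  refine ⟨C.map N(Q).subtype, z, a, hS, h.le, h.syl, by rwa [orderOf_coe], by rwa [orderOf_coe],
    fun e => h3 (Subtype.ext e), congrArg Subtype.val h4, by rw [← map_inf_pResidual, h5, e],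
    by rw [← e, ← Subgroup.map_sup, h6, map_subgroupOf_eq_of_le le_normalizer],
    by rw [← e, ← map_inf _ _ _ hi, h7, Subgroup.map_bot], ?_, ?_,
    fun t ht ht' => congrArg Subtype.val (h10 ⟨t, ht.2⟩ ht.1 ht'),
    fun t ht => congrArg Subtype.val (h11 ⟨t, ht.2⟩ ht.1), N(Q).subtype.map_isConj h12⟩
  · rintro _ ⟨c, hc, rfl⟩ n hn
    exact congrArg Subtype.val (mem_center_iff.1 (h8 hc) ⟨n, hn⟩)
  · rwa [← inf_subgroupOf_right S, relIndex_subgroupOf inf_le_right] at h9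

namespace Ess2

variable {S Q C : Subgroup G} {z a : G} (h : Ess2 S Q C z a)
include h

theorem zz : z * z = 1 := mul_self_of_orderOf h.oz
theorem aa : a * a = 1 := mul_self_of_orderOf h.oa
theorem z1 : z ≠ 1 := ne_one_of_orderOf_two h.oz

theorem mem_V {v : G} : v ∈ zpowers z ⊔ zpowers a ↔ v = 1 ∨ v = z ∨ v = a ∨ v = z * a :=
  mem_closure_pair h.zz h.aa h.comm

theorem V_le : zpowers z ⊔ zpowers a ≤ Q := le_sup_left.trans h.sup.le
theorem C_le : C ≤ Q := le_sup_right.trans h.sup.le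
theorem zQ : z ∈ Q := h.V_le (mem_sup_left (mem_zpowers z))
theorem aQ : a ∈ Q := h.V_le (mem_sup_right (mem_zpowers a))
theorem le_T : Q ≤ S ⊓ N(Q) := le_inf h.le le_normalizer

theorem eq_one {c : G} (hc : c ∈ C) (hv : c ∈ zpowers z ⊔ zpowers a) : c = 1 :=
  mem_bot.1 (h.inf ▸ mem_inf.2 ⟨hc, hv⟩)

theorem mem_Q {q : G} (hq : q ∈ Q) : ∃ v ∈ zpowers z ⊔ zpowers a, ∃ c ∈ C, v * c = q :=
  (mem_sup_of_le_normalizer fun v hv => centralizer_le_normalizer _ fun c hc =>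
    (h.cent c hc v (le_normalizer (h.V_le hv))).symm).1 (h.sup.ge hq)

theorem cases_Q {q : G} (hq : q ∈ Q) : ∃ c ∈ C, q = c ∨ q = z * c ∨ q = a * c ∨ q = z * a * c := by
  obtain ⟨v, hv, c, hc, rfl⟩ := h.mem_Q hq
  exact ⟨c, hc, by rcases h.mem_V.1 hv with rfl | rfl | rfl | rfl <;> simp⟩

theorem z_comm {t : G} (ht : t ∈ S ⊓ N(Q)) : t * z = z * t := mul_inv_eq_iff_eq_mul.1 (h.fix t ht)

theorem c_fix {t c : G} (ht : t ∈ S ⊓ N(Q)) (hc : c ∈ C) : t * c * t⁻¹ = c :=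
  mul_inv_eq_of_eq_mul (h.cent c hc t ht.2)

theorem a_comm {q : G} (hq : q ∈ Q) : q * a = a * q := by
  obtain ⟨c, hc, e⟩ := h.cases_Q hq
  have := (h.cent c hc a (le_normalizer h.aQ)).symm
  have h1 : Commute c a := this
  have h2 : Commute z a := h.comm
  rcases e with rfl | rfl | rfl | rfl
  exacts [h1, h2.mul_left h1, (Commute.refl a).mul_left h1,
    (h2.mul_left (Commute.refl a)).mul_left h1]

theorem comm_Q {q q' : G} (hq : q ∈ Q) (hq' : q' ∈ Q) : q * q' = q' * q := by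
  obtain ⟨c, hc, e⟩ := h.cases_Q hq'
  have h1 : Commute q c := h.cent c hc q (le_normalizer hq)
  have h2 : Commute q z := h.z_comm (h.le_T hq)
  have h3 : Commute q a := h.a_comm hq
  rcases e with rfl | rfl | rfl | rfl
  exacts [h1, h2.mul_right h1, h3.mul_right h1, (h2.mul_right h3).mul_right h1]

theorem sq_mem {q : G} (hq : q ∈ Q) : q * q ∈ C := by
  obtain ⟨v, hv, c, hc, rfl⟩ := h.mem_Q hq
  have k2 : v * v = 1 := by
    rcases h.mem_V.1 hv with rfl | rfl | rfl | rfl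
    exacts [one_mul 1, h.zz, h.aa, by
      rw [mul_assoc, ← mul_assoc a, ← h.comm, mul_assoc, h.aa, mul_one, h.zz]]
  rw [mul_assoc, ← mul_assoc c, ← h.cent c hc v (le_normalizer (h.V_le hv)), mul_assoc,
    ← mul_assoc, k2, one_mul]
  exact C.mul_mem hc hc

theorem z_notMem : z ∉ C := fun e => h.z1 (h.eq_one e (mem_sup_left (mem_zpowers z)))

theorem mem_of_comm {t : G} (ht : t ∈ S ⊓ N(Q)) (e : t * a = a * t) : t ∈ Q := by
  by_contra h1
  have := h.act t ht h1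
  rw [e, mul_inv_cancel_right] at this
  exact h.z1 (by simpa using this)

theorem mem_of_cent {t : G} (ht : t ∈ S) (e : t ∈ centralizer (Q : Set G)) : t ∈ Q :=
  h.mem_of_comm ⟨ht, centralizer_le_normalizer _ e⟩ (e a h.aQ).symm

theorem exists_notMem : ∃ t ∈ S ⊓ N(Q), t ∉ Q :=
  SetLike.not_le_iff_exists.1 fun e => by
    have := h.idx
    rw [relIndex_eq_one.2 e] at this
    omega

theorem mul_mem_Q {t t' : G} (ht : t ∈ S ⊓ N(Q)) (ht' : t' ∈ S ⊓ N(Q)) (h1 : t ∉ Q) (h2 : t' ∉ Q) :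
    t * t' ∈ Q :=
  (mul_mem_iff_of_index_two h.idx (a := ⟨t, ht⟩) (b := ⟨t', ht'⟩)).2 (iff_of_false h1 h2)

theorem conj_cases {t q : G} (ht : t ∈ S ⊓ N(Q)) (h1 : t ∉ Q) (hq : q ∈ Q) : ∃ c ∈ C,
    (q = c ∨ q = z * c) ∧ t * q * t⁻¹ = q ∨ (q = a * c ∨ q = z * a * c) ∧ t * q * t⁻¹ = z * q := by
  obtain ⟨c, hc, e⟩ := h.cases_Q hq
  refine ⟨c, hc, ?_⟩
  rcases e with rfl | rfl | rfl | rfl
  · exact Or.inl ⟨Or.inl rfl, h.c_fix ht hc⟩
  · exact Or.inl ⟨Or.inr rfl, by rw [← conj_mul, h.fix t ht, h.c_fix ht hc]⟩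
  · exact Or.inr ⟨Or.inl rfl, by rw [← conj_mul, h.act t ht h1, h.c_fix ht hc, mul_assoc]⟩
  · exact Or.inr ⟨Or.inr rfl, by
      rw [← conj_mul, ← conj_mul, h.fix t ht, h.act t ht h1, h.c_fix ht hc]; simp only [mul_assoc]⟩

/-- An involution outside `Q` commutes with its translates by involutions outside `Q`. -/
theorem cases_mul {w b : G} (hw : w ∈ S ⊓ N(Q)) (hb : b ∈ S ⊓ N(Q)) (hw' : w ∉ Q) (hb' : b ∉ Q)
    (h1 : w * w = 1) (h2 : b * b = 1) : ∃ c ∈ C, (w * b = c ∨ w * b = z * c) ∧ w * b = b * w := by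
  have hq := h.mul_mem_Q hw hb hw' hb'
  obtain ⟨c, hc, e | e⟩ := h.conj_cases hb hb' hq
  · exact ⟨c, hc, e.1, by simpa [mul_assoc] using e.2.symm⟩
  refine absurd ?_ h.z_notMem
  have h3 : b * w = z * (w * b) := by simpa [mul_assoc] using e.2
  have h4 : z * (w * b * (w * b)) = 1 := by
    rw [← mul_assoc, ← h3, mul_assoc, ← mul_assoc w, h1, one_mul, h2]
  exact eq_inv_of_mul_eq_one_left h4 ▸ C.inv_mem (h.sq_mem hq)

theorem commutator_eq {t : G} (ht : t ∈ S ⊓ N(Q)) (h1 : t ∉ Q) : ⁅t, a⁆ = z := by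
  rw [commutatorElement_def, h.act t ht h1, mul_inv_cancel_right]

theorem commutator_mem {t t' : G} (ht : t ∈ S ⊓ N(Q)) (ht' : t' ∈ S ⊓ N(Q)) :
    ⁅t, t'⁆ ∈ zpowers z := by
  have k : ∀ t ∈ S ⊓ N(Q), ∀ q ∈ Q, ⁅t, q⁆ ∈ zpowers z := fun t ht q hq => by
    rw [commutatorElement_def]
    by_cases h1 : t ∈ Q
    · simp [h.comm_Q h1 hq]
    obtain ⟨c, -, e | e⟩ := h.conj_cases ht h1 hq <;> simp [e.2]
  by_cases h2 : t' ∈ Q
  · exact k t ht t' h2
  by_cases h1 : t ∈ Q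
  · rw [← commutatorElement_inv]
    exact inv_mem (k t' ht' t h1)
  have := k t ht _ (h.mul_mem_Q ht' (inv_mem ht) h2 (mt inv_mem_iff.1 h1))
  simpa [commutatorElement_def, mul_assoc] using this

theorem cent_c {c : G} (hY : GoodIn (centralizer {c})) (hc : c ∈ C) :
    S ⊓ centralizer {c} = S ⊓ N(Q) ∧ S ⊓ oTwo (centralizer {c}) = zpowers z ⊔ zpowers a := by
  have hXY : N(Q) ≤ centralizer {c} := fun n hn => mem_centralizer_singleton_iff.2 (h.cent c hc n hn)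
  set Y := centralizer ({c} : Set G)
  obtain ⟨t, ht, ht'⟩ := h.exists_notMem
  have k : ∀ v ∈ zpowers z ⊔ zpowers a, ∀ hv : v ∈ Y,
      (⟨v, hv⟩ : Y) ∈ S.subgroupOf Y ⊓ pResidual 2 Y := fun v hv _ =>
    ⟨h.le (h.V_le hv), coe_mem_oTwo.1 (oTwo_mono hXY (h.res.ge hv).2)⟩
  obtain ⟨h1, h2⟩ := four_of_act hY.top h.two.comap_subtype
    (z := ⟨z, hXY (le_normalizer h.zQ)⟩) (a := ⟨a, hXY (le_normalizer h.aQ)⟩) (t := ⟨t, hXY ht.2⟩)
    (by rw [orderOf_mk, h.oz]) (by rw [orderOf_mk, h.oa]) (fun e => h.ne (congrArg Subtype.val e))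
    (Subtype.ext h.comm) (k _ (mem_sup_left (mem_zpowers z)) _)
    (k _ (mem_sup_right (mem_zpowers a)) _) ht.1 (Subtype.ext (h.act t ht ht'))
  have h3 : S ⊓ oTwo Y = zpowers z ⊔ zpowers a := by
    rw [← map_inf_pResidual, Subgroup.subgroupOf, h1, Subgroup.map_sup, MonoidHom.map_zpowers,
      MonoidHom.map_zpowers]; rfl
  refine ⟨le_antisymm (fun s hs => ⟨hs.1, mem_normalizer_of_forall_conj_mem fun q hq => ?_⟩)
    (inf_le_inf_left _ hXY), h3⟩
  have h4 : ∀ x ∈ S, ∀ hx : x ∈ Y, x ∈ centralizer ((S ⊓ oTwo Y : Subgroup G) : Set G) →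
      (⟨x, hx⟩ : Y) ∈ S.comap Y.subtype ⊓ centralizer ((zpowers ⟨z, hXY (le_normalizer h.zQ)⟩ ⊔
        zpowers ⟨a, hXY (le_normalizer h.aQ)⟩ : Subgroup Y) : Set Y) := fun x hx _ e =>
    ⟨hx, fun v hv => Subtype.ext (e v ⟨(h1.ge hv).1, coe_mem_oTwo.2 (h1.ge hv).2⟩)⟩
  have h5 : ∀ q ∈ Q, q ∈ centralizer ((S ⊓ oTwo Y : Subgroup G) : Set G) := fun q hq v hv =>
    h.comm_Q (h.V_le (h3.le hv)) hq
  have h6 : s * q * s⁻¹ ∈ S := S.mul_mem (S.mul_mem hs.1 (h.le hq)) (S.inv_mem hs.1)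
  refine h.mem_of_cent h6 fun q' hq' => congrArg Subtype.val (h2 _
    (h4 q' (h.le hq') (hXY (le_normalizer hq')) (h5 q' hq')) _ (h4 _ h6
      (Y.mul_mem (Y.mul_mem hs.2 (hXY (le_normalizer hq))) (Y.inv_mem hs.2)) ?_))
  refine conj_mem_of_mem_normalizer (normalizer_le_normalizer_centralizer _
    (mem_normalizer_of_forall_conj_mem fun v hv => ⟨S.mul_mem (S.mul_mem hs.1 hv.1)
      (S.inv_mem hs.1), conj_mem_oTwo (fun g hg => ?_) hv.2⟩)) (h5 q hq)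
  exact Y.mul_mem (Y.mul_mem hs.2 hg) (Y.inv_mem hs.2)

theorem mem_of_conj_mem {s c : G} (hc : c ∈ C) (hY : GoodIn (centralizer {c}))
    (hY' : GoodIn (centralizer {s * c * s⁻¹})) (hs : s ∈ S) (hc' : s * c * s⁻¹ ∈ C) : s ∈ N(Q) := by
  obtain ⟨h1, h2⟩ := h.cent_c hY hc
  obtain ⟨h3, h4⟩ := h.cent_c hY' hc'
  have h5 : ∀ g ∈ centralizer {c}, s * g * s⁻¹ ∈ centralizer {s * c * s⁻¹} := fun g hg => by
    rw [centralizer_singleton_conj]; exact conj_mem_map_conj.2 hg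
  have h6 : ∀ g ∈ S, s * g * s⁻¹ ∈ S := fun g hg => S.mul_mem (S.mul_mem hs hg) (S.inv_mem hs)
  have h7 : s ∈ N(zpowers z ⊔ zpowers a) := mem_normalizer_of_forall_conj_mem fun v hv =>
    h4.le ⟨h6 v (h2.ge hv).1, conj_mem_oTwo h5 (h2.ge hv).2⟩
  refine mem_normalizer_of_forall_conj_mem fun q hq => h.mem_of_comm
    (h3.le ⟨h6 q (h.le hq), h5 q (h1.ge (h.le_T hq)).2⟩) ?_
  have := h.comm_Q hq (h.V_le (conj_mem_of_mem_normalizer (inv_mem h7)
    (mem_sup_right (mem_zpowers a))))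
  calc s * q * s⁻¹ * a = s * (q * (s⁻¹ * a * s⁻¹⁻¹)) * s⁻¹ := by group
    _ = a * (s * q * s⁻¹) := by rw [this]; group

/-- If a proper essential subgroup exists, `N(S)` has a normal `2`-complement. -/
theorem inf_oTwo_eq_bot (hX : GoodIn N(S)) (hS : ¬ 2 ∣ S.index) : S ⊓ oTwo N(S) = ⊥ := by
  by_contra hr
  obtain ⟨T, hT⟩ := exists_sylow_eq_subgroupOf (X := N(S)) h.two fun e =>
    hS (e.trans (relIndex_dvd_index_of_le le_normalizer))
  have : (T : Subgroup N(S)).Normal := hT ▸ normal_in_normalizer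
  have hm := map_inf_pResidual S N(S)
  have mT : ∀ x (hx : x ∈ S), (⟨x, le_normalizer hx⟩ : N(S)) ∈ (T : Subgroup N(S)) := fun x hx =>
    hT.ge hx
  rw [← hT] at hm
  set V := (T : Subgroup N(S)) ⊓ pResidual 2 N(S)
  have hVS : ∀ v ∈ V, (v : G) ∈ S := fun v hv => hT.le hv.1
  have hz : ∀ v ∈ V, v ∈ centralizer ((T : Subgroup N(S)) : Set N(S)) → (v : G) ∈ Q :=
    fun v hv e => h.mem_of_cent (hVS v hv) fun q hq => congrArg Subtype.val (e _ (mT q (h.le hq)))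
  rcases exists_top hX.top T rfl (fun e : V = ⊥ => hr (by rw [← hm, e, Subgroup.map_bot])) with
    ⟨-, h4, -, h5, -⟩ | ⟨h8, w, hw, ow, hw', hu, ⟨b, hb, b', hb', hbb⟩, hcm⟩
  · have h6 : S ⊓ oTwo N(S) ≤ Q := by
      rw [← hm]; rintro _ ⟨v, hv, rfl⟩; exact hz v hv (h5 hv)
    have h7 : oTwo N(S) ≤ N(Q) := fun k hk => mem_normalizer_of_forall_conj_mem fun q hq => by
      rw [← inv_mul_cancel_right (k * q * k⁻¹) q]
      refine Q.mul_mem (h6 ⟨S.mul_mem (conj_mem_of_mem_normalizer (oTwo_le _ hk) (h.le hq))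
        (S.inv_mem (h.le hq)), ?_⟩) hq
      have := conj_mem_oTwo (s := q) (fun g hg => N(S).mul_mem (N(S).mul_mem
        (le_normalizer (h.le hq)) hg) (N(S).inv_mem (le_normalizer (h.le hq)))) (inv_mem hk)
      simpa [mul_assoc] using (oTwo N(S)).mul_mem hk this
    have h8 : S ⊓ oTwo N(S) = zpowers z ⊔ zpowers a := eq_of_le_of_card_ge (h.res ▸ le_inf h6
      (inf_le_right.trans (oTwo_le_of_forall fun g hg ho => mem_oTwo (h7 (mem_oTwo hg ho)) ho))) (by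
        rw [card_closure_pair h.oz h.oa h.comm h.ne.symm, ← hm, card_map_subtype]; exact h4)
    obtain ⟨t, ht, ht'⟩ := h.exists_notMem
    obtain ⟨v, hv, e⟩ := (hm.trans h8).ge (mem_sup_right (mem_zpowers a))
    exact ht' (h.mem_of_comm ht (e ▸ congrArg Subtype.val (h5 hv _ (mT t ht.1))))
  have h1 : ∀ v ∈ V, (v : G) ∈ S ⊓ N(Q) := fun v hv => ⟨hVS v hv,
    mem_normalizer_of_forall_conj_mem fun q hq => by
      have h2 : ((⁅(⟨q, le_normalizer (h.le hq)⟩ : N(S)), v⁆ : N(S)) : G) ∈ Q :=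
        zpowers_le (H := Q.subgroupOf N(S)).2 (hz w hw hw') (hcm _ (mT q (h.le hq)) v hv)
      simpa [commutatorElement_def, mul_assoc] using Q.mul_mem (Q.inv_mem h2) hq⟩
  have h2 : (w : G) = z := by
    have k1 := (eq_one_or_eq_of_mem_zpowers ow (hcm b hb.1 b' hb')).resolve_left
      (mt commutatorElement_eq_one_iff_mul_comm.1 hbb)
    have k2 := h.commutator_mem (h1 b hb) (h1 b' hb')
    rw [show ⁅(b : G), (b' : G)⁆ = w from congrArg Subtype.val k1] at k2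
    exact (eq_one_or_eq_of_mem_zpowers h.oz k2).resolve_left fun e =>
      ne_one_of_orderOf_two ow (Subtype.ext e)
  have h3 : Q.subgroupOf N(S) ⊓ V ≤ zpowers w := fun x hx => by
    have k1 : x * x = 1 := by
      by_contra e
      obtain ⟨u, hu1, hu2⟩ := exists_mem_orderOf_eq_prime (dvd_card_of_isPGroup_of_ne_bot
        (T.isPGroup'.to_le (zpowers_le.2 (T.1.mul_mem hx.2.1 hx.2.1))) (mt zpowers_eq_bot.1 e))
      obtain rfl := (hu u (zpowers_le.2 (V.mul_mem hx.2 hx.2) hu1)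
        (mul_self_of_orderOf hu2)).resolve_left (ne_one_of_orderOf_two hu2)
      exact h.z_notMem (h2 ▸ zpowers_le (H := C.subgroupOf N(S)).2 (h.sq_mem (q := x) hx.1) hu1)
    rcases hu x hx.2 k1 with rfl | rfl
    exacts [one_mem _, mem_zpowers _]
  have h4 := card_le_of_le h3
  have h5 := card_inf_mul_relIndex (Q.subgroupOf N(S)) V
  have h6 : (Q.subgroupOf N(S)).relIndex V ≤ 2 := by
    rw [← h.idx, ← relIndex_subgroupOf (inf_le_left.trans le_normalizer : S ⊓ N(Q) ≤ N(S))]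
    exact relIndex_le_of_le_right h1 (relIndex_pos _ _).ne'
  rw [Nat.card_zpowers, ow] at h4
  have := Nat.mul_le_mul h4 h6
  rw [h5, h8] at this
  omega

end Ess2

end Cfsg.Acd

set_option linter.all false in
theorem Cfsg.Rz.Acd_FusionC_0 : True := by
  have := @_root_.Cfsg.Acd.Ess2.mk.congr_simp.{0}
  trivial
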