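import Cfsg.Agent.Acd.FusionC
import Cfsg.Agent.Grp.CommCount
import Cfsg.Agent.Grp.DihSylow

/-!
# Proper essential subgroups are four-groups, and then the Sylow `2`-subgroup is dihedral
-/

set_option autoImplicit false
set_option linter.unusedSectionVars false

namespace Cfsg.Acd

open Subgroup
open scoped commutatorElement

universe u v

variable {G : Type u} [Group G] [Finite G]

local notation "N(" Q ")" => normalizer ((Q : Subgroup G) : Set G)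

namespace Ess2

variable {S Q C : Subgroup G} {z a : G} (h : Ess2 S Q C z a)
  (hgen : ∀ F ≤ S, (∀ Q C z a, Ess2 S Q C z a → z ∈ F ∧ a ∈ F) → F = S)
include h

theorem exists_invol (hC : C ≠ ⊥) : ∃ c ∈ C, orderOf c = 2 :=
  exists_mem_orderOf_eq_prime (dvd_card_of_isPGroup_of_ne_bot (h.two.to_le (h.C_le.trans h.le)) hC)

theorem exists_central : ∃ w ∈ S, w ∈ centralizer (S : Set G) ∧ w ≠ 1 := by
  obtain ⟨⟨w, hw⟩, h1⟩ := ne_bot_iff_exists_ne_one.1 (inf_centralizer_ne_bot_of_isPGroup h.two h.two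
    le_normalizer fun e => h.z1 (mem_bot.1 (e ▸ h.le h.zQ)))
  exact ⟨w, hw.1, hw.2, fun e => h1 (Subtype.ext e)⟩

theorem central_cases {w : G} (hw : w ∈ S ⊓ N(Q))
    (hw' : w ∈ centralizer ((S ⊓ N(Q) : Subgroup G) : Set G)) : ∃ c ∈ C, w = c ∨ w = z * c := by
  obtain ⟨t, ht, ht'⟩ := h.exists_notMem
  obtain ⟨c, hc, e | e⟩ := h.conj_cases ht ht' (h.mem_of_comm hw (hw' a (h.le_T h.aQ)).symm)
  · exact ⟨c, hc, e.1⟩
  · rw [hw' t ht, mul_inv_cancel_right] at e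
    exact absurd (by simpa using e.2) h.z1

include hgen

theorem eq_bot_of_le (hS : S ≤ N(Q)) : C = ⊥ := by
  by_contra hC
  obtain ⟨c, hc, oc⟩ := h.exists_invol hC
  have k1 : ∀ Q' C' z' a', Ess2 S Q' C' z' a' → S ≤ N(Q') ∧ z' = z := fun Q' C' z' a' h' => by
    have h1 : z ∈ Q' := h'.mem_of_cent (h.le h.zQ) fun q hq => h.z_comm ⟨h'.le hq, hS (h'.le hq)⟩
    obtain ⟨t, ht, ht'⟩ := h'.exists_notMem
    refine ⟨fun s hs => mem_normalizer_of_forall_conj_mem fun q hq => ?_,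
      (eq_one_or_eq_of_mem_zpowers h.oz (h'.commutator_eq ht ht' ▸ h.commutator_mem
        ⟨ht.1, hS ht.1⟩ ⟨h'.le h'.aQ, hS (h'.le h'.aQ)⟩)).resolve_left h'.z1⟩
    simpa [commutatorElement_def] using Q'.mul_mem (zpowers_le.2 h1
      (h.commutator_mem ⟨hs, hS hs⟩ ⟨h'.le hq, hS (h'.le hq)⟩)) hq
  have k2 : ∀ Q' C' z' a' Q'' C'' z'' a'', Ess2 S Q' C' z' a' → Ess2 S Q'' C'' z'' a'' → a' ∈ Q'' →
      a' ∈ zpowers z'' ⊔ zpowers a'' := fun Q' C' z' a' Q'' C'' z'' a'' h' h'' e => by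
    have h1 : Q'' ≤ Q' := fun q hq =>
      h'.mem_of_comm ⟨h''.le hq, (k1 _ _ _ _ h').1 (h''.le hq)⟩ (h''.comm_Q hq e)
    obtain rfl : Q' = Q'' := le_antisymm (fun q hq => h''.mem_of_cent (h'.le hq)
      fun q' hq' => h'.comm_Q (h1 hq') hq) h1
    exact h''.res.le (h'.res.ge (mem_sup_right (mem_zpowers _)))
  obtain ⟨Q₀, C₀, z₀, b, h₀, hb⟩ : ∃ Q₀ C₀ z₀ b, Ess2 S Q₀ C₀ z₀ b ∧ b ∉ Q := by
    by_contra e
    push Not at e
    obtain ⟨t, ht, ht'⟩ := h.exists_notMem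
    exact ht' ((hgen Q h.le fun Q' C' z' a' h' => ⟨(k1 _ _ _ _ h').2 ▸ h.zQ, e _ _ _ _ h'⟩).ge ht.1)
  have hbS := h₀.le h₀.aQ
  have h1 := hgen (zpowers z ⊔ zpowers a ⊔ zpowers b) (sup_le (h.V_le.trans h.le)
    (zpowers_le.2 hbS)) fun Q' C' z' a' h' => by
      refine ⟨(k1 _ _ _ _ h').2.symm ▸ mem_sup_left (mem_sup_left (mem_zpowers z)), ?_⟩
      by_cases e : a' ∈ Q
      · exact mem_sup_left (k2 _ _ _ _ _ _ _ _ h' h e)
      have ha := h'.le h'.aQ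
      obtain ⟨-, -, -, e'⟩ := h.cases_mul ⟨ha, hS ha⟩ ⟨hbS, hS hbS⟩ e hb h'.aa h₀.aa
      have := k2 _ _ _ _ _ _ _ _ h' h₀ (h₀.mem_of_comm ⟨ha, (k1 _ _ _ _ h₀).1 ha⟩ e')
      rw [(k1 _ _ _ _ h₀).2] at this
      exact (sup_le_sup_right le_sup_left _ : _ ≤ zpowers z ⊔ zpowers a ⊔ zpowers b) this
  obtain ⟨v, hv, s, hs, rfl⟩ := (mem_sup_of_le_normalizer' (zpowers_le.2
    (mem_normalizer_of_forall_conj_mem fun v hv => h.res.le ⟨conj_mem_of_mem_normalizer (hS hbS)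
      (h.V_le hv), conj_mem_oTwo (fun g hg => N(Q).mul_mem (N(Q).mul_mem (hS hbS) hg)
        (N(Q).inv_mem (hS hbS))) (h.res.ge hv).2⟩))).1 (h1.ge (h.le (h.C_le hc)))
  rcases eq_one_or_eq_of_mem_zpowers h₀.oa hs with rfl | rfl
  · exact ne_one_of_orderOf_two oc (h.eq_one hc (by simpa using hv))
  · exact hb ((Q.mul_mem_cancel_left (h.V_le hv)).1 (h.C_le hc))

theorem eq_bot (hG : ∀ c : G, c ≠ 1 → GoodIn (centralizer {c})) : C = ⊥ := by
  by_cases hS : S ≤ N(Q)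
  · exact h.eq_bot_of_le hgen hS
  by_contra hC
  obtain ⟨c, hc, oc⟩ := h.exists_invol hC
  have c1 := ne_one_of_orderOf_two oc
  set T := S ⊓ N(Q) with hT
  have hlt : T < S := lt_of_le_of_ne inf_le_left fun e => hS (inf_eq_left.1 e)
  have f0 : ∀ s ∈ S, ∀ c ∈ C, c ≠ 1 → s * c * s⁻¹ ∈ C → s ∈ N(Q) := fun s hs c hc c1 e =>
    h.mem_of_conj_mem hc (hG c c1) (hG _ (by simpa using c1)) hs e
  obtain ⟨t, ht, ht'⟩ := h.exists_notMem
  have f1 : ∀ s ∈ S ⊓ N(T), s * z * s⁻¹ = z := fun s hs => by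
    refine (eq_one_or_eq_of_mem_zpowers h.oz ?_).resolve_left (by simpa using h.z1)
    rw [← h.commutator_eq ht ht', conjugate_commutatorElement, h.commutator_eq ht ht']
    exact h.commutator_mem (conj_mem_of_mem_normalizer hs.2 ht)
      (conj_mem_of_mem_normalizer hs.2 (h.le_T h.aQ))
  have f2 : ∀ s ∈ S ⊓ N(T), s ∉ N(Q) → ∀ c ∈ C, c ≠ 1 → ∃ c' ∈ C, s * c * s⁻¹ = z * c' :=
    fun s hs hs' c hc c1 => by
      obtain ⟨c', hc', e⟩ := h.central_cases (conj_mem_of_mem_normalizer hs.2 (h.le_T (h.C_le hc)))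
        (conj_mem_of_mem_normalizer (normalizer_le_normalizer_centralizer _ hs.2)
          fun t ht => h.cent c hc t ht.2)
      exact ⟨c', hc', e.resolve_left fun e => hs' (f0 s hs.1 c hc c1 (e ▸ hc'))⟩
  obtain ⟨s, hs, hs'⟩ := SetLike.exists_of_lt (lt_inf_normalizer_of_isPGroup h.two hlt)
  replace hs' : s ∉ N(Q) := fun e => hs' ⟨hs.1, e⟩
  have f3 : ∀ c' ∈ C, c' = 1 ∨ c' = c := fun c' hc' => or_iff_not_imp_left.2 fun e => by
    obtain ⟨x, hx, ex⟩ := f2 s hs hs' c' hc' e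
    obtain ⟨y, hy, ey⟩ := f2 s hs hs' c hc c1
    by_contra e'
    refine hs' (f0 s hs.1 _ (C.mul_mem hc' hc) (fun e => e' ((eq_inv_of_mul_eq_one_left e).trans
      (inv_eq_of_mul_eq_one_left (mul_self_of_orderOf oc)))) ?_)
    rw [← conj_mul, ex, ey, mul_assoc, ← mul_assoc x, h.z_comm (h.le_T (h.C_le hx)), mul_assoc,
      ← mul_assoc, h.zz, one_mul]
    exact C.mul_mem hx hy
  have zc : c ≠ z := fun e => h.z_notMem (e ▸ hc)
  have f4 : ∀ s ∈ S ⊓ N(T), s ∉ N(Q) → s * c * s⁻¹ = z * c := fun s hs hs' => by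
    obtain ⟨x, hx, ex⟩ := f2 s hs hs' c hc c1
    rcases f3 x hx with rfl | rfl
    · exact absurd (by simpa using ex.trans ((mul_one z).trans (f1 s hs).symm)) zc
    · exact ex
  have f5 : ∀ s ∈ S ⊓ N(T), ∀ c' ∈ C, s * c' * s⁻¹ ∈ Q ∧ s * (z * c') * s⁻¹ ∈ Q := fun s hs c' hc' => by
    suffices e : s * c' * s⁻¹ ∈ Q from ⟨e, by rw [← conj_mul, f1 s hs]; exact Q.mul_mem h.zQ e⟩
    by_cases hs' : s ∈ N(Q)
    · exact conj_mem_of_mem_normalizer hs' (h.C_le hc')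
    rcases f3 c' hc' with rfl | rfl
    · simp
    · exact f4 s hs hs' ▸ Q.mul_mem h.zQ (h.C_le hc)
  have f6 : ∀ s ∈ S ⊓ N(T), s ∉ N(Q) → s * a * s⁻¹ ∉ Q := fun s hs hs' e =>
    hs' (mem_normalizer_of_forall_conj_mem fun q hq => by
      obtain ⟨x, hx, rfl | rfl | rfl | rfl⟩ := h.cases_Q hq
      exacts [(f5 s hs _ hx).1, (f5 s hs _ hx).2, conj_mul (b := s) ▸ Q.mul_mem e (f5 s hs _ hx).1, by
        rw [← conj_mul, ← conj_mul, f1 s hs]
        exact Q.mul_mem (Q.mul_mem h.zQ e) (f5 s hs _ hx).1])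
  have f7 : ∀ s ∈ S ⊓ N(T), s ∉ N(Q) → ∀ w ∈ T, w * w = 1 →
      (s * w * s⁻¹ = w ∨ s * w * s⁻¹ = z * w) → w = 1 ∨ w = c ∨ w = z ∨ w = z * c := by
    intro s hs hs' w hw hw2 e
    have k : w ∈ Q := by
      by_contra e'
      obtain ⟨x, hx, ex, -⟩ := h.cases_mul hw (conj_mem_of_mem_normalizer hs.2 (h.le_T h.aQ)) e'
        (f6 s hs hs') hw2 (by rw [conj_mul, h.aa, mul_one, mul_inv_cancel])
      have k1 : s⁻¹ * (w * (s * a * s⁻¹)) * s⁻¹⁻¹ ∈ Q := by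
        rcases ex with ex | ex <;> rw [ex]
        exacts [(f5 _ (inv_mem hs) x hx).1, (f5 _ (inv_mem hs) x hx).2]
      have k2 : s⁻¹ * w * s ∈ Q := by simpa [mul_assoc] using Q.mul_mem k1 (Q.inv_mem h.aQ)
      rcases e with e | e
      · exact e' (by rwa [← e, ← mul_assoc, ← mul_assoc, inv_mul_cancel, one_mul,
          inv_mul_cancel_right] at k2)
      · have k3 : s⁻¹ * z * s = z := by simpa using f1 _ (inv_mem hs)
        have k4 : w = s⁻¹ * z * s * (s⁻¹ * w * s) := by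
          rw [show s⁻¹ * z * s * (s⁻¹ * w * s) = s⁻¹ * (z * w) * s by group, ← e]; group
        exact e' (k4 ▸ k3.symm ▸ Q.mul_mem h.zQ k2)
    have k1 : s * w * s⁻¹ ∈ Q := by
      rcases e with e | e <;> rw [e]
      exacts [k, Q.mul_mem h.zQ k]
    obtain ⟨x, hx, rfl | rfl | rfl | rfl⟩ := h.cases_Q k
    · rcases f3 _ hx with rfl | rfl <;> simp
    · rcases f3 _ hx with rfl | rfl <;> simp
    · exact absurd ((Q.mul_mem_cancel_right (f5 s hs x hx).1).1 (conj_mul (b := s) ▸ k1))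
        (f6 s hs hs')
    · rw [← conj_mul, ← conj_mul, f1 s hs] at k1
      exact absurd ((Q.mul_mem_cancel_left h.zQ).1 ((Q.mul_mem_cancel_right (f5 s hs x hx).1).1 k1))
        (f6 s hs hs')
  have f8 : ∀ s ∈ S ⊓ N(T), s ∉ N(Q) → ∀ w ∈ T, w * w = 1 → s * w * s⁻¹ = w → w = 1 ∨ w = z := by
    intro s hs hs' w hw hw2 e
    rcases f7 s hs hs' w hw hw2 (Or.inl e) with rfl | rfl | rfl | rfl
    · exact Or.inl rfl
    · exact absurd (by simpa using e.symm.trans (f4 s hs hs')) h.z1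
    · exact Or.inr rfl
    · rw [← conj_mul, f1 s hs, f4 s hs hs'] at e
      exact absurd (by simpa using e) h.z1
  have hz : z ∈ centralizer (S : Set G) := by
    obtain ⟨w, hw, hw', w1⟩ := h.exists_central
    have k : w ∈ T := ⟨hw, centralizer_le_normalizer _ (centralizer_le h.le hw')⟩
    obtain ⟨x, hx, e⟩ := h.central_cases k (centralizer_le hlt.le hw')
    refine (f8 s hs hs' w k ?_ (mul_inv_eq_of_eq_mul (hw' s hs.1))).resolve_left w1 ▸ hw'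
    rcases f3 x hx with rfl | rfl <;> rcases e with rfl | rfl
    exacts [one_mul 1, by simpa using h.zz, mul_self_of_orderOf oc, by
      rw [mul_assoc, ← mul_assoc x, h.z_comm (h.le_T (h.C_le hx)), mul_assoc,
        mul_self_of_orderOf oc, mul_one, h.zz]]
  have hN : S ≤ N(T) := by
    by_contra e
    obtain ⟨u, hu, hu'⟩ := SetLike.exists_of_lt (lt_inf_normalizer_of_isPGroup h.two
      (lt_of_le_of_ne inf_le_left fun e' => e (inf_eq_left.1 e') : S ⊓ N(T) < S))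
    have hTN : T ≤ S ⊓ N(T) := le_inf hlt.le le_normalizer
    have k1 := conj_mem_of_mem_normalizer hu.2 (hTN (h.le_T (h.C_le hc)))
    have k2 : ∀ x ∈ S ⊓ N(T), x * (u * c * u⁻¹) * x⁻¹ = u * c * u⁻¹ ∨
        x * (u * c * u⁻¹) * x⁻¹ = z * (u * c * u⁻¹) := fun x hx => by
      have k3 := conj_mem_of_mem_normalizer (inv_mem hu.2) hx
      rw [show x * (u * c * u⁻¹) * x⁻¹ = u * (u⁻¹ * x * u⁻¹⁻¹ * c * (u⁻¹ * x * u⁻¹⁻¹)⁻¹) * u⁻¹ by group]
      by_cases k4 : u⁻¹ * x * u⁻¹⁻¹ ∈ N(Q)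
      · exact Or.inl (by rw [h.c_fix ⟨k3.1, k4⟩ hc])
      · exact Or.inr (by rw [f4 _ k3 k4, ← mul_assoc, hz u hu.1]; group)
    have k3 : u * c * u⁻¹ ∈ N(Q) := by
      by_contra k4
      refine f6 _ k1 k4 ?_
      generalize u * c * u⁻¹ = d at *
      rcases k2 a (hTN (h.le_T h.aQ)) with e | e
      · rw [← mul_inv_eq_iff_eq_mul.1 e, mul_inv_cancel_right]; exact h.aQ
      · rw [show d * a * d⁻¹ = z⁻¹ * (z * d * a) * d⁻¹ by group, ← mul_inv_eq_iff_eq_mul.1 e,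
          ← mul_assoc, mul_inv_cancel_right]
        exact Q.mul_mem (Q.inv_mem h.zQ) h.aQ
    rcases f7 s hs hs' _ ⟨k1.1, k3⟩ (by rw [conj_mul, mul_self_of_orderOf oc, mul_one,
      mul_inv_cancel]) (k2 s hs) with e | e | e | e
    · exact c1 (by simpa using e)
    · exact hu' (hTN ⟨hu.1, f0 u hu.1 c hc c1 (e.symm ▸ hc)⟩)
    · exact zc (by simpa using e.trans (mul_inv_eq_of_eq_mul (hz u hu.1)).symm)
    · have k4 := S.mul_mem (S.inv_mem hs.1) hu.1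
      refine hu' ((mul_mem_cancel_left (inv_mem hs)).1 (hTN ⟨k4, f0 _ k4 c hc c1 ?_⟩))
      rw [show s⁻¹ * u * c * (s⁻¹ * u)⁻¹ = s⁻¹ * (u * c * u⁻¹) * s by group, e, ← f4 s hs hs']
      simpa [mul_assoc] using hc
  obtain ⟨Q', C', z', a', h', w, hw, hw'⟩ : ∃ Q' C' z' a', Ess2 S Q' C' z' a' ∧
      ∃ w ∈ zpowers z' ⊔ zpowers a', w ∉ N(Q) := by
    by_contra e
    push Not at e
    exact hlt.ne (hgen T hlt.le fun Q' C' z' a' h' =>
      ⟨⟨h'.le h'.zQ, e _ _ _ _ h' _ (mem_sup_left (mem_zpowers _))⟩,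
        h'.le h'.aQ, e _ _ _ _ h' _ (mem_sup_right (mem_zpowers _))⟩)
  have hwQ := h'.V_le hw
  have hwS : w ∈ S ⊓ N(T) := ⟨h'.le hwQ, hN (h'.le hwQ)⟩
  have hV2 : ∀ v ∈ zpowers z' ⊔ zpowers a', v * v = 1 := fun v hv =>
    h'.eq_one (h'.sq_mem (h'.V_le hv)) (mul_mem hv hv)
  have g1 : ∀ x ∈ Q', x * x = 1 → (x = 1 ∨ x = z) ∨ x = w ∨ x = z * w := fun x hx hx2 => by
    have hxS := h'.le hx
    by_cases e : x ∈ N(Q)
    · exact Or.inl (f8 w hwS hw' x ⟨hxS, e⟩ hx2 (mul_inv_eq_of_eq_mul (h'.comm_Q hwQ hx)))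
    have k1 := S.mul_mem hxS hwS.1
    have k2 : w⁻¹ = w := inv_eq_of_mul_eq_one_right (hV2 w hw)
    refine Or.inr ((f8 w hwS hw' (x * w) ⟨k1, f0 _ k1 c hc c1 ?_⟩ ?_ (mul_inv_eq_of_eq_mul
      (h'.comm_Q hwQ (Q'.mul_mem hx hwQ)))).imp (fun e => ?_) fun e => ?_)
    · rw [show x * w * c * (x * w)⁻¹ = x * (w * c * w⁻¹) * x⁻¹ by group, f4 w hwS hw', ← conj_mul,
        f1 x ⟨hxS, hN hxS⟩, f4 x ⟨hxS, hN hxS⟩ e, ← mul_assoc, h.zz, one_mul]
      exact hc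
    · rw [mul_assoc, ← mul_assoc w, h'.comm_Q hwQ hx, mul_assoc, hV2 w hw, mul_one, hx2]
    · rw [eq_inv_of_mul_eq_one_left e, k2]
    · rw [← e, mul_assoc, hV2 w hw, mul_one]
  have g2 : z ∈ zpowers z' ⊔ zpowers a' := by
    have k1 : z' ∈ zpowers z' ⊔ zpowers a' := mem_sup_left (mem_zpowers _)
    have k2 : a' ∈ zpowers z' ⊔ zpowers a' := mem_sup_right (mem_zpowers _)
    rcases g1 z' h'.zQ h'.zz with (e | e) | e | e
    · exact absurd e h'.z1
    · exact e ▸ k1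
    · rcases g1 a' h'.aQ h'.aa with (e' | e') | e' | e'
      · exact absurd e' (ne_one_of_orderOf_two h'.oa)
      · exact e' ▸ k2
      · exact absurd (e'.trans e.symm) h'.ne
      · exact (mul_mem_cancel_right hw).1 (e' ▸ k2)
    · exact (mul_mem_cancel_right hw).1 (e ▸ k1)
  have g3 : C' = ⊥ := by
    by_contra e
    obtain ⟨x, hx, ox⟩ := h'.exists_invol e
    refine ne_one_of_orderOf_two ox (h'.eq_one hx ?_)
    rcases g1 x (h'.C_le hx) (mul_self_of_orderOf ox) with (rfl | rfl) | rfl | rfl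
    exacts [one_mem _, g2, hw, mul_mem g2 hw]
  have g4 : zpowers z' ⊔ zpowers a' = Q' := by simpa [g3] using h'.sup
  have hb := conj_mem_of_mem_normalizer hwS.2 (h.le_T h.aQ)
  have hb' := f6 w hwS hw'
  have hbw : w * (w * a * w⁻¹) * w⁻¹ = a := by
    rw [show w * (w * a * w⁻¹) * w⁻¹ = (w * w) * a * (w * w)⁻¹ by group, hV2 w hw]; group
  generalize w * a * w⁻¹ = b at hb hb' hbw ⊢
  have hwa : w * a * w⁻¹ = b := by
    rw [← hbw, show w * (w * b * w⁻¹) * w⁻¹ = (w * w) * b * (w * w)⁻¹ by group, hV2 w hw]; group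
  have he : a * b * c ∈ T := T.mul_mem (T.mul_mem (h.le_T h.aQ) hb) (h.le_T (h.C_le hc))
  have g5 : w * (a * b * c) * w⁻¹ = a * b * c := by
    rw [← conj_mul, ← conj_mul, hwa, hbw, f4 w hwS hw', mul_inv_eq_iff_eq_mul.1 (h.act b hb hb'),
      h.comm, mul_assoc a z b, ← h.z_comm hb]
    simp only [mul_assoc]
    rw [← mul_assoc z, h.zz, one_mul]
  have g6 : a * b * c ∈ Q' := h'.mem_of_cent he.1 fun x hx => by
    have k := mul_inv_eq_iff_eq_mul.1 g5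
    have k' := hz _ he.1
    rcases g1 x hx (hV2 x (g4.ge hx)) with (rfl | rfl) | rfl | rfl
    exacts [by simp, k'.symm, k, by rw [mul_assoc, k, ← mul_assoc, ← k', mul_assoc]]
  refine hb' ((Q.mul_mem_cancel_left h.aQ).1 ((Q.mul_mem_cancel_right (h.C_le hc)).1 ?_))
  rcases f8 w hwS hw' _ he (hV2 _ (g4.ge g6)) g5 with e | e <;> rw [e]
  exacts [one_mem _, h.zQ]

theorem exists_dih (hG : ∀ c : G, c ≠ 1 → GoodIn (centralizer {c})) : ∃ σ τ, IsDihPair S σ τ ∧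
    8 ≤ Nat.card S ∧ ∀ v ∈ S, orderOf v = 2 → IsConj z v := by
  have k0 : ∀ {Q C z a}, Ess2 S Q C z a → zpowers z ⊔ zpowers a = Q := fun h' => by
    simpa [h'.eq_bot hgen hG] using h'.sup
  obtain ⟨w, hw, hw', w1⟩ := h.exists_central
  have k1 : ∀ {Q C z a}, Ess2 S Q C z a → z = w := fun {Q' C' z' a'} h' => by
    obtain ⟨x, hx, e⟩ := h'.central_cases ⟨hw, centralizer_le_normalizer _
      (centralizer_le h'.le hw')⟩ (centralizer_le (inf_le_left : S ⊓ _ ≤ S) hw')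
    rw [h'.eq_bot hgen hG, mem_bot] at hx
    simpa [hx, w1, eq_comm] using e
  obtain rfl := k1 h
  have h4 : Nat.card Q = 4 := k0 h ▸ card_closure_pair h.oz h.oa h.comm h.ne.symm
  have h8 : 8 ≤ Nat.card S := by
    have := card_mul_relIndex h.le_T
    rw [h4, h.idx] at this
    exact this.le.trans (card_le_of_le inf_le_left)
  obtain ⟨t, ht, ht'⟩ := h.exists_notMem
  have hz : z ∈ ⁅S, S⁆ := h.commutator_eq ht ht' ▸ commutator_mem_commutator ht.1 (h.le h.aQ)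
  have k2 : Nat.card S ≤ 4 * Nat.card (⁅S, S⁆ : Subgroup G) := by
    have e1 := index_centralizer_le_card_commutator (⟨a, h.le h.aQ⟩ : S)
    have e2 := (centralizer {(⟨a, h.le h.aQ⟩ : S)}).card_mul_index
    have e3 : centralizer {(⟨a, h.le h.aQ⟩ : S)} ≤ Q.subgroupOf S := fun x hx =>
      h.mem_of_cent x.2 (by
        rw [← k0 h, centralizer_sup, centralizer_zpowers, centralizer_zpowers]
        exact ⟨mem_centralizer_singleton_iff.2 (hw' x x.2), mem_centralizer_singleton_iff.2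
          (congrArg Subtype.val (mem_centralizer_singleton_iff.1 hx))⟩)
    rw [← map_subtype_commutator, card_map_subtype, ← e2]
    exact Nat.mul_le_mul ((card_le_of_le e3).trans (by rw [card_subgroupOf_of_le h.le, h4])) e1
  have k3 : ∀ F, ⁅S, S⁆ ≤ F → F < S → ∃ Q' C' a', Ess2 S Q' C' z a' ∧ a' ∉ F ∧
      2 * Nat.card F ≤ Nat.card (F ⊔ zpowers a' : Subgroup G) := fun F h1 h2 => by
    by_contra e
    push Not at e
    refine h2.ne (hgen F h2.le fun Q' C' z' a' h' => ⟨k1 h' ▸ h1 hz, ?_⟩)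
    obtain rfl := k1 h'
    by_contra e'
    obtain ⟨k, hk⟩ := card_dvd_of_le (le_sup_left : F ≤ F ⊔ zpowers a')
    have e1 := card_lt_of_lt (lt_of_le_of_ne (le_sup_left : F ≤ F ⊔ zpowers a')
      fun e => e' (e.ge (mem_sup_right (mem_zpowers _))))
    have e2 := e _ _ _ h' e'
    rcases k with _ | _ | k <;> nlinarith
  have := h.two.isNilpotent
  obtain ⟨Q₁, C₁, a₁, h₁, -, e₁⟩ := k3 _ le_rfl (commutator_lt_of_le_isNilpotent le_rfl le_rfl
    le_normalizer fun e => w1 (mem_bot.1 (e ▸ hw)))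
  have l₁ := zpowers_le.2 (h₁.le h₁.aQ)
  obtain ⟨Q₂, C₂, a₂, h₂, -, e₂⟩ := k3 _ le_sup_left (lt_of_le_of_ne
    (sup_le (commutator_le_self S) l₁) fun e => (eq_one_or_eq_of_mem_zpowers h₁.oa
      ((eq_of_sup_frattiniOf l₁ (e.ge.trans (sup_le ((commutator_le_frattiniOf h.two).trans
        le_sup_right) le_sup_left))).ge hw)).elim w1 h₁.ne.symm)
  have l₂ := zpowers_le.2 (h₂.le h₂.aQ)
  have k4 : zpowers a₁ ⊔ zpowers a₂ = S := eq_of_sup_frattiniOf (sup_le l₁ l₂)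
    ((eq_of_le_of_card_ge (sup_le (sup_le (commutator_le_self S) l₁) l₂) (by omega)).ge.trans
      (sup_le (sup_le ((commutator_le_frattiniOf h.two).trans le_sup_right)
        (le_sup_left.trans le_sup_left)) (le_sup_right.trans le_sup_left)))
  have k5 : a₁ * (a₁ * a₂) * a₁⁻¹ = (a₁ * a₂)⁻¹ := by
    rw [← mul_assoc, h₁.aa, one_mul, mul_inv_rev, inv_eq_of_mul_eq_one_right h₂.aa]
  have k6 : S ≤ zpowers (a₁ * a₂) ⊔ zpowers a₁ := k4.ge.trans (sup_le le_sup_right (zpowers_le.2 (by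
    rw [← inv_mul_cancel_left a₁ a₂]
    simpa using mul_mem (mem_sup_right (inv_mem (mem_zpowers a₁)))
      (mem_sup_left (mem_zpowers (a₁ * a₂))))))
  have hD : IsDihPair S (a₁ * a₂) a₁ := by
    refine ⟨S.mul_mem (h₁.le h₁.aQ) (h₂.le h₂.aQ), h₁.le h₁.aQ, h₁.aa, k5, fun e => ?_, fun x hx => ?_⟩
    · have e' := k6.trans (sup_le le_rfl (zpowers_le.2 e))
      obtain ⟨i, hi⟩ := e' ht.1
      obtain ⟨j, hj⟩ := e' (h.le h.aQ)
      exact ht' (h.mem_of_comm ht (by rw [← hi, ← hj]; exact zpow_mul_comm _ i j))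
    · obtain ⟨s, hs, y, hy, rfl⟩ := (mem_sup_of_le_normalizer' (zpowers_le.2
        (mem_normalizer_of_map_conj_le (by
          rw [← zpowers_conj, k5, zpowers_inv])))).1 (k6 hx)
      rcases eq_one_or_eq_of_mem_zpowers h₁.oa hy with rfl | rfl
      · exact Or.inl (by simpa using hs)
      · exact Or.inr (by rwa [mul_assoc, h₁.aa, mul_one])
  refine ⟨_, _, hD, h8, fun v hv ov => ?_⟩
  by_cases e : v ∈ zpowers (a₁ * a₂)
  · have : z ∈ zpowers (a₁ * a₂) := by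
      by_contra e'
      have e1 := hD.conj_of_notMem hw e' (mem_zpowers _)
      rw [← hw' _ hD.mem_σ, mul_inv_cancel_right, eq_inv_iff_mul_eq_one, ← pow_two] at e1
      have e2 := Nat.le_of_dvd two_pos (orderOf_dvd_of_pow_eq_one e1)
      have := hD.card_eq
      omega
    rw [eq_of_orderOf_eq_two_of_mem_zpowers e this ov h.oz]
  obtain ⟨x, -, e | e⟩ := hD.exists_conj_eq hv e
  · exact h₁.conj.trans (isConj_iff.2 ⟨x, e⟩)
  · exact h₂.conj.trans (isConj_iff.2 ⟨x * a₁, by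
      rw [← e, mul_inv_rev, inv_eq_of_mul_eq_one_right h₁.aa]; group⟩)

end Ess2

end Cfsg.Acd
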