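import Cfsg.Agent.Acd.Basic
import Cfsg.Agent.Char.Central
import Cfsg.Agent.Char.FrobSchur
import Cfsg.Agent.Grp.MinAct
import Cfsg.Agent.Grp.Frattini
import Cfsg.Agent.Grp.Misc
import Cfsg.Agent.Grp.InvolSL2

/-!
# Average character degree at most two: actions on subgroups of odd order
-/

set_option autoImplicit false
set_option linter.unusedSectionVars false

namespace Cfsg.Acd

open Subgroup
open scoped commutatorElement

universe u v

variable {G : Type u} [Group G] [Finite G]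

theorem commutator_zpowers_le {A : Subgroup G} {s : G} (hs : s ∈ normalizer (A : Set G)) :
    ⁅A, zpowers s⁆ ≤ A :=
  le_normalizer_iff_commutator_le_left.1 (zpowers_le.2 hs)

theorem inv_mul_conj_mem {A B : Subgroup G} {s a : G} (ha : a ∈ A) (hs : s ∈ B) :
    a⁻¹ * (s * a * s⁻¹) ∈ ⁅A, B⁆ := by
  have := commutator_mem_commutator (inv_mem ha) hs
  rw [commutatorElement_def, inv_inv] at this
  simpa [mul_assoc] using this

/-- A linear character fixed by `s` is trivial on `[A, s]`. -/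
theorem apply_eq_one_of_fixed {A : Subgroup G} {s : G} (hs : s ∈ normalizer (A : Set G))
    {lam : A →* ℂˣ} (h : ∀ a a' : A, (a' : G) = s * a * s⁻¹ → lam a' = lam a) {x : A}
    (hx : (x : G) ∈ ⁅A, zpowers s⁆) : lam x = 1 := by
  have h1 : ∀ (n : ℕ) (a a' : A), (a' : G) = s ^ n * a * (s ^ n)⁻¹ → lam a' = lam a := by
    intro n
    induction n with
    | zero => intro a a' e; rw [Subtype.ext (e.trans (by simp) : (a' : G) = a)]
    | succ n ih =>
      intro a a' e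
      have hb := conj_mem_of_mem_normalizer (pow_mem hs n) a.2
      rw [h ⟨_, hb⟩ a' (by rw [e, pow_succ']; group), ih a ⟨_, hb⟩ rfl]
  have h2 : ⁅A, zpowers s⁆ ≤ lam.ker.map A.subtype := by
    rw [commutator_le]
    intro a ha b hb
    obtain ⟨n, rfl⟩ := (mem_powers_iff_mem_zpowers.2 hb :)
    have hb := conj_mem_of_mem_normalizer (pow_mem hs n) (inv_mem ha)
    refine ⟨⟨a, ha⟩ * ⟨_, hb⟩, ?_, by simp [commutatorElement_def, mul_assoc]⟩
    rw [SetLike.mem_coe, MonoidHom.mem_ker, map_mul, h1 n ⟨a, ha⟩⁻¹ ⟨_, hb⟩ rfl, map_inv,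
      mul_inv_cancel]
  obtain ⟨y, hy, e⟩ := h2 hx
  rwa [← Subtype.ext (e : (y : G) = x)]

theorem relIndex_sup_le_card {A T : Subgroup G} (hn : T ≤ normalizer (A : Set G)) :
    A.relIndex (A ⊔ T) ≤ Nat.card T := by
  rw [sup_comm, relIndex_sup_of_le_normalizer hn]
  exact Nat.le_of_dvd Nat.card_pos (relIndex_dvd_card _ _)

theorem sup_le_normalizer {A T : Subgroup G} (hn : T ≤ normalizer (A : Set G)) :
    A ⊔ T ≤ normalizer (A : Set G) := sup_le le_normalizer hn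

/-- Frobenius type actions. -/
theorem Acd2.frob {A T : Subgroup G} (h : Acd2 (A ⊔ T : Subgroup G))
    (hn : T ≤ normalizer (A : Set G)) (hf : ∀ s ∈ T, s ≠ 1 → ⁅A, zpowers s⁆ = A) :
    ((commutator A).index - 1) * (Nat.card T - 2) ≤ Nat.card T ^ 2 := by
  classical
  by_cases hT : T = ⊥
  · simp [hT]
  let _ := Fintype.ofFinite (A →* ℂˣ)
  have h1 := h.card_mul_le le_sup_left (sup_le_normalizer hn) le_sup_right
    (Finset.univ.erase 1) fun lam hl s hs hfix => by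
      by_contra h1
      exact (Finset.mem_erase.1 hl).1 (MonoidHom.ext fun x =>
        apply_eq_one_of_fixed (hn hs) hfix ((hf s hs h1).ge x.2))
  rw [Finset.card_erase_of_mem (Finset.mem_univ _), Finset.card_univ, ← Nat.card_eq_fintype_card,
    card_linear] at h1
  obtain ⟨⟨s, hs⟩, h2⟩ := ne_bot_iff_exists_ne_one.1 hT
  have h3 : A ≤ ⁅A ⊔ T, A ⊔ T⁆ := (hf s hs fun e => h2 (Subtype.ext e)).ge.trans
    (commutator_mono le_sup_left ((zpowers_le.2 hs).trans le_sup_right))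
  rw [pow_two]
  exact h1.trans (Nat.mul_le_mul_left _ ((index_commutator_le h3).trans (relIndex_sup_le_card hn)))

theorem commutator_eq_of_fpf {A : Subgroup G} {s : G} (hs : s ∈ normalizer (A : Set G))
    (hf : ∀ a ∈ A, s * a * s⁻¹ = a → a = 1) : ⁅A, zpowers s⁆ = A := by
  refine le_antisymm (commutator_zpowers_le hs) fun x hx => ?_
  let φ : A → A := fun a => ⟨(a : G)⁻¹ * (s * a * s⁻¹),
    mul_mem (inv_mem a.2) (conj_mem_of_mem_normalizer hs a.2)⟩
  have hφ : Function.Injective φ := fun a b e => by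
    have e1 : (a : G)⁻¹ * (s * a * s⁻¹) = (b : G)⁻¹ * (s * b * s⁻¹) := congrArg Subtype.val e
    have := hf ((a : G) * (b : G)⁻¹) (mul_mem a.2 (inv_mem b.2)) (by
      calc s * (a * (b : G)⁻¹) * s⁻¹ = a * ((a : G)⁻¹ * (s * a * s⁻¹)) * (s * b * s⁻¹)⁻¹ := by group
        _ = _ := by rw [e1]; group)
    exact Subtype.ext (mul_inv_eq_one.1 this)
  obtain ⟨a, ha⟩ := Finite.surjective_of_injective hφ ⟨x, hx⟩
  have e : (a : G)⁻¹ * (s * a * s⁻¹) = x := congrArg Subtype.val ha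
  exact e ▸ inv_mul_conj_mem a.2 (mem_zpowers s)

theorem index_commutator_of_comm {A : Subgroup G} (h : ∀ a ∈ A, ∀ b ∈ A, a * b = b * a) :
    (commutator A).index = Nat.card A := by
  rw [← card_linear, card_linear_of_comm fun a b => Subtype.ext (h a a.2 b b.2)]

/-- The linear characters nontrivial on both factors of a direct product. -/
theorem exists_finset_linear {A₁ A₂ : Subgroup G}
    (h : ∀ a ∈ A₁ ⊔ A₂, ∀ b ∈ A₁ ⊔ A₂, a * b = b * a) (hi : A₁ ⊓ A₂ = ⊥) :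
    ∃ L : Finset ((A₁ ⊔ A₂ : Subgroup G) →* ℂˣ),
      (Nat.card A₁ - 1) * (Nat.card A₂ - 1) ≤ L.card ∧
      ∀ lam ∈ L, (∃ x : (A₁ ⊔ A₂ : Subgroup G), (x : G) ∈ A₁ ∧ lam x ≠ 1) ∧
        ∃ x : (A₁ ⊔ A₂ : Subgroup G), (x : G) ∈ A₂ ∧ lam x ≠ 1 := by
  classical
  set A := A₁ ⊔ A₂ with hA
  let _ := Fintype.ofFinite (A →* ℂˣ)
  have hc : commutator A = ⊥ := by
    rw [commutator_def, eq_bot_iff, commutator_le]
    exact fun a _ b _ => commutatorElement_eq_one_iff_mul_comm.2 (Subtype.ext (h a a.2 b b.2))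
  have hn : A₁ ≤ normalizer (A₂ : Set G) := fun a ha =>
    centralizer_le_normalizer _ (mem_centralizer_iff.2 fun b hb =>
      h b (mem_sup_right hb) a (mem_sup_left ha))
  have hcard : Nat.card A = Nat.card A₁ * Nat.card A₂ :=
    card_sup_of_le_normalizer_of_disjoint hn hi
  let T : Subgroup G → Finset (A →* ℂˣ) := fun B =>
    Finset.univ.filter fun lam => ∀ x ∈ B.subgroupOf A, lam x = 1
  have hT : ∀ B ≤ A, (T B).card * Nat.card B = Nat.card A := fun B hB => by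
    rw [← Fintype.card_subtype, ← Nat.card_eq_fintype_card,
      card_linear_trivial_on_of_commutator_le (hc ▸ bot_le), ← card_subgroupOf_of_le hB,
      index_mul_card]
  have h1 : (T A₁).card = Nat.card A₂ := Nat.eq_of_mul_eq_mul_right (Nat.card_pos (α := A₁))
    (by rw [hT A₁ le_sup_left, hcard, mul_comm])
  have h2 : (T A₂).card = Nat.card A₁ := Nat.eq_of_mul_eq_mul_right (Nat.card_pos (α := A₂))
    (by rw [hT A₂ le_sup_right, hcard])
  refine ⟨(T A₁ ∪ T A₂)ᶜ, ?_, fun lam hl => ?_⟩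
  · have h3 := Finset.card_union_add_card_inter (T A₁) (T A₂)
    have h4 : 0 < (T A₁ ∩ T A₂).card := Finset.card_pos.2 ⟨1, by simp [T]⟩
    rw [Finset.card_compl, ← Nat.card_eq_fintype_card, card_linear, index_commutator_of_comm h,
      hcard]
    rw [h1, h2] at h3
    obtain ⟨a, ha⟩ : ∃ a, Nat.card A₁ = a + 1 := ⟨_, (Nat.succ_pred_eq_of_pos Nat.card_pos).symm⟩
    obtain ⟨b, hb⟩ : ∃ a, Nat.card A₂ = a + 1 := ⟨_, (Nat.succ_pred_eq_of_pos Nat.card_pos).symm⟩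
    rw [ha, hb] at h3 ⊢
    simp only [Nat.add_sub_cancel]
    refine Nat.le_sub_of_add_le ?_
    nlinarith
  · simpa [T, mem_subgroupOf] using hl

/-- Each nontrivial element of `T` moves all linear characters nontrivial on both factors. -/
theorem Acd2.two_le {A₁ A₂ T : Subgroup G} (hX : Acd2 (A₁ ⊔ A₂ ⊔ T : Subgroup G))
    (h : ∀ a ∈ A₁ ⊔ A₂, ∀ b ∈ A₁ ⊔ A₂, a * b = b * a) (hi : A₁ ⊓ A₂ = ⊥)
    (hn : T ≤ normalizer ((A₁ ⊔ A₂ : Subgroup G) : Set G))
    (hf : ∀ s ∈ T, s ≠ 1 → A₁ ≤ ⁅A₁ ⊔ A₂, zpowers s⁆ ∨ A₂ ≤ ⁅A₁ ⊔ A₂, zpowers s⁆) :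
    (Nat.card A₁ - 1) * (Nat.card A₂ - 1) * (Nat.card T - 2) ≤
        Nat.card T * (commutator (A₁ ⊔ A₂ ⊔ T : Subgroup G)).index ∧
      (A₁ ≠ ⊥ → A₂ ≠ ⊥ → Nat.card T - 2 ≤ (commutator (A₁ ⊔ A₂ ⊔ T : Subgroup G)).index) := by
  obtain ⟨L, h1, h2⟩ := exists_finset_linear h hi
  have h3 : ∀ lam ∈ L, ∀ s ∈ T, (∀ a a' : (A₁ ⊔ A₂ : Subgroup G), (a' : G) = s * a * s⁻¹ →
      lam a' = lam a) → s = 1 := fun lam hl s hs hfix => by
    by_contra h1
    obtain ⟨⟨x, hx, hx'⟩, y, hy, hy'⟩ := h2 lam hl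
    rcases hf s hs h1 with h | h
    · exact hx' (apply_eq_one_of_fixed (hn hs) hfix (h hx))
    · exact hy' (apply_eq_one_of_fixed (hn hs) hfix (h hy))
  refine ⟨(Nat.mul_le_mul_right _ h1).trans
    (hX.card_mul_le le_sup_left (sup_le_normalizer hn) le_sup_right L h3), fun n1 n2 => ?_⟩
  have := (one_lt_card_iff_ne_bot _).2 n1
  have := (one_lt_card_iff_ne_bot _).2 n2
  obtain ⟨lam, hl⟩ := Finset.card_pos.1 (lt_of_lt_of_le (Nat.mul_pos (by omega) (by omega)) h1)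
  have : ((A₁ ⊔ A₂).subgroupOf (A₁ ⊔ A₂ ⊔ T)).Normal :=
    normal_subgroupOf_of_le_normalizer (sup_le_normalizer hn)
  have h4 := card_le_index_inertia (X := A₁ ⊔ A₂ ⊔ T) le_sup_left le_sup_right (h3 lam hl)
  have h5 := (sub_le_exc (inclusion (le_sup_left : A₁ ⊔ A₂ ≤ A₁ ⊔ A₂ ⊔ T))
    (IrrCharacter.ofLinear lam)).trans (acd2_iff.1 hX)
  rw [IrrCharacter.charDegree_ofLinear, mul_one] at h5
  omega

theorem mem_of_sq_mem {K : Subgroup G} {x : G} (ho : ¬ 2 ∣ orderOf x) (h : x * x ∈ K) : x ∈ K := by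
  obtain ⟨k, hk⟩ : Odd (orderOf x) := Nat.odd_iff.2 (by omega)
  have : x = (x * x) ^ (k + 1) := by
    rw [← pow_two, ← pow_mul, show 2 * (k + 1) = orderOf x + 1 by omega, pow_succ,
      pow_orderOf_eq_one, one_mul]
  exact this ▸ pow_mem h _

theorem not_two_dvd_orderOf {A : Subgroup G} (ho : ¬ 2 ∣ Nat.card A) {x : G} (hx : x ∈ A) :
    ¬ 2 ∣ orderOf x := fun h => ho (h.trans (orderOf_dvd_natCard A hx))

theorem mem_commutator_of_inv {A B : Subgroup G} {s x : G} (hx : x ∈ A) (hs : s ∈ B)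
    (ho : ¬ 2 ∣ orderOf x) (h : s * x * s⁻¹ = x⁻¹) : x ∈ ⁅A, B⁆ := by
  have := inv_mem (inv_mul_conj_mem hx hs)
  rw [h, mul_inv_rev, inv_inv] at this
  exact mem_of_sq_mem ho this

/-- The four-group generated by two commuting involutions. -/
theorem mem_closure_pair {v w s : G} (hv : v * v = 1) (hw : w * w = 1) (hvw : v * w = w * v) :
    s ∈ zpowers v ⊔ zpowers w ↔ s = 1 ∨ s = v ∨ s = w ∨ s = v * w := by
  have h1 : ∀ {a b : G}, a * a = 1 → b ∈ zpowers a → b = 1 ∨ b = a := fun {a b} ha hb => by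
    obtain ⟨n, rfl⟩ := (mem_powers_iff_mem_zpowers.2 hb :)
    rcases Nat.even_or_odd' n with ⟨k, rfl | rfl⟩
    · left; simp [pow_mul, pow_two, ha]
    · right; simp [pow_succ, pow_mul, ha]
  constructor
  · intro hs
    obtain ⟨a, ha, b, hb, rfl⟩ := (mem_sup_of_le_normalizer (zpowers_le.2
      (centralizer_le_normalizer _ (by
        rw [centralizer_zpowers, mem_centralizer_singleton_iff]; exact hvw)))).1 hs
    rcases h1 hv ha with rfl | rfl <;> rcases h1 hw hb with rfl | rfl <;> simp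
  · rintro (rfl | rfl | rfl | rfl)
    exacts [one_mem _, mem_sup_left (mem_zpowers _), mem_sup_right (mem_zpowers _),
      mul_mem (mem_sup_left (mem_zpowers _)) (mem_sup_right (mem_zpowers _))]

theorem card_closure_pair {v w : G} (hv : orderOf v = 2) (hw : orderOf w = 2)
    (hvw : v * w = w * v) (hne : v ≠ w) : Nat.card (zpowers v ⊔ zpowers w : Subgroup G) = 4 := by
  rw [card_sup_of_le_normalizer_of_disjoint (zpowers_le.2 (centralizer_le_normalizer _ (by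
    rw [centralizer_zpowers, mem_centralizer_singleton_iff]; exact hvw))), Nat.card_zpowers,
    Nat.card_zpowers, hv, hw]
  refine ((le_or_inf_eq_bot_of_prime_card (K := zpowers v) (by
    rw [Nat.card_zpowers, hv]; exact Nat.prime_two) (zpowers w)).resolve_left fun h => ?_)
  have h2 := (mem_closure_pair (s := v) (mul_self_of_orderOf hw) (mul_self_of_orderOf hw) rfl).1
    (mem_sup_left (h (mem_zpowers v)))
  rw [mul_self_of_orderOf hw] at h2
  have := ne_one_of_orderOf_two hv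
  tauto

/-- A four-group acting on two commuting subgroups of odd order. -/
theorem GoodIn.four_two {X A₁ A₂ : Subgroup G} (hX : GoodIn X) {v w : G} (hv : orderOf v = 2)
    (hw : orderOf w = 2) (hvw : v * w = w * v) (hne : v ≠ w) (hvX : v ∈ X) (hwX : w ∈ X)
    (h1 : A₁ ≤ X) (h2 : A₂ ≤ X) (o1 : ¬ 2 ∣ Nat.card A₁) (o2 : ¬ 2 ∣ Nat.card A₂)
    (h : ∀ a ∈ A₁ ⊔ A₂, ∀ b ∈ A₁ ⊔ A₂, a * b = b * a)
    (hv1 : ∀ a ∈ A₁, v * a * v⁻¹ = a) (hv2 : ∀ a ∈ A₂, v * a * v⁻¹ = a⁻¹)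
    (hw1 : ∀ a ∈ A₁, w * a * w⁻¹ = a⁻¹) (hw2 : ∀ a ∈ A₂, w * a * w⁻¹ ∈ A₂) :
    (Nat.card A₁ - 1) * (Nat.card A₂ - 1) ≤ 8 := by
  have hi : A₁ ⊓ A₂ = ⊥ := eq_bot_iff.2 fun a ha => mem_of_sq_mem (not_two_dvd_orderOf o1 ha.1)
    (by rw [mem_bot, mul_eq_one_iff_eq_inv, ← hv2 a ha.2, hv1 a ha.1])
  have hn : zpowers v ⊔ zpowers w ≤ normalizer ((A₁ ⊔ A₂ : Subgroup G) : Set G) := by
    refine le_normalizer_sup (sup_le ?_ ?_) (sup_le ?_ ?_) <;>
      refine zpowers_le.2 (mem_normalizer_of_forall_conj_mem fun a ha => ?_)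
    exacts [(hv1 a ha).symm ▸ ha, (hw1 a ha).symm ▸ inv_mem ha, (hv2 a ha).symm ▸ inv_mem ha,
      hw2 a ha]
  have k1 : ∀ s, (∀ a ∈ A₁, s * a * s⁻¹ = a⁻¹) → A₁ ≤ ⁅A₁ ⊔ A₂, zpowers s⁆ := fun s hs a ha =>
    mem_commutator_of_inv (mem_sup_left ha) (mem_zpowers s) (not_two_dvd_orderOf o1 ha) (hs a ha)
  have k2 : A₂ ≤ ⁅A₁ ⊔ A₂, zpowers v⁆ := fun a ha =>
    mem_commutator_of_inv (mem_sup_right ha) (mem_zpowers v) (not_two_dvd_orderOf o2 ha) (hv2 a ha)
  have h3 := (Acd2.two_le (hX _ (sup_le (sup_le h1 h2) (sup_le (zpowers_le.2 hvX)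
    (zpowers_le.2 hwX)))) h hi hn fun s hs hs1 => by
      rcases (mem_closure_pair (mul_self_of_orderOf hv) (mul_self_of_orderOf hw) hvw).1 hs with
        rfl | rfl | rfl | rfl
      · exact absurd rfl hs1
      · exact Or.inr k2
      · exact Or.inl (k1 _ hw1)
      · refine Or.inl (k1 _ fun a ha => ?_)
        rw [← hv1 _ (inv_mem ha), ← hw1 a ha]
        group).1
  have h4 : A₁ ⊔ A₂ ≤ ⁅A₁ ⊔ A₂ ⊔ (zpowers v ⊔ zpowers w), A₁ ⊔ A₂ ⊔ (zpowers v ⊔ zpowers w)⁆ :=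
    sup_le ((k1 w hw1).trans (commutator_mono le_sup_left (le_sup_right.trans le_sup_right)))
      (k2.trans (commutator_mono le_sup_left (le_sup_left.trans le_sup_right)))
  have h5 := (index_commutator_le h4).trans (relIndex_sup_le_card hn)
  rw [card_closure_pair hv hw hvw hne] at h3 h5
  have := h3.trans (Nat.mul_le_mul_left _ h5)
  omega

theorem three_le_card {A : Subgroup G} (ho : ¬ 2 ∣ Nat.card A) (h : A ≠ ⊥) : 3 ≤ Nat.card A := by
  have := (one_lt_card_iff_ne_bot _).2 h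
  omega

/-- A four-group cannot have three nontrivial eigenspaces on an abelian group of odd order. -/
theorem GoodIn.four_three {X : Subgroup G} (hX : GoodIn X) {v w a b c : G} (hv : orderOf v = 2)
    (hw : orderOf w = 2) (hvw : v * w = w * v) (hvX : v ∈ X) (hwX : w ∈ X)
    (haX : a ∈ X) (hbX : b ∈ X) (hcX : c ∈ X) (oa : ¬ 2 ∣ orderOf a) (ob : ¬ 2 ∣ orderOf b)
    (oc : ¬ 2 ∣ orderOf c) (a1 : a ≠ 1) (b1 : b ≠ 1) (c1 : c ≠ 1)
    (hab : Commute a b) (hac : Commute a c) (hbc : Commute b c)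
    (va : v * a * v⁻¹ = a) (vb : v * b * v⁻¹ = b⁻¹) (vc : v * c * v⁻¹ = c⁻¹)
    (wa : w * a * w⁻¹ = a⁻¹) (wb : w * b * w⁻¹ = b) (wc : w * c * w⁻¹ = c⁻¹) : False := by
  have hz : ∀ {s x : G}, s * x * s⁻¹ = x → ∀ y ∈ zpowers x, s * y * s⁻¹ = y := fun {s x} h y hy => by
    obtain ⟨n, rfl⟩ := hy
    rw [← conj_zpow, h]
  have hz' : ∀ {s x : G}, s * x * s⁻¹ = x⁻¹ → ∀ y ∈ zpowers x, s * y * s⁻¹ = y⁻¹ :=
    fun {s x} h y hy => by
      obtain ⟨n, rfl⟩ := hy
      rw [← conj_zpow, h, inv_zpow]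
  have hn : zpowers b ≤ normalizer (zpowers c : Set G) := zpowers_le.2
    (centralizer_le_normalizer _ (by
      rw [centralizer_zpowers, mem_centralizer_singleton_iff]; exact hbc))
  have hi : zpowers b ⊓ zpowers c = ⊥ := eq_bot_iff.2 fun x hx =>
    mem_of_sq_mem (fun h => ob (h.trans (orderOf_dvd_of_mem_zpowers hx.1)))
      (by rw [mem_bot, mul_eq_one_iff_eq_inv, ← hz' wc x hx.2, hz wb x hx.1])
  have hcard := card_sup_of_le_normalizer_of_disjoint hn hi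
  rw [Nat.card_zpowers, Nat.card_zpowers] at hcard
  have hcomm : ∀ x ∈ zpowers a ⊔ (zpowers b ⊔ zpowers c), ∀ y ∈ zpowers a ⊔ (zpowers b ⊔ zpowers c),
      x * y = y * x := by
    have : zpowers a ⊔ (zpowers b ⊔ zpowers c) ≤
        centralizer ((zpowers a ⊔ (zpowers b ⊔ zpowers c) : Subgroup G) : Set G) := by
      simp only [centralizer_sup, centralizer_zpowers, le_inf_iff, sup_le_iff, zpowers_le,
        mem_centralizer_singleton_iff]
      exact ⟨⟨trivial, hab.symm, hac.symm⟩, ⟨hab, trivial, hbc.symm⟩, hac, hbc, trivial⟩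
    exact fun x hx y hy => (this hy x hx)
  have h := hX.four_two (A₁ := zpowers a) (A₂ := zpowers b ⊔ zpowers c) hv hw hvw
    (fun e => a1 (mem_bot.1 (mem_of_sq_mem oa (by
      rw [mem_bot, mul_eq_one_iff_eq_inv, ← wa, ← e, va])))) hvX hwX (zpowers_le.2 haX)
    (sup_le (zpowers_le.2 hbX) (zpowers_le.2 hcX)) (by rwa [Nat.card_zpowers])
    (by rw [hcard, Nat.prime_two.dvd_mul]; tauto) hcomm (hz va) (fun x hx => by
      obtain ⟨y, hy, z, hz, rfl⟩ := (mem_sup_of_le_normalizer hn).1 hx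
      rw [← conj_mul, hz' vb y hy, hz' vc z hz, ← mul_inv_rev,
        hcomm z (mem_sup_right (mem_sup_right hz)) y (mem_sup_right (mem_sup_left hy))])
    (hz' wa) fun x hx => by
      obtain ⟨y, hy, z, hz0, rfl⟩ := (mem_sup_of_le_normalizer hn).1 hx
      rw [← conj_mul, hz wb y hy, hz' wc z hz0]
      exact mul_mem (mem_sup_left hy) (mem_sup_right (inv_mem hz0))
  rw [hcard, Nat.card_zpowers] at h
  have t : ∀ {x : G}, ¬ 2 ∣ orderOf x → x ≠ 1 → 3 ≤ orderOf x := fun {x} h1 h2 => by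
    have := orderOf_pos x
    have := mt orderOf_eq_one_iff.1 h2
    omega
  have := Nat.mul_le_mul (t ob b1) (t oc c1)
  have := Nat.mul_le_mul (Nat.sub_le_sub_right (t oa a1) 1) (Nat.sub_le_sub_right this 1)
  omega

end Cfsg.Acd
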