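import Cfsg.Agent.Acd.Local

/-!
# Average character degree at most two: elements of odd prime order, involutions
-/

set_option autoImplicit false
set_option linter.unusedSectionVars false

namespace Cfsg.Acd

open Subgroup
open scoped commutatorElement

universe u v

variable {G : Type u} [Group G] [Finite G]

theorem zpowers_eq_of_prime {y s : G} (hr : (orderOf y).Prime) (hs : s ∈ zpowers y) (h1 : s ≠ 1) :
    zpowers s = zpowers y :=
  zpowers_eq_of_prime_card (by rwa [Nat.card_zpowers]) hs h1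

theorem index_commutator_mul (R : Subgroup G) :
    (commutator R).index * Nat.card (⁅R, R⁆ : Subgroup G) = Nat.card R := by
  rw [index_commutator_eq, mul_comm, card_mul_relIndex (commutator_le_self R)]

theorem index_commutator_modEq {R : Subgroup G} {y : G} (hr : (orderOf y).Prime)
    (hn : y ∈ normalizer (R : Set G)) (hc : (Nat.card R).Coprime (orderOf y))
    (h : ⁅R, zpowers y⁆ = R) : (commutator R).index ≡ 1 [MOD orderOf y] := by
  have := Fact.mk hr
  have hP : IsPGroup (orderOf y) (zpowers y) := IsPGroup.of_card (n := 1) (by simp)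
  have h1 := card_modEq_card_inf_centralizer hP (zpowers_le.2 hn)
  have h2 := card_modEq_card_inf_centralizer (S := ⁅R, R⁆) hP (zpowers_le.2
    (normalizer_inf_le_normalizer_commutator R R ⟨hn, hn⟩))
  have h3 := inf_centralizer_le_commutator_of_coprime (zpowers_le.2 hn)
    (by rwa [Nat.card_zpowers]) h
  rw [show ⁅R, R⁆ ⊓ centralizer (zpowers y : Set G) = R ⊓ centralizer (zpowers y : Set G) from
    le_antisymm (inf_le_inf_right _ (commutator_le_self R)) (le_inf h3 inf_le_right)] at h2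
  have h4 := h1.trans h2.symm
  rw [← index_commutator_mul] at h4
  nth_rewrite 2 [← one_mul (Nat.card (⁅R, R⁆ : Subgroup G))] at h4
  exact h4.cancel_right_of_coprime
    (Nat.Coprime.coprime_dvd_right (card_dvd_of_le (commutator_le_self R)) hc.symm)

theorem one_lt_index_commutator {p : ℕ} [Fact p.Prime] {R : Subgroup G} (hR : IsPGroup p R)
    (h : R ≠ ⊥) : ∃ k, (commutator R).index = p ^ (k + 1) := by
  obtain ⟨k, hk⟩ := hR.index (commutator R)
  rcases k with _ | k
  · have := (nontrivial_iff_ne_bot R).2 h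
    have := hR.isNilpotent
    exact absurd (index_eq_one.1 hk) (Group.IsSolvable.commutator_lt_top_of_nontrivial R).ne
  exact ⟨k, hk⟩

theorem Acd2.frob_prime {R : Subgroup G} {y : G} (hX : Acd2 (R ⊔ zpowers y : Subgroup G))
    (hr : (orderOf y).Prime) (hn : y ∈ normalizer (R : Set G)) (h : ⁅R, zpowers y⁆ = R) :
    ((commutator R).index - 1) * (orderOf y - 2) ≤ orderOf y ^ 2 := by
  have := hX.frob (zpowers_le.2 hn) fun s hs h1 => by rw [zpowers_eq_of_prime hr hs h1, h]
  rwa [Nat.card_zpowers] at this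

theorem coprime_of_isPGroup {p : ℕ} [Fact p.Prime] {Q : Subgroup G} (hQ : IsPGroup p Q) {q : ℕ}
    (hq : q.Prime) (hne : q ≠ p) : (Nat.card Q).Coprime q :=
  IsPGroup.coprime_card_of_not_dvd hQ fun h =>
    hne ((Nat.prime_dvd_prime_iff_eq Fact.out hq).1 h).symm

theorem GoodIn.seven_of_prime {X Q : Subgroup G} (hX : GoodIn X) {p : ℕ} (hp : p.Prime)
    (hp2 : p ≠ 2) {y : G} (hq : (orderOf y).Prime) (hq2 : orderOf y ≠ 2) (hne : orderOf y ≠ p)
    (hQ : IsPGroup p Q) (hQX : Q ≤ X) (hyX : y ∈ X) (hn : y ∈ normalizer (Q : Set G))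
    (hc : y ∉ centralizer (Q : Set G)) :
    p = 7 ∧ orderOf y = 3 ∧ Nat.card (⁅Q, zpowers y⁆ : Subgroup G) = 7 := by
  have := Fact.mk hp
  have hA := isCoprimeAction_zpowers hn (coprime_of_isPGroup hQ hq hne)
  set R := ⁅Q, zpowers y⁆ with hR
  have hle : R ≤ Q := commutator_zpowers_le hn
  have hRp := hQ.to_le hle
  have hR1 : R ≠ ⊥ := fun e => hc (le_centralizer_iff.1
    (commutator_eq_bot_iff_le_centralizer.1 e) (mem_zpowers y))
  have hn' : y ∈ normalizer (R : Set G) := hA.commutator.norm (mem_zpowers y)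
  have h1 := (hX _ (sup_le (hle.trans hQX) (zpowers_le.2 hyX))).frob_prime hq hn'
    hA.commutator_commutator
  have h2 := index_commutator_modEq hq hn' (coprime_of_isPGroup hRp hq hne)
    hA.commutator_commutator
  obtain ⟨k, hk⟩ := one_lt_index_commutator hRp hR1
  have ho : Odd (p ^ (k + 1)) := (hp.odd_of_ne_two hp2).pow
  have hlt : 1 < p ^ (k + 1) := Nat.one_lt_pow (by omega) hp.one_lt
  have h3 := (Nat.modEq_iff_dvd' hlt.le).1 (hk ▸ h2).symm
  rw [hk] at h1
  have h4 : 2 * orderOf y ∣ p ^ (k + 1) - 1 :=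
    Nat.Coprime.mul_dvd_of_dvd_of_dvd ((Nat.coprime_primes Nat.prime_two hq).2 hq2.symm)
      (by obtain ⟨m, hm⟩ := ho; omega) h3
  obtain ⟨t, ht⟩ := h4
  have ht0 : t ≠ 0 := by rintro rfl; omega
  have hq3 := hq.two_le
  obtain ⟨s, hs⟩ : ∃ s, orderOf y = s + 3 := ⟨orderOf y - 3, by omega⟩
  rw [ht, hs, show s + 3 - 2 = s + 1 by omega] at h1
  have hs0 : s = 0 := by
    have : 2 * (s + 3) * 1 * (s + 1) ≤ (s + 3) ^ 2 :=
      le_trans (by gcongr; omega) h1
    have h5 : s ≤ 1 := by nlinarith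
    have h6 : s ≠ 1 := by
      rintro rfl
      rw [hs] at hq
      exact absurd hq (by decide)
    omega
  subst hs0
  have h7 : p ^ (k + 1) = 7 := by rw [hs] at ht; omega
  have hp7 : p = 7 := ((Nat.Prime.pow_eq_iff (by decide)).1 h7).1
  refine ⟨hp7, hs, ?_⟩
  have : IsCyclic (R ⧸ commutator R) := isCyclic_of_prime_card (p := 7) (by
    rw [← index_eq_card, hk, h7]) (hp := ⟨by decide⟩)
  have := hRp.isNilpotent
  have : IsCyclic R := isCyclic_of_isNilpotent_of_abelianization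
  rw [← h7, ← hk, index_commutator_of_comm fun a ha b hb =>
    congrArg Subtype.val (IsCyclic.isMulCommutative.is_comm.comm (⟨a, ha⟩ : R) ⟨b, hb⟩)]

theorem card_map_of_inf_ker {G' : Type v} [Group G'] {f : G →* G'} {Q : Subgroup G}
    (h : f.ker ⊓ Q = ⊥) : Nat.card (Q.map f) = Nat.card Q := by
  rw [← card_map_mul_card_inf_ker f Q, h, card_bot, mul_one]

theorem seven_of_central (hX : GoodIn (⊤ : Subgroup G)) {Q : Subgroup G} {p q : ℕ} (hp : p.Prime)
    (hq : q.Prime) (hp2 : p ≠ 2) (hq2 : q ≠ 2) (hne : q ≠ p) (hQ : IsPGroup p Q) {y : G}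
    (hy : IsPElt q y) (hn : y ∈ normalizer (Q : Set G)) (hc : y ∉ centralizer (Q : Set G))
    (hz : y ^ q ∈ center G) : p = 7 ∧ q = 3 ∧ Nat.card (⁅Q, zpowers y⁆ : Subgroup G) = 7 := by
  have := Fact.mk hp
  have := Fact.mk hq
  have : (zpowers (y ^ q)).Normal := normal_of_le_center (zpowers_le.2 hz)
  let f := QuotientGroup.mk' (zpowers (y ^ q))
  have hk : f.ker ⊓ Q = ⊥ := by
    rw [QuotientGroup.ker_mk']
    exact disjoint_iff.1 (IsPGroup.disjoint_of_ne q p hne _ _
      (isPElt_iff_isPGroup_zpowers.1 (hy.pow q)) hQ)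
  have hc' : f y ∉ centralizer ((Q.map f : Subgroup _) : Set _) := fun h => hc
    (mem_centralizer_iff.2 fun x hx => by
      have h1 : x⁻¹ * (y * x * y⁻¹) ∈ f.ker ⊓ Q := mem_inf.2 ⟨by
        rw [MonoidHom.mem_ker, map_mul, map_mul, map_mul,
          ← h (f x) (mem_map_of_mem f hx)]
        simp, mul_mem (inv_mem hx) (conj_mem_of_mem_normalizer hn hx)⟩
      rw [hk, mem_bot, inv_mul_eq_one, eq_mul_inv_iff_mul_eq] at h1
      exact h1)
  have ho : orderOf (f y) = q := orderOf_eq_prime (by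
    rw [← map_pow]; exact (QuotientGroup.eq_one_iff _).2 (mem_zpowers _))
    fun e => hc' (e ▸ one_mem _)
  obtain ⟨h1, h2, h3⟩ := (hX.map f).seven_of_prime hp hp2 (by rwa [ho]) (by rwa [ho]) (by rwa [ho])
    (hQ.map f) (map_mono le_top) (mem_map_of_mem f (mem_top y))
    (le_normalizer_map f (mem_map_of_mem f hn)) hc'
  refine ⟨h1, ho ▸ h2, ?_⟩
  rw [← MonoidHom.map_zpowers, ← map_commutator, card_map_of_inf_ker
    (eq_bot_iff.2 (hk ▸ inf_le_inf_left _ (commutator_zpowers_le hn)))] at h3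
  exact h3

theorem GoodIn.seven {X Q : Subgroup G} (hX : GoodIn X) {p q : ℕ} (hp : p.Prime)
    (hq : q.Prime) (hp2 : p ≠ 2) (hq2 : q ≠ 2) (hne : q ≠ p) (hQ : IsPGroup p Q) {y : G}
    (hy : IsPElt q y) (hQX : Q ≤ X) (hyX : y ∈ X) (hn : y ∈ normalizer (Q : Set G))
    (hc : y ∉ centralizer (Q : Set G)) :
    p = 7 ∧ q = 3 ∧ Nat.card (⁅Q, zpowers y⁆ : Subgroup G) = 7 := by
  classical
  have := Fact.mk hp
  have := Fact.mk hq
  have key : ∀ y' : G, IsPElt q y' → y' ∈ X → y' ∈ normalizer (Q : Set G) →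
      y' ∉ centralizer (Q : Set G) → y' ^ q ∈ centralizer (Q : Set G) →
      p = 7 ∧ q = 3 ∧ Nat.card (⁅Q, zpowers y'⁆ : Subgroup G) = 7 := by
    intro y hy hyX hn hc hz
    let Y := Q ⊔ zpowers y
    have hyY : y ∈ Y := mem_sup_right (mem_zpowers y)
    obtain ⟨h1, h2, h3⟩ := seven_of_central (hX.mono (sup_le hQX (zpowers_le.2 hyX))).top hp hq
      hp2 hq2 hne (Q := Q.subgroupOf Y) (hQ.comap_subtype) (y := ⟨y, hyY⟩)
      (isPElt_coe_iff.1 hy) (le_normalizer_comap Y.subtype hn)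
      (by rwa [centralizer_subgroupOf le_sup_left]) (mem_center_iff.2 fun g => Subtype.ext (by
        have : Y ≤ centralizer {y ^ q} := sup_le
          (fun x hx => mem_centralizer_singleton_iff.2 (hz x hx))
          (zpowers_le.2 (mem_centralizer_singleton_iff.2 (by group)))
        exact mem_centralizer_singleton_iff.1 (this g.2)))
    refine ⟨h1, h2, ?_⟩
    rwa [← card_map_subtype, map_commutator, subgroupOf_map_subtype, inf_eq_left.2 le_sup_left,
      MonoidHom.map_zpowers] at h3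
  obtain ⟨k, hk⟩ := isPElt_iff_pow_eq_one.1 hy
  have hex : ∃ k, y ^ q ^ k ∈ centralizer (Q : Set G) := ⟨k, hk ▸ one_mem _⟩
  have h0 : Nat.find hex ≠ 0 := fun e => hc (by simpa [e] using Nat.find_spec hex)
  obtain ⟨m, hm⟩ := Nat.exists_eq_succ_of_ne_zero h0
  have h1 : y ^ q ^ m ∉ centralizer (Q : Set G) := Nat.find_min hex (by omega)
  obtain ⟨h2, h3, h4⟩ := key _ (hy.pow _) (pow_mem hyX _) (pow_mem hn _) h1 (by
    rw [← pow_mul, ← pow_succ, ← Nat.succ_eq_add_one, ← hm]; exact Nat.find_spec hex)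
  rcases m with _ | m
  · simpa using And.intro h2 (And.intro h3 h4)
  exfalso
  subst h2 h3
  set R := ⁅Q, zpowers (y ^ 3 ^ (m + 1))⁆
  have hA := isCoprimeAction_zpowers (pow_mem hn (3 ^ (m + 1))) (by
    obtain ⟨j, hj⟩ := hy.pow (3 ^ (m + 1))
    rw [hj]
    exact (coprime_of_isPGroup hQ hq hne).pow_right _)
  have hn' : y ∈ normalizer (R : Set G) := normalizer_inf_le_normalizer_commutator _ _
    ⟨hn, centralizer_le_normalizer _ (by
      rw [centralizer_zpowers, mem_centralizer_singleton_iff]; group)⟩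
  have : IsCyclic R := isCyclic_of_prime_card h4
  have h5 : Nat.card (MulAut R) = 6 := by rw [IsCyclic.card_mulAut, h4]; decide
  let σ := R.normalizerMonoidHom ⟨y, hn'⟩
  have h6 : σ ^ 3 = 1 := by
    have h7 : σ ^ 6 = 1 := h5 ▸ pow_card_eq_one'
    have h8 : σ ^ 3 ^ k = 1 := by
      rw [← map_pow, show (⟨y, hn'⟩ : normalizer (R : Set G)) ^ 3 ^ k = 1 from Subtype.ext hk,
        map_one]
    have := pow_gcd_eq_one.2 ⟨h7, h8⟩
    refine orderOf_dvd_iff_pow_eq_one.1 ((orderOf_dvd_of_pow_eq_one this).trans ?_)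
    exact Nat.Coprime.dvd_of_dvd_mul_left (m := 2) (n := 3) (Nat.Coprime.coprime_dvd_left
      (Nat.gcd_dvd_right _ _) (Nat.Coprime.pow_left k (by decide : Nat.Coprime 3 2)))
      (Nat.gcd_dvd_left _ _)
  have h9 : (⟨y, hn'⟩ : normalizer (R : Set G)) ^ 3 ^ (m + 1) ∈ R.normalizerMonoidHom.ker := by
    rw [MonoidHom.mem_ker, map_pow, pow_succ', pow_mul, h6, one_pow]
  rw [normalizerMonoidHom_ker] at h9
  have h10 : R = ⊥ := hA.commutator_commutator.symm.trans
    (commutator_eq_bot_iff_le_centralizer.2 (le_centralizer_iff.1 (zpowers_le.2 h9)))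
  rw [h10, card_bot] at h4
  omega

theorem mem_charKer_of_liesOver_linear {H : Type u} [Group H] [Finite H] {N : Type v} [Group N]
    [Finite N] {f : N →* H} [IsNormalEmb f] {χ : IrrCharacter H} {θ : IrrCharacter N}
    (h : LiesOver f χ.1 θ.1) (h1 : charDegree θ.1 = 1) {w : N} (hw : w ∈ commutator N) :
    f w ∈ charKer χ.1 := by
  have e := h.comp_eq_smul_sum_conjOrbit
  have e1 := congrFun e w
  have e2 := congrFun e 1
  simp only [Function.comp_apply, map_one, Pi.smul_apply, Finset.sum_apply] at e1 e2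
  rw [IrrCharacter.mem_charKer, e1, e2]
  congr 1
  refine Finset.sum_congr rfl fun θ' h' => ?_
  have h2 : θ' 1 = 1 := θ'.apply_one_eq_one_iff.2 ((charDegree_of_mem_conjOrbit h').trans h1)
  rw [h2, θ'.isCharacter.apply_of_mem_commutator h2 hw]

theorem exists_linear_of_prime_index {H : Type u} [Group H] [Finite H] (N : Subgroup H) [N.Normal]
    (h : N.index.Prime) : ∃ lam : H →* ℂˣ, lam.ker = N ∧ orderOf lam = N.index := by
  have := Fact.mk h
  have : IsCyclic (H ⧸ N) := isCyclic_of_prime_card (p := N.index) (index_eq_card N).symm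
  obtain ⟨lam, hl⟩ := exists_linear_ker_eq N
  exact ⟨lam, hl, by rw [orderOf_linear_eq_index_ker, hl]⟩

theorem smul_comp_eq {H : Type u} [Group H] [Finite H] {N : Type v} [Group N] {f : N →* H}
    {lam : H →* ℂˣ} (h : f.range ≤ lam.ker) (χ : IrrCharacter H) : (lam • χ).1 ∘ f = χ.1 ∘ f := by
  funext n
  simp [MonoidHom.mem_ker.1 (h ⟨n, rfl⟩)]

theorem index_range_inclusion {R T : Subgroup G} (hn : T ≤ normalizer (R : Set G))
    (hi : R ⊓ T = ⊥) : (inclusion (le_sup_left : R ≤ R ⊔ T)).range.index = Nat.card T := by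
  rw [inclusion_range, ← relIndex, sup_comm, relIndex_sup_of_le_normalizer hn,
    ← card_inf_mul_relIndex R T, hi, card_bot, one_mul]

theorem Acd2.comm_of_invol {Y : Subgroup G} {t : G} (hX : Acd2 (Y ⊔ zpowers t : Subgroup G))
    (ht : orderOf t = 2) (hn : t ∈ normalizer (Y : Set G)) (ho : ¬ 2 ∣ Nat.card Y)
    (h : ⁅Y, zpowers t⁆ = Y) : ∀ a ∈ Y, ∀ b ∈ Y, a * b = b * a := by
  classical
  by_contra hne
  obtain ⟨θ, hθ⟩ := exists_irr_nonlinear_of_not_comm (G := Y) fun e =>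
    hne fun a ha b hb => congrArg Subtype.val (e ⟨a, ha⟩ ⟨b, hb⟩)
  have hn' := zpowers_le.2 hn
  have : (Y.subgroupOf (Y ⊔ zpowers t)).Normal :=
    normal_subgroupOf_of_le_normalizer (sup_le_normalizer hn')
  let f := inclusion (le_sup_left : Y ≤ Y ⊔ zpowers t)
  have hidx : f.range.index = 2 := by
    rw [index_range_inclusion hn' (inf_eq_bot_of_coprime_card ?_), Nat.card_zpowers, ht]
    rw [Nat.card_zpowers, ht]
    exact coprime_iff_not_dvd'.2 ho
  have hlin : (commutator (Y ⊔ zpowers t : Subgroup G)).index ≤ 2 := by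
    refine (index_commutator_le (h.ge.trans (commutator_mono le_sup_left le_sup_right))).trans
      ((relIndex_sup_le_card hn').trans ?_)
    rw [Nat.card_zpowers, ht]
  obtain ⟨χ, hχ⟩ := IrrCharacter.exists_liesOver_above (IsNormalEmb.injective (f := f)) θ
  have h1 : ¬ 2 ∣ charDegree θ.1 := fun e => ho (e.trans θ.charDegree_dvd_card)
  have h2 := hχ.charDegree_dvd
  have h3 := (hX.sum_le {χ}).trans hlin
  rw [Finset.sum_singleton] at h3
  have h4 := Nat.le_of_dvd χ.charDegree_pos h2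
  have h5 : charDegree θ.1 = 3 := by omega
  have h6 : charDegree χ.1 = 3 := by rw [h5] at h2; omega
  have h7 : χ.1 ∘ f = θ.1 := hχ.comp_eq_of_charDegree_le χ.isCharacter (by omega)
  obtain ⟨ε, hε, hε'⟩ := exists_linear_of_prime_index f.range (hidx ▸ Nat.prime_two)
  have h8 : ε • χ ≠ χ := fun e => by
    have := orderOf_dvd_of_pow_eq_one (x := ε) (pow_eq_one_of_smul_eq e)
    rw [hε', hidx, h6] at this
    omega
  have h9 : ∀ ψ : IrrCharacter (Y ⊔ zpowers t : Subgroup G), ψ.1 ∘ f = θ.1 → χ.bar ≠ ψ := by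
    rintro _ e rfl
    have := IrrCharacter.eq_one_of_real_of_odd (χ := θ) (Nat.odd_iff.2 (by omega)) fun g => by
      rw [← Complex.conj_eq_iff_im]
      exact (congrArg _ (congrFun h7 g)).symm.trans (congrFun e g)
    have h1 := θ.apply_one_eq_one_iff.1 (by rw [this]; rfl)
    omega
  have h10 := (hX.sum_le {χ.bar, ε • χ, χ}).trans hlin
  rw [Finset.sum_insert (by
    simp only [Finset.mem_insert, Finset.mem_singleton, not_or]
    exact ⟨h9 _ ((smul_comp_eq hε.ge χ).trans h7), h9 _ h7⟩), Finset.sum_pair h8,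
    IrrCharacter.charDegree_linear_smul, h6,
    charDegree_eq_of_apply_one (χ := χ.bar.1) (n := 3) (by
      rw [IrrCharacter.bar_apply, χ.apply_one, h6, map_natCast])] at h10
  omega

/-- The elements of a subgroup of odd order inverted by an involution. -/
theorem GoodIn.mem_commutator_invol {X Y : Subgroup G} (hX : GoodIn X) {t : G}
    (ht : orderOf t = 2) (hYX : Y ≤ X) (htX : t ∈ X) (hn : t ∈ normalizer (Y : Set G))
    (ho : ¬ 2 ∣ Nat.card Y) :
    (∀ a ∈ ⁅Y, zpowers t⁆, ∀ b ∈ ⁅Y, zpowers t⁆, a * b = b * a) ∧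
      ∀ a, a ∈ ⁅Y, zpowers t⁆ ↔ a ∈ Y ∧ t * a * t⁻¹ = a⁻¹ := by
  have hA := isCoprimeAction_zpowers hn (ht ▸ coprime_iff_not_dvd'.2 ho)
  have hle := commutator_zpowers_le hn
  have hn' := hA.commutator.norm
  have h1 := (hX _ (sup_le (hle.trans hYX) (zpowers_le.2 htX))).comm_of_invol ht
    (hn' (mem_zpowers t)) (fun e => ho (e.trans (card_dvd_of_le hle))) hA.commutator_commutator
  refine ⟨h1, fun a => ⟨fun ha => ⟨hle ha, ?_⟩, fun ha =>
    mem_commutator_of_inv ha.1 (mem_zpowers t) (not_two_dvd_orderOf ho ha.1) ha.2⟩⟩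
  have := isMulCommutative_iff_forall.2 h1
  have h2 := inf_centralizer_inf_commutator_eq_bot hn' hA.commutator.coprime
  rw [hA.commutator_commutator, centralizer_zpowers] at h2
  have h3 := conj_mem_of_mem_normalizer (hn' (mem_zpowers t)) ha
  have h4 : t * a * t⁻¹ * a ∈ centralizer {t} ⊓ ⁅Y, zpowers t⁆ := mem_inf.2 ⟨?_, mul_mem h3 ha⟩
  · rw [h2, mem_bot] at h4
    exact eq_inv_of_mul_eq_one_left h4
  have h5 := mul_self_of_orderOf ht
  rw [mem_centralizer_singleton_iff]
  calc t * a * t⁻¹ * a * t = t * (a * (t * a * t⁻¹)) := by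
        rw [← eq_inv_of_mul_eq_one_left h5]; group
    _ = _ := by rw [h1 a ha _ h3]

theorem GoodIn.commute_of_inv {X Y : Subgroup G} (hX : GoodIn X) {t : G}
    (ht : orderOf t = 2) (hYX : Y ≤ X) (htX : t ∈ X) (hn : t ∈ normalizer (Y : Set G))
    (ho : ¬ 2 ∣ Nat.card Y) {a b : G} (ha : a ∈ Y) (hb : b ∈ Y) (ha' : t * a * t⁻¹ = a⁻¹)
    (hb' : t * b * t⁻¹ = b⁻¹) : Commute a b :=
  have h := hX.mem_commutator_invol ht hYX htX hn ho
  h.1 a ((h.2 a).2 ⟨ha, ha'⟩) b ((h.2 b).2 ⟨hb, hb'⟩)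

end Cfsg.Acd
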