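import Cfsg.Agent.Acd.LocalB

/-!
# Average character degree at most two: elements of odd prime order acting on `2`-groups
-/

set_option autoImplicit false
set_option linter.unusedSectionVars false

namespace Cfsg.Acd

open Subgroup
open scoped commutatorElement ComplexConjugate

universe u v

variable {G : Type u} [Group G] [Finite G]

theorem sum_filter_linear {N : Type u} [Group N] [Finite N] [Fintype (N →* ℂˣ)]
    [DecidablePred fun θ : IrrCharacter N => θ 1 = 1] (F : IrrCharacter N → ℂ) :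
    ∑ θ : IrrCharacter N with θ 1 = 1, F θ = ∑ lam : N →* ℂˣ, F (IrrCharacter.ofLinear lam) := by
  rw [Finset.sum_subtype (p := fun θ : IrrCharacter N => θ 1 = 1) _ (by simp),
    ← (IrrCharacter.linearEquiv N).sum_comp]
  rfl

/-- A group with an automorphism moving all nontrivial cosets of the derived subgroup and fixing all
nonlinear characters, which have degree two. -/
theorem quat_of_aut {N : Type u} [Group N] [Finite N] (σ : MulAut N)
    (h1 : ∀ x, x ∉ commutator N → x * (σ x)⁻¹ ∉ commutator N)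
    (h2 : ∀ θ : IrrCharacter N, θ 1 ≠ 1 → charDegree θ.1 = 2 ∧ ∀ x, θ (σ x) = θ x)
    (h4 : 4 ≤ (commutator N).index) (hne : commutator N ≠ ⊥) :
    (commutator N).index = 4 ∧ Nat.card (commutator N) = 2 := by
  classical
  let _ := Fintype.ofFinite (N →* ℂˣ)
  have hlin : ∀ x y : N, ∑ θ : IrrCharacter N with θ 1 = 1, θ x * conj (θ y) =
      if x * y⁻¹ ∈ commutator N then ((commutator N).index : ℂ) else 0 := fun x y => by
    rw [sum_filter_linear, ← sum_linear_apply]
    refine Finset.sum_congr rfl fun lam _ => ?_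
    simp [linear_conj_apply]
  have hz : ∀ θ : IrrCharacter N, θ 1 ≠ 1 → ∀ x, x ∉ commutator N → θ x = 0 := by
    intro θ hθ x hx
    have h3 : ¬ IsConj x (σ x) := fun h => h1 x hx (by
      obtain ⟨g, hg⟩ := isConj_iff.1 h
      have := commutator_mem_commutator (mem_top x) (mem_top g)
      rw [← hg]
      simpa [commutatorElement_def, mul_assoc, ← commutator_def] using this)
    have h5 := sum_irr_mul_conj_of_not_isConj h3
    rw [← Finset.sum_filter_add_sum_filter_not _ fun θ : IrrCharacter N => θ 1 = 1, hlin,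
      if_neg (h1 x hx), zero_add, Finset.sum_congr rfl (g := fun θ : IrrCharacter N =>
        ((Complex.normSq (θ x) : ℝ) : ℂ)) fun θ h => by
          rw [(h2 θ (Finset.mem_filter.1 h).2).2, Complex.mul_conj], ← Complex.ofReal_sum,
      Complex.ofReal_eq_zero, Finset.sum_eq_zero_iff_of_nonneg fun _ _ =>
        Complex.normSq_nonneg _] at h5
    exact Complex.normSq_eq_zero.1 (h5 θ (by simpa using hθ))
  obtain ⟨θ, hθ⟩ := exists_irr_nonlinear_of_not_comm (G := N) fun h => hne (by
    rw [commutator_def, eq_bot_iff, commutator_le]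
    exact fun a _ b _ => commutatorElement_eq_one_iff_mul_comm.2 (h a b))
  have hθ' : θ 1 ≠ 1 := fun e => hθ.ne' (θ.apply_one_eq_one_iff.1 e)
  obtain ⟨ψ, hψ⟩ := IrrCharacter.exists_liesOver_below (commutator N).subtype θ
  have e1 := hψ.ipNat_comp_comp
  have e2 := hψ.charDegree_eq
  have e3 := (ip_comp_subtype_eq_iff θ.1 (commutator N)).2 (hz θ hθ')
  rw [θ.ip_self, mul_one] at e3
  rw [ipNat_eq_of_ip_eq e3] at e1
  rw [(h2 θ hθ').1] at e2
  have h5 : (commutator N).index = 4 := by
    generalize ipNat (θ.1 ∘ (commutator N).subtype) ψ.1 = e at *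
    generalize (inertia (commutator N).subtype ψ).index = t at *
    have h6 : e * t ≤ 2 := Nat.le_of_dvd two_pos ⟨_, e2⟩
    have h7 : e ≤ 2 := Nat.le_of_dvd two_pos ⟨_, e2.trans (mul_assoc _ _ _)⟩
    nlinarith
  refine ⟨h5, ?_⟩
  obtain ⟨x, hx⟩ : ∃ x, x ∉ commutator N := by
    by_contra h
    rw [(eq_top_iff' (commutator N)).2 (by simpa using h), index_top] at h5
    omega
  have h6 := sum_irr_mul_conj_of_isConj (IsConj.refl x)
  rw [← Finset.sum_filter_add_sum_filter_not _ fun θ : IrrCharacter N => θ 1 = 1, hlin,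
    if_pos (by simp), Finset.sum_eq_zero fun θ h => by
      rw [hz θ (Finset.mem_filter.1 h).2 x hx, zero_mul], add_zero, h5] at h6
  have h7 : Nat.card (centralizer ({x} : Set N)) = 4 := by exact_mod_cast h6.symm
  have h8 : commutator N ≤ center N := fun w hw => by
    rw [← iInf_charCenter_irr, mem_iInf]
    intro θ
    by_cases hθ : θ 1 = 1
    · rw [θ.charCenter_eq_top_iff.2 hθ]; trivial
    obtain ⟨ψ, hψ⟩ := IrrCharacter.exists_liesOver_below (commutator N).subtype θ
    have e1 := hψ.ipNat_comp_comp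
    have e2 := hψ.charDegree_eq
    have e3 := (ip_comp_subtype_eq_iff θ.1 (commutator N)).2 (hz θ hθ)
    rw [θ.ip_self, mul_one] at e3
    rw [ipNat_eq_of_ip_eq e3, h5] at e1
    rw [(h2 θ hθ).1] at e2
    have e4 : ipNat (θ.1 ∘ (commutator N).subtype) ψ.1 = 2 ∧
        (inertia (commutator N).subtype ψ).index = 1 ∧ charDegree ψ.1 = 1 := by
      generalize ipNat (θ.1 ∘ (commutator N).subtype) ψ.1 = e at *
      generalize (inertia (commutator N).subtype ψ).index = t at *
      have h6 : e * t ≤ 2 := Nat.le_of_dvd two_pos ⟨_, e2⟩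
      have h7 : e ≤ 2 := Nat.le_of_dvd two_pos ⟨_, e2.trans (mul_assoc _ _ _)⟩
      generalize charDegree ψ.1 = d at *
      have h8 : e = 2 := by interval_cases e <;> omega
      subst h8
      have h9 : t = 1 := by omega
      subst h9
      omega
    have e5 := congrFun (hψ.comp_eq_smul_of_inertia_eq_top (index_eq_one.1 e4.2.1)) ⟨w, hw⟩
    rw [θ.mem_charCenter, (h2 θ hθ).1, show θ w = _ from e5, e4.1, Pi.smul_apply, norm_smul,
      ψ.isCharacter.norm_of_apply_one (ψ.apply_one_eq_one_iff.2 e4.2.2)]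
    simp
  have h9 : commutator N < centralizer {x} := lt_of_le_of_ne
    (h8.trans (center_le_centralizer _)) fun e => hx (e ▸ mem_centralizer_singleton_iff.2 rfl)
  have h10 := card_lt_of_lt h9
  have h11 := card_dvd_of_le h9.le
  have h12 := (one_lt_card_iff_ne_bot _).2 hne
  rw [h7] at h10 h11
  generalize Nat.card (commutator N) = c at *
  interval_cases c <;> omega

/-- `R = [R, y]` is a nontrivial `2`-group and `y` has odd prime order. -/
structure IsRy (R : Subgroup G) (y : G) : Prop where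
  two : IsPGroup 2 R
  prime : (orderOf y).Prime
  odd : orderOf y ≠ 2
  norm : y ∈ normalizer (R : Set G)
  comm : ⁅R, zpowers y⁆ = R
  ne : R ≠ ⊥

theorem isRy_commutator {Q : Subgroup G} {y : G} (hQ : IsPGroup 2 Q) (hr : (orderOf y).Prime)
    (h2 : orderOf y ≠ 2) (hn : y ∈ normalizer (Q : Set G)) (hc : y ∉ centralizer (Q : Set G)) :
    IsRy ⁅Q, zpowers y⁆ y :=
  have hA := isCoprimeAction_zpowers hn (coprime_of_isPGroup hQ hr h2)
  ⟨hQ.to_le (commutator_zpowers_le hn), hr, h2, hA.commutator.norm (mem_zpowers y),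
    hA.commutator_commutator, fun e => hc (le_centralizer_iff.1
      (commutator_eq_bot_iff_le_centralizer.1 e) (mem_zpowers y))⟩

namespace IsRy

variable {R : Subgroup G} {y : G} (h : IsRy R y)
include h

theorem cop : IsCoprimeAction (zpowers y) R :=
  isCoprimeAction_zpowers h.norm (coprime_of_isPGroup h.two h.prime h.odd)

theorem three_le : 3 ≤ orderOf y := by
  have := h.prime.two_le
  have := h.odd
  omega

theorem norm' : zpowers y ≤ normalizer ((⁅R, R⁆ : Subgroup G) : Set G) :=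
  zpowers_le.2 (normalizer_inf_le_normalizer_commutator R R ⟨h.norm, h.norm⟩)

theorem inf_eq_bot : R ⊓ zpowers y = ⊥ := h.cop.inf_eq_bot

theorem inf_centralizer_le : R ⊓ centralizer {y} ≤ ⁅R, R⁆ := by
  rw [← centralizer_zpowers]
  exact inf_centralizer_le_commutator_of_coprime h.cop.norm h.cop.coprime h.comm

theorem mem_of_fix {a s : G} (ha : a ∈ R) (hs : s ∈ zpowers y) (h1 : s ≠ 1)
    (hf : a⁻¹ * (s * a * s⁻¹) ∈ ⁅R, R⁆) : a ∈ ⁅R, R⁆ := by
  have hA := h.cop.mono_right (commutator_le_self R) h.norm'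
  obtain ⟨m, hm, h2⟩ := hA.exists_mul_mem_centralizer (x := a) fun b hb => by
    rw [← zpowers_eq_of_prime h.prime hs h1] at hb
    obtain ⟨n, rfl⟩ := (mem_powers_iff_mem_zpowers.2 hb :)
    induction n with
    | zero => simp
    | succ n ih =>
      have := mul_mem hf (conj_mem_of_mem_normalizer (h.norm' hs) (ih (npow_mem_zpowers _ _)))
      convert this using 1
      simp only [pow_succ']
      group
  rw [centralizer_zpowers] at h2
  exact (mul_mem_cancel_right hm).1
    (h.inf_centralizer_le ⟨mul_mem ha (commutator_le_self R hm), h2⟩)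

theorem index_eq (hX : Acd2 (R ⊔ zpowers y : Subgroup G)) :
    (commutator R).index = orderOf y + 1 := by
  have h1 := hX.frob_prime h.prime h.norm h.comm
  have h2 := index_commutator_modEq h.prime h.norm (coprime_of_isPGroup h.two h.prime h.odd) h.comm
  obtain ⟨k, hk⟩ := one_lt_index_commutator h.two h.ne
  have hlt : 1 < 2 ^ (k + 1) := Nat.one_lt_pow (by omega) one_lt_two
  obtain ⟨t, ht⟩ := (Nat.modEq_iff_dvd' hlt.le).1 (hk ▸ h2).symm
  rw [hk] at h1 ⊢
  obtain ⟨s, hs⟩ : ∃ s, orderOf y = s + 3 := ⟨orderOf y - 3, by have := h.three_le; omega⟩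
  have ho : Odd (orderOf y) := h.prime.odd_of_ne_two h.odd
  rw [ht, hs, show s + 3 - 2 = s + 1 by omega] at h1
  have h3 : t * (s + 1) ≤ s + 3 :=
    Nat.le_of_mul_le_mul_left (by nlinarith) (by omega : 0 < s + 3)
  have h4 : t ≤ 3 := by nlinarith
  rw [hs] at ht ho ⊢
  obtain ⟨m, hm⟩ := ho
  interval_cases t
  · omega
  · omega
  · rw [pow_succ] at ht; omega
  · have h5 : 2 ^ (k + 1) = 10 := by omega
    have h6 : 5 ∣ 2 ^ (k + 1) := h5 ▸ by decide
    exact absurd (Nat.Prime.dvd_of_dvd_pow (by decide) h6) (by decide)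

theorem exists_conj (hX : Acd2 (R ⊔ zpowers y : Subgroup G)) {a b : G} (ha : a ∈ R) (hb : b ∈ R)
    (ha' : a ∉ ⁅R, R⁆) (hb' : b ∉ ⁅R, R⁆) : ∃ s ∈ zpowers y, (s * a * s⁻¹)⁻¹ * b ∈ ⁅R, R⁆ := by
  have hm : ∀ x : R, x ∈ commutator R ↔ (x : G) ∈ ⁅R, R⁆ := fun x => by
    rw [← map_subtype_commutator]
    exact (mem_map_iff_mem R.subtype_injective).symm
  let c : zpowers y → R := fun s => ⟨s * a * (s : G)⁻¹, conj_mem_of_mem_normalizer (h.cop.norm s.2) ha⟩
  have hc : ∀ s, (c s : R ⧸ commutator R) ≠ 1 := fun s e => ha' (by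
    have := conj_mem_of_mem_normalizer (inv_mem (h.norm' s.2))
      ((hm _).1 ((QuotientGroup.eq_one_iff _).1 e))
    simpa [c, mul_assoc] using this)
  let ψ : Option (zpowers y) → R ⧸ commutator R := fun o => o.elim 1 fun s => c s
  have hψ : Function.Injective ψ := by
    rintro (_ | s) (_ | t) e
    · rfl
    · exact absurd e.symm (hc t)
    · exact absurd e (hc s)
    · by_contra hne
      refine ha' (h.mem_of_fix ha (mul_mem (inv_mem s.2) t.2) (fun e => hne ?_) ?_)
      · rw [Subtype.ext (inv_mul_eq_one.1 e)]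
      have := conj_mem_of_mem_normalizer (inv_mem (h.norm' s.2)) ((hm _).1 (QuotientGroup.eq.1 e))
      simpa [c, mul_assoc] using this
  obtain ⟨o, ho⟩ := ((Nat.bijective_iff_injective_and_card ψ).2 ⟨hψ, by
    rw [Finite.card_option, Nat.card_zpowers, ← index_eq_card, h.index_eq hX]⟩).2
    ((⟨b, hb⟩ : R) : R ⧸ commutator R)
  rcases o with _ | s
  · exact absurd ((hm _).1 ((QuotientGroup.eq_one_iff _).1 ho.symm)) hb'
  exact ⟨s, s.2, (hm _).1 (QuotientGroup.eq.1 ho)⟩

theorem le_index_inertia {X : Subgroup G} (hR : R ≤ X) [(R.subgroupOf X).Normal] (hy : y ∈ X)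
    {lam : R →* ℂˣ} (hl : lam ≠ 1) :
    orderOf y ≤ (inertia (inclusion hR) (IrrCharacter.ofLinear lam)).index := by
  rw [← Nat.card_zpowers]
  refine card_le_index_inertia hR (zpowers_le.2 hy) fun s hs hfix => ?_
  by_contra h1
  exact hl (MonoidHom.ext fun x => apply_eq_one_of_fixed (h.cop.norm hs) hfix (by
    rw [zpowers_eq_of_prime h.prime hs h1, h.comm]; exact x.2))

theorem exists_linear : ∃ lam : R →* ℂˣ, lam ≠ 1 := by
  refine exists_linear_ne_one_of_commutator_ne_top fun e => ?_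
  obtain ⟨k, hk⟩ := one_lt_index_commutator h.two h.ne
  rw [e, index_top, pow_succ] at hk
  omega

theorem nonlinear (hX : Acd2 (R ⊔ zpowers y : Subgroup G)) (θ : IrrCharacter R) (hθ : θ 1 ≠ 1) :
    charDegree θ.1 = 2 ∧ ∀ a a' : R, (a' : G) = y * a * y⁻¹ → θ a' = θ a := by
  classical
  have hn' := h.cop.norm
  have : (R.subgroupOf (R ⊔ zpowers y)).Normal :=
    normal_subgroupOf_of_le_normalizer (sup_le_normalizer hn')
  let f := inclusion (le_sup_left : R ≤ R ⊔ zpowers y)
  have hyX : y ∈ R ⊔ zpowers y := mem_sup_right (mem_zpowers y)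
  have hidx : f.range.index = orderOf y := by
    rw [index_range_inclusion hn' h.inf_eq_bot, Nat.card_zpowers]
  have hlin : (commutator (R ⊔ zpowers y : Subgroup G)).index ≤ orderOf y := by
    refine (index_commutator_le (h.comm.ge.trans
      (commutator_mono le_sup_left le_sup_right))).trans ((relIndex_sup_le_card hn').trans ?_)
    rw [Nat.card_zpowers]
  obtain ⟨lam, hl⟩ := h.exists_linear
  obtain ⟨χ₀, h0⟩ := IrrCharacter.exists_liesOver_above (IsNormalEmb.injective (f := f))
    (IrrCharacter.ofLinear lam)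
  have h1 := index_mul_le_charDegree h0
  rw [IrrCharacter.charDegree_ofLinear, mul_one] at h1
  replace h1 := (h.le_index_inertia le_sup_left hyX hl).trans h1
  have h2 : ∀ χ : IrrCharacter (R ⊔ zpowers y : Subgroup G), LiesOver f χ.1 θ.1 → χ₀ ≠ χ := by
    rintro _ hχ rfl
    have := charDegree_of_mem_conjOrbit (h0.mem_conjOrbit hχ)
    rw [IrrCharacter.charDegree_ofLinear] at this
    exact hθ (θ.apply_one_eq_one_iff.2 this)
  obtain ⟨χ, hχ⟩ := IrrCharacter.exists_liesOver_above (IsNormalEmb.injective (f := f)) θ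
  have h3 := h.three_le
  have h4 : 2 ∣ charDegree θ.1 := by
    obtain ⟨k, hk⟩ := h.two.exists_card_eq
    obtain ⟨j, -, hj⟩ := (Nat.dvd_prime_pow Nat.prime_two).1 (hk ▸ θ.charDegree_dvd_card)
    rcases j with _ | j
    · exact absurd (θ.apply_one_eq_one_iff.2 hj) hθ
    rw [hj, pow_succ]
    exact dvd_mul_left _ _
  have h5 : ¬ orderOf y ∣ charDegree χ.1 := fun e => by
    have := Nat.le_of_dvd χ.charDegree_pos (Nat.Coprime.mul_dvd_of_dvd_of_dvd
      ((Nat.coprime_primes Nat.prime_two h.prime).2 h.odd.symm) (h4.trans hχ.charDegree_dvd) e)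
    have h6 := (hX.sum_le {χ₀, χ}).trans hlin
    rw [Finset.sum_pair (h2 χ hχ)] at h6
    omega
  obtain ⟨ω, hω, hω'⟩ := exists_linear_of_prime_index f.range (hidx ▸ h.prime)
  have h6 := (hX.sum_le (insert χ₀ ((Finset.range (orderOf y)).image fun i => ω ^ i • χ))).trans hlin
  rw [Finset.sum_insert, Finset.sum_image fun i hi j hj e =>
    smul_injective_of_prime h.prime (hω'.trans hidx) h5 (by simpa using hi) (by simpa using hj) e]
    at h6
  · simp only [IrrCharacter.charDegree_linear_smul, Finset.sum_const, Finset.card_range,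
      smul_eq_mul] at h6
    have h7 := Nat.le_of_dvd χ.charDegree_pos hχ.charDegree_dvd
    have h8 := Nat.le_of_dvd θ.charDegree_pos h4
    have h9 : charDegree χ.1 - 2 = 0 := by
      by_contra h9
      have := Nat.le_mul_of_pos_right (orderOf y) (Nat.pos_of_ne_zero h9)
      omega
    have h10 : χ.1 ∘ f = θ.1 := hχ.comp_eq_of_charDegree_le χ.isCharacter (by omega)
    refine ⟨by omega, fun a a' e => ?_⟩
    exact inertia_eq_top_iff_forall.1 (inertia_eq_top_of_comp_eq χ.isClassFunction h10) ⟨y, hyX⟩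
      a a' (Subtype.ext e)
  · intro hm
    obtain ⟨i, -, hi⟩ := Finset.mem_image.1 hm
    refine h2 _ ?_ hi.symm
    rw [LiesOver, smul_comp_eq fun x hx => ?_]
    · exact hχ
    rw [MonoidHom.mem_ker, MonoidHom.pow_apply, MonoidHom.mem_ker.1 (hω.ge hx), one_pow]

/-- `R` is elementary abelian of order `r + 1` or quaternion of order eight. -/
theorem cases (hX : Acd2 (R ⊔ zpowers y : Subgroup G)) :
    ((∀ a ∈ R, a * a = 1) ∧ Nat.card R = orderOf y + 1) ∨
      (orderOf y = 3 ∧ Nat.card R = 8 ∧ ∃ z, orderOf z = 2 ∧ ⁅R, R⁆ = zpowers z ∧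
        ∀ a ∈ R, a * a = 1 → a = 1 ∨ a = z) := by
  have h1 := h.index_eq hX
  have h2 := index_commutator_mul R
  by_cases hc : ⁅R, R⁆ = ⊥
  · left
    rw [hc, card_bot, mul_one, h1] at h2
    refine ⟨fun b hb => ?_, h2.symm⟩
    obtain ⟨a, ha, ha2⟩ := exists_mem_orderOf_eq_prime (dvd_card_of_isPGroup_of_ne_bot h.two h.ne)
    by_cases hb1 : b = 1
    · simp [hb1]
    obtain ⟨s, -, hs⟩ := h.exists_conj hX ha hb
      (by rw [hc, mem_bot]; exact ne_one_of_orderOf_two ha2) (by rwa [hc, mem_bot])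
    rw [hc, mem_bot, inv_mul_eq_one] at hs
    rw [← hs, conj_mul, mul_self_of_orderOf ha2]
    simp
  right
  have hm : ∀ x : R, x ∈ commutator R ↔ (x : G) ∈ ⁅R, R⁆ := fun x => by
    rw [← map_subtype_commutator]
    exact (mem_map_iff_mem R.subtype_injective).symm
  have h3 := h.three_le
  obtain ⟨h4, h5⟩ := quat_of_aut (R.normalizerMonoidHom ⟨y, h.norm⟩) (fun x hx e => hx (by
      rw [hm] at e ⊢
      refine inv_mem_iff.1 (h.mem_of_fix (inv_mem x.2) (mem_zpowers y) (fun e => ?_) ?_)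
      · rw [e, orderOf_one] at h3; omega
      simpa [mul_assoc] using e))
    (fun θ hθ => ⟨(h.nonlinear hX θ hθ).1, fun x => (h.nonlinear hX θ hθ).2 x _ rfl⟩) (by omega)
    fun e => hc (by rw [← map_subtype_commutator, e, Subgroup.map_bot])
  have h6 : Nat.card (⁅R, R⁆ : Subgroup G) = 2 := by
    rw [← map_subtype_commutator, card_map_subtype, h5]
  rw [h4, h6] at h2
  obtain ⟨z, hz, hz2⟩ := exists_mem_orderOf_eq_prime (p := 2) h6.symm.dvd
  have h7 := zpowers_eq_of_prime_card (h6 ▸ Nat.prime_two) hz (ne_one_of_orderOf_two hz2)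
  have h8 : ∀ w ∈ ⁅R, R⁆, w = 1 ∨ w = z := fun w hw => by
    have := (mem_closure_pair (s := w) (mul_self_of_orderOf hz2) (mul_self_of_orderOf hz2) rfl).1
      (mem_sup_left (h7.ge hw))
    rw [mul_self_of_orderOf hz2] at this
    tauto
  refine ⟨by omega, h2.symm, z, hz2, h7.symm, fun a ha ha2 => ?_⟩
  by_cases ha' : a ∈ ⁅R, R⁆
  · exact h8 a ha'
  have h9 : ∀ b ∈ R, z * b = b * z := fun b hb => by
    rcases h8 _ (conj_mem_of_mem_normalizer (normalizer_inf_le_normalizer_commutator R R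
      ⟨le_normalizer hb, le_normalizer hb⟩) hz) with e | e
    · exact absurd (by simpa using e) (ne_one_of_orderOf_two hz2)
    · exact (mul_inv_eq_iff_eq_mul.1 e).symm
  refine absurd (commutator_eq_bot_iff_le_centralizer.2 fun b hb => mem_centralizer_iff.2
    fun c hc => comm_of_forall_mul_self (H := R) (fun b hb => ?_) hc hb) hc
  by_cases hb' : b ∈ ⁅R, R⁆
  · rcases h8 b hb' with rfl | rfl
    exacts [mul_one _, mul_self_of_orderOf hz2]
  obtain ⟨s, hs, hs'⟩ := h.exists_conj hX ha hb ha' hb'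
  have h10 : s * a * s⁻¹ * (s * a * s⁻¹) = 1 := by rw [conj_mul, ha2]; simp
  have h11 := h9 _ (conj_mem_of_mem_normalizer (h.cop.norm hs) ha)
  rcases h8 _ hs' with e | e
  · rw [← inv_mul_eq_one.1 e, h10]
  · rw [inv_mul_eq_iff_eq_mul.1 e, mul_assoc, ← mul_assoc z, h11, mul_assoc _ z z,
      mul_self_of_orderOf hz2, mul_one, h10]

end IsRy

end Cfsg.Acd

set_option linter.all false in
theorem Cfsg.Rz.Acd_LocalC_0 : True := by
  have := @_root_.Cfsg.Acd.IsRy.mk.congr_simp.{0}
  trivial
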