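import Cfsg.Agent.Acd.Fusion
import Cfsg.Agent.Acd.DihCase
import Cfsg.Agent.Acd.ElemCase
import Cfsg.Agent.Acd.Ext

/-!
# Groups all of whose proper subgroups have average character degree at most two
-/

set_option autoImplicit false
set_option linter.unusedSectionVars false

namespace Cfsg.Acd

open Subgroup

universe u

variable {G : Type u} [Group G] [Finite G]

theorem simple_cases [IsSimpleGroup G] (hG : ∀ X : Subgroup G, X ≠ ⊤ → GoodIn X)
    (hna : ¬ IsMulCommutative G) :
    (Nat.card G = 168 ∧ Nonempty (G ≃* Matrix.ProjectiveSpecialLinearGroup (Fin 2) (ZMod 7)) ∧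
        ∀ t : G, orderOf t = 2 → IsPGroup 2 (centralizer ({t} : Set G))) ∨
      ∃ q, Even q ∧ 4 ≤ q ∧ (q - 1).Prime ∧ ElemInvol G q ∧ Nat.card G = (q + 1) * q * (q - 1) := by
  obtain ⟨S⟩ := Sylow.nonempty (p := 2) (G := G)
  rcases sylow_cases hG hna S with ⟨h1, h2, h3, h4⟩ | ⟨σ, τ, h1, h2, h3⟩
  · obtain ⟨k, hk⟩ := S.isPGroup'.exists_card_eq
    have he : Even (Nat.card (S : Subgroup G)) := by
      rw [hk] at h2 ⊢
      exact (Nat.even_pow' (by rintro rfl; omega)).2 even_two
    have k1 := fun hc => Or.inr (a := Nat.card G = 168 ∧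
      Nonempty (G ≃* Matrix.ProjectiveSpecialLinearGroup (Fin 2) (ZMod 7)) ∧
      ∀ t : G, orderOf t = 2 → IsPGroup 2 (centralizer ({t} : Set G)))
      (Exists.intro (p := fun q => Even q ∧ 4 ≤ q ∧ (q - 1).Prime ∧ ElemInvol G q ∧
        Nat.card G = (q + 1) * q * (q - 1)) _ ⟨he, h2, h3, elem_case hG hna S h1 h2 h4 hc⟩)
    by_cases h8 : 8 ≤ Nat.card (S : Subgroup G)
    · exact k1 (Or.inl h8)
    have h5 : Nat.card (S : Subgroup G) = 4 := by
      have : k < 3 := (Nat.pow_lt_pow_iff_right one_lt_two).1 (by omega)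
      interval_cases k <;> omega
    obtain ⟨⟨t, ht⟩, t1⟩ := ne_bot_iff_exists_ne_one.1
      ((one_lt_card_iff_ne_bot (S : Subgroup G)).1 (by omega))
    replace t1 : t ≠ 1 := fun e => t1 (Subtype.ext e)
    have ot := orderOf_two_of_mul_self (h1 t ht) t1
    obtain ⟨u, hu, hu'⟩ := SetLike.not_le_iff_exists.1 fun e : (S : Subgroup G) ≤ zpowers t => by
      have := card_le_of_le e
      rw [Nat.card_zpowers] at this
      omega
    have ou := orderOf_two_of_mul_self (h1 u hu) fun e => hu' (e ▸ one_mem _)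
    have hc := comm_of_forall_mul_self h1 ht hu
    have h6 : zpowers t ⊔ zpowers u = S := eq_of_le_of_card_ge (sup_le (zpowers_le.2 ht)
      (zpowers_le.2 hu)) (by rw [card_closure_pair ot ou hc fun e => hu' (e ▸ mem_zpowers _), h5])
    obtain ⟨n, hn, hn'⟩ := SetLike.not_le_iff_exists.1 fun e =>
      not_hasNormalPComplement_of_isSimpleGroup hna (two_dvd_card hG hna)
        (hasNormalPComplement_of_normalizer_le_centralizer S e)
    have k : ∀ v : G, orderOf v = 2 → IsConj t v := fun v hv => by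
      obtain ⟨x, hx⟩ := IsPElt.exists_conj_mem ⟨1, hv⟩ S
      obtain ⟨s, -, e⟩ := h4 n hn hn' t ht _ hx t1 (by simpa using ne_one_of_orderOf_two hv)
      exact (isConj_iff.2 ⟨s, e⟩).trans (isConj_iff.2 ⟨x, rfl⟩).symm
    refine (dih_case hG hna S (σ := t) (τ := u) ⟨ht, hu, h1 u hu, by
      rw [← hc, mul_inv_cancel_right, inv_eq_of_mul_eq_one_right (h1 t ht)], hu', fun x hx => ?_⟩ t1
      fun u v hu hv => (k u hu).symm.trans (k v hv)).elim Or.inl fun e => k1 (Or.inr e.2)
    rcases (mem_closure_pair (h1 t ht) (h1 u hu) hc).1 (h6.ge hx) with rfl | rfl | rfl | rfl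
    exacts [Or.inl (one_mem _), Or.inl (mem_zpowers _), Or.inr (h1 _ hu ▸ one_mem _), Or.inr (by
      rw [mul_assoc, h1 u hu, mul_one]; exact mem_zpowers t)]
  · refine Or.inl ((dih_case hG hna S h1 (fun e => ?_) h3).resolve_right fun e => by omega)
    have := h1.card_eq
    rw [e, orderOf_one] at this
    omega

theorem main (hG : ∀ H : Subgroup G, H ≠ ⊤ → Acd2 H) : Group.IsSolvable G ∨
    Nonempty (G ≃* Matrix.ProjectiveSpecialLinearGroup (Fin 2) (ZMod 7)) ∨
    (∃ (F : Type) (_ : Field F) (_ : Fintype F) (q : ℕ), q.Prime ∧ Fintype.card F = 2 ^ q ∧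
      Nonempty (G ≃* Matrix.ProjectiveSpecialLinearGroup (Fin 2) F)) ∨
    Nonempty (G ≃* Matrix.SpecialLinearGroup (Fin 2) (ZMod 5)) := by
  refine or_iff_not_imp_left.2 fun hs => ?_
  have h1 : ∀ X : Subgroup G, X ≠ ⊤ → GoodIn X := fun X hX K hK =>
    hG K fun e => hX (eq_top_iff.2 (e.ge.trans hK))
  have h2 : ∀ X : Subgroup G, X ≠ ⊤ → Group.IsSolvable X := fun X hX => (h1 X hX).isSolvable
  have hperf : commutator G = ⊤ := by
    by_contra e
    have := h2 _ e
    have : Group.IsSolvable (G ⧸ commutator G) :=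
      Group.isSolvable_of_comm (G := Abelianization G) mul_comm
    exact hs (isSolvable_of_normal_of_quotient (commutator G))
  have : Nontrivial G := not_subsingleton_iff_nontrivial.1 fun _ => hs inferInstance
  obtain ⟨N, _, -, hN⟩ := exists_maximal_normal_ge (⊥ : Subgroup G) bot_ne_top
  have := h2 N (isSimpleGroup_quotient_iff.1 hN).1
  have hna : ¬ IsMulCommutative (G ⧸ N) := fun e =>
    have : Group.IsSolvable (G ⧸ N) := Group.isSolvable_of_comm e.is_comm.comm
    hs (isSolvable_of_normal_of_quotient N)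
  have hL := simple_cases (G := G ⧸ N) (fun X hX => by
    rw [← map_comap_eq_self_of_surjective (QuotientGroup.mk'_surjective N) X]
    exact (h1 _ fun e => hX (by
      rw [← map_comap_eq_self_of_surjective (QuotientGroup.mk'_surjective N) X, e,
        map_top_of_surjective _ (QuotientGroup.mk'_surjective N)])).map _) hna
  by_cases h0 : N = ⊥
  · have e : G ≃* G ⧸ N :=
      QuotientGroup.quotientBot.symm.trans (QuotientGroup.quotientMulEquivOfEq h0.symm)
    rcases hL with ⟨-, ⟨f⟩, -⟩ | ⟨q, k1, k2, k3, k4, k5⟩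
    · exact Or.inl ⟨e.trans f⟩
    obtain ⟨a, F, _, _, rfl, k6, ⟨f⟩⟩ := k4.exists_mulEquiv k5 k1
    have := f.symm.isSimpleGroup
    have k7 : center (Matrix.SpecialLinearGroup (Fin 2) F) = ⊥ :=
      center_eq_bot_of_isSimpleGroup fun e => hna ⟨⟨fun a b => f.injective (by
        rw [map_mul, map_mul]; exact e.is_comm.comm _ _)⟩⟩
    exact Or.inr (Or.inl ⟨F, _, _, a, k3.of_mersenne, k6, ⟨(e.trans f).trans
      (QuotientGroup.quotientBot.symm.trans (QuotientGroup.quotientMulEquivOfEq k7.symm))⟩⟩)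
  refine Or.inr (Or.inr (nonempty_equiv_of_ext h1 hperf N h0 (le_frattini_iff_forall_sup.2
    fun K hK => ?_) hna (fun t ht => hL.elim (fun e => e.2.2 t ht)
      fun ⟨_, _, _, _, e, _⟩ => e.isPGroup ht) (hL.imp And.left fun ⟨q, k1, k2, _, k4⟩ => ⟨q, k1, k2, k4⟩)))
  by_contra e
  have := h2 K e
  exact not_isSolvable_of_isSimpleGroup hna (isSolvable_quotient_of_sup_eq_top hK)

end Cfsg.Acd
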