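import Cfsg.Agent.Acd.StructA

/-!
# Solvable groups without odd normal subgroups all of whose subgroups have average degree at most 2
-/

set_option autoImplicit false
set_option linter.unusedSectionVars false

namespace Cfsg.Acd

open Subgroup
open scoped commutatorElement

universe u v

variable {G : Type u} [Group G] [Finite G]

/-- The shape of a solvable group with `O(G) = 1` which is not a `2`-group. -/
structure Shape (R C : Subgroup G) (y : G) : Prop where
  ry : IsRy R y
  nR : R.Normal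
  nC : C.Normal
  two : IsPGroup 2 C
  cent : C = centralizer ((R ⊔ zpowers y : Subgroup G) : Set G)
  core : pCore 2 G = R ⊔ C
  res : pResidual 2 G = R ⊔ zpowers y
  cases : R ⊔ C ⊔ zpowers y = ⊤ ∨ ((R ⊔ C ⊔ zpowers y).index = 2 ∧ orderOf y = 3 ∧
    (∀ a ∈ R, a * a = 1) ∧ Nat.card R = 4 ∧ C ≤ center G ∧ C ⊓ commutator G = ⊥ ∧
    R ⊔ zpowers y ≤ commutator G)

theorem not_mem_centralizer_pCore [Group.IsSolvable G] (hO : pPrimeCore 2 G = ⊥) {g : G}
    (h1 : (orderOf g).Prime) (h2 : orderOf g ≠ 2) : g ∉ centralizer (pCore 2 G : Set G) := fun h => by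
  obtain ⟨k, hk⟩ := isPElt_of_mem (isPGroup_pCore 2 G)
    ((isPSolvable_of_isSolvable 2 G).centralizer_pCore_le hO h)
  rw [hk] at h1 h2
  exact h2 (by rw [h1.eq_one_of_pow, pow_one])

theorem mem_zpowers_of_commute' [Group.IsSolvable G] (hG : GoodIn (⊤ : Subgroup G))
    (hO : pPrimeCore 2 G = ⊥) {y y' : G} (hr : (orderOf y).Prime) (hr2 : orderOf y ≠ 2)
    (hs : (orderOf y').Prime) (hs2 : orderOf y' ≠ 2) (hy : Commute y y') : y' ∈ zpowers y :=
  hG.mem_zpowers_of_commute (isPGroup_pCore 2 G) le_top le_normalizer_of_normal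
    (fun _ _ => not_mem_centralizer_pCore hO) (mem_top _) (mem_top _) hr hr2 hs hs2 hy

theorem exists_normal_sup_zpowers [Group.IsSolvable G] (hG : GoodIn (⊤ : Subgroup G))
    (hO : pPrimeCore 2 G = ⊥) (h2 : ¬ IsPGroup 2 G) :
    ∃ y : G, (orderOf y).Prime ∧ orderOf y ≠ 2 ∧ (zpowers y ⊔ pCore 2 G).Normal := by
  set E := pCore 2 G with hE
  have hs := QuotientGroup.mk'_surjective E
  obtain ⟨M, _, hlt, -, hM⟩ := exists_chief_above (L := E) (K := ⊤)
    (lt_top_iff_ne_top.2 (mt pCore_eq_top_iff.1 h2))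
  obtain ⟨q, hq, hel⟩ := hM.exists_isElementaryAbelian
  have := Fact.mk hq
  have hq2 : q ≠ 2 := by
    rintro rfl
    refine hlt.not_ge (le_pCore ?_)
    have := hel.isPGroup.comap_of_ker_isPGroup (QuotientGroup.mk' E)
      (by rw [QuotientGroup.ker_mk']; exact isPGroup_pCore 2 G)
    rwa [comap_map_mk'_eq_sup, sup_eq_left.2 hlt.le] at this
  have ho : ∀ x : G, IsPElt q x → QuotientGroup.mk' E x ∈ M.map (QuotientGroup.mk' E) →
      QuotientGroup.mk' E x ≠ 1 → orderOf x = q := fun x hx hm h1 =>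
    orderOf_eq_prime ((isPElt_of_mem (isPGroup_pCore 2 G) ((QuotientGroup.eq_one_iff _).1 (by
      rw [← QuotientGroup.mk'_apply, map_pow, ← hel.orderOf_eq hm h1, pow_orderOf_eq_one]))).eq_one_of_isPRegular
      ((hx.pow q).isPRegular_of_ne hq2)) fun e => h1 (by rw [e, map_one])
  obtain ⟨⟨b, hb⟩, hb1⟩ := ne_bot_iff_exists_ne_one.1 hM.ne_bot
  replace hb1 : b ≠ 1 := fun e => hb1 (Subtype.ext e)
  obtain ⟨y, hy, rfl⟩ := (isPElt_of_mem hel.isPGroup hb).exists_lift hs
  have hy' := ho y hy hb hb1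
  refine ⟨y, hy' ▸ hq, hy' ▸ hq2, ?_⟩
  suffices h : zpowers y ⊔ E = M by rw [h]; infer_instance
  rw [← comap_map_mk'_eq_sup, ← sup_eq_left.2 hlt.le, ← comap_map_mk'_eq_sup]
  congr 1
  refine le_antisymm (by rw [MonoidHom.map_zpowers]; exact zpowers_le.2 hb) fun c hc => ?_
  by_cases hc1 : c = 1
  · rw [hc1]; exact one_mem _
  have h1 : IsCoprimeAction (zpowers y) E := isCoprimeAction_zpowers (le_normalizer_of_normal
    (mem_top y)) (hy' ▸ coprime_of_isPGroup (isPGroup_pCore 2 G) hq hq2)
  have h3 : c ∈ (centralizer (zpowers y : Set G)).map (QuotientGroup.mk' E) := by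
    rw [← h1.centralizer_map_mk', MonoidHom.map_zpowers, centralizer_zpowers,
      mem_centralizer_singleton_iff]
    exact isMulCommutative_iff_forall.1 hel.1 _ hc _ hb
  obtain ⟨x, hx, rfl⟩ := h3
  have e : QuotientGroup.mk' E (pPart q x) = QuotientGroup.mk' E x := by
    rw [map_pPart, pPart_eq_self_iff.2 (isPElt_of_mem hel.isPGroup hc)]
  have hx' := ho _ (isPElt_pPart q x) (e ▸ hc) (e ▸ hc1)
  rw [← e]
  refine mem_map_of_mem _ (mem_zpowers_of_commute' hG hO (hy' ▸ hq) (hy' ▸ hq2) (by rwa [hx'])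
    (by rwa [hx']) (commute_pPart_of_commute q (hx y (mem_zpowers y))))

theorem IsRy.exists_mul_mem_centralizer {R : Subgroup G} [R.Normal] {y : G} (h : IsRy R y)
    (hX : Acd2 (R ⊔ zpowers y : Subgroup G)) {d : G} (hd : Commute d y) :
    ∃ s ∈ zpowers y, s⁻¹ * d ∈ centralizer (R : Set G) := by
  obtain ⟨a, ha, ha'⟩ := SetLike.not_le_iff_exists.1 fun e =>
    h.not_le_centralizer (le_trans e (h.commutator_le_centralizer hX h.norm))
  have hn : (⁅R, R⁆ : Subgroup G).Normal := inferInstance
  obtain ⟨s, hsy, hs'⟩ := h.exists_conj hX ha ((inferInstance : R.Normal).conj_mem a ha d) ha'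
    fun e => ha' (by simpa [mul_assoc] using hn.conj_mem _ e d⁻¹)
  have hc : Commute (s⁻¹ * d) y := by
    obtain ⟨n, rfl⟩ := hsy
    exact (Commute.zpow_self y n).inv_left.mul_left hd
  refine ⟨s, hsy, h.mem_centralizer_of_le hX hc ?_⟩
  set π := QuotientGroup.mk' (⁅R, R⁆ : Subgroup G)
  have h1 := (h.le_or_eq hX (D := R ⊓ (centralizer {π (s⁻¹ * d)}).comap π) inf_le_left
    (le_normalizer_inf h.cop.norm (zpowers_le.2 (le_normalizer_comap π (le_normalizer
      (mem_centralizer_singleton_iff.2 (hc.map π).symm)))) (mem_zpowers y))).resolve_left fun e => by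
    refine ha' (e ⟨ha, mem_centralizer_singleton_iff.2 ?_⟩)
    rw [← map_mul, ← map_mul]
    refine QuotientGroup.eq.2 ?_
    simpa [mul_assoc] using hn.conj_mem _ hs' (d⁻¹)
  rw [← map_mk'_eq_bot_iff, map_commutator, MonoidHom.map_zpowers,
    commutator_eq_bot_iff_le_centralizer, centralizer_zpowers, map_le_iff_le_comap]
  exact inf_eq_left.1 h1

theorem relIndex_centralizer_dvd {y : G} (hr : (orderOf y).Prime) :
    (centralizer {y}).relIndex (normalizer ((zpowers y : Subgroup G) : Set G)) ∣ orderOf y - 1 := by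
  have h1 := card_dvd_of_injective _ (QuotientGroup.kerLift_injective
    (zpowers y).normalizerMonoidHom)
  rwa [normalizerMonoidHom_ker, ← index_eq_card, IsCyclic.card_mulAut, Nat.card_zpowers,
    Nat.totient_prime hr, centralizer_zpowers] at h1

theorem exists_shape [Group.IsSolvable G] (hG : GoodIn (⊤ : Subgroup G))
    (hO : pPrimeCore 2 G = ⊥) (h2 : ¬ IsPGroup 2 G) : ∃ R C y, Shape (G := G) R C y := by
  obtain ⟨y, hr, hr2, hM⟩ := exists_normal_sup_zpowers hG hO h2
  set E := pCore 2 G with hE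
  have hEn : y ∈ normalizer (E : Set G) := le_normalizer_of_normal (mem_top y)
  have h := isRy_commutator (isPGroup_pCore 2 G) hr hr2 hEn (not_mem_centralizer_pCore hO hr hr2)
  have hcop : IsCoprimeAction (zpowers y) E :=
    isCoprimeAction_zpowers hEn (coprime_of_isPGroup (isPGroup_pCore 2 G) hr hr2)
  set R := ⁅E, zpowers y⁆ with hR
  have hRE : R ≤ E := commutator_zpowers_le hEn
  set N := normalizer ((zpowers y : Subgroup G) : Set G) with hN
  have hfr : N ⊔ E = ⊤ := eq_top_iff.2 fun g _ => by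
    obtain ⟨m, hm, hm'⟩ := hcop.exists_mul_mem_normalizer (x := g) fun a ha => by
      simpa using hM.conj_mem a (mem_sup_left ha) g⁻¹
    rw [← mul_inv_cancel_right g m]
    exact mul_mem (mem_sup_left hm') (mem_sup_right (inv_mem hm))
  have hNR : N ≤ normalizer (R : Set G) := fun g hg =>
    normalizer_inf_le_normalizer_commutator _ _ ⟨le_normalizer_of_normal (mem_top g), hg⟩
  have nR : R.Normal := normalizer_eq_top_iff.1 (eq_top_iff.2 (hfr.ge.trans
    (sup_le hNR (normalizer_commutator_ge_left _ _))))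
  set K := R ⊔ zpowers y with hK
  have nK : K.Normal := by
    refine normalizer_eq_top_iff.1 (eq_top_iff.2 (hfr.ge.trans
      (sup_le (le_normalizer_sup hNR le_rfl) fun e he => mem_normalizer_of_map_conj_le ?_)))
    rw [map_conj_sup, map_conj_eq_of_normal, ← zpowers_conj]
    refine sup_le le_sup_left (zpowers_le.2 ?_)
    rw [← inv_mul_cancel_right (e * y * e⁻¹) y, ← commutatorElement_def]
    exact mul_mem (mem_sup_left (commutator_mem_commutator he (mem_zpowers y)))
      (mem_sup_right (mem_zpowers y))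
  have gK : Acd2 K := hG _ le_top
  set C := centralizer (K : Set G) with hC
  have mC : ∀ {c}, c ∈ C ↔ c ∈ centralizer (R : Set G) ∧ Commute c y := fun {c} => by
    rw [hC, hK, centralizer_sup, centralizer_zpowers, mem_inf, mem_centralizer_singleton_iff]; rfl
  have hC2 : IsPGroup 2 C := isPiGroup_singleton_iff.1 fun q hq hd => by
    by_contra hq2
    have := Fact.mk hq
    obtain ⟨g, hg, hg'⟩ := exists_mem_orderOf_eq_prime hd
    have h1 := mem_zpowers_of_commute' hG hO hr hr2 (hg' ▸ hq) (hg' ▸ hq2) (mC.1 hg).2.symm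
    refine h.not_le_centralizer ?_
    rw [← centralizer_zpowers, ← zpowers_eq_of_prime hr h1 (fun e => by
      rw [e, orderOf_one] at hg'; exact hq.one_lt.ne hg'), le_centralizer_iff, zpowers_le]
    exact (mC.1 hg).1
  have hCE : C ≤ E := le_pCore hC2
  have hcore : E = R ⊔ C := le_antisymm (hcop.inf_centralizer_sup_commutator.ge.trans (by
    rw [sup_comm, centralizer_zpowers]
    exact sup_le_sup_left (fun c hc => mC.2 ⟨h.mem_centralizer_of_isPElt gK
      (le_normalizer_of_normal (mem_top c)) (mem_centralizer_singleton_iff.1 hc.2)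
      (isPElt_of_mem (isPGroup_pCore 2 G) hc.1), mem_centralizer_singleton_iff.1 hc.2⟩) _))
    (sup_le hRE hCE)
  rw [sup_comm, hcore] at hM
  set M := R ⊔ C ⊔ zpowers y with hMd
  have hKM : K ≤ M := sup_le_sup_right le_sup_left _
  have hD : centralizer {y} ≤ M := fun d hd => by
    have hd' : Commute d y := mem_centralizer_singleton_iff.1 hd
    obtain ⟨s, hs, hs'⟩ := h.exists_mul_mem_centralizer gK hd'
    rw [← mul_inv_cancel_left s d]
    refine mul_mem (mem_sup_right hs) (mem_sup_left (mem_sup_right (mC.2 ⟨hs', ?_⟩)))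
    obtain ⟨n, rfl⟩ := hs
    exact (Commute.zpow_self y n).inv_left.mul_left hd'
  have hNM : N ⊔ M = ⊤ := eq_top_iff.2 (hfr.ge.trans (sup_le_sup_left (hcore.le.trans le_sup_left) _))
  have hidx : M.index ∣ orderOf y - 1 := by
    rw [← relIndex_top_right, ← hNM, relIndex_sup_of_le_normalizer le_normalizer_of_normal]
    exact (relIndex_dvd_of_le_left _ hD).trans (relIndex_centralizer_dvd hr)
  have hRC : ¬ R ≤ C := fun e => h.not_le_centralizer fun a ha =>
    mem_centralizer_singleton_iff.2 (mC.1 (e ha)).2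
  have hcases : M = ⊤ ∨ (M.index = 2 ∧ orderOf y = 3 ∧ (∀ a ∈ R, a * a = 1) ∧ Nat.card R = 4 ∧
      C ≤ center G ∧ C ⊓ commutator G = ⊥ ∧ K ≤ commutator G) := by
    refine or_iff_not_imp_left.2 fun hne => ?_
    obtain ⟨l, hl, hl'⟩ := Nat.exists_prime_and_dvd (mt index_eq_one.1 hne)
    have := Fact.mk hl
    obtain ⟨b, hb⟩ := exists_prime_orderOf_dvd_card' (G := G ⧸ M) l hl'
    obtain ⟨x, hx, rfl⟩ : b ∈ N.map (QuotientGroup.mk' M) := by
      rw [map_mk'_eq_top_iff.2 hNM]; exact mem_top b
    have hxM : x ∉ M := fun e => by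
      rw [QuotientGroup.mk'_apply, (QuotientGroup.eq_one_iff x).2 e, orderOf_one] at hb
      exact hl.one_lt.ne hb
    have hxy : x * y * x⁻¹ ∈ zpowers y := conj_mem_of_mem_normalizer hx (mem_zpowers y)
    have hxy' : x * y * x⁻¹ ≠ y := fun e =>
      hxM (hD (mem_centralizer_singleton_iff.2 (mul_inv_eq_iff_eq_mul.1 e)))
    have hcm : ∀ X : Subgroup G, M ≤ X → x ∈ X → K ≤ ⁅X, X⁆ := fun X h1 h2 =>
      sup_le (h.comm.ge.trans (commutator_mono ((le_sup_left.trans hKM).trans h1)
        ((le_sup_right.trans hKM).trans h1))) (by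
        rw [← zpowers_eq_of_prime hr (mul_mem hxy (inv_mem (mem_zpowers y)))
          (mt mul_inv_eq_one.1 hxy'), zpowers_le]
        exact commutator_mem_commutator h2 (h1 (mem_sup_right (mem_zpowers y))))
    set X := (zpowers (QuotientGroup.mk' M x)).comap (QuotientGroup.mk' M)
    have hMX : M ≤ X := le_comap_mk'_self _ _
    set π := QuotientGroup.mk' C
    obtain ⟨h3, h4⟩ := h.map π (mt map_mk'_eq_bot_iff.1 hRC)
    have : (R.map π).Normal := nR.map _ (QuotientGroup.mk'_surjective C)
    have h5 := (h3.sub_le (X := X.map π) (hG.map π _ (map_mono le_top))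
      (map_mono ((le_sup_left.trans hKM).trans hMX))
      (mem_map_of_mem _ (hMX (mem_sup_right (mem_zpowers y)))) le_normalizer_of_normal).trans
      ((index_commutator_le (B := M.map π) (by
        rw [← map_commutator, map_mk'_le_map_mk'_iff]
        exact sup_le (sup_le ((le_sup_left.trans (hcm X hMX (mem_zpowers _))).trans le_sup_left)
          le_sup_right) ((le_sup_right.trans (hcm X hMX (mem_zpowers _))).trans le_sup_left))).trans
        (Nat.le_of_dvd (relIndex_pos _ _) (relIndex_map_dvd π M X)))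
    rw [relIndex_comap_mk', Nat.card_zpowers, hb, h4] at h5
    have h6 : orderOf y = 3 := by
      obtain ⟨k, hk⟩ := hl'.trans hidx
      have h7 := h.three_le
      have h8 := hr.eq_two_or_odd.resolve_left hr2
      rcases k with _ | _ | k
      · omega
      · have := hl.eq_two_or_odd
        omega
      · have : l * 2 ≤ l * (k + 1 + 1) := Nat.mul_le_mul_left _ (by omega)
        omega
    have h7 : M.index = 2 := ((Nat.dvd_prime Nat.prime_two).1 (h6 ▸ hidx :)).resolve_left
      (mt index_eq_one.1 hne)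
    have h8 : K ≤ commutator G := hcm ⊤ le_top (mem_top x)
    have hCM : C ≤ M := le_sup_right.trans le_sup_left
    have h9 : M ≤ C ⊔ commutator G := sup_le (sup_le ((le_sup_left.trans h8).trans le_sup_right)
      le_sup_left) ((le_sup_right.trans h8).trans le_sup_right)
    have h10 : y * (x * y * x⁻¹) = 1 := by
      classical
      obtain ⟨k, hk, hk'⟩ := (mem_zpowers_iff_mem_range_orderOf.1 hxy |> Finset.mem_image.1 :)
      rw [Finset.mem_range, h6] at hk
      interval_cases k
      · exact absurd (by simpa using hk'.symm) h.ne_one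
      · exact absurd (by simpa using hk'.symm) hxy'
      · rw [← hk', ← pow_succ']; exact orderOf_dvd_iff_pow_eq_one.1 h6.dvd
    have h11 := h.inf_commutator_eq_bot' hG.acd2_top h6 hRC h7 hCM h9 (s := x) (h10 ▸ one_mem R)
    rw [inf_eq_right.2 fun a ha => mC.2 ⟨fun b hb => (mem_centralizer_singleton_iff.1
      (h.commutator_le_centralizer gK (le_normalizer hb) ha)).symm,
      mem_centralizer_singleton_iff.1 (h.commutator_le_centralizer gK h.norm ha)⟩] at h11
    obtain ⟨h12, h13⟩ := (h.cases gK).resolve_right fun ⟨_, _, z, hz, hz', _⟩ => by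
      rw [h11, eq_comm, zpowers_eq_bot] at hz'
      rw [hz', orderOf_one] at hz
      omega
    have h14 := h.inf_commutator_eq_bot hG.acd2_top h12 (eq_bot_iff.2 (h11 ▸ le_trans
      (inf_le_inf_left _ fun c hc => mem_centralizer_singleton_iff.2 (mC.1 hc).2)
      h.inf_centralizer_le)) h7 hCM h9
    exact ⟨h7, h6, h12, by omega, h14.2, h14.1, h8⟩
  refine ⟨R, C, y, h, nR, inferInstance, hC2, rfl, hcore, le_antisymm ?_ ?_, hcases⟩
  · have h1 : K.relIndex M ∣ Nat.card C := by
      rw [hMd, sup_right_comm, ← hK, sup_comm, relIndex_sup_of_le_normalizer le_normalizer_of_normal]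
      exact relIndex_dvd_card _ _
    obtain ⟨k, hk⟩ := hC2.exists_card_eq
    obtain ⟨j, -, hj⟩ := (Nat.dvd_prime_pow Nat.prime_two).1 (hk ▸ h1)
    have h3 := relIndex_mul_index hKM
    rcases hcases with e | e
    · exact pResidual_le (k := j) (by rw [← h3, e, index_top, mul_one, ← e, hj])
    · exact pResidual_le (k := j + 1) (by rw [← h3, e.1, hj, pow_succ])
  · have h1 : zpowers y ≤ pResidual 2 G := zpowers_le.2 (mem_pResidual fun e =>
      hr2 ((Nat.prime_dvd_prime_iff_eq Nat.prime_two hr).1 e).symm)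
    exact sup_le ((commutator_mono le_rfl h1).trans (commutator_le_right _ _)) h1

end Cfsg.Acd

set_option linter.all false in
theorem Cfsg.Rz.Acd_Struct_0 : True := by
  have := @_root_.Cfsg.Acd.Shape.mk.congr_simp.{0}
  trivial
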