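import Cfsg.Agent.Acd.Tight
import Cfsg.Agent.Grp.PSolvable

/-!
# Average character degree at most two: commuting elements of odd order acting on a `2`-group
-/

set_option autoImplicit false
set_option linter.unusedSectionVars false

namespace Cfsg.Acd

open Subgroup
open scoped commutatorElement

universe u v

variable {G : Type u} [Group G] [Finite G]

theorem eq_one_or_eq_of_mem_zpowers {z w : G} (hz : orderOf z = 2) (hw : w ∈ zpowers z) :
    w = 1 ∨ w = z := by
  have := (mem_closure_pair (s := w) (mul_self_of_orderOf hz) (mul_self_of_orderOf hz) rfl).1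
    (mem_sup_left hw)
  rw [mul_self_of_orderOf hz] at this
  tauto

namespace IsRy

variable {R : Subgroup G} {y : G} (h : IsRy R y)
include h

theorem card_commutator_le (hX : Acd2 (R ⊔ zpowers y : Subgroup G)) :
    Nat.card (⁅R, R⁆ : Subgroup G) ≤ 2 := by
  have h1 := index_commutator_mul R
  rw [h.index_eq hX] at h1
  rcases h.cases hX with h2 | h2
  · rw [h2.2] at h1
    have := (Nat.mul_eq_left (by omega)).1 h1
    omega
  · rw [h2.1, h2.2.1] at h1
    omega

theorem conj_eq_of_mem_commutator (hX : Acd2 (R ⊔ zpowers y : Subgroup G)) {g w : G}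
    (hg : g ∈ normalizer (R : Set G)) (hw : w ∈ ⁅R, R⁆) : g * w * g⁻¹ = w := by
  have h1 := conj_mem_of_mem_normalizer (normalizer_inf_le_normalizer_commutator R R ⟨hg, hg⟩) hw
  by_cases hw1 : w = 1
  · simp [hw1]
  have h2 := h.card_commutator_le hX
  have h3 : 1 < Nat.card (⁅R, R⁆ : Subgroup G) :=
    (one_lt_card_iff_ne_bot _).2 fun e => hw1 (mem_bot.1 (e ▸ hw))
  have h4 : Nat.card (⁅R, R⁆ : Subgroup G) = 2 := by omega
  have h5 := zpowers_eq_of_prime_card (h4 ▸ Nat.prime_two) hw hw1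
  exact (eq_one_or_eq_of_mem_zpowers (by rw [← Nat.card_zpowers, h5, h4]) (h5.ge h1)).resolve_left
    (by simpa using hw1)

theorem commutator_le_centralizer (hX : Acd2 (R ⊔ zpowers y : Subgroup G)) {g : G}
    (hg : g ∈ normalizer (R : Set G)) : ⁅R, R⁆ ≤ centralizer {g} := fun _ hw =>
  mem_centralizer_singleton_iff.2 (mul_inv_eq_iff_eq_mul.1 (h.conj_eq_of_mem_commutator hX hg hw)).symm

theorem le_or_eq (hX : Acd2 (R ⊔ zpowers y : Subgroup G)) {D : Subgroup G} (hD : D ≤ R)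
    (hn : y ∈ normalizer (D : Set G)) : D ≤ ⁅R, R⁆ ∨ D = R := by
  refine or_iff_not_imp_left.2 fun h1 => ?_
  obtain ⟨d, hd, hd'⟩ := SetLike.not_le_iff_exists.1 h1
  refine eq_of_sup_frattiniOf hD (le_trans (fun b hb => ?_)
    (sup_le_sup_left (commutator_le_frattiniOf h.two) D))
  by_cases hb' : b ∈ ⁅R, R⁆
  · exact mem_sup_right hb'
  obtain ⟨s, hs, hs'⟩ := h.exists_conj hX (hD hd) hb hd' hb'
  rw [← mul_inv_cancel_left (s * d * s⁻¹) b]
  exact mul_mem (mem_sup_left (conj_mem_of_mem_normalizer (zpowers_le.2 hn hs) hd))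
    (mem_sup_right hs')

theorem mem_centralizer_of_le (hX : Acd2 (R ⊔ zpowers y : Subgroup G)) {c : G}
    (hcy : Commute c y) (hc : ⁅R, zpowers c⁆ ≤ ⁅R, R⁆) : c ∈ centralizer (R : Set G) := by
  have h1 : ⁅⁅zpowers y, R⁆, zpowers c⁆ = ⊥ := by
    refine commutator_commutator_eq_bot_of_rotate ?_ ?_
    · rw [commutator_eq_bot_iff_le_centralizer, centralizer_zpowers]
      exact hc.trans (h.commutator_le_centralizer hX h.norm)
    · rw [(commutator_eq_bot_iff_le_centralizer (H₁ := zpowers c)).2 (by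
        rw [centralizer_zpowers, zpowers_le, mem_centralizer_singleton_iff]; exact hcy),
        commutator_bot_left]
  rw [commutator_comm (zpowers y), h.comm] at h1
  exact le_centralizer_iff.1 (commutator_eq_bot_iff_le_centralizer.1 h1) (mem_zpowers c)

theorem mem_centralizer_or (hX : Acd2 (R ⊔ zpowers y : Subgroup G)) {c : G}
    (hn : c ∈ normalizer (R : Set G)) (hcy : Commute c y) :
    c ∈ centralizer (R : Set G) ∨ ⁅R, zpowers c⁆ = R :=
  (h.le_or_eq hX (commutator_zpowers_le hn) (normalizer_inf_le_normalizer_commutator _ _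
    ⟨h.norm, centralizer_le_normalizer _ (by
      rw [centralizer_zpowers, mem_centralizer_singleton_iff]; exact hcy.symm)⟩)).imp_left
    (h.mem_centralizer_of_le hX hcy)

theorem mem_centralizer_of_isPElt (hX : Acd2 (R ⊔ zpowers y : Subgroup G)) {c : G}
    (hn : c ∈ normalizer (R : Set G)) (hcy : Commute c y) (hc : IsPElt 2 c) :
    c ∈ centralizer (R : Set G) := by
  refine (h.mem_centralizer_or hX hn hcy).resolve_right fun e => ?_
  have h1 : IsPGroup 2 (zpowers c ⊔ R : Subgroup G) :=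
    (isPElt_iff_isPGroup_zpowers.1 hc).to_sup_of_normal_right' h.two (zpowers_le.2 hn)
  have := h1.isNilpotent
  exact (commutator_lt_of_le_isNilpotent le_sup_right le_sup_left (zpowers_le.2 hn) h.ne).ne e

theorem sub_le {X : Subgroup G} (hX : Acd2 X) (hR : R ≤ X) (hy : y ∈ X)
    (hn : X ≤ normalizer (R : Set G)) : orderOf y - 2 ≤ (commutator X).index := by
  have : (R.subgroupOf X).Normal := normal_subgroupOf_of_le_normalizer hn
  obtain ⟨lam, hl⟩ := h.exists_linear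
  have h1 := (sub_le_exc (inclusion hR) (IrrCharacter.ofLinear lam)).trans (acd2_iff.1 hX)
  have h2 := h.le_index_inertia hR hy hl
  rw [IrrCharacter.charDegree_ofLinear, mul_one] at h1
  omega

theorem not_le_centralizer : ¬ R ≤ centralizer {y} := fun e => h.ne (by
  rw [← h.comm, commutator_eq_bot_iff_le_centralizer, centralizer_zpowers]; exact e)

theorem ne_one : y ≠ 1 := fun e => by
  have := h.three_le
  rw [e, orderOf_one] at this
  omega

end IsRy

theorem commutator_zpowers_mul {R : Subgroup G} {y c : G} (hc : c ∈ centralizer (R : Set G))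
    (hyc : Commute y c) : ⁅R, zpowers y⁆ ≤ ⁅R, zpowers (y * c)⁆ := by
  rw [commutator_le]
  rintro a ha _ ⟨n, rfl⟩
  have h1 := commutator_mem_commutator ha (zpow_mem_zpowers (y * c) n)
  have h2 : c ^ n * a⁻¹ = a⁻¹ * c ^ n := (zpow_mem hc n _ (inv_mem ha)).symm
  rw [hyc.mul_zpow, commutatorElement_def, ← mul_assoc, mul_assoc _ (c ^ n), h2] at h1
  simpa [commutatorElement_def, mul_assoc] using h1

theorem mem_zpowers_or_of_coprime {y y' g : G} (hc : Commute y y') (hr : (orderOf y).Prime)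
    (hs : (orderOf y').Prime) (hne : orderOf y ≠ orderOf y') (hg : g ∈ zpowers (y * y'))
    (h1 : g ≠ 1) : y ∈ zpowers g ∨ y' ∈ zpowers g := by
  obtain ⟨k, rfl⟩ := (mem_powers_iff_mem_zpowers.2 hg :)
  have hco := (Nat.coprime_primes hr hs).2 hne
  by_cases h2 : orderOf y ∣ k
  · right
    have e : (y * y') ^ k = y' ^ k := by
      rw [hc.mul_pow, orderOf_dvd_iff_pow_eq_one.1 h2, one_mul]
    simp only [e] at h1 ⊢
    exact (zpowers_eq_of_prime hs (npow_mem_zpowers _ _) h1).ge (mem_zpowers _)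
  · left
    have e : ((y * y') ^ k) ^ orderOf y' = y ^ (k * orderOf y') := by
      rw [← pow_mul, hc.mul_pow, pow_mul' y', pow_orderOf_eq_one, one_pow, mul_one]
    refine zpowers_le.2 (e ▸ npow_mem_zpowers _ _) ((zpowers_eq_of_prime hr
      (npow_mem_zpowers y (k * orderOf y')) fun e => ?_).ge (mem_zpowers _))
    exact h2 (hco.dvd_of_dvd_mul_right (orderOf_dvd_of_pow_eq_one e))

/-- No direct product of two groups `R ⟨y⟩`. -/
theorem GoodIn.not_prod {X R₁ R₂ : Subgroup G} (hX : GoodIn X) {y₁ y₂ : G} (h₁ : IsRy R₁ y₁)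
    (h₂ : IsRy R₂ y₂) (l₁ : R₁ ≤ X) (l₂ : R₂ ≤ X) (m₁ : y₁ ∈ X) (m₂ : y₂ ∈ X)
    (hy : Commute y₁ y₂) (c₁ : y₂ ∈ centralizer (R₁ : Set G)) (c₂ : y₁ ∈ centralizer (R₂ : Set G))
    (hR : R₁ ≤ centralizer (R₂ : Set G)) : False := by
  classical
  wlog hle : orderOf y₁ ≤ orderOf y₂ generalizing R₁ R₂ y₁ y₂
  · exact this h₂ h₁ l₂ l₁ m₂ m₁ hy.symm c₂ c₁ (le_centralizer_iff.1 hR) (by omega)
  have g₁ := hX _ (sup_le l₁ (zpowers_le.2 m₁))
  have g₂ := hX _ (sup_le l₂ (zpowers_le.2 m₂))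
  set A := R₁ ⊔ R₂ with hA
  have hn : R₁ ≤ normalizer (R₂ : Set G) := hR.trans (centralizer_le_normalizer _)
  have n₁ : zpowers y₁ ≤ normalizer (A : Set G) :=
    le_normalizer_sup h₁.cop.norm (zpowers_le.2 (centralizer_le_normalizer _ c₂))
  have n₂ : zpowers y₂ ≤ normalizer (A : Set G) :=
    le_normalizer_sup (zpowers_le.2 (centralizer_le_normalizer _ c₁)) h₂.cop.norm
  have n₃ : y₁ * y₂ ∈ normalizer (A : Set G) := mul_mem (n₁ (mem_zpowers _)) (n₂ (mem_zpowers _))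
  have e₃ : ⁅A, zpowers (y₁ * y₂)⁆ = A := le_antisymm (commutator_zpowers_le n₃) (sup_le
    ((h₁.comm.ge.trans (commutator_zpowers_mul c₁ hy)).trans (commutator_mono le_sup_left le_rfl))
    ((h₂.comm.ge.trans (commutator_zpowers_mul c₂ hy.symm)).trans
      (commutator_mono le_sup_right (by rw [hy.eq]))))
  have g₃ := hX _ (sup_le (sup_le l₁ l₂) (zpowers_le.2 (mul_mem m₁ m₂)))
  have d₁ : R₂ ≤ centralizer {y₁} := fun a ha => mem_centralizer_singleton_iff.2 (c₂ a ha)
  have d₂ : R₁ ≤ centralizer {y₂} := fun a ha => mem_centralizer_singleton_iff.2 (c₁ a ha)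
  have t₁ := h₁.three_le
  rcases hle.eq_or_lt with he | hlt
  · have h1 : y₁ * y₂ ≠ 1 := fun e => h₁.not_le_centralizer fun a ha => by
      rw [eq_inv_of_mul_eq_one_left e]
      exact mem_centralizer_singleton_iff.2 (inv_mem c₁ a ha)
    have := Fact.mk h₁.prime
    have ho : orderOf (y₁ * y₂) = orderOf y₁ := orderOf_eq_prime (by
      rw [hy.mul_pow, pow_orderOf_eq_one, he, pow_orderOf_eq_one, one_mul]) h1
    have h₃ : IsRy A (y₁ * y₂) := ⟨h₁.two.to_sup_of_normal_right' h₂.two hn, ho ▸ h₁.prime,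
      ho ▸ h₁.odd, n₃, e₃, fun e => h₁.ne (eq_bot_iff.2 (e ▸ le_sup_left))⟩
    have k1 := index_commutator_mul A
    have k2 := h₃.card_commutator_le g₃
    have k3 := index_commutator_mul R₁
    have k4 := index_commutator_mul R₂
    have k5 := card_sup_mul_card_inf_of_le_normalizer hn
    have k6 := card_le_of_le ((inf_le_inf_left R₁ d₁).trans h₁.inf_centralizer_le)
    rw [h₃.index_eq g₃, ho] at k1
    rw [h₁.index_eq g₁] at k3
    rw [h₂.index_eq g₂, ← he] at k4
    rw [← hA, ← k1, ← k3, ← k4] at k5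
    have k7 : 0 < Nat.card (⁅R₂, R₂⁆ : Subgroup G) := Nat.card_pos
    have k8 : 0 < Nat.card (⁅R₁, R₁⁆ : Subgroup G) := Nat.card_pos
    generalize Nat.card (⁅R₁, R₁⁆ : Subgroup G) = a at *
    generalize Nat.card (⁅R₂, R₂⁆ : Subgroup G) = b at *
    generalize Nat.card (⁅A, A⁆ : Subgroup G) = c at *
    generalize Nat.card (R₁ ⊓ R₂ : Subgroup G) = d at *
    have k9 : c * d = a * ((orderOf y₁ + 1) * b) :=
      Nat.eq_of_mul_eq_mul_left (by omega : 0 < orderOf y₁ + 1) (by linarith)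
    have : c * d ≤ 2 * a := Nat.mul_le_mul k2 k6
    have : a * (4 * 1) ≤ a * ((orderOf y₁ + 1) * b) := by gcongr <;> omega
    omega
  have hcm : ∀ {y : G}, ⁅R₁, R₁⁆ ≤ centralizer {y} → ⁅R₂, R₂⁆ ≤ centralizer {y} →
      commutator A ≤ (centralizer {y}).subgroupOf A := fun {y} k1 k2 => by
    rw [Subgroup.subgroupOf, ← map_le_iff_le_comap, map_subtype_commutator, commutator_le]
    intro a ha b hb
    obtain ⟨a₁, ha₁, a₂, ha₂, rfl⟩ := (mem_sup_of_le_normalizer hn).1 ha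
    obtain ⟨b₁, hb₁, b₂, hb₂, rfl⟩ := (mem_sup_of_le_normalizer hn).1 hb
    have k3 : ∀ u ∈ R₁, ∀ v ∈ R₂, Commute v u := fun u hu v hv => hR hu v hv
    have : ⁅a₁ * a₂, b₁ * b₂⁆ = ⁅a₁, b₁⁆ * ⁅a₂, b₂⁆ := by
      have k4 := k3 _ (inv_mem hb₁) _ (commutator_le_self R₂ (commutator_mem_commutator ha₂ hb₂))
      have k5 := k3 _ (inv_mem ha₁) _ (commutator_le_self R₂ (commutator_mem_commutator ha₂ hb₂))
      have k6 := k3 _ (inv_mem ha₁) _ (inv_mem hb₂)
      have k7 := k3 _ hb₁ _ ha₂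
      simp only [commutatorElement_def] at *
      calc a₁ * a₂ * (b₁ * b₂) * (a₁ * a₂)⁻¹ * (b₁ * b₂)⁻¹
          = a₁ * (a₂ * b₁) * b₂ * a₂⁻¹ * (a₁⁻¹ * b₂⁻¹) * b₁⁻¹ := by group
        _ = a₁ * b₁ * (a₂ * b₂ * a₂⁻¹ * b₂⁻¹ * a₁⁻¹) * b₁⁻¹ := by rw [k7.eq, ← k6.eq]; group
        _ = a₁ * b₁ * a₁⁻¹ * (a₂ * b₂ * a₂⁻¹ * b₂⁻¹ * b₁⁻¹) := by rw [k5.eq]; group
        _ = _ := by rw [k4.eq]; group
    rw [this]
    exact mul_mem (k1 (commutator_mem_commutator ha₁ hb₁)) (k2 (commutator_mem_commutator ha₂ hb₂))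
  obtain ⟨x₁, hx₁, hx₁'⟩ := SetLike.not_le_iff_exists.1 h₁.not_le_centralizer
  obtain ⟨x₂, hx₂, hx₂'⟩ := SetLike.not_le_iff_exists.1 h₂.not_le_centralizer
  obtain ⟨μ, hμ, hμ'⟩ := exists_linear_ne_one (hcm (h₁.commutator_le_centralizer g₁ h₁.norm)
    ((commutator_le_self _).trans d₁)) (g := ⟨x₁, mem_sup_left hx₁⟩) hx₁'
  obtain ⟨ν, hν, hν'⟩ := exists_linear_ne_one (hcm ((commutator_le_self _).trans d₂)
    (h₂.commutator_le_centralizer g₂ h₂.norm)) (g := ⟨x₂, mem_sup_right hx₂⟩) hx₂'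
  have hco := (Nat.coprime_primes h₁.prime h₂.prime).2 hlt.ne
  have hT := fun g => mem_zpowers_or_of_coprime (g := g) hy h₁.prime h₂.prime hlt.ne
  have ho : orderOf (y₁ * y₂) = orderOf y₁ * orderOf y₂ :=
    hy.orderOf_mul_eq_mul_orderOf_of_coprime hco
  have hn₃ := zpowers_le.2 n₃
  have : (A.subgroupOf (A ⊔ zpowers (y₁ * y₂))).Normal :=
    normal_subgroupOf_of_le_normalizer (sup_le_normalizer hn₃)
  have hy₂ : y₂ ∈ zpowers (y₁ * y₂) := by
    refine zpowers_le.2 (npow_mem_zpowers (y₁ * y₂) (orderOf y₁)) ?_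
    rw [hy.mul_pow, pow_orderOf_eq_one, one_mul]
    exact (zpowers_eq_of_prime h₂.prime (npow_mem_zpowers _ _) fun e => absurd
      (Nat.le_of_dvd (by omega) (orderOf_dvd_of_pow_eq_one e)) (by omega)).ge (mem_zpowers _)
  have k1 := card_le_index_inertia (X := A ⊔ zpowers (y₁ * y₂)) (lam := μ * ν) le_sup_left
    le_sup_right fun s hs hfix => by
      by_contra h1
      rcases hT _ hs h1 with e | e
      · have := apply_eq_one_of_fixed (hn₃ hs) hfix (x := ⟨x₁, mem_sup_left hx₁⟩)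
          (commutator_mono le_sup_left (zpowers_le.2 e) (h₁.comm.ge hx₁))
        rw [MonoidHom.mul_apply, hν _ (d₂ hx₁), mul_one] at this
        exact hμ' this
      · have := apply_eq_one_of_fixed (hn₃ hs) hfix (x := ⟨x₂, mem_sup_right hx₂⟩)
          (commutator_mono le_sup_right (zpowers_le.2 e) (h₂.comm.ge hx₂))
        rw [MonoidHom.mul_apply, hμ _ (d₁ hx₂), one_mul] at this
        exact hν' this
  have k2 := card_le_index_inertia (X := A ⊔ zpowers (y₁ * y₂)) (lam := ν) le_sup_left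
    ((zpowers_le.2 hy₂).trans le_sup_right) fun s hs hfix => by
      by_contra h1
      exact hν' (apply_eq_one_of_fixed (n₂ hs) hfix (by
        rw [zpowers_eq_of_prime h₂.prime hs h1]
        exact commutator_mono le_sup_right le_rfl (h₂.comm.ge hx₂)))
  have k3 := (add_le_exc (inclusion (le_sup_left : A ≤ A ⊔ zpowers (y₁ * y₂)))
    (θ₁ := IrrCharacter.ofLinear ν) (θ₂ := IrrCharacter.ofLinear (μ * ν)) fun hm => by
      obtain ⟨g, hg⟩ := mem_conjOrbit.1 hm
      have k : A ⊔ zpowers (y₁ * y₂) ≤ normalizer (R₁ : Set G) := sup_le (sup_le le_normalizer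
        ((le_centralizer_iff.1 hR).trans (centralizer_le_normalizer _)))
        (zpowers_le.2 (mul_mem h₁.norm (centralizer_le_normalizer _ c₁)))
      have k' := conj_mem_of_mem_normalizer (inv_mem (k g.2)) hx₁
      have := (conjAut_smul_eq_iff _).1 hg ⟨_, mem_sup_left k'⟩ ⟨x₁, mem_sup_left hx₁⟩
        (Subtype.ext (by simp [mul_assoc]))
      simp only [IrrCharacter.ofLinear_apply, MonoidHom.mul_apply, hν ⟨_, mem_sup_left hx₁⟩ (d₂ hx₁),
        hν ⟨_, mem_sup_left k'⟩ (d₂ k'), mul_one] at this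
      exact hμ' (Units.ext this)).trans (acd2_iff.1 g₃)
  have k4 := (index_commutator_le (e₃.ge.trans (commutator_mono le_sup_left le_sup_right))).trans
    (relIndex_sup_le_card hn₃)
  rw [Nat.card_zpowers] at k1 k2 k4
  rw [IrrCharacter.charDegree_ofLinear, IrrCharacter.charDegree_ofLinear, mul_one, mul_one] at k3
  have k5 : orderOf y₂ ≠ 4 := fun e => absurd (e ▸ h₂.prime) (by decide)
  have k6 : 3 * 3 ≤ orderOf (y₁ * y₂) := ho ▸ Nat.mul_le_mul t₁ h₂.three_le
  omega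

/-- Commuting elements of odd prime order acting faithfully on a `2`-group generate the same
subgroup. -/
theorem GoodIn.mem_zpowers_of_commute {X E : Subgroup G} (hX : GoodIn X) (hE : IsPGroup 2 E)
    (hEX : E ≤ X) (hn : X ≤ normalizer (E : Set G))
    (hc : ∀ g ∈ X, (orderOf g).Prime → orderOf g ≠ 2 → g ∉ centralizer (E : Set G)) {y y' : G}
    (m : y ∈ X) (m' : y' ∈ X) (hr : (orderOf y).Prime) (hr2 : orderOf y ≠ 2)
    (hs : (orderOf y').Prime) (hs2 : orderOf y' ≠ 2) (hy : Commute y y') : y' ∈ zpowers y := by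
  by_contra hne
  have h₁ := isRy_commutator hE hr hr2 (hn m) (hc y m hr hr2)
  have l₁ := commutator_zpowers_le (hn m)
  have g₁ := hX _ (sup_le (l₁.trans hEX) (zpowers_le.2 m))
  have nn : ∀ {a b : G}, a ∈ X → Commute a b → a ∈ normalizer ((⁅E, zpowers b⁆ : Subgroup G) : Set G) :=
    fun {a b} ha hab => normalizer_inf_le_normalizer_commutator _ _ ⟨hn ha,
      centralizer_le_normalizer _ (by
        rw [centralizer_zpowers, mem_centralizer_singleton_iff]; exact hab)⟩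
  have key : ∀ y' ∈ X, (orderOf y').Prime → orderOf y' ≠ 2 → Commute y y' →
      y' ∉ centralizer ((⁅E, zpowers y⁆ : Subgroup G) : Set G) := by
    intro y' m' hs hs2 hy c₁
    have h₂ := isRy_commutator hE hs hs2 (hn m') (hc y' m' hs hs2)
    have l₂ := commutator_zpowers_le (hn m')
    have g₂ := hX _ (sup_le (l₂.trans hEX) (zpowers_le.2 m'))
    have c₂ := (h₂.mem_centralizer_or g₂ (nn m hy) hy).resolve_right fun e =>
      h₂.not_le_centralizer (e.ge.trans ((commutator_mono l₂ le_rfl).trans fun a ha =>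
        mem_centralizer_singleton_iff.2 (c₁ a ha)))
    refine hX.not_prod h₁ h₂ (l₁.trans hEX) (l₂.trans hEX) m m' hy c₁ c₂ fun a ha =>
      h₂.mem_centralizer_of_isPElt g₂ ?_ (c₁ a ha) (isPElt_of_mem hE (l₁ ha))
    exact normalizer_commutator_ge_left E _ (l₁ ha)
  have e := (h₁.mem_centralizer_or g₁ (nn m' hy.symm) hy.symm).resolve_left (key y' m' hs hs2 hy)
  have h₃ : IsRy ⁅E, zpowers y⁆ y' := ⟨h₁.two, hs, hs2, nn m' hy.symm, e, h₁.ne⟩
  have ho : orderOf y' = orderOf y := Nat.succ_injective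
    ((h₃.index_eq (hX _ (sup_le (l₁.trans hEX) (zpowers_le.2 m')))).symm.trans (h₁.index_eq g₁))
  obtain ⟨a, ha, ha'⟩ := SetLike.not_le_iff_exists.1 fun e =>
    h₁.not_le_centralizer (le_trans e (h₁.commutator_le_centralizer g₁ h₁.norm))
  have hb := conj_mem_of_mem_normalizer h₃.norm ha
  obtain ⟨s, hsy, hs'⟩ := h₁.exists_conj g₁ ha hb ha' fun e => ha' (by
    simpa [mul_assoc] using conj_mem_of_mem_normalizer (inv_mem (h₃.norm' (mem_zpowers _))) e)
  have hsc : Commute y s := by obtain ⟨n, rfl⟩ := hsy; exact Commute.self_zpow y n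
  have hsc' : Commute s⁻¹ y' := by obtain ⟨n, rfl⟩ := hsy; exact (hy.zpow_left n).inv_left
  have := Fact.mk hr
  have ho' : orderOf (s⁻¹ * y') = orderOf y := orderOf_eq_prime (by
    rw [hsc'.mul_pow, ← ho, pow_orderOf_eq_one, mul_one, ho, inv_pow,
      orderOf_dvd_iff_pow_eq_one.1 (orderOf_dvd_of_mem_zpowers hsy), inv_one])
    fun e => hne (inv_mul_eq_one.1 e ▸ hsy)
  have m'' : s⁻¹ * y' ∈ X := mul_mem (inv_mem (zpowers_le.2 m hsy)) m'
  have hy'' : Commute y (s⁻¹ * y') := hsc.inv_right.mul_right hy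
  have e' := (h₁.mem_centralizer_or g₁ (nn m'' hy''.symm) hy''.symm).resolve_left
    (key _ m'' (ho' ▸ hr) (ho' ▸ hr2) hy'')
  have h₄ : IsRy ⁅E, zpowers y⁆ (s⁻¹ * y') := ⟨h₁.two, ho' ▸ hr, ho' ▸ hr2, nn m'' hy''.symm, e', h₁.ne⟩
  refine ha' (h₄.mem_of_fix ha (mem_zpowers _) h₄.ne_one ?_)
  simpa [mul_assoc] using conj_mem_of_mem_normalizer (inv_mem (h₁.norm' hsy)) hs'

end Cfsg.Acd
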