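import Cfsg.Agent.Acd.LocalC

/-!
# Average character degree at most two: groups with a quotient `S₄`
-/

set_option autoImplicit false
set_option linter.unusedSectionVars false

namespace Cfsg.Acd

open Subgroup
open scoped commutatorElement

universe u v

variable {G : Type u} [Group G] [Finite G]

theorem IsRy.map {G' : Type v} [Group G'] [Finite G'] {R : Subgroup G} {y : G} (h : IsRy R y)
    (f : G →* G') (hne : R.map f ≠ ⊥) : IsRy (R.map f) (f y) ∧ orderOf (f y) = orderOf y := by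
  have h1 : ⁅R.map f, zpowers (f y)⁆ = R.map f := by
    rw [← MonoidHom.map_zpowers, ← map_commutator, h.comm]
  have h2 : orderOf (f y) = orderOf y := by
    refine ((Nat.dvd_prime h.prime).1 (orderOf_map_dvd f y)).resolve_left fun e => hne ?_
    rw [← h1, orderOf_eq_one_iff.1 e, zpowers_one_eq_bot, commutator_bot_right]
  exact ⟨⟨h.two.map f, h2 ▸ h.prime, h2 ▸ h.odd, le_normalizer_map f (mem_map_of_mem f h.norm),
    h1, hne⟩, h2⟩

theorem IsRy.subgroupOf {R X : Subgroup G} {y : G} (h : IsRy R y) (hR : R ≤ X) (hy : y ∈ X) :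
    IsRy (R.subgroupOf X) ⟨y, hy⟩ := by
  refine ⟨h.two.comap_subtype, by rw [orderOf_mk]; exact h.prime, by rw [orderOf_mk]; exact h.odd,
    le_normalizer_comap X.subtype h.norm, map_injective X.subtype_injective ?_, fun e => h.ne ?_⟩
  · rw [map_commutator, map_subgroupOf_eq_of_le hR, MonoidHom.map_zpowers]
    exact h.comm
  · rw [← map_subgroupOf_eq_of_le hR, e, Subgroup.map_bot]

theorem IsRy.le_index_inertia' {R : Subgroup G} [R.Normal] {y : G} (h : IsRy R y)
    {lam : R →* ℂˣ} (hl : lam ≠ 1) :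
    orderOf y ≤ (inertia R.subtype (IrrCharacter.ofLinear lam)).index := by
  rw [← Nat.card_zpowers]
  refine card_le_index_of_inf_eq_bot (eq_bot_iff.2 fun s hs => ?_)
  by_contra h1
  exact hl (MonoidHom.ext fun x => apply_eq_one_of_fixed (h.cop.norm hs.1)
    (fun a a' e => Units.ext (mem_inertia_iff_forall.1 hs.2 a a' e)) (by
      rw [zpowers_eq_of_prime h.prime hs.1 h1, h.comm]; exact x.2))

theorem IsRy.two_le_exc {R M : Subgroup G} [R.Normal] {y : G} (h : IsRy R y) (hM : M.index = 2) :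
    2 ≤ exc G := by
  classical
  obtain ⟨lam, hl⟩ := h.exists_linear
  obtain ⟨χ, hχ⟩ := IrrCharacter.exists_liesOver_above R.subtype_injective
    (IrrCharacter.ofLinear lam)
  have h1 := index_mul_le_charDegree hχ
  rw [IrrCharacter.charDegree_ofLinear, mul_one] at h1
  replace h1 := h.three_le.trans ((h.le_index_inertia' hl).trans h1)
  have h2 := sum_le_exc {χ}
  rw [Finset.sum_singleton] at h2
  by_contra h3
  have h4 : charDegree χ.1 = 3 := by omega
  have := normal_of_index_eq_two hM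
  obtain ⟨ε, -, hε'⟩ := exists_linear_of_prime_index M (hM ▸ Nat.prime_two)
  have h8 : ε • χ ≠ χ := fun e => by
    have := orderOf_dvd_of_pow_eq_one (x := ε) (pow_eq_one_of_smul_eq e)
    rw [hε', hM, h4] at this
    omega
  have h5 := sum_le_exc {ε • χ, χ}
  rw [Finset.sum_pair h8, IrrCharacter.charDegree_linear_smul] at h5
  omega

theorem IsRy.mem_charKer (hG : Acd2 G) {R N K : Subgroup G} [R.Normal] [N.Normal] {y : G}
    (h : IsRy R y) (hRN : ¬ R ≤ N) (hK : K.index = 2) (hNK : N ≤ K) (hK' : K ≤ N ⊔ commutator G)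
    {χ : IrrCharacter G} (h3 : 3 ≤ charDegree χ.1) {n : G} (hn : n ∈ N) (hn' : n ∈ commutator G) :
    n ∈ charKer χ.1 := by
  have hs := QuotientGroup.mk'_surjective N
  have := (inferInstance : R.Normal).map _ hs
  refine hG.mem_charKer_of_tight _ hs ?_ h3 (by rwa [QuotientGroup.ker_mk']) hn'
  refine le_trans ?_ ((h.map _ (mt map_mk'_eq_bot_iff.1 hRN)).1.two_le_exc
    (M := K.map (QuotientGroup.mk' N)) (by rw [index_map_mk', sup_eq_left.2 hNK, hK]))
  rw [index_commutator_of_surjective _ hs, QuotientGroup.ker_mk', ← hK]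
  exact Nat.le_of_dvd (index_pos K) (index_dvd_of_le hK')

/-- If `G / N ≃ S₄` and the four-group splits off, `N` is central. -/
theorem IsRy.inf_commutator_eq_bot (hG : Acd2 G) {R N K : Subgroup G} [R.Normal] [N.Normal] {y : G}
    (h : IsRy R y) (hR : ∀ a ∈ R, a * a = 1) (hRN : R ⊓ N = ⊥) (hK : K.index = 2) (hNK : N ≤ K)
    (hK' : K ≤ N ⊔ commutator G) : N ⊓ commutator G = ⊥ ∧ N ≤ center G := by
  have h1 : N ⊓ commutator G = ⊥ := eq_bot_iff.2 fun n hn => by
    by_contra hn1
    obtain ⟨⟨v, hv⟩, hv1⟩ := ne_bot_iff_exists_ne_one.1 h.ne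
    obtain ⟨χ, h2, h3⟩ := exists_irr_not_mem_charKer_and hn1 fun e => hv1 (Subtype.ext e)
    refine h2 (h.mem_charKer hG (fun e => h.ne (inf_eq_left.2 e ▸ hRN)) hK hNK hK' ?_ hn.1 hn.2)
    obtain ⟨θ, hθ⟩ := IrrCharacter.exists_liesOver_below R.subtype χ
    obtain ⟨lam, rfl⟩ := IrrCharacter.ofLinear_surjective_of_comm (fun a b : R =>
      Subtype.ext (comm_of_forall_mul_self hR a.2 b.2)) θ
    have h4 := index_mul_le_charDegree hθ
    rw [IrrCharacter.charDegree_ofLinear, mul_one] at h4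
    refine h.three_le.trans ((h.le_index_inertia' ?_).trans h4)
    rintro rfl
    have : R.subtype.range.Normal := by rwa [range_subtype]
    exact h3 (χ.mem_charKer.2 ((χ.liesOver_one_iff R.subtype).1 hθ ⟨v, hv⟩))
  refine ⟨h1, fun n hn => mem_center_iff.2 fun g => ?_⟩
  have h2 : ⁅g, n⁆ ∈ N ⊓ commutator G := ⟨commutator_le_right ⊤ N
    (commutator_mem_commutator (mem_top g) hn), commutator_mem_commutator (mem_top g) (mem_top n)⟩
  rw [h1, mem_bot] at h2
  exact commutatorElement_eq_one_iff_mul_comm.1 h2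

/-- `SL₂(3)` cannot be extended by an element inverting the quotient of order three. -/
theorem IsRy.inf_commutator_eq_bot' (hG : Acd2 G) {R N K : Subgroup G} [R.Normal] [N.Normal]
    {y : G} (h : IsRy R y) (h3 : orderOf y = 3) [(R ⊔ zpowers y).Normal] (hRN : ¬ R ≤ N)
    (hK : K.index = 2) (hNK : N ≤ K) (hK' : K ≤ N ⊔ commutator G) {s : G}
    (hs : y * (s * y * s⁻¹) ∈ R) : N ⊓ ⁅R, R⁆ = ⊥ := by
  refine eq_bot_iff.2 fun z hz => ?_
  by_contra hz1
  have hzG : z ∈ commutator G := commutator_mono le_top le_top hz.2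
  have hdeg : ∀ χ : IrrCharacter G, z ∉ charKer χ.1 → charDegree χ.1 ≤ 2 := fun χ hχ => by
    by_contra h1
    exact hχ (h.mem_charKer hG hRN hK hNK hK' (by omega) hz.1 hzG)
  set L := R ⊔ zpowers y with hL
  have hzL : z ∈ L := mem_sup_left (commutator_le_self R hz.2)
  have hzL' : (⟨z, hzL⟩ : L) ∈ commutator L := by
    rw [← mem_map_iff_mem L.subtype_injective, map_subtype_commutator]
    exact commutator_mono le_sup_left le_sup_left hz.2
  have hinv : ∀ φ : IrrCharacter L, ⟨z, hzL⟩ ∉ charKer φ.1 → charDegree φ.1 = 2 ∧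
      ∀ a a' : L, (a' : G) = s * a * s⁻¹ → φ a' = φ a := fun φ hφ => by
    obtain ⟨χ, hχ⟩ := IrrCharacter.exists_liesOver_above L.subtype_injective φ
    have h1 := hdeg χ fun e => hφ ((χ.isCharacter.comp L.subtype).charKer_le_of_ip_ne_zero φ hχ
      (by rw [χ.isCharacter.charKer_comp]; exact e))
    have h2 : charDegree φ.1 ≠ 1 := fun e => hφ
      (φ.commutator_le_charKer_iff.2 (φ.apply_one_eq_one_iff.2 e) hzL')
    have h4 := φ.charDegree_pos
    have h5 := hχ.charDegree_le χ.isCharacter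
    have h6 := hχ.comp_eq_of_charDegree_le χ.isCharacter (by omega)
    exact ⟨by omega, fun a a' e => inertia_eq_top_iff_forall.1
      (inertia_eq_top_of_comp_eq χ.isClassFunction h6) s a a' e⟩
  obtain ⟨φ, -, hφ⟩ := exists_irr_le_charKer_not_mem (⊥ : Subgroup L) (g := ⟨z, hzL⟩)
    fun e => hz1 (congrArg Subtype.val (mem_bot.1 e))
  have : (R.subgroupOf L).Normal := inferInstance
  have hidx : (R.subgroupOf L).index = 3 := by
    rw [← inclusion_range (le_sup_left : R ≤ L), index_range_inclusion h.cop.norm h.inf_eq_bot,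
      Nat.card_zpowers, h3]
  obtain ⟨ω, hω, hω'⟩ := exists_linear_of_prime_index (R.subgroupOf L) (hidx ▸ Nat.prime_three)
  have hω1 : ∀ a : L, (a : G) ∈ R → ω a = 1 := fun a ha => MonoidHom.mem_ker.1 (hω.ge ha)
  have h1 := hinv (ω • φ) fun e => hφ (by
    rw [IrrCharacter.mem_charKer] at e ⊢
    simpa [hω1 ⟨z, hzL⟩ (commutator_le_self R hz.2)] using e)
  have hc : ∀ a : L, s * a * s⁻¹ ∈ L := fun a => (inferInstance : L.Normal).conj_mem _ a.2 s
  let c : L →* L := (MulAut.conjNormal s : MulAut L).toMonoidHom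
  have h2 : ω.comp c = ω⁻¹ := by
    refine MonoidHom.eq_of_eqOn_dense (s := {a : L | (a : G) ∈ R ∨ (a : G) = y}) ?_ ?_
    · rw [eq_top_iff, ← map_le_map_iff_of_injective L.subtype_injective, ← MonoidHom.range_eq_map,
        range_subtype]
      exact sup_le (fun a ha => ⟨⟨a, mem_sup_left ha⟩, subset_closure (Or.inl ha), rfl⟩)
        (zpowers_le.2 ⟨⟨y, mem_sup_right (mem_zpowers y)⟩, subset_closure (Or.inr rfl), rfl⟩)
    rintro a (ha | ha)
    · rw [MonoidHom.comp_apply, MonoidHom.inv_apply, hω1 a ha, inv_one]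
      exact hω1 _ ((inferInstance : R.Normal).conj_mem _ ha s)
    · rw [MonoidHom.comp_apply, MonoidHom.inv_apply, eq_inv_iff_mul_eq_one, mul_comm, ← map_mul]
      exact hω1 _ (by simpa [c, ha] using hs)
  have h4 : (ω * ω) • φ = φ := Subtype.ext (funext fun a => by
    have e1 := h1.2 a (c a) rfl
    have e2 := (hinv φ hφ).2 a (c a) rfl
    have e3 : ω (c a) = (ω a)⁻¹ := DFunLike.congr_fun h2 a
    simp only [IrrCharacter.linear_smul_apply, e2, e3] at e1
    rw [IrrCharacter.linear_smul_apply, MonoidHom.mul_apply, Units.val_mul, mul_assoc, ← e1]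
    simp)
  have h5 := pow_eq_one_of_smul_eq h4
  rw [(hinv φ hφ).1] at h5
  have h6 : orderOf ω ∣ 4 := orderOf_dvd_of_pow_eq_one (by
    rw [← h5]; ext a; simp [pow_succ, mul_assoc])
  rw [hω', hidx] at h6
  omega

end Cfsg.Acd
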