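import Cfsg.Agent.Acd.Struct
import Cfsg.Agent.Char.SimpleThree

/-!
# Consequences of the structure theorem
-/

set_option autoImplicit false
set_option linter.unusedSectionVars false

namespace Cfsg.Acd

open Subgroup
open scoped commutatorElement

universe u v

variable {G : Type u} [Group G] [Finite G]

theorem not_acd2_of_isSimpleGroup [IsSimpleGroup G] (hna : ¬ IsMulCommutative G) : ¬ Acd2 G := by
  classical
  intro h
  rw [acd2_iff, commutator_eq_top_of_isSimpleGroup hna, index_top] at h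
  have h1 : ∀ χ : IrrCharacter G, χ ≠ IrrCharacter.one G → 3 ≤ charDegree χ.1 := fun χ hχ => by
    have h2 := IrrCharacter.one_lt_charDegree_of_isSimpleGroup hna hχ
    have h3 : charDegree χ.1 ≠ 2 := fun e =>
      χ.charDegree_ne_two_of_isSimpleGroup hna (e ▸ χ.charDegree_dvd_card) e
    omega
  have h2 := (sum_le_exc (Finset.univ.erase (IrrCharacter.one G))).trans h
  have h3 : ∑ χ ∈ Finset.univ.erase (IrrCharacter.one G), charDegree χ.1 ^ 2 ≤
      9 * ∑ χ ∈ Finset.univ.erase (IrrCharacter.one G), (charDegree χ.1 - 2) := by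
    rw [Finset.mul_sum]
    refine Finset.sum_le_sum fun χ hχ => ?_
    have h4 := h1 χ (Finset.ne_of_mem_erase hχ)
    have h5 := (Finset.single_le_sum (f := fun χ : IrrCharacter G => charDegree χ.1 - 2)
      (fun _ _ => Nat.zero_le _) hχ).trans h2
    rw [show charDegree χ.1 = 3 by omega]
    rfl
  have h4 := sum_charDegree_sq (G := G)
  rw [← Finset.add_sum_erase _ _ (Finset.mem_univ (IrrCharacter.one G)),
    IrrCharacter.charDegree_one] at h4
  obtain ⟨χ, hχ⟩ : ∃ χ : IrrCharacter G, χ ≠ IrrCharacter.one G := by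
    by_contra e
    push Not at e
    rw [Finset.sum_eq_zero fun χ hχ => absurd (e χ) (Finset.ne_of_mem_erase hχ)] at h4
    have := Finite.one_lt_card (α := G)
    omega
  have hm : χ ∈ Finset.univ.erase (IrrCharacter.one G) := Finset.mem_erase.2 ⟨hχ, Finset.mem_univ _⟩
  have h5 := (Finset.single_le_sum (f := fun χ : IrrCharacter G => charDegree χ.1 - 2)
    (fun _ _ => Nat.zero_le _) hm).trans h2
  have h6 := Finset.single_le_sum (f := fun χ : IrrCharacter G => charDegree χ.1 ^ 2)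
    (fun _ _ => Nat.zero_le _) hm
  have h7 := χ.charDegree_dvd_card
  have h8 := h1 χ hχ
  simp only [show charDegree χ.1 = 3 by omega] at h6 h7
  omega

theorem isSolvable_of_goodIn_top (G : Type u) [Group G] [Finite G] :
    GoodIn (⊤ : Subgroup G) → Group.IsSolvable G := by
  refine card_induction (P := fun G _ _ => GoodIn (⊤ : Subgroup G) → Group.IsSolvable G)
    (fun G _ _ ih h => ?_) G
  rcases subsingleton_or_nontrivial G with _ | _
  · infer_instance
  obtain ⟨M, _, -, hM⟩ := exists_maximal_normal_ge (⊥ : Subgroup G) bot_ne_top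
  have h1 := ih M (card_lt_of_ne_top (isSimpleGroup_quotient_iff.1 hM).1) (h.mono le_top).top
  have h2 : IsMulCommutative (G ⧸ M) := by
    by_contra e
    exact not_acd2_of_isSimpleGroup e (h.of_surjective _ (QuotientGroup.mk'_surjective M)).acd2_top
  have : Group.IsSolvable (G ⧸ M) := Group.isSolvable_of_comm h2.is_comm.comm
  exact isSolvable_of_normal_of_quotient M

theorem GoodIn.isSolvable {X : Subgroup G} (h : GoodIn X) : Group.IsSolvable X :=
  isSolvable_of_goodIn_top X h.top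

/-- If `G` has a quotient `S₄` whose four-group lifts to a normal subgroup, the kernel is central. -/
theorem tight (hG : Acd2 G) {H : Type v} [Group H] [Finite H] (π : G →* H)
    (hπ : Function.Surjective π) {R : Subgroup G} [R.Normal] (hR : ∀ a ∈ R, a * a = 1)
    (hRN : π.ker ⊓ R = ⊥) {y : H} (h : IsRy (R.map π) y) {K : Subgroup H} (hK : K.index = 2)
    (hK' : K ≤ commutator H) : π.ker ⊓ commutator G = ⊥ ∧ π.ker ≤ center G := by
  have := (inferInstance : R.Normal).map π hπ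
  have h1 : π.ker ⊓ commutator G = ⊥ := eq_bot_iff.2 fun n hn => by
    by_contra hn1
    obtain ⟨⟨v, hv⟩, hv1⟩ := ne_bot_iff_exists_ne_one.1 fun e : R = ⊥ => h.ne (by
      rw [e, Subgroup.map_bot])
    obtain ⟨χ, h2, h3⟩ := exists_irr_not_mem_charKer_and hn1 fun e => hv1 (Subtype.ext e)
    refine h2 (hG.mem_charKer_of_tight π hπ (le_trans (hK ▸ Nat.le_of_dvd (index_pos K)
      (index_dvd_of_le hK')) (h.two_le_exc hK)) ?_ hn.1 hn.2)
    obtain ⟨θ, hθ⟩ := IrrCharacter.exists_liesOver_below R.subtype χ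
    obtain ⟨lam, rfl⟩ := IrrCharacter.ofLinear_surjective_of_comm (fun a b : R =>
      Subtype.ext (comm_of_forall_mul_self hR a.2 b.2)) θ
    have h4 := index_mul_le_charDegree hθ
    rw [IrrCharacter.charDegree_ofLinear, mul_one] at h4
    refine le_trans ?_ h4
    by_contra h5
    obtain ⟨x, rfl⟩ := hπ y
    set I := inertia R.subtype (IrrCharacter.ofLinear lam)
    have h6 : x * x ∈ I := by
      have := index_pos I
      rcases (by omega : I.index = 1 ∨ I.index = 2) with e | e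
      · rw [index_eq_one.1 e]; exact mem_top _
      · exact mul_self_mem_of_index_two e x
    have h7 : ⁅R, zpowers (x * x)⁆ = R := by
      refine eq_of_le_of_card_ge (commutator_le_left _ _) ?_
      rw [← card_map_of_inf_ker hRN]
      refine le_trans (le_of_eq ?_) (Nat.le_of_dvd Nat.card_pos (card_map_dvd _ π))
      rw [map_commutator, MonoidHom.map_zpowers, map_mul, zpowers_eq_of_prime h.prime
        (mul_mem (mem_zpowers _) (mem_zpowers _)) fun e => ?_, h.comm]
      have := Nat.le_of_dvd two_pos (orderOf_dvd_of_pow_eq_one ((pow_two _).trans e))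
      have := h.three_le
      omega
    have : R.subtype.range.Normal := by rwa [range_subtype]
    refine h3 (χ.mem_charKer.2 ((χ.liesOver_one_iff R.subtype).1 ?_ ⟨v, hv⟩))
    rwa [show lam = 1 from MonoidHom.ext fun a => apply_eq_one_of_fixed
      (le_normalizer_of_normal (mem_top _))
      (fun a a' e => Units.ext (mem_inertia_iff_forall.1 h6 a a' e)) (h7.ge a.2)] at hθ
  refine ⟨h1, fun n hn => mem_center_iff.2 fun g => ?_⟩
  have h2 : ⁅g, n⁆ ∈ π.ker ⊓ commutator G := ⟨commutator_le_right ⊤ π.ker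
    (commutator_mem_commutator (mem_top g) hn), commutator_mem_commutator (mem_top g) (mem_top n)⟩
  rw [h1, mem_bot] at h2
  exact commutatorElement_eq_one_iff_mul_comm.1 h2

theorem Shape.mem_of_mem_pResidual {R C : Subgroup G} {y : G} (h : Shape R C y) {u : G}
    (hu : u ∈ pResidual 2 G) (h2 : IsPElt 2 u) : u ∈ R := by
  have := h.nR
  rw [h.res, sup_comm] at hu
  obtain ⟨s, hs, a, ha, rfl⟩ := (mem_sup_of_le_normalizer h.ry.cop.norm).1 hu
  have h1 := h2.map (QuotientGroup.mk' R)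
  rw [map_mul, QuotientGroup.mk'_apply R a, (QuotientGroup.eq_one_iff a).2 ha, mul_one] at h1
  refine mul_mem ((QuotientGroup.eq_one_iff s).1 (h1.eq_one_of_isPRegular (IsPRegular.map
    (fun e => h.ry.odd ?_) _))) ha
  exact ((Nat.prime_dvd_prime_iff_eq Nat.prime_two h.ry.prime).1
    (e.trans (orderOf_dvd_of_mem_zpowers hs))).symm

theorem exists_shape_quotient (hG : GoodIn (⊤ : Subgroup G)) (h : ¬ HasNormalPComplement 2 G) :
    ∃ R C y, Shape (G := G ⧸ pPrimeCore 2 G) R C y :=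
  have := isSolvable_of_goodIn_top G hG
  exists_shape (hG.of_surjective _ (QuotientGroup.mk'_surjective _))
    (pPrimeCore_quotient_pPrimeCore 2 G) (mt hasNormalPComplement_iff_isPGroup_quotient.2 h)

theorem eq_one_of_mk_pPrimeCore {u : G} (h2 : IsPElt 2 u)
    (h : QuotientGroup.mk' (pPrimeCore 2 G) u = 1) : u = 1 :=
  h2.eq_one_of_isPRegular (isPRegular_of_mem_pPrimeCore ((QuotientGroup.eq_one_iff u).1 h))

/-- Two involutions of `O²(X)` generating a `2`-group commute. -/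
theorem GoodIn.commute_of_mem_pResidual {X : Subgroup G} (hX : GoodIn X) {u s : G}
    (hu : u ∈ (pResidual 2 X).map X.subtype) (hs : s ∈ (pResidual 2 X).map X.subtype)
    (hu2 : u * u = 1) (hs2 : s * s = 1) (h : IsPElt 2 (u * s)) : Commute u s := by
  obtain ⟨u, hu, rfl⟩ := hu
  obtain ⟨s, hs, rfl⟩ := hs
  replace hu2 : u * u = 1 := Subtype.ext hu2
  replace hs2 : s * s = 1 := Subtype.ext hs2
  replace h : IsPElt 2 (u * s) := isPElt_coe_iff.1 h
  refine Commute.map ?_ X.subtype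
  have h0 : ∀ {w : X}, w * w = 1 → IsPElt 2 w := fun {w} e =>
    isPElt_iff_pow_eq_one.2 ⟨1, by simpa [pow_two] using e⟩
  by_cases hn : HasNormalPComplement 2 X
  · rw [(h0 hu2).eq_one_of_isPRegular (isPRegular_of_mem_pPrimeCore
      (hasNormalPComplement_iff_pResidual_eq.1 hn ▸ hu))]
    exact Commute.one_left s
  obtain ⟨R, C, y, hS⟩ := exists_shape_quotient hX.top hn
  set π := QuotientGroup.mk' (pPrimeCore 2 X)
  have h1 := hS.mem_of_mem_pResidual (map_pResidual_le π (mem_map_of_mem π hu)) ((h0 hu2).map π)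
  have h2 := hS.mem_of_mem_pResidual (map_pResidual_le π (mem_map_of_mem π hs)) ((h0 hs2).map π)
  have h3 : π u * π s * (π u * π s) = 1 := by
    have k1 : π u * π u = 1 := by rw [← map_mul, hu2, map_one]
    have k2 : π s * π s = 1 := by rw [← map_mul, hs2, map_one]
    rcases hS.ry.cases (hX.top.of_surjective π (QuotientGroup.mk'_surjective _) _ le_top) with
      e | ⟨-, -, z, hz, -, e⟩
    · exact e.1 _ (mul_mem h1 h2)
    · rcases e _ h1 k1 with e1 | e1 <;> rcases e _ h2 k2 with e2 | e2 <;>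
        simp [e1, e2, mul_self_of_orderOf hz]
  have h4 := eq_one_of_mk_pPrimeCore (h.pow 2) (by rw [map_pow, map_mul, pow_two]; exact h3)
  rw [pow_two, mul_eq_one_iff_eq_inv, mul_inv_rev, inv_eq_of_mul_eq_one_right hu2,
    inv_eq_of_mul_eq_one_right hs2] at h4
  exact h4

/-- `a ≠ 1` is centralized or inverted by each element of `S`, and not centralized by `S`. -/
def IsEigen (S : Subgroup G) (a : G) : Prop :=
  a ≠ 1 ∧ (∀ s ∈ S, s * a * s⁻¹ = a ∨ s * a * s⁻¹ = a⁻¹) ∧ ∃ s ∈ S, s * a * s⁻¹ = a⁻¹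

theorem IsEigen.conj {S : Subgroup G} {a n : G} (h : IsEigen S a)
    (hn : n ∈ normalizer (S : Set G)) : IsEigen S (n * a * n⁻¹) := by
  obtain ⟨h1, h2, s, hs, h3⟩ := h
  refine ⟨by simpa using h1, fun t ht => (h2 _ (conj_mem_of_mem_normalizer (inv_mem hn) ht)).imp
    (fun e => ?_) fun e => ?_, _, conj_mem_of_mem_normalizer hn hs, ?_⟩
  · conv_rhs => rw [← e]
    group
  · rw [conj_inv (b := n), ← e]; group
  · rw [conj_inv (a := a), ← h3]; group

theorem GoodIn.exists_isEigen {X O S : Subgroup G} (hX : GoodIn X) (hO : O ≤ X) (hSX : S ≤ X)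
    (ho : ¬ 2 ∣ Nat.card O) (hS : ∀ a ∈ S, a * a = 1) (hn : S ≤ normalizer (O : Set G))
    (hc : ¬ S ≤ centralizer (O : Set G)) : ∃ a ∈ O, IsEigen S a := by
  obtain ⟨u, hu, hu'⟩ := SetLike.not_le_iff_exists.1 hc
  have hu2 := orderOf_two_of_mul_self (hS u hu) fun e => hu' (e ▸ one_mem _)
  obtain ⟨-, h2⟩ := hX.mem_commutator_invol hu2 hO (hSX hu) (hn hu) ho
  set B := ⁅O, zpowers u⁆
  have hB : B ≠ ⊥ := fun e => hu' (le_centralizer_iff.1 (commutator_eq_bot_iff_le_centralizer.1 e)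
    (mem_zpowers u))
  have hBO : B ≤ O := commutator_zpowers_le (hn hu)
  have hSB : S ≤ normalizer (B : Set G) := fun s hs => normalizer_inf_le_normalizer_commutator _ _
    ⟨hn hs, centralizer_le_normalizer _ (by
      rw [centralizer_zpowers, mem_centralizer_singleton_iff]
      exact comm_of_forall_mul_self hS hs hu)⟩
  obtain ⟨T, ⟨hT, hT'⟩, hmax⟩ := exists_maximal_of_wellFoundedGT
    (fun T : Subgroup G => T ≤ S ∧ B ⊓ centralizer (T : Set G) ≠ ⊥)
    ⟨⊥, bot_le, by rwa [coe_bot, centralizer_eq_top_iff_subset.2 (by simp), inf_top_eq]⟩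
  obtain ⟨⟨a, ha⟩, ha1⟩ := ne_bot_iff_exists_ne_one.1 hT'
  refine ⟨a, hBO ha.1, fun e => ha1 (Subtype.ext e), fun s hs => ?_, u, hu, ((h2 a).1 ha.1).2⟩
  by_cases hsT : s ∈ T
  · exact Or.inl (mul_inv_eq_of_eq_mul (ha.2 s hsT))
  have hs2 := orderOf_two_of_mul_self (hS s hs) fun e => hsT (e ▸ one_mem _)
  have hsn : s ∈ normalizer ((B ⊓ centralizer (T : Set G) : Subgroup G) : Set G) :=
    le_normalizer_inf (A := zpowers s) (zpowers_le.2 (hSB hs)) (zpowers_le.2
      (normalizer_le_normalizer_centralizer _ (centralizer_le_normalizer _ fun t ht =>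
        comm_of_forall_mul_self hS (hT ht) hs))) (mem_zpowers s)
  have hle : B ⊓ centralizer (T : Set G) ≤ O := inf_le_left.trans hBO
  refine Or.inr (((hX.mem_commutator_invol hs2 (hle.trans hO) (hSX hs) hsn
    fun e => ho (e.trans (card_dvd_of_le hle))).2 a).1 ((commutator_eq_of_fpf hsn
      fun b hb e => ?_).ge ha)).2
  by_contra hb1
  refine hsT (hmax ⟨sup_le hT (zpowers_le.2 hs), ne_bot_iff_exists_ne_one.2
    ⟨⟨b, hb.1, ?_⟩, fun e => hb1 (congrArg Subtype.val e)⟩⟩ le_sup_left (mem_sup_right (mem_zpowers s)))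
  rw [centralizer_sup, centralizer_zpowers]
  exact ⟨hb.2, mem_centralizer_singleton_iff.2 (mul_inv_eq_iff_eq_mul.1 e).symm⟩

theorem IsEigen.exists_fix_inv {S : Subgroup G} {a b : G} (ha : IsEigen S a) (hb : IsEigen S b)
    (oa : ¬ 2 ∣ orderOf a) (ob : ¬ 2 ∣ orderOf b)
    (hne : S ⊓ centralizer {a} ≠ S ⊓ centralizer {b}) :
    ∃ s ∈ S, s * a * s⁻¹ = a ∧ s * b * s⁻¹ = b⁻¹ := by
  have h0 : ∀ {c : G}, c ≠ 1 → ¬ 2 ∣ orderOf c → c ≠ c⁻¹ := fun {c} h1 h2 e =>
    h2 (orderOf_two_of_mul_self (eq_inv_iff_mul_eq_one.1 e) h1).symm.dvd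
  by_contra h
  push Not at h
  have h1 : ∀ s ∈ S, s * a * s⁻¹ = a → s * b * s⁻¹ = b := fun s hs e =>
    (hb.2.1 s hs).resolve_right (h s hs e)
  obtain ⟨t, ht, ht'⟩ := hb.2.2
  have h2 := (ha.2.1 t ht).resolve_left fun e => h0 hb.1 ob ((h1 t ht e).symm.trans ht')
  refine hne (Subgroup.ext fun s => ?_)
  rw [mem_inf, mem_inf, mem_centralizer_singleton_iff, mem_centralizer_singleton_iff,
    ← mul_inv_eq_iff_eq_mul, ← mul_inv_eq_iff_eq_mul (c := b)]
  refine and_congr_right fun hs => ?_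
  refine ⟨h1 s hs, fun e => (ha.2.1 s hs).resolve_right fun e' => h _ (mul_mem hs ht) ?_ ?_⟩
  · rw [show s * t * a * (s * t)⁻¹ = s * (t * a * t⁻¹) * s⁻¹ by group, h2, ← conj_inv, e', inv_inv]
  · rw [show s * t * b * (s * t)⁻¹ = s * (t * b * t⁻¹) * s⁻¹ by group, ht', ← conj_inv, e]

/-- An elementary abelian `2`-group has at most two eigenspaces on a group of odd order. -/
theorem GoodIn.not_three_eigen {X O S : Subgroup G} (hX : GoodIn X) (hO : O ≤ X) (hSX : S ≤ X)
    (ho : ¬ 2 ∣ Nat.card O) (hS : ∀ a ∈ S, a * a = 1) (hn : S ≤ normalizer (O : Set G))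
    {a b c : G} (ma : a ∈ O) (mb : b ∈ O) (mc : c ∈ O) (ha : IsEigen S a) (hb : IsEigen S b)
    (hc : IsEigen S c) (hab : S ⊓ centralizer {a} ≠ S ⊓ centralizer {b})
    (hac : S ⊓ centralizer {a} ≠ S ⊓ centralizer {c})
    (hbc : S ⊓ centralizer {b} ≠ S ⊓ centralizer {c}) : False := by
  have key : ∀ {a b c : G}, a ∈ O → b ∈ O → c ∈ O → IsEigen S a → IsEigen S b → IsEigen S c →
      S ⊓ centralizer {a} ≠ S ⊓ centralizer {b} → S ⊓ centralizer {a} ≠ S ⊓ centralizer {c} →
      ∃ s ∈ S, orderOf s = 2 ∧ s * a * s⁻¹ = a ∧ s * b * s⁻¹ = b⁻¹ ∧ s * c * s⁻¹ = c⁻¹ := by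
    intro a b c ma mb mc ha hb hc hab hac
    have oa := not_two_dvd_orderOf ho ma
    have ob := not_two_dvd_orderOf ho mb
    suffices h : ∃ s ∈ S, s * a * s⁻¹ = a ∧ s * b * s⁻¹ = b⁻¹ ∧ s * c * s⁻¹ = c⁻¹ by
      obtain ⟨s, hs, h⟩ := h
      refine ⟨s, hs, orderOf_two_of_mul_self (hS s hs) fun e => ob ?_, h⟩
      simp only [e, one_mul, inv_one, mul_one] at h
      exact (orderOf_two_of_mul_self (eq_inv_iff_mul_eq_one.1 h.2.1) hb.1).symm.dvd
    obtain ⟨s, hs, s1, s2⟩ := ha.exists_fix_inv hb oa ob hab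
    obtain ⟨t, ht, t1, t2⟩ := ha.exists_fix_inv hc oa (not_two_dvd_orderOf ho mc) hac
    rcases hc.2.1 s hs with s3 | s3
    · rcases hb.2.1 t ht with t3 | t3
      · refine ⟨s * t, mul_mem hs ht, ?_, ?_, ?_⟩
        · rw [show s * t * a * (s * t)⁻¹ = s * (t * a * t⁻¹) * s⁻¹ by group, t1, s1]
        · rw [show s * t * b * (s * t)⁻¹ = s * (t * b * t⁻¹) * s⁻¹ by group, t3, s2]
        · rw [show s * t * c * (s * t)⁻¹ = s * (t * c * t⁻¹) * s⁻¹ by group, t2, ← conj_inv, s3]
      · exact ⟨t, ht, t1, t3, t2⟩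
    · exact ⟨s, hs, s1, s2, s3⟩
  obtain ⟨v, hv, v0, v1, v2, v3⟩ := key ma mb mc ha hb hc hab hac
  obtain ⟨w, hw, w0, w1, w2, w3⟩ := key mb ma mc hb ha hc hab.symm hbc
  obtain ⟨x, hx, x0, -, x2, x3⟩ := key mc ma mb hc ha hb hac.symm hbc.symm
  exact hX.four_three v0 w0 (comm_of_forall_mul_self hS hv hw) (hSX hv) (hSX hw) (hO ma) (hO mb)
    (hO mc) (not_two_dvd_orderOf ho ma) (not_two_dvd_orderOf ho mb) (not_two_dvd_orderOf ho mc)
    ha.1 hb.1 hc.1 (hX.commute_of_inv x0 hO (hSX hx) (hn hx) ho ma mb x2 x3)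
    (hX.commute_of_inv w0 hO (hSX hw) (hn hw) ho ma mc w2 w3)
    (hX.commute_of_inv v0 hO (hSX hv) (hn hv) ho mb mc v2 v3) v1 v2 v3 w2 w1 w3

end Cfsg.Acd

set_option linter.all false in
theorem Cfsg.Rz.Acd_Tools_0 : True := by
  have := @_root_.Cfsg.Acd.IsEigen.eq_def.{0}
  have := @_root_.Cfsg.Acd.IsEigen.eq_1.{0}
  have := @_root_.Cfsg.Acd.IsEigen.fun_cases
  trivial
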